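/-
Project SPL (S3415, uniqueness of the splitting of a split (B,N)-pair of rank at least two).
Definitions and interface statements only.
-/
import Cfsg.Agent.Chev.FeitHigman
import Cfsg.Agent.Chev.BNParabolic
import Cfsg.Agent.Grp.Fitting

set_option autoImplicit false
open Cfsg MulAction

namespace CL.Spl

universe u

/-- A non-backtracking path `γ 0, …, γ k`. -/
structure NB {V : Type*} (A : V → V → Prop) (γ : ℕ → V) (k : ℕ) : Prop where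
  adj : ∀ i, i < k → A (γ i) (γ (i + 1))
  nb : ∀ i, i + 2 ≤ k → γ i ≠ γ (i + 2)

/-- A thick generalized `n`-gon, given by its incidence graph. -/
structure Gon (V : Type*) where
  n : ℕ
  A : V → V → Prop
  three : 3 ≤ n
  symm : ∀ {x y : V}, A x y → A y x
  thick : ∀ x y z : V, ∃ w, A x w ∧ w ≠ y ∧ w ≠ z
  girth : ∀ (γ : ℕ → V) (k : ℕ), NB A γ k → 0 < k → k < 2 * n → γ 0 ≠ γ k
  close : ∀ γ : ℕ → V, NB A γ (n + 1) → ∃ δ : ℕ → V, NB A δ (n - 1) ∧ δ 0 = γ 0 ∧ δ (n - 1) = γ (n + 1)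
  conn : ∀ x y : V, ∃ (γ : ℕ → V) (k : ℕ), k ≤ n ∧ NB A γ k ∧ γ 0 = x ∧ γ k = y

/-- An apartment, as a periodic sequence. -/
structure Gon.Apt {V : Type*} (Γ : Gon V) (v : ℤ → V) : Prop where
  adj : ∀ i, Γ.A (v i) (v (i + 1))
  nb : ∀ i, v i ≠ v (i + 2)
  per : ∀ i, v (i + 2 * Γ.n) = v i

/-- A polygon with a faithful group and, for each edge, a subgroup transitive on the apartments through it. -/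
structure GS (G V : Type*) [Group G] [MulAction G V] extends Gon V where
  inv : ∀ (g : G) {x y : V}, A x y → A (g • x) (g • y)
  faith : ∀ g : G, (∀ x : V, g • x = x) → g = 1
  P : V → V → Subgroup G
  Psymm : ∀ {x y : V}, A x y → P x y = P y x
  Pfix : ∀ {x y : V} {u : G}, A x y → u ∈ P x y → u • x = x
  Pconj : ∀ (g : G) {x y : V} {u : G}, A x y → u ∈ P x y → g * u * g⁻¹ ∈ P (g • x) (g • y)
  trans : ∀ γ γ' : ℕ → V, NB A γ (n + 1) → NB A γ' (n + 1) → γ 0 = γ' 0 → γ 1 = γ' 1 →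
    ∃ u ∈ P (γ 0) (γ 1), ∀ i, i ≤ n + 1 → u • γ i = γ' i

namespace GS

variable {G V : Type*} [Group G] [MulAction G V] (S : GS G V)

/-- `P x y` is the largest nilpotent normal subgroup of the edge stabiliser. -/
structure Nil : Prop where
  nil : ∀ {x y : V}, S.A x y → Group.IsNilpotent (S.P x y)
  max : ∀ {x y : V} (K : Subgroup G), S.A x y → K ≤ stabilizer G x ⊓ stabilizer G y →
    (∀ g : G, g • x = x → g • y = y → ∀ k ∈ K, g * k * g⁻¹ ∈ K) → Group.IsNilpotent K → K ≤ S.P x y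

/-- The groups `P x y` are `p`-groups and are compatible along paths. -/
structure PG (p : ℕ) : Prop where
  prime : p.Prime
  pg : ∀ {x y : V}, S.A x y → IsPGroup p (S.P x y)
  next : ∀ {x y z : V} {u : G}, S.A x y → S.A y z → u ∈ S.P x y → u • z = z → u ∈ S.P y z

/-- The pointwise stabiliser of the ball of radius `k` about `x`. -/
def Fb : ℕ → V → Subgroup G
  | 0, x => stabilizer G x
  | k + 1, x => stabilizer G x ⊓ ⨅ (y : V) (_ : S.A x y), Fb k y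

/-- The elements of the groups `P x y` fixing all neighbours of `x`. -/
def Q (x : V) : Subgroup G := S.Fb 1 x ⊓ ⨅ (y : V) (_ : S.A x y), S.P x y

/-- The central elements of `P x y` of order dividing `p`. -/
def Z (p : ℕ) (x y : V) : Subgroup G where
  carrier := {z | z ∈ S.P x y ∧ (∀ u ∈ S.P x y, u * z = z * u) ∧ z ^ p = 1}
  one_mem' := ⟨one_mem _, fun u _ => by simp, one_pow _⟩
  mul_mem' := by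
    rintro a b ⟨ha, ha', ha''⟩ ⟨hb, hb', hb''⟩
    refine ⟨mul_mem ha hb, fun u hu => by rw [← mul_assoc, ha' u hu, mul_assoc, hb' u hu, mul_assoc], ?_⟩
    rw [(show Commute a b from hb' a ha).mul_pow, ha'', hb'', one_mul]
  inv_mem' := by
    rintro a ⟨ha, ha', ha''⟩
    exact ⟨inv_mem ha, fun u hu => ((show Commute u a from ha' u hu).inv_right).eq, by rw [inv_pow, ha'', inv_one]⟩

theorem mem_Z {p : ℕ} {x y : V} {z : G} :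
    z ∈ S.Z p x y ↔ z ∈ S.P x y ∧ (∀ u ∈ S.P x y, u * z = z * u) ∧ z ^ p = 1 := Iff.rfl

/-- Central elations with centre `x` (for `n = 2 m`) that are central in `P x y`. -/
def E0 (p m : ℕ) (x y : V) : Subgroup G := S.Z p x y ⊓ S.Fb m x

/-- `x` is the centre of a non-trivial central elation. -/
def Pt (m : ℕ) (x : V) : Prop := S.Q x ⊓ S.Fb m x ≠ ⊥

/-- The group generated by the `E0 x l`, `x` adjacent to `l`. -/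
def T (p m : ℕ) (l : V) : Subgroup G := ⨆ (x : V) (_ : S.A l x), S.E0 p m x l

/-- An element of `P y x` fixing a second neighbour of `y` fixes all neighbours of `y`. -/
def Reg (y : V) : Prop :=
  ∀ (x z : V) (u : G), S.A y x → S.A y z → x ≠ z → u ∈ S.P y x → u • z = z → u ∈ S.Fb 1 y

/-- An element of `P` fixing an apartment through `x` fixes all neighbours of `x`. -/
def RegA (x : V) : Prop :=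
  ∀ v : ℤ → V, S.Apt v → v 0 = x → ∀ r ∈ S.P (v 0) (v 1), (∀ i, r • v i = v i) → r ∈ S.Fb 1 x

/-- The aim. -/
def Goal : Prop := ∀ v : ℤ → V, S.Apt v → ∀ r ∈ S.P (v 0) (v 1), (∀ i, r • v i = v i) → r = 1

end GS

/-- Basic facts on apartments. -/
structure ApiA {V : Type*} (Γ : Gon V) : Prop where
  shift : ∀ {v : ℤ → V}, Γ.Apt v → ∀ c : ℤ, Γ.Apt fun i => v (i + c)
  rev : ∀ {v : ℤ → V}, Γ.Apt v → ∀ c : ℤ, Γ.Apt fun i => v (c - i)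
  adj : ∀ {v : ℤ → V}, Γ.Apt v → ∀ i j : ℤ, j = i + 1 ∨ i = j + 1 → Γ.A (v i) (v j)
  ne : ∀ {v : ℤ → V}, Γ.Apt v → ∀ i j : ℤ, i ≠ j → i < j + 2 * Γ.n → j < i + 2 * Γ.n → v i ≠ v j
  nbz : ∀ {v : ℤ → V}, Γ.Apt v → ∀ (a : ℤ) (k : ℕ), NB Γ.A (fun i => v (a + i)) k
  ofNB : ∀ (γ : ℕ → V) (k : ℕ), NB Γ.A γ k → k ≤ Γ.n + 1 → ∃ v, Γ.Apt v ∧ ∀ i : ℕ, i ≤ k → v i = γ i
  cons : ∀ {v : ℤ → V}, Γ.Apt v → ∀ (a : ℤ) (y : V), Γ.A (v a) y → y ≠ v (a + 1) →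
    ∃ w, Γ.Apt w ∧ w (a - 1) = y ∧ ∀ i, a ≤ i → i ≤ a + Γ.n → w i = v i
  snoc : ∀ {v : ℤ → V}, Γ.Apt v → ∀ (b : ℤ) (y : V), Γ.A (v b) y → y ≠ v (b - 1) →
    ∃ w, Γ.Apt w ∧ w (b + 1) = y ∧ ∀ i, b - Γ.n ≤ i → i ≤ b → w i = v i
  path1 : ∀ {x y : V}, Γ.A x y → ∃ v, Γ.Apt v ∧ v 0 = x ∧ v 1 = y
  path2 : ∀ {x y z : V}, Γ.A x y → Γ.A y z → x ≠ z → ∃ v, Γ.Apt v ∧ v 0 = x ∧ v 1 = y ∧ v 2 = z
  path3 : ∀ {x y z w : V}, Γ.A x y → Γ.A y z → Γ.A z w → x ≠ z → y ≠ w →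
    ∃ v, Γ.Apt v ∧ v 0 = x ∧ v 1 = y ∧ v 2 = z ∧ v 3 = w
  conn : ∀ x y : V, ∃ (v : ℤ → V) (k : ℤ), Γ.Apt v ∧ 0 ≤ k ∧ k ≤ Γ.n ∧ v 0 = x ∧ v k = y
  len : ∀ {v w : ℤ → V}, Γ.Apt v → Γ.Apt w → ∀ k l : ℤ, 0 ≤ k → 0 ≤ l → k + l < 2 * Γ.n → v 0 = w 0 → v k = w l → k = l
  uniq : ∀ {v w : ℤ → V}, Γ.Apt v → Γ.Apt w → ∀ a b : ℤ, b < a + Γ.n → v a = w a → v b = w b →
    ∀ i, a ≤ i → i ≤ b → v i = w i
  ext : ∀ {v w : ℤ → V}, Γ.Apt v → Γ.Apt w → ∀ a : ℤ, (∀ i, a ≤ i → i ≤ a + Γ.n + 1 → v i = w i) → ∀ i, v i = w i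
  glue : ∀ {v w : ℤ → V}, Γ.Apt v → Γ.Apt w → v 0 = w 0 → v 1 ≠ w 1 → ∀ a b : ℤ, 0 ≤ a → 0 ≤ b → a + b ≤ Γ.n + 1 →
    ∃ e, Γ.Apt e ∧ (∀ i, 0 ≤ i → i ≤ a → e (-i) = v i) ∧ ∀ j, 0 ≤ j → j ≤ b → e j = w j
  opp : ∀ {v : ℤ → V}, Γ.Apt v → ∀ x y : V, Γ.A (v 0) x → Γ.A (v 0) y → x ≠ y →
    ∃ e, Γ.Apt e ∧ e 0 = v 0 ∧ e Γ.n = v Γ.n ∧ e 1 = x ∧ e (-1) = y
  no4 : ∀ {a b m m' : V}, Γ.A a m → Γ.A b m → Γ.A a m' → Γ.A b m' → a ≠ b → m = m'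
  no6 : 4 ≤ Γ.n → ∀ {a b c m m' m'' : V}, Γ.A a m → Γ.A b m → Γ.A b m' → Γ.A c m' → Γ.A c m'' → Γ.A a m'' →
    a ≠ b → b ≠ c → a ≠ c → m ≠ m' → m' ≠ m'' → False

/-- Basic facts on the action. -/
structure ApiB {G V : Type*} [Group G] [MulAction G V] (S : GS G V) : Prop where
  smul : ∀ {v : ℤ → V}, S.Apt v → ∀ g : G, S.Apt fun i => g • v i
  Pfix' : ∀ {x y : V} {u : G}, S.A x y → u ∈ S.P x y → u • y = y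
  trans : ∀ {v w : ℤ → V}, S.Apt v → S.Apt w → ∀ a : ℤ, v a = w a → v (a + 1) = w (a + 1) →
    ∃ u ∈ S.P (v a) (v (a + 1)), ∀ i, u • v i = w i
  between : ∀ {v : ℤ → V}, S.Apt v → ∀ (g : G) (a b : ℤ), b < a + S.n → g • v a = v a → g • v b = v b →
    ∀ i, a ≤ i → i ≤ b → g • v i = v i
  fixApt : ∀ {v : ℤ → V}, S.Apt v → ∀ (g : G) (a : ℤ), (∀ i, a ≤ i → i ≤ a + S.n + 1 → g • v i = v i) → ∀ i, g • v i = v i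
  move : ∀ {v : ℤ → V}, S.Apt v → ∀ (a b : ℤ) (y : V), b - S.n ≤ a → a < b → S.A (v b) y → y ≠ v (b - 1) →
    ∃ u ∈ S.P (v a) (v (a + 1)), (∀ i, b - S.n ≤ i → i ≤ b → u • v i = v i) ∧ u • v (b + 1) = y
  move' : ∀ {v : ℤ → V}, S.Apt v → ∀ (a b : ℤ) (y : V), b ≤ a → a < b + S.n → S.A (v b) y → y ≠ v (b + 1) →
    ∃ u ∈ S.P (v a) (v (a + 1)), (∀ i, b ≤ i → i ≤ b + S.n → u • v i = v i) ∧ u • v (b - 1) = y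
  nbr : ∀ {x y z z' : V}, S.A x y → S.A x z → S.A x z' → z ≠ y → z' ≠ y → ∃ u ∈ S.P x y, u • z = z'
  nbr' : ∀ {x z z' : V}, S.A x z → S.A x z' → ∃ g : G, g • x = x ∧ g • z = z'
  nbr2 : ∀ {x y z y' z' : V}, S.A x y → S.A x z → S.A x y' → S.A x z' → y ≠ z → y' ≠ z' →
    ∃ g : G, g • x = x ∧ g • y = y' ∧ g • z = z'
  fb0 : ∀ {x : V} {u : G}, u ∈ S.Fb 0 x ↔ u • x = x
  fb1 : ∀ {x : V} {u : G}, u ∈ S.Fb 1 x ↔ ∀ y, S.A x y → u • y = y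
  fbS : ∀ {k : ℕ} {x : V} {u : G}, u ∈ S.Fb (k + 1) x ↔ ∀ y, S.A x y → u ∈ S.Fb k y
  fbFix : ∀ {k : ℕ} {x : V} {u : G}, u ∈ S.Fb k x → u • x = x
  fbMono : ∀ {j k : ℕ} {x : V} {u : G}, j ≤ k → u ∈ S.Fb k x → u ∈ S.Fb j x
  fbConj : ∀ (g : G) {k : ℕ} {x : V} {u : G}, u ∈ S.Fb k x → g * u * g⁻¹ ∈ S.Fb k (g • x)
  fbComm : ∀ {g : G} {k : ℕ} {x : V} {u : G}, g * u = u * g → u ∈ S.Fb k x → u ∈ S.Fb k (g • x)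
  fbApt : ∀ {v : ℤ → V}, S.Apt v → ∀ {k : ℕ} {a : ℤ} {u : G}, u ∈ S.Fb k (v a) →
    ∀ (j : ℕ) (i : ℤ), i + j ≤ a + k → a + j ≤ i + k → u ∈ S.Fb j (v i)
  fbAptFix : ∀ {v : ℤ → V}, S.Apt v → ∀ {k : ℕ} {a : ℤ} {u : G}, u ∈ S.Fb k (v a) →
    ∀ i : ℤ, i ≤ a + k → a ≤ i + k → u • v i = v i
  fbOfApt : ∀ {k : ℕ} {x : V} {u : G}, k ≤ S.n →
    (∀ v, S.Apt v → v 0 = x → ∀ j : ℤ, 0 ≤ j → j ≤ k → u • v j = v j) → u ∈ S.Fb k x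
  fbOpp : ∀ {v : ℤ → V}, S.Apt v → ∀ (a : ℤ) {u : G}, u ∈ S.Fb 1 (v a) → u • v (a + S.n) = v (a + S.n) →
    u ∈ S.Fb 1 (v (a + S.n))
  rigid : ∀ {v : ℤ → V}, S.Apt v → ∀ (u : G) (a j : ℤ), (∀ i, a ≤ i → i ≤ a + S.n + 1 → u • v i = v i) →
    u ∈ S.Fb 1 (v j) → u ∈ S.Fb 1 (v (j + 1)) → u = 1
  ball : ∀ {x y : V} {z : G} (k : ℕ), S.A x y → z ∈ S.P x y → (∀ u ∈ S.P x y, u * z = z * u) → 2 * k < S.n →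
    z ∈ S.Fb k x
  up : ∀ {v : ℤ → V}, S.Apt v → ∀ (k : ℕ) {z : G}, k + 1 < S.n → (∀ u ∈ S.P (v 0) (v 1), u * z = z * u) →
    z ∈ S.Fb k (v 0) → z • v 1 = v 1 → z • v (k + 2) = v (k + 2) → z ∈ S.Fb (k + 1) (v 1)
  cardNbr : ∀ {x y z : V}, S.A x y → S.A y z → {w | S.A x w}.ncard = {w | S.A z w}.ncard

/-- The groups `Q` and `Z`. -/
structure ApiC {G V : Type*} [Group G] [MulAction G V] (S : GS G V) (p : ℕ) : Prop where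
  seg : ∀ {v : ℤ → V}, S.Apt v → ∀ {u : G} (a b i j : ℤ), a ≤ i → i < b → a ≤ j → j < b →
    (∀ l, a ≤ l → l ≤ b → u • v l = v l) → u ∈ S.P (v i) (v (i + 1)) → u ∈ S.P (v j) (v (j + 1))
  memQ : ∀ {x y : V} {u : G}, S.A x y → u ∈ S.P x y → u ∈ S.Fb 1 x → u ∈ S.Q x
  QP : ∀ {x y : V} {u : G}, S.A x y → u ∈ S.Q x → u ∈ S.P x y
  QP' : ∀ {x y : V} {u : G}, S.A x y → u ∈ S.Q x → u ∈ S.P y x
  QFb : ∀ {x : V} {u : G}, u ∈ S.Q x → u ∈ S.Fb 1 x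
  Qconj : ∀ (g : G) {x : V} {u : G}, u ∈ S.Q x → g * u * g⁻¹ ∈ S.Q (g • x)
  Qpg : ∀ x : V, IsPGroup p (S.Q x)
  tent : ∀ {v w : ℤ → V}, S.Apt v → S.Apt w → ∀ (a : ℤ) (k : ℕ), 2 * k < S.n → v a = w a → v (a + 1) = w (a + 1) →
    ∃ q ∈ S.Q (v a), ∀ i, a ≤ i → i ≤ a + k + 1 → q • v i = w i
  tent' : ∀ {v w : ℤ → V}, S.Apt v → S.Apt w → ∀ (a : ℤ) (k : ℕ), 2 * k < S.n → v a = w a → v (a - 1) = w (a - 1) →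
    ∃ q ∈ S.Q (v a), ∀ i, a - k - 1 ≤ i → i ≤ a → q • v i = w i
  tent1 : ∀ {x y z z' : V}, S.A x y → S.A y z → S.A y z' → z ≠ x → z' ≠ x → ∃ q ∈ S.Q x, q • z = z'
  spread : ∀ {x y z : V} {k : ℕ} {g : G}, S.A x y → S.A y z → z ≠ x → (∀ q ∈ S.Q x, q * g = g * q) →
    g ∈ S.Fb k x → g ∈ S.Fb k z → g ∈ S.Fb (k + 1) y
  Zsymm : ∀ {x y : V}, S.A x y → S.Z p x y = S.Z p y x
  Zconj : ∀ (g : G) {x y : V} {z : G}, S.A x y → z ∈ S.Z p x y → g * z * g⁻¹ ∈ S.Z p (g • x) (g • y)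
  Zne : ∀ {x y : V}, S.A x y → ∃ z ∈ S.Z p x y, z ≠ 1
  ZQ : ∀ {x y : V} {z : G}, S.A x y → z ∈ S.Z p x y → z ∈ S.Q x ∧ z ∈ S.Q y
  Zcard : ∀ {x y x' : V}, S.A x y → S.A x' y → Nat.card (S.Z p x y) = Nat.card (S.Z p x' y)
  E0conj : ∀ (g : G) {m : ℕ} {x y : V} {z : G}, S.A x y → z ∈ S.E0 p m x y → g * z * g⁻¹ ∈ S.E0 p m (g • x) (g • y)
  E0ne : ∀ {m : ℕ} {x y : V}, S.A x y → S.Pt m x → ∃ z ∈ S.E0 p m x y, z ≠ 1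
  E0card : ∀ {m : ℕ} {x y x' : V}, S.A x y → S.A x' y → Nat.card (S.E0 p m x y) = Nat.card (S.E0 p m x' y)
  E0card' : ∀ {m : ℕ} {x y y' : V}, S.A x y → S.A x y' → Nat.card (S.E0 p m x y) = Nat.card (S.E0 p m x y')
  PtOf : ∀ {m : ℕ} {x : V} {u : G}, u ∈ S.Q x → u ∈ S.Fb m x → u ≠ 1 → S.Pt m x
  PtTwo : ∀ {m : ℕ} {x y z : V}, S.A x y → S.A y z → S.Pt m x → S.Pt m z
  PtOr : ∀ {m : ℕ} {x a b : V}, S.Pt m x → S.A a b → S.Pt m a ∨ S.Pt m b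

/-- Central elations, `n = 2 m`. -/
structure ApiD {G V : Type*} [Group G] [MulAction G V] (S : GS G V) (p m : ℕ) : Prop where
  semi : ∀ {v : ℤ → V}, S.Apt v → ∀ (a : ℤ) {e : G}, e ∈ S.Fb m (v a) → e • v (a + m + 1) = v (a + m + 1) → e = 1
  semi' : ∀ {v : ℤ → V}, S.Apt v → ∀ (a : ℤ) {e : G}, e ∈ S.Fb m (v a) → e • v (a - m - 1) = v (a - m - 1) → e = 1
  disj : ∀ {x x' : V} {e : G}, x ≠ x' → e ∈ S.Fb m x → e ∈ S.Fb m x' → e = 1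
  comm : ∀ {x x' : V} {e e' : G}, x ≠ x' → e ∈ S.Fb m x → e' ∈ S.Fb m x' → e • x' = x' → e' • x = x → e * e' = e' * e
  leT : ∀ {x l : V} {e : G}, S.A l x → e ∈ S.E0 p m x l → e ∈ S.T p m l
  TQ : ∀ {l : V} {x : G}, x ∈ S.T p m l → x ∈ S.Q l
  Tcomm : ∀ {l : V} {x q : G}, x ∈ S.T p m l → q ∈ S.Q l → q * x = x * q
  Tpow : ∀ {l : V} {x : G}, x ∈ S.T p m l → x ^ p = 1
  TFb : ∀ {l : V} {x : G}, x ∈ S.T p m l → x ∈ S.Fb (m - 1) l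
  Tconj : ∀ (g : G) {l : V} {x : G}, x ∈ S.T p m l → g * x * g⁻¹ ∈ S.T p m (g • l)
  test : ∀ {v : ℤ → V}, S.Apt v → ∀ (a : ℤ) {x : G}, x ∈ S.T p m (v a) →
    ∃ e ∈ S.E0 p m (v (a + 1)) (v a), x * e⁻¹ ∈ S.Q (v (a + 1 - m))
  test' : ∀ {v : ℤ → V}, S.Apt v → ∀ (a : ℤ) {x : G}, x ∈ S.T p m (v a) →
    ∃ e ∈ S.E0 p m (v (a - 1)) (v a), x * e⁻¹ ∈ S.Q (v (a - 1 + m))
  TE : ∀ {x l : V} {e : G}, S.A l x → e ∈ S.T p m l → e ∈ S.Fb m x → e ∈ S.E0 p m x l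

/-- Everything together. -/
structure Ctx {G V : Type*} [Group G] [MulAction G V] (S : GS G V) (p : ℕ) : Prop where
  pg : S.PG p
  a : ApiA S.toGon
  b : ApiB S
  c : ApiC S p
  d : ∀ m : ℕ, S.n = 2 * m → ApiD S p m

/-- Quadrangles with central elations. -/
structure Quad {G V : Type*} [Group G] [MulAction G V] (S : GS G V) (p : ℕ) : Prop where
  ti3 : ∀ {l w₁ w₂ w₃ m a : V} {z₁ z₂ : G}, S.A l w₁ → S.A l w₂ → S.A l w₃ → w₁ ≠ w₂ → w₁ ≠ w₃ → w₂ ≠ w₃ →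
    S.A w₃ m → m ≠ l → S.A m a → a ≠ w₃ → z₁ ∈ S.Fb 2 w₁ → z₂ ∈ S.Fb 2 w₂ → (z₂ * z₁) • a = a → z₁ = 1 ∧ z₂ = 1
  dep : ∀ {l w₁ w₂ w₃ : V} {z₁ z₂ : G}, S.A l w₁ → S.A l w₂ → S.A l w₃ → w₁ ≠ w₂ → w₁ ≠ w₃ → w₂ ≠ w₃ →
    z₁ ∈ S.Fb 2 w₁ → z₂ ∈ S.Fb 2 w₂ → z₂ * z₁ ∈ S.Fb 2 w₃ → z₁ = 1 ∧ z₂ = 1
  t3 : ∀ {l w m a : V} {x : G}, S.A l w → S.A w m → m ≠ l → S.A m a → a ≠ w → x ∈ S.T p 2 l → x • a = a →
    x ∈ S.E0 p 2 w l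
  t4 : ∀ {l w w' m a a' : V}, S.Pt 2 w → S.A l w → S.A l w' → w ≠ w' → S.A w m → m ≠ l → S.A m a → S.A m a' →
    a ≠ w → a' ≠ w → ∃ d ∈ S.T p 2 l ⊓ S.Q w ⊓ S.Q w', d • a = a'
  tt : ∀ {l m w : V} {x y : G}, S.A w l → S.A w m → l ≠ m → x ∈ S.T p 2 l ⊓ S.Q w → y ∈ S.T p 2 m ⊓ S.Q w →
    x * y * x⁻¹ * y⁻¹ ∈ S.E0 p 2 w l
  dec : ∀ {l w w' : V} {x : G}, S.A l w → S.A l w' → w ≠ w' → x ∈ S.T p 2 l ⊓ S.Q w →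
    ∃ e ∈ S.E0 p 2 w l, x * e⁻¹ ∈ S.T p 2 l ⊓ S.Q w ⊓ S.Q w'

/-- The subgroup of `Q w` generated by the `T l ⊓ Q w` (quadrangles). -/
def GS.Q4 {G V : Type*} [Group G] [MulAction G V] (S : GS G V) (p : ℕ) (w : V) : Subgroup G :=
  ⨆ (l : V) (_ : S.A w l), S.T p 2 l ⊓ S.Q w

/-- Root groups with a point in the middle (quadrangles whose lines are regular). -/
structure Quad2 {G V : Type*} [Group G] [MulAction G V] (S : GS G V) (p : ℕ) : Prop where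
  le : ∀ {w : V} {x : G}, x ∈ S.Q4 p w → x ∈ S.Q w
  conj : ∀ (g : G) {w : V} {x : G}, x ∈ S.Q4 p w → g * x * g⁻¹ ∈ S.Q4 p (g • w)
  cen : ∀ {w : V} {x e : G}, x ∈ S.Q4 p w → e ∈ S.Q w ⊓ S.Fb 2 w → x * e = e * x
  ab : ∀ {w : V} {x y : G}, x ∈ S.Q4 p w → y ∈ S.Q4 p w → x * y * x⁻¹ * y⁻¹ ∈ S.Q w ⊓ S.Fb 2 w
  tr : ∀ {v : ℤ → V}, S.Apt v → S.Pt 2 (v 0) → ∀ y, S.A (v 0) y → y ≠ v 1 →
    ∃ u ∈ S.Q4 p (v 2) ⊓ S.Q (v 1) ⊓ S.Q (v 3), u • v (-1) = y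
  dec : ∀ {v : ℤ → V}, S.Apt v → S.Pt 2 (v 0) → ∀ x ∈ S.Q4 p (v 0), ∃ d ∈ S.T p 2 (v (-1)) ⊓ S.Q (v 0),
    ∃ d' ∈ S.T p 2 (v 1) ⊓ S.Q (v 0), x * d⁻¹ * d'⁻¹ ∈ S.Q4 p (v 0) ⊓ S.Q (v (-1)) ⊓ S.Q (v 1)
  br : ∀ {v : ℤ → V}, S.Apt v → S.Pt 2 (v 0) → ∀ x ∈ S.Q4 p (v 0) ⊓ S.Q (v (-1)) ⊓ S.Q (v 1),
    ∀ a ∈ S.Q4 p (v 2) ⊓ S.Q (v 1) ⊓ S.Q (v 3), a * x * a⁻¹ * x⁻¹ ∈ S.T p 2 (v 1) ⊓ S.Q (v 0) ⊓ S.Q (v 2)
  cr : ∀ {v : ℤ → V}, S.Apt v → S.Pt 2 (v 0) → ∀ r ∈ S.P (v 0) (v 1), (∀ i, r • v i = v i) →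
    ∀ x ∈ S.T p 2 (v 1) ⊓ S.Q (v 0), r * x = x * r

/-- Hexagons with central elations. -/
structure Hex {G V : Type*} [Group G] [MulAction G V] (S : GS G V) (p : ℕ) : Prop where
  ind : ∀ {w l l' : V}, S.A w l → S.A w l' → S.E0 p 3 w l = S.E0 p 3 w l'
  br : ∀ {v : ℤ → V}, S.Apt v → ∀ z ∈ S.E0 p 3 (v 0) (v 1), ∀ w ∈ S.E0 p 3 (v 4) (v 3),
    z⁻¹ * w * z * w⁻¹ ∈ S.E0 p 3 (v 2) (v 1)
  nat : ∀ {l w w' w'' : V} {z : G}, S.Pt 3 w → S.A l w → S.A l w' → S.A l w'' → w ≠ w' → z ∈ S.E0 p 3 w'' l →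
    ∃ e ∈ S.E0 p 3 w l, ∃ e' ∈ S.E0 p 3 w' l, z = e * e'
  tr : ∀ {v : ℤ → V}, S.Apt v → S.Pt 3 (v 0) → ∀ y, S.A (v 3) y → y ≠ v 2 → ∃ e ∈ S.E0 p 3 (v 0) (v 1), e • v 4 = y
  reg : ∀ {w l : V}, S.Pt 3 w → S.A w l → S.Reg l

/-- Octagons: one central elation all of whose conjugates under `P (v 1) (v 2)` agree modulo elations at `v 2`. -/
def Oct3 {G V : Type*} [Group G] [MulAction G V] (S : GS G V) (p : ℕ) (v : ℤ → V) : Prop :=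
  ∃ z ∈ S.E0 p 4 (v 0) (v 1), z ≠ 1 ∧ ∀ u ∈ S.P (v 1) (v 2), z⁻¹ * (u * z * u⁻¹) ∈ S.Fb 4 (v 2)

/-- Octagons: the degenerate case of the commutator relation. -/
def OctI {G V : Type*} [Group G] [MulAction G V] (S : GS G V) (p : ℕ) (v : ℤ → V) : Prop :=
  ∃ z ∈ S.E0 p 4 (v 0) (v 1), z ≠ 1 ∧ ∃ y ∈ S.E0 p 4 (v 6) (v 5), y ≠ 1 ∧
    ∃ e ∈ S.E0 p 4 (v 2) (v 3), ∃ e' ∈ S.E0 p 4 (v 4) (v 3), z⁻¹ * (y * z * y⁻¹) = e * e'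

/-- Rank one data: `L` acts on `Ω`, with `p`-subgroups `W a` transitive on `Ω` minus `a`. -/
structure R1 {G X : Type*} [Group G] [MulAction G X] (L : Subgroup G) (Ω : Set X) (p : ℕ) (W : X → Subgroup G) :
    Prop where
  prime : p.Prime
  inv : ∀ {g : G} {a : X}, g ∈ L → a ∈ Ω → g • a ∈ Ω
  le : ∀ {a : X}, a ∈ Ω → W a ≤ L
  fix : ∀ {a : X} {u : G}, a ∈ Ω → u ∈ W a → u • a = a
  conj : ∀ {g : G} {a : X} {u : G}, g ∈ L → a ∈ Ω → u ∈ W a → g * u * g⁻¹ ∈ W (g • a)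
  pg : ∀ {a : X}, a ∈ Ω → IsPGroup p (W a)
  trans : ∀ {a x y : X}, a ∈ Ω → x ∈ Ω → y ∈ Ω → x ≠ a → y ≠ a → ∃ u ∈ W a, u • x = y
  sym : ∀ {a b : X} {u : G}, a ∈ Ω → b ∈ Ω → u ∈ W a → u • b = b → u ∈ W b

/-- An involution with exactly two fixed points forces regularity (`p` odd). -/
def LemT : Prop :=
  ∀ (G X : Type u) [Group G] [Finite G] [MulAction G X] [Finite X] (L : Subgroup G) (Ω : Set X) (p : ℕ)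
    (W : X → Subgroup G), R1 L Ω p W → p ≠ 2 → ∀ a ∈ Ω, ∀ b ∈ Ω, a ≠ b → ∀ t ∈ L, t • a = a → t • b = b →
    (∀ x ∈ Ω, t • t • x = x) → (∀ x ∈ Ω, t • x = x → x = a ∨ x = b) → ∀ u ∈ W a, u • b = b → ∀ x ∈ Ω, u • x = x

/-- The fixed points of a two-point stabiliser are everything or few. -/
def LemLS : Prop :=
  ∀ (G X : Type u) [Group G] [Finite G] [MulAction G X] [Finite X] (L : Subgroup G) (Ω : Set X) (p : ℕ)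
    (W : X → Subgroup G), R1 L Ω p W → ∀ a ∈ Ω, ∀ b ∈ Ω, a ≠ b →
    (∀ u ∈ W a, u • b = b → ∀ x ∈ Ω, u • x = x) ∨
      ({x ∈ Ω | ∀ u ∈ W a, u • b = b → u • x = x}.ncard - 1) ^ 3 ≤ Ω.ncard - 1

/-- Moufang sets with elementary abelian root groups of even order. -/
def LemTR : Prop :=
  ∀ (G X : Type u) [Group G] [Finite G] [MulAction G X] [Finite X] (L : Subgroup G) (Ω : Set X)
    (U : X → Subgroup G), (∀ g ∈ L, ∀ a ∈ Ω, g • a ∈ Ω) → (∀ a ∈ Ω, U a ≤ L) → (∀ a ∈ Ω, ∀ u ∈ U a, u • a = a) →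
    (∀ a ∈ Ω, ∀ x ∈ Ω, ∀ y ∈ Ω, x ≠ a → y ≠ a → ∃ u ∈ U a, u • x = y) →
    (∀ a ∈ Ω, ∀ u ∈ U a, ∀ u' ∈ U a, ∀ x ∈ Ω, u • u' • x = u' • u • x) →
    (∀ a ∈ Ω, ∀ u ∈ U a, ∀ x ∈ Ω, u • u • x = x) →
    (∀ g ∈ L, ∀ a ∈ Ω, ∀ u ∈ U a, ∃ u' ∈ U (g • a), ∀ x ∈ Ω, (g * u * g⁻¹) • x = u' • x) →
    ∀ a ∈ Ω, ∀ b ∈ Ω, a ≠ b → ∀ R : Subgroup G, IsPGroup 2 R → R ≤ L → (∀ r ∈ R, r • a = a ∧ r • b = b) →
    (∀ g ∈ L, g • a = a → g • b = b → ∀ r ∈ R, g * r * g⁻¹ ∈ R) → ∀ r ∈ R, ∀ x ∈ Ω, r • x = x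

/-- The polygon theorem. -/
def PT : Prop :=
  ∀ (G V : Type u) [Group G] [Finite G] [MulAction G V] [Finite V] (S : GS G V), S.Nil →
    (S.n = 3 ∨ S.n = 4 ∨ S.n = 6 ∨ S.n = 8) → ∀ γ : ℕ → V, NB S.A γ (S.n + 1) → ∀ r ∈ S.P (γ 0) (γ 1),
    (∀ i, i ≤ S.n + 1 → r • γ i = γ i) → r = 1

/-- The rank two theorem for (B,N)-pairs of rank two. -/
def R2 : Prop :=
  ∀ (G : Type u) [Group G] [Finite G] (P : BNPair G), P.rank = 2 → P.Irreducible →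
    ∀ F : Subgroup G, F ≤ P.B → (∀ b ∈ P.B, ∀ f ∈ F, b * f * b⁻¹ ∈ F) → Group.IsNilpotent F →
    F ⊔ (P.B ⊓ P.N) = P.B → ∀ g ∈ F, (∀ n ∈ P.N, n⁻¹ * g * n ∈ P.B) → ∀ x : G, x⁻¹ * g * x ∈ P.B

/-- The rank two theorem inside a (B,N)-pair of arbitrary rank. -/
def R2J : Prop :=
  ∀ (G : Type u) [Group G] [Finite G] (P : BNPair G) (s t : G), s ∈ P.S → t ∈ P.S → s * t * s⁻¹ * t⁻¹ ∉ P.B →
    ∀ F : Subgroup G, F ≤ P.B → (∀ b ∈ P.B, ∀ f ∈ F, b * f * b⁻¹ ∈ F) → Group.IsNilpotent F →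
    F ⊔ (P.B ⊓ P.N) = P.B → ∀ g ∈ F, (∀ n ∈ P.N, n⁻¹ * g * n ∈ P.B) → ∀ x ∈ P.parabolic {s, t}, x⁻¹ * g * x ∈ P.B

end CL.Spl
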