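/-
Project SPL (S3415): apartments in a generalized polygon.
-/
import Cfsg.Agent.Spl.Defs

set_option autoImplicit false

namespace CL.Spl

variable {V : Type*} {Γ : Gon V} {A : V → V → Prop} {γ δ : ℕ → V} {k l : ℕ} {v w : ℤ → V}

theorem NB.zeroA (x : V) : NB A (fun _ => x) 0 := ⟨fun _ h => by omega, fun _ h => by omega⟩

theorem NB.monoA (h : NB A γ k) (hl : l ≤ k) : NB A γ l :=
  ⟨fun i _ => h.adj i (by omega), fun i _ => h.nb i (by omega)⟩

theorem NB.dropA (h : NB A γ (k + 1)) : NB A (fun i => γ (i + 1)) k :=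
  ⟨fun i _ => h.adj (i + 1) (by omega), fun i _ => h.nb (i + 1) (by omega)⟩

theorem NB.consA (h : NB A γ k) {y : V} (hy : A y (γ 0)) (h1 : 0 < k → y ≠ γ 1) :
    NB A (fun i => Nat.casesOn i y γ) (k + 1) :=
  ⟨fun i _ => by rcases i with _ | i; exacts [hy, h.adj i (by omega)],
    fun i _ => by rcases i with _ | i; exacts [h1 (by omega), h.nb i (by omega)]⟩

theorem NB.snocA (h : NB A γ k) {y : V} (hy : A (γ k) y) (h1 : y ≠ γ (k - 1)) :
    NB A (fun i => if i ≤ k then γ i else y) (k + 1) := by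
  refine ⟨fun i hi => ?_, fun i hi => ?_⟩ <;> rw [if_pos (show i ≤ k by omega)] <;> split_ifs with c
  · exact h.adj i c
  · rwa [show i = k by omega]
  · exact h.nb i c
  · rw [show i = k - 1 by omega]; exact h1.symm

/-- the reverse of `γ` followed by `δ` -/
def catA (γ δ : ℕ → V) (k i : ℕ) : V := if i ≤ k then γ (k - i) else δ (i - k)

theorem catA_le (i j : ℕ) (h : i + j = k) : catA γ δ k i = γ j := by
  rw [catA, if_pos (by omega), show k - i = j by omega]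

theorem catA_ge (h0 : γ 0 = δ 0) (i j : ℕ) (h : i = k + j) : catA γ δ k i = δ j := by
  unfold catA
  split_ifs with c
  · rw [show k - i = 0 by omega, show j = 0 by omega, h0]
  · rw [show i - k = j by omega]

theorem NB.catA (hγ : NB Γ.A γ k) (hδ : NB Γ.A δ l) (h0 : γ 0 = δ 0) (h1 : γ 1 ≠ δ 1) :
    NB Γ.A (catA γ δ k) (k + l) := by
  refine ⟨fun i hi => ?_, fun i hi => ?_⟩
  · by_cases h : i + 1 ≤ k
    · rw [catA_le i (k - (i + 1) + 1) (by omega), catA_le (i + 1) (k - (i + 1)) (by omega)]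
      exact Γ.symm (hγ.adj _ (by omega))
    · rw [catA_ge h0 i (i - k) (by omega), catA_ge h0 (i + 1) (i - k + 1) (by omega)]
      exact hδ.adj _ (by omega)
  by_cases h : i + 2 ≤ k
  · rw [catA_le i (k - (i + 2) + 2) (by omega), catA_le (i + 2) (k - (i + 2)) (by omega)]
    exact (hγ.nb _ (by omega)).symm
  by_cases h' : k ≤ i
  · rw [catA_ge h0 i (i - k) (by omega), catA_ge h0 (i + 2) (i - k + 2) (by omega)]
    exact hδ.nb _ (by omega)
  · rwa [catA_le i 1 (by omega), catA_ge h0 (i + 2) 1 (by omega)]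

theorem two_pathsA (k : ℕ) : ∀ {γ δ : ℕ → V} {l : ℕ}, NB Γ.A γ k → NB Γ.A δ l → γ 0 = δ 0 → γ k = δ l →
    k + l < 2 * Γ.n → k = l ∧ ∀ i ≤ k, γ i = δ i := by
  induction k with
  | zero =>
    intro γ δ l _ hδ h0 h1 h
    exact ⟨by_contra fun e => Γ.girth δ l hδ (by omega) (by omega) (h0.symm.trans h1),
      fun i hi => by rwa [show i = 0 by omega]⟩
  | succ k ih =>
    intro γ δ l hγ hδ h0 h1 h
    rcases l with _ | l
    · exact absurd (h0.trans h1.symm) (Γ.girth γ _ hγ (by omega) (by omega))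
    by_cases e : γ 1 = δ 1
    · obtain ⟨e1, e2⟩ := ih hγ.dropA hδ.dropA e h1 (by omega)
      exact ⟨by omega, fun i hi => by rcases i with _ | i; exacts [h0, e2 i (by omega)]⟩
    · exact absurd ((catA_le 0 _ (zero_add _)).trans (h1.trans (catA_ge h0 _ _ rfl).symm))
        (Γ.girth _ _ (hγ.catA hδ h0 e) (by omega) h)

namespace Gon.Apt

theorem adjA (hv : Γ.Apt v) {i j : ℤ} (h : j = i + 1) : Γ.A (v i) (v j) := h ▸ hv.adj i

theorem nbA (hv : Γ.Apt v) {i j : ℤ} (h : j = i + 2) : v i ≠ v j := h ▸ hv.nb i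

theorem perA (hv : Γ.Apt v) {i j : ℤ} (h : j = i + 2 * Γ.n) : v j = v i := h ▸ hv.per i

theorem shiftA (hv : Γ.Apt v) (c : ℤ) : Γ.Apt fun i => v (i + c) :=
  ⟨fun _ => hv.adjA (by omega), fun _ => hv.nbA (by omega), fun _ => hv.perA (by omega)⟩

theorem revA (hv : Γ.Apt v) (c : ℤ) : Γ.Apt fun i => v (c - i) :=
  ⟨fun _ => Γ.symm (hv.adjA (by omega)), fun _ => (hv.nbA (by omega)).symm, fun _ => (hv.perA (by omega)).symm⟩

theorem nbzA (hv : Γ.Apt v) (a : ℤ) (k : ℕ) : NB Γ.A (fun i => v (a + i)) k :=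
  ⟨fun _ _ => hv.adjA (by omega), fun _ _ => hv.nbA (by omega)⟩

theorem neA (hv : Γ.Apt v) {i j : ℤ} (h : i < j) (h' : j < i + 2 * Γ.n) : v i ≠ v j := fun e =>
  Γ.girth _ _ (hv.nbzA i (j - i).toNat) (by omega) (by omega)
    ((congrArg v (by omega)).trans (e.trans (congrArg v (by omega))))

theorem twoA (hv : Γ.Apt v) (hw : Γ.Apt w) (a k l : ℤ) (hk : 0 ≤ k) (hl : 0 ≤ l) (h : k + l < 2 * Γ.n)
    (h0 : v a = w a) (h1 : v (a + k) = w (a + l)) : k = l ∧ ∀ i, 0 ≤ i → i ≤ k → v (a + i) = w (a + i) := by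
  lift k to ℕ using hk
  lift l to ℕ using hl
  obtain ⟨e1, e2⟩ := two_pathsA k (hv.nbzA a k) (hw.nbzA a l) (by simpa using h0) h1 (by omega)
  exact ⟨by omega, fun i h0 hi => by lift i to ℕ using h0; exact e2 i (by omega)⟩

theorem uniqA (hv : Γ.Apt v) (hw : Γ.Apt w) (a b : ℤ) (h : b < a + Γ.n) (ha : v a = w a) (hb : v b = w b) (i : ℤ)
    (h1 : a ≤ i) (h2 : i ≤ b) : v i = w i := by
  simpa using (hv.twoA hw a (b - a) (b - a) (by omega) (by omega) (by omega) ha (by simpa using hb)).2 (i - a)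
    (by omega) (by omega)

theorem extA (hv : Γ.Apt v) (hw : Γ.Apt w) (a : ℤ) (h : ∀ i, a ≤ i → i ≤ a + Γ.n + 1 → v i = w i) (i : ℤ) :
    v i = w i := by
  have := Γ.three
  have P : Function.Periodic (fun i => v i = w i) (2 * Γ.n) := fun i => by simp only [hv.per, hw.per]
  obtain ⟨j, ⟨h1, h2⟩, e⟩ := P.exists_mem_Ico (by omega) i a
  refine e.mpr (if c : j ≤ a + Γ.n + 1 then h j h1 c else ?_)
  exact hv.uniqA hw (a + Γ.n + 1) (a + 2 * Γ.n) (by omega) (h _ (by omega) le_rfl)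
    (by rw [hv.per, hw.per]; exact h a le_rfl (by omega)) j (by omega) h2.le

end Gon.Apt

theorem cycleA (c : ℕ → V) (hc : NB Γ.A c (2 * Γ.n + 1)) (h0 : c (2 * Γ.n) = c 0) (h1 : c (2 * Γ.n + 1) = c 1) :
    ∃ v, Γ.Apt v ∧ ∀ i : ℕ, i ≤ 2 * Γ.n + 1 → v i = c i := by
  have := Γ.three
  obtain ⟨v, per, lt⟩ : ∃ v : ℤ → V, (∀ i, v (i + 2 * Γ.n) = v i) ∧ ∀ j : ℕ, j < 2 * Γ.n → v j = c j :=
    ⟨fun i => c (i % (2 * Γ.n)).toNat, fun i => by simp, fun j hj =>
      congrArg c (by rw [Int.emod_eq_of_lt (by omega) (by omega), Int.toNat_natCast])⟩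
  have le : ∀ j : ℕ, j ≤ 2 * Γ.n + 1 → v j = c j := fun j hj => by
    rcases (show j < 2 * Γ.n ∨ j = 2 * Γ.n ∨ j = 2 * Γ.n + 1 by omega) with h | rfl | rfl
    · exact lt j h
    · rw [h0, ← lt 0 (by omega), ← per (0 : ℕ)]; exact congrArg v (by omega)
    · rw [h1, ← lt 1 (by omega), ← per (1 : ℕ)]; exact congrArg v (by omega)
  have P : Function.Periodic (fun i => Γ.A (v i) (v (i + 1)) ∧ v i ≠ v (i + 2)) (2 * Γ.n) := fun i => by
    simp only [add_right_comm i (2 * Γ.n : ℤ), per]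
  have key : ∀ i, Γ.A (v i) (v (i + 1)) ∧ v i ≠ v (i + 2) := fun i => by
    obtain ⟨j, ⟨h1, h2⟩, e⟩ := P.exists_mem_Ico₀ (by omega) i
    lift j to ℕ using h1
    refine e.mpr ?_
    rw [show (j + 1 : ℤ) = (j + 1 : ℕ) by omega, show (j + 2 : ℤ) = (j + 2 : ℕ) by omega, le j (by omega),
      le _ (by omega), le _ (by omega)]
    exact ⟨hc.adj j (by omega), hc.nb j (by omega)⟩
  exact ⟨v, ⟨fun i => (key i).1, fun i => (key i).2, per⟩, le⟩

theorem extendA (j : ℕ) : ∀ {γ : ℕ → V} {k : ℕ}, NB Γ.A γ k → ∃ δ, NB Γ.A δ (k + j) ∧ ∀ i ≤ k, δ i = γ i := by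
  induction j with
  | zero => exact fun h => ⟨_, h, fun _ _ => rfl⟩
  | succ j ih =>
    intro γ k h
    obtain ⟨y, hy, y1, -⟩ := Γ.thick (γ k) (γ (k - 1)) (γ k)
    obtain ⟨δ, h', e⟩ := ih (h.snocA hy y1)
    exact ⟨δ, h'.monoA (by omega), fun i hi => (e i (by omega)).trans (if_pos hi)⟩

theorem NB.aptA (h : NB Γ.A γ k) (hk : k ≤ Γ.n + 1) : ∃ v, Γ.Apt v ∧ ∀ i : ℕ, i ≤ k → v i = γ i := by
  obtain ⟨γ', h', e⟩ := extendA (Γ.n + 1 - k) h
  replace h' := h'.monoA (l := Γ.n + 1) (by omega)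
  obtain ⟨δ, hδ, d0, d1⟩ := Γ.close γ' h'
  obtain ⟨m, hm⟩ : ∃ m, Γ.n = m + 2 := ⟨Γ.n - 2, by have := Γ.three; omega⟩
  rw [hm] at h' hδ d1
  change NB Γ.A δ (m + 1) at hδ
  change δ (m + 1) = _ at d1
  have j1 : δ 1 ≠ γ' 1 := fun e => by have := (two_pathsA _ hδ.dropA h'.dropA e d1 (by omega)).1; omega
  have j2 : δ m ≠ γ' (m + 2) := fun e => by
    have := (two_pathsA _ (hδ.monoA m.le_succ) (h'.monoA (m + 2).le_succ) d0 e (by omega)).1; omega
  have c := (hδ.catA h' d0 j1).snocA (y := δ m)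
    (by rw [catA_ge d0 _ _ rfl, ← d1]; exact Γ.symm (hδ.adj m (by omega)))
    (by rwa [catA_ge d0 _ (m + 2) (by omega)])
  obtain ⟨v, hv, e'⟩ := cycleA _ (c.monoA (by omega))
    (by rw [if_pos (by omega), if_pos (by omega), catA_ge d0 _ (m + 2 + 1) (by omega), catA_le 0 (m + 1) (by omega), d1])
    (by rw [if_neg (by omega), if_pos (by omega), catA_le 1 m (by omega)])
  refine ⟨_, hv.shiftA (m + 1), fun i hi => (congrArg v (by omega)).trans ((e' (m + 1 + i) (by omega)).trans ?_)⟩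
  rw [if_pos (by omega), catA_ge d0 _ i rfl, e i hi]

theorem Gon.Apt.consA (hv : Γ.Apt v) (a : ℤ) (y : V) (hy : Γ.A (v a) y) (h1 : y ≠ v (a + 1)) :
    ∃ w, Γ.Apt w ∧ w (a - 1) = y ∧ ∀ i, a ≤ i → i ≤ a + Γ.n → w i = v i := by
  obtain ⟨w, hw, e⟩ := ((hv.nbzA a Γ.n).consA (y := y) (by simpa using Γ.symm hy) fun _ => h1).aptA le_rfl
  refine ⟨_, hw.shiftA (1 - a), (congrArg w (by omega)).trans (e 0 (Nat.zero_le _)), fun i h1 h2 => ?_⟩
  have : w _ = v (a + (i - a).toNat) := e ((i - a).toNat + 1) (by omega)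
  exact (congrArg w (by omega)).trans (this.trans (congrArg v (by omega)))

theorem apiA {V : Type*} (Γ : Gon V) : ApiA Γ where
  shift := Gon.Apt.shiftA
  rev := Gon.Apt.revA
  adj hv _ _ h := h.elim hv.adjA fun h => Γ.symm (hv.adjA h)
  ne hv _ _ h h1 h2 := h.lt_or_gt.elim (fun h => hv.neA h h2) fun h => (hv.neA h h1).symm
  nbz := Gon.Apt.nbzA
  ofNB _ _ := NB.aptA
  cons := Gon.Apt.consA
  snoc {v} hv b y hy h1 := by
    obtain ⟨w, hw, e1, e2⟩ := (hv.revA 0).consA (-b) y (by simpa using hy)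
      (by rwa [show 0 - (-b + 1) = b - 1 by omega])
    exact ⟨_, hw.revA 0, (congrArg w (by omega)).trans e1,
      fun i h1 h2 => (e2 _ (by omega) (by omega)).trans (congrArg v (by omega))⟩
  path1 {_ y} h := let ⟨v, hv, e⟩ := ((NB.zeroA y).consA h (by omega)).aptA (by omega)
    ⟨v, hv, e 0 (by omega), e 1 le_rfl⟩
  path2 {_ _ z} h h' n :=
    let ⟨v, hv, e⟩ := (((NB.zeroA z).consA h' (by omega)).consA h fun _ => n).aptA (by have := Γ.three; omega)
    ⟨v, hv, e 0 (by omega), e 1 (by omega), e 2 le_rfl⟩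
  path3 {_ _ _ w} h h' h'' n n' :=
    let ⟨v, hv, e⟩ := ((((NB.zeroA w).consA h'' (by omega)).consA h' fun _ => n').consA h fun _ => n).aptA
      (by have := Γ.three; omega)
    ⟨v, hv, e 0 (by omega), e 1 (by omega), e 2 (by omega), e 3 le_rfl⟩
  conn x y := by
    obtain ⟨γ, k, hk, h, rfl, rfl⟩ := Γ.conn x y
    obtain ⟨v, hv, e⟩ := h.aptA (by omega)
    exact ⟨v, k, hv, by omega, by omega, e 0 (by omega), e k le_rfl⟩
  len hv hw k l hk hl h h0 h1 := (hv.twoA hw 0 k l hk hl h h0 (by simpa using h1)).1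
  uniq := Gon.Apt.uniqA
  ext := Gon.Apt.extA
  glue {v w} hv hw h0 h1 a b ha hb h := by
    lift a to ℕ using ha
    lift b to ℕ using hb
    obtain ⟨e, he, k⟩ := ((hv.nbzA 0 a).catA (hw.nbzA 0 b) h0 h1).aptA (by omega)
    refine ⟨_, he.shiftA a, fun i h1 h2 => ?_, fun j h1 h2 => ?_⟩
    · exact (congrArg e (by omega)).trans ((k (a - i).toNat (by omega)).trans
        ((catA_le _ i.toNat (by omega)).trans (congrArg v (by omega))))
    · exact (congrArg e (by omega)).trans ((k (j + a).toNat (by omega)).trans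
        ((catA_ge h0 _ j.toNat (by omega)).trans (congrArg w (by omega))))
  opp {v} hv x y hx hy n := by
    have := Γ.three
    obtain ⟨e, he, e0, en, e1⟩ : ∃ e, Γ.Apt e ∧ e 0 = v 0 ∧ e Γ.n = v Γ.n ∧ e 1 = x := by
      by_cases c : x = v 1
      · exact ⟨v, hv, rfl, rfl, c.symm⟩
      obtain ⟨w, hw, w1, w2⟩ := hv.consA 0 x hx c
      exact ⟨_, hw.revA 0, w2 0 le_rfl (by omega), (hw.perA (by omega)).symm.trans (w2 Γ.n (by omega) (by omega)), w1⟩
    obtain ⟨f, hf, f1, f2⟩ := he.consA 0 y (e0 ▸ hy) fun k => n (e1.symm.trans k.symm)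
    exact ⟨f, hf, (f2 0 le_rfl (by omega)).trans e0, (f2 _ (by omega) (by omega)).trans en,
      (f2 1 (by omega) (by omega)).trans e1, f1⟩
  no4 {a _ _ _} h1 h2 h3 h4 n := by_contra fun k => Γ.girth _ _ (((((NB.zeroA a).consA (Γ.symm h3) (by omega)).consA h4
    fun _ => n.symm).consA (Γ.symm h2) fun _ => k).consA h1 fun _ => n) (by omega) (by have := Γ.three; omega) rfl
  no6 h {a _ _ _ _ _} h1 h2 h3 h4 h5 h6 n1 n2 n3 n4 n5 := Γ.girth _ _ (((((((NB.zeroA a).consA (Γ.symm h6)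
    (by omega)).consA h5 fun _ => n3.symm).consA (Γ.symm h4) fun _ => n5).consA h3 fun _ => n2).consA (Γ.symm h2)
    fun _ => n4).consA h1 fun _ => n1) (by omega) (by omega) rfl

end CL.Spl
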