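/-
Project SPL (S3415): the action on a generalized polygon (transitivity, balls, rigidity).
-/
import Cfsg.Agent.Spl.ApiA

set_option autoImplicit false

namespace CL.Spl

variable {G V : Type*} [Group G] [MulAction G V] {S : GS G V} {v w : ℤ → V} {x y z : V} {u : G} {k : ℕ}

theorem b_smul (hv : S.Apt v) (g : G) : S.Apt fun i => g • v i :=
  ⟨fun i => S.inv g (hv.adj i), fun i e => hv.nb i (smul_left_cancel g e), fun i => congrArg (g • ·) (hv.per i)⟩

theorem b_fix (h : S.A x y) (hu : u ∈ S.P x y) : u • y = y := S.Pfix (S.symm h) (S.Psymm h ▸ hu)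

theorem b_fbS0 : u ∈ S.Fb (k + 1) x ↔ u • x = x ∧ ∀ y, S.A x y → u ∈ S.Fb k y := by
  simp [GS.Fb, Subgroup.mem_iInf]

theorem b_fbFix (h : u ∈ S.Fb k x) : u • x = x := by
  rcases k with _ | k
  exacts [h, (b_fbS0.1 h).1]

theorem b_fbMono {j : ℕ} (hj : j ≤ k) (h : u ∈ S.Fb k x) : u ∈ S.Fb j x := by
  have st : ∀ (k : ℕ) (x : V), u ∈ S.Fb (k + 1) x → u ∈ S.Fb k x := fun k => by
    induction k with
    | zero => exact fun _ => b_fbFix
    | succ k ih => exact fun x h => b_fbS0.2 ⟨b_fbFix h, fun y hy => ih y ((b_fbS0.1 h).2 y hy)⟩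
  induction hj with
  | refl => exact h
  | step _ ih => exact ih (st _ x h)

theorem b_fbConj (g : G) (h : u ∈ S.Fb k x) : g * u * g⁻¹ ∈ S.Fb k (g • x) := by
  have f : ∀ {k : ℕ} {x : V}, u ∈ S.Fb k x → (g * u * g⁻¹) • g • x = g • x := fun h => by
    rw [mul_smul, inv_smul_smul, mul_smul, b_fbFix h]
  induction k generalizing x with
  | zero => exact f h
  | succ k ih =>
    refine b_fbS0.2 ⟨f h, fun y hy => ?_⟩
    simpa using ih ((b_fbS0.1 h).2 (g⁻¹ • y) (by simpa using S.inv g⁻¹ hy))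

theorem b_fbApt (hv : S.Apt v) {a : ℤ} (h : u ∈ S.Fb k (v a)) (j : ℕ) (i : ℤ) (h1 : i + j ≤ a + k)
    (h2 : a + j ≤ i + k) : u ∈ S.Fb j (v i) := by
  induction k generalizing a with
  | zero => rwa [show j = 0 by omega, show i = a by omega]
  | succ k ih =>
    rcases lt_trichotomy i a with c | rfl | c
    · exact ih ((b_fbS0.1 h).2 (v (a - 1)) (S.symm (hv.adjA (by omega)))) (by omega) (by omega)
    · exact b_fbMono (by omega) h
    · exact ih ((b_fbS0.1 h).2 _ (hv.adj a)) (by omega) (by omega)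

variable (ha : ApiA S.toGon)
include ha

theorem b_trans (hv : S.Apt v) (hw : S.Apt w) (a : ℤ) (h0 : v a = w a) (h1 : v (a + 1) = w (a + 1)) :
    ∃ u ∈ S.P (v a) (v (a + 1)), ∀ i, u • v i = w i := by
  obtain ⟨u, hu, e⟩ := S.trans _ _ (ha.nbz hv a _) (ha.nbz hw a _) (by simpa using h0) h1
  refine ⟨u, by simpa using hu, ha.ext (b_smul hv u) hw a fun i h1 h2 => ?_⟩
  have := e (i - a).toNat (by omega)
  rwa [show a + ((i - a).toNat : ℤ) = i by omega] at this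

theorem b_move (hv : S.Apt v) (a b : ℤ) (y : V) (h1 : b - S.n ≤ a) (h2 : a < b) (hy : S.A (v b) y)
    (n : y ≠ v (b - 1)) :
    ∃ u ∈ S.P (v a) (v (a + 1)), (∀ i, b - S.n ≤ i → i ≤ b → u • v i = v i) ∧ u • v (b + 1) = y := by
  obtain ⟨w, hw, e1, e2⟩ := ha.snoc hv b y hy n
  obtain ⟨u, hu, e⟩ := b_trans ha hv hw a (e2 a h1 h2.le).symm (e2 _ (by omega) h2).symm
  exact ⟨u, hu, fun i h1 h2 => (e i).trans (e2 i h1 h2), (e _).trans e1⟩

theorem b_nbr {z' : V} (xy : S.A x y) (xz : S.A x z) (xz' : S.A x z') (n : z ≠ y) (n' : z' ≠ y) :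
    ∃ u ∈ S.P x y, u • z = z' := by
  obtain ⟨v, hv, rfl, rfl, rfl⟩ := ha.path2 (S.symm xy) xz n.symm
  obtain ⟨u, hu, -, e⟩ := b_move ha hv 0 1 z' (by have := S.three; omega) one_pos xz' n'
  exact ⟨u, (S.Psymm xy).ge hu, e⟩

theorem b_nbr' {z' : V} (xz : S.A x z) (xz' : S.A x z') : ∃ g : G, g • x = x ∧ g • z = z' := by
  obtain ⟨y, hy, y1, y2⟩ := S.thick x z z'
  obtain ⟨u, hu, e⟩ := b_nbr ha hy xz xz' y1.symm y2.symm
  exact ⟨u, S.Pfix hy hu, e⟩

theorem b_fbS : u ∈ S.Fb (k + 1) x ↔ ∀ y, S.A x y → u ∈ S.Fb k y := by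
  refine ⟨fun h => (b_fbS0.1 h).2, fun h => b_fbS0.2 ⟨?_, h⟩⟩
  obtain ⟨y, hy, -⟩ := S.thick x x x
  obtain ⟨z, hz, n, -⟩ := S.thick x y y
  exact ha.no4 (b_fbFix (h y hy) ▸ S.inv u (S.symm hy)) (b_fbFix (h z hz) ▸ S.inv u (S.symm hz)) (S.symm hy)
    (S.symm hz) n.symm

theorem b_fb1 : u ∈ S.Fb 1 x ↔ ∀ y, S.A x y → u • y = y := b_fbS ha

theorem b_fbOfApt (hk : k ≤ S.n) (h : ∀ v, S.Apt v → v 0 = x → ∀ j : ℤ, 0 ≤ j → j ≤ k → u • v j = v j) :
    u ∈ S.Fb k x := by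
  induction k generalizing x with
  | zero =>
    obtain ⟨y, hy, -⟩ := S.thick x x x
    obtain ⟨v, hv, rfl, -⟩ := ha.path1 hy
    exact h v hv rfl 0 le_rfl le_rfl
  | succ k ih =>
    refine (b_fbS ha).2 fun y hy => ih (by omega) fun w hw w0 j j0 jk => ?_
    subst w0
    by_cases c : x = w 1
    · rcases j0.eq_or_lt with rfl | j1
      · exact h _ (ha.rev hw 1) c.symm 1 (by omega) (by omega)
      · simpa using h _ (ha.shift hw 1) c.symm (j - 1) (by omega) (by omega)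
    obtain ⟨e, he, e1, e2⟩ := ha.cons hw 0 x (S.symm hy) c
    simpa [e2 j j0 (by omega)] using
      h _ (ha.shift he (-1)) ((congrArg e (by omega)).trans e1) (j + 1) (by omega) (by omega)

theorem b_fbOpp (hv : S.Apt v) (a : ℤ) (h : u ∈ S.Fb 1 (v a)) (hn : u • v (a + S.n) = v (a + S.n)) :
    u ∈ S.Fb 1 (v (a + S.n)) := by
  have := S.three
  refine (b_fb1 ha).2 fun y hy => ?_
  by_cases c : y = v (a + S.n - 1)
  · exact c ▸ ha.uniq (b_smul hv u) hv (a + 1) (a + S.n) (by omega) ((b_fb1 ha).1 h _ (hv.adj a)) hn _ (by omega)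
      (by omega)
  obtain ⟨w, hw, rfl, e⟩ := ha.snoc hv (a + S.n) y hy c
  refine ha.uniq (b_smul hw u) hw (a + S.n) (a + 2 * S.n - 1) (by omega) (by rwa [e _ (by omega) le_rfl])
    ((b_fb1 ha).1 h _ ?_) _ (by omega) (by omega)
  rw [← e a (by omega) (by omega), ← hw.per a]
  exact S.symm (hw.adjA (by omega))

theorem b_step (hv : S.Apt v) (hu : ∀ i, u • v i = v i) (h0 : u ∈ S.Fb 1 (v 0)) (h1 : u ∈ S.Fb 1 (v 1)) :
    u ∈ S.Fb 1 (v 2) := by
  have := S.three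
  obtain ⟨x, hx, x1, x2⟩ := S.thick (v (1 + S.n)) (v (1 + S.n - 1)) (v (1 + S.n + 1))
  have ux := (b_fb1 ha).1 (b_fbOpp ha hv 1 h1 (hu _)) x hx
  obtain ⟨w, hw, e1, e2⟩ := ha.cons hv (1 + S.n) x hx x2
  have e : w (0 + 2 * S.n + S.n) = x := (hw.perA (by omega)).trans e1
  have k := b_fbOpp ha hw (0 + 2 * S.n) (by rwa [e2 _ (by omega) (by omega), hv.per]) (e.symm ▸ ux)
  obtain ⟨w', hw', e1', e2'⟩ := ha.snoc hv (1 + S.n) x hx x1
  have e' : w' (1 + S.n + 1 + S.n) = v 2 := (hw'.perA (by omega)).trans (e2' 2 (by omega) (by omega))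
  exact e' ▸ b_fbOpp ha hw' (1 + S.n + 1) (by rwa [e1', ← e]) (e'.symm ▸ hu 2)

theorem b_rigid (hv : S.Apt v) (u : G) (a j : ℤ) (h : ∀ i, a ≤ i → i ≤ a + S.n + 1 → u • v i = v i)
    (h0 : u ∈ S.Fb 1 (v j)) (h1 : u ∈ S.Fb 1 (v (j + 1))) : u = 1 := by
  have := S.three
  let Good : V → V → Prop := fun x y =>
    ∃ v, S.Apt v ∧ (∀ i, u • v i = v i) ∧ v 0 = x ∧ v 1 = y ∧ u ∈ S.Fb 1 x ∧ u ∈ S.Fb 1 y
  have g0 : Good (v j) (v (j + 1)) := ⟨_, ha.shift hv j, fun i => ha.ext (b_smul hv u) hv a h _,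
    congrArg v (by omega), congrArg v (by omega), h0, h1⟩
  have g1 : ∀ x y z, Good x y → S.A y z → Good y z := by
    rintro _ _ z ⟨v, hv, hu, rfl, rfl, h0, h1⟩ hz
    by_cases c : z = v 0
    · exact ⟨_, ha.rev hv 1, fun i => hu _, rfl, c.symm, h1, c ▸ h0⟩
    obtain ⟨w, hw, rfl, e⟩ := ha.snoc hv 1 z hz c
    have hu' := ha.ext (b_smul hw u) hw (1 - S.n) fun i h2 h3 => by
      by_cases c : i ≤ 1
      · rw [e i h2 c, hu]
      · rw [show i = 1 + 1 by omega]; exact (b_fb1 ha).1 h1 _ hz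
    have w0 := e 0 (by omega) (by omega)
    have w1 := e 1 (by omega) le_rfl
    exact ⟨_, ha.shift hw 1, fun i => hu' _, w1, rfl, h1, b_step ha hw hu' (w0 ▸ h0) (w1 ▸ h1)⟩
  refine S.faith u fun x => ?_
  obtain ⟨e, k, he, k0, -, e0, rfl⟩ := ha.conn (v (j + 1)) x
  have : ∀ k : ℕ, ∃ y, Good y (e k) := fun k => by
    induction k with
    | zero => exact ⟨_, by rwa [← e0] at g0⟩
    | succ k ih => exact ⟨_, g1 _ _ _ ih.choose_spec (he.adjA (by omega))⟩
  lift k to ℕ using k0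
  obtain ⟨_, _, _, _, _, _, _, h⟩ := this k
  exact b_fbFix h

theorem b_claim (hw : S.Apt w) {z : G} (z0 : z • w 0 = w 0) (hz : ∀ u ∈ S.P (w (-1)) (w 0), u * z = z * u) (j : ℕ)
    (hj : 2 * j < S.n) : z • w j = w j := by
  induction j with
  | zero => exact z0
  | succ k ih =>
    by_contra c
    obtain ⟨e, he, e1, e2⟩ := ha.glue (ha.shift hw k) (b_smul (ha.shift hw k) z) (by simpa using (ih (by omega)).symm)
      (fun h => c (by rw [show ((k + 1 : ℕ) : ℤ) = 1 + k by omega]; exact h.symm)) (S.n - 1 - k) (k + 2) (by omega)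
      (by omega) (by omega)
    have key : ∀ y, S.A (w (S.n - 1)) y → y ≠ w (S.n - 1 - 1) →
        ∃ u : G, u • w (S.n - 1 + 1) = y ∧ ∀ i, u • e i = e i := fun y h1 h2 => by
      obtain ⟨u, hu, f1, f2⟩ := b_move ha hw (-1) (S.n - 1) y (by omega) (by omega) h1 h2
      refine ⟨u, f2, ha.ext (b_smul he u) he (-(S.n - 1 - k)) fun i h1 h2 => ?_⟩
      rcases le_total i 0 with h | h
      · rw [← neg_neg i, e1 _ (by omega) (by omega), f1 _ (by omega) (by omega)]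
      · rw [e2 i h (by omega), ← mul_smul, hz u hu, mul_smul, f1 _ (by omega) (by omega)]
    have a1 : e (-(S.n - 1 - k)) = w (S.n - 1) := (e1 _ (by omega) le_rfl).trans (congrArg w (by omega))
    have a2 : e (-(S.n - 1 - k - 1)) = w (S.n - 1 - 1) := (e1 _ (by omega) (by omega)).trans (congrArg w (by omega))
    obtain ⟨u, u1, u2⟩ := key (e (-(S.n - 1 - k) - 1)) (a1 ▸ S.symm (he.adjA (by omega))) (a2 ▸ he.nbA (by omega))
    obtain ⟨y, hy, y1, y2⟩ := S.thick (w (S.n - 1)) (w (S.n - 1 - 1)) (e (-(S.n - 1 - k) - 1))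
    obtain ⟨u', u1', u2'⟩ := key y hy y1
    exact y2 (by rw [← u1', smul_left_cancel u (u1.trans (u2 _).symm), u2'])

omit ha in
theorem apiB (S : GS G V) (ha : ApiA S.toGon) : ApiB S where
  smul := b_smul
  Pfix' := b_fix
  trans := b_trans ha
  between hv g := ha.uniq (b_smul hv g) hv
  fixApt hv g := ha.ext (b_smul hv g) hv
  move := b_move ha
  move' hv a b y h1 h2 hy n := by
    obtain ⟨w, hw, e1, e2⟩ := ha.cons hv b y hy n
    obtain ⟨u, hu, e⟩ := b_trans ha hv hw a (e2 a h1 h2.le).symm (e2 _ (by omega) h2).symm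
    exact ⟨u, hu, fun i h1 h2 => (e i).trans (e2 i h1 h2), (e _).trans e1⟩
  nbr := b_nbr ha
  nbr' := b_nbr' ha
  nbr2 xy xz xy' xz' n n' := by
    obtain ⟨g, gx, rfl⟩ := b_nbr' ha xy xy'
    obtain ⟨u, hu, e⟩ := b_nbr ha xy' (gx ▸ S.inv g xz) xz' (fun e => n (smul_left_cancel g e).symm) n'.symm
    exact ⟨u * g, by rw [mul_smul, gx, S.Pfix xy' hu], by rw [mul_smul, b_fix xy' hu], by rw [mul_smul, e]⟩
  fb0 := Iff.rfl
  fb1 := b_fb1 ha
  fbS := b_fbS ha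
  fbFix := b_fbFix
  fbMono := b_fbMono
  fbConj g := b_fbConj g
  fbComm {g _ _ _} e h := by simpa [e] using b_fbConj g h
  fbApt hv := b_fbApt hv
  fbAptFix hv _ _ _ h i h1 h2 := b_fbApt hv h 0 i (by omega) (by omega)
  fbOfApt := b_fbOfApt ha
  fbOpp hv a := b_fbOpp ha hv a
  rigid := b_rigid ha
  ball {_ y z} k xy hz hc hk := b_fbOfApt ha (by omega) fun v hv v0 j j0 jk => by
    subst v0
    by_cases c : y = v 1
    · subst c
      rcases j0.eq_or_lt with rfl | j1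
      · exact S.Pfix xy hz
      have := b_claim ha (ha.shift hv 1) (b_fix xy hz) hc (j - 1).toNat (by omega)
      rwa [show ((j - 1).toNat : ℤ) + 1 = j by omega] at this
    obtain ⟨w, hw, rfl, e⟩ := ha.cons hv 0 y xy c
    have w0 := e 0 le_rfl (by omega)
    lift j to ℕ using j0
    rw [← e j (by omega) (by omega)]
    exact b_claim ha hw (w0.symm ▸ S.Pfix xy hz) (fun u hu => hc u ((S.Psymm xy).ge (w0 ▸ hu))) j (by omega)
  up {v} hv k z hk hc h0 h1 h2 := b_fbOfApt ha (by omega) fun w hw w0 j j0 jk => by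
    by_cases c : v 0 = w 1
    · rcases j0.eq_or_lt with rfl | j1
      · rwa [w0]
      · exact b_fbApt hw (c ▸ h0) 0 j (by omega) (by omega)
    obtain ⟨e, he, e1, e2⟩ := ha.cons hw 0 (v 0) (w0.symm ▸ S.symm (hv.adj 0)) c
    obtain ⟨u, hu, f⟩ := b_trans ha hv (ha.shift he (-1)) 0 (e1.symm.trans (congrArg e (by omega)))
      (by simpa using ((e2 0 le_rfl (by omega)).trans w0).symm)
    have : u • v (j + 1) = w j := (f _).trans ((congrArg e (by omega)).trans (e2 j j0 (by omega)))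
    rw [← this, ← mul_smul, ← hc u hu, mul_smul,
      ha.uniq (b_smul hv z) hv 1 (k + 2) (by omega) h1 h2 _ (by omega) (by omega)]
  cardNbr {x _ _} xy yz := by
    obtain ⟨g, -, rfl⟩ := b_nbr' ha (S.symm xy) yz
    rw [← Set.ncard_image_of_injective _ (MulAction.injective g)]
    refine congrArg _ (Set.ext fun w => ⟨?_, fun h => ⟨g⁻¹ • w, by simpa using S.inv g⁻¹ h, smul_inv_smul g w⟩⟩)
    rintro ⟨w, h, rfl⟩
    exact S.inv g h

end CL.Spl
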