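/-
Project SPL: the groups `Q` and `Z`.
-/
import Cfsg.Agent.Spl.Defs
import Cfsg.Agent.Grp.PGroupBasic

set_option autoImplicit false
open Cfsg MulAction

namespace CL.Spl

universe u

namespace AC

theorem cen {G : Type u} [Group G] [Finite G] {p : ℕ} (hp : p.Prime) {P K Q : Subgroup G} (hP : IsPGroup p P)
    (hK : K ≤ P) (nK : ∀ u ∈ P, ∀ k ∈ K, u * k * u⁻¹ ∈ K) (nQ : ∀ u ∈ P, ∀ k ∈ Q, u * k * u⁻¹ ∈ Q) (h : ¬ K ≤ Q) :
    ∃ τ ∈ K, τ ∉ Q ∧ τ ^ p ∈ Q ∧ ∀ u ∈ P, u * τ * u⁻¹ * τ⁻¹ ∈ Q := by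
  have := Fact.mk hp
  have : (K.subgroupOf P).Normal := ⟨fun k hk u => nK u u.2 k hk⟩
  have : (Q.subgroupOf P).Normal := ⟨fun k hk u => nQ u u.2 k hk⟩
  obtain ⟨τ, h1, h2, h3, h4⟩ := CL.Grp.exists_central_mod_of_not_le hP (N := Q.subgroupOf P) (M := K.subgroupOf P)
    fun e => h fun k hk => e (show (⟨k, hK hk⟩ : P) ∈ K.subgroupOf P from hk)
  exact ⟨τ, h1, h2, h3, fun u hu => by
    have := inv_mem (h4 ⟨u, hu⟩)
    rw [commutatorElement_inv] at this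
    exact this⟩

theorem card_le {G : Type u} [Group G] [Finite G] {A B : Subgroup G} (g : G) (h : ∀ a ∈ A, g * a * g⁻¹ ∈ B) :
    Nat.card A ≤ Nat.card B :=
  Nat.card_le_card_of_injective (fun a => (⟨_, h a a.2⟩ : B)) fun a b e => Subtype.ext (by simpa using e)

variable {G V : Type u} [Group G] [Finite G] [MulAction G V] [Finite V] {S : GS G V} {p : ℕ}
  (hp : S.PG p) (ha : ApiA S.toGon) (hb : ApiB S)

theorem mem_Q {x : V} {u : G} : u ∈ S.Q x ↔ u ∈ S.Fb 1 x ∧ ∀ y, S.A x y → u ∈ S.P x y := by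
  simp [GS.Q, Subgroup.mem_iInf]

theorem QP {x y : V} {u : G} (h : S.A x y) (hu : u ∈ S.Q x) : u ∈ S.P x y := (mem_Q.1 hu).2 y h

theorem Zsymm {x y : V} (h : S.A x y) : S.Z p x y = S.Z p y x := by
  ext z
  rw [GS.mem_Z, GS.mem_Z, S.Psymm h]

theorem Pnorm {x y : V} (h : S.A x y) {g u : G} (gx : g • x = x) (gy : g • y = y) (hu : u ∈ S.P x y) :
    g * u * g⁻¹ ∈ S.P x y := by simpa only [gx, gy] using S.Pconj g h hu

theorem Zconj (g : G) {x y : V} {z : G} (h : S.A x y) (hz : z ∈ S.Z p x y) : g * z * g⁻¹ ∈ S.Z p (g • x) (g • y) := by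
  refine ⟨S.Pconj g h hz.1, fun u hu => ?_, by rw [conj_pow, hz.2.2, mul_one, mul_inv_cancel]⟩
  have := hz.2.1 _ (by simpa using S.Pconj g⁻¹ (S.inv g h) hu)
  calc u * (g * z * g⁻¹) = g * (g⁻¹ * u * g * z) * g⁻¹ := by group
    _ = _ := by rw [this]; group

include hb

theorem Qconj (g : G) {x : V} {u : G} (hu : u ∈ S.Q x) : g * u * g⁻¹ ∈ S.Q (g • x) :=
  mem_Q.2 ⟨hb.fbConj g (mem_Q.1 hu).1, fun y hy => by
    have h : S.A x (g⁻¹ • y) := by simpa using S.inv g⁻¹ hy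
    simpa using S.Pconj g h (QP h hu)⟩

theorem E0conj (g : G) {m : ℕ} {x y : V} {z : G} (h : S.A x y) (hz : z ∈ S.E0 p m x y) :
    g * z * g⁻¹ ∈ S.E0 p m (g • x) (g • y) := ⟨Zconj g h hz.1, hb.fbConj g hz.2⟩

theorem notQ {x y : V} (h : S.A x y) : ¬ S.P x y ≤ S.Q x := fun e => by
  obtain ⟨z, h1, h2, -⟩ := S.thick x y y
  obtain ⟨z', h3, h4, h5⟩ := S.thick x y z
  obtain ⟨u, h6, h7⟩ := hb.nbr h h1 h3 h2 h4
  exact h5 (h7.symm.trans (hb.fb1.1 (mem_Q.1 (e h6)).1 z h1))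

theorem PtTwo {m : ℕ} {x y z : V} (h : S.A x y) (h' : S.A y z) (hx : S.Pt m x) : S.Pt m z := fun e => hx (by
  obtain ⟨g, -, rfl⟩ := hb.nbr' (S.symm h) h'
  refine eq_bot_iff.2 fun u hu => ?_
  simpa using e.le (⟨Qconj hb g hu.1, hb.fbConj g hu.2⟩ : _ ∈ S.Q (g • x) ⊓ S.Fb m (g • x)))

include hp

theorem memQ {x y : V} {u : G} (h : S.A x y) (hu : u ∈ S.P x y) (hf : u ∈ S.Fb 1 x) : u ∈ S.Q x :=
  mem_Q.2 ⟨hf, fun z hz => hp.next (S.symm h) hz (S.Psymm h ▸ hu) (hb.fb1.1 hf z hz)⟩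

theorem exZ {x y : V} (h : S.A x y) {K : Subgroup G} (hK : K ≤ S.P x y) (nK : ∀ u ∈ S.P x y, ∀ k ∈ K, u * k * u⁻¹ ∈ K)
    (h1 : ¬ K ≤ ⊥) : ∃ z ∈ K, z ∈ S.Z p x y ∧ z ≠ 1 := by
  obtain ⟨z, h2, h3, h4, h5⟩ := cen hp.prime (hp.pg h) hK nK (by simp) h1
  exact ⟨z, h2, ⟨hK h2, fun u hu => mul_inv_eq_iff_eq_mul.1 (mul_inv_eq_one.1 (h5 u hu)), h4⟩, h3⟩

theorem tau {x l : V} (h : S.A x l) : ∃ τ ∈ S.P x l, (∀ m, S.A x m → m ≠ l → τ • m ≠ m) ∧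
    ∀ u ∈ S.P x l, u * τ * u⁻¹ * τ⁻¹ ∈ S.Q x := by
  obtain ⟨τ, h1, h2, -, h3⟩ := cen hp.prime (hp.pg h) le_rfl (fun u hu k hk => mul_mem (mul_mem hu hk) (inv_mem hu))
    (fun u hu k hk => S.Pfix h hu ▸ Qconj hb u hk) (notQ hb h)
  refine ⟨τ, h1, fun m hm ml e => h2 (memQ hp hb h h1 (hb.fb1.2 fun m' hm' => ?_)), h3⟩
  by_cases e' : m' = l
  · rw [e', hb.Pfix' h h1]
  obtain ⟨u, h4, rfl⟩ := hb.nbr h hm hm' ml e'
  have := hb.fb1.1 (mem_Q.1 (inv_mem (h3 u h4))).1 _ hm'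
  rwa [show (u * τ * u⁻¹ * τ⁻¹)⁻¹ = τ * u * τ⁻¹ * u⁻¹ by group, mul_smul, inv_smul_smul, mul_smul,
    inv_smul_eq_iff.2 e.symm, mul_smul] at this

include ha

omit hb in
theorem seg {v : ℤ → V} (hv : S.Apt v) {u : G} (a b i j : ℤ) (h1 : a ≤ i) (h2 : i < b) (h3 : a ≤ j) (h4 : j < b)
    (hf : ∀ l, a ≤ l → l ≤ b → u • v l = v l) (hu : u ∈ S.P (v i) (v (i + 1))) : u ∈ S.P (v j) (v (j + 1)) := by
  induction j using Int.inductionOn' (b := i) with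
  | zero => exact hu
  | succ k hk ih => exact hp.next (hv.adj k) (hv.adj (k + 1)) (ih (by omega) (by omega)) (hf _ (by omega) (by omega))
  | pred k hk ih =>
    have e := ha.adj hv k (k - 1) (by omega)
    rw [sub_add_cancel, ← S.Psymm e]
    exact hp.next (S.symm (hv.adj k)) e (S.Psymm (hv.adj k) ▸ ih (by omega) (by omega)) (hf _ (by omega) (by omega))

theorem tent0 {v w : ℤ → V} (hv : S.Apt v) (hw : S.Apt w) (k : ℕ) (hk : 2 * k < S.n) (e0 : v 0 = w 0)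
    (e1 : v 1 = w 1) : ∃ q ∈ S.Q (v 0), ∀ i : ℤ, 0 ≤ i → i ≤ k + 1 → q • v i = w i := by
  have a1 : S.A (v 0) (v 1) := hv.adj 0
  obtain ⟨l, hl, l1, -⟩ := S.thick (v 0) (v 1) (v 1)
  obtain ⟨τ, t1, t2, t3⟩ := tau hp hb hl
  have hc := hb.smul hv τ⁻¹
  have c0 : v 0 = τ⁻¹ • v 0 := (S.Pfix hl (inv_mem t1)).symm
  have c1 : v 1 ≠ τ⁻¹ • v 1 := fun e => t2 _ a1 l1.symm (eq_inv_smul_iff.1 e)
  have c2 : l ≠ τ⁻¹ • v 1 := fun e => l1 ((hb.Pfix' hl t1).symm.trans (eq_inv_smul_iff.1 e))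
  obtain ⟨e, he, p1, p2⟩ := ha.glue hv hc c0 c1 (k + 1) (k + 1) (by omega) (by omega) (by omega)
  obtain ⟨e', he', q1, q2⟩ := ha.glue hw hc (e0 ▸ c0) (e1 ▸ c1) (k + 1) (k + 1) (by omega) (by omega) (by omega)
  have x0 : e 0 = v 0 := (p2 0 le_rfl (by omega)).trans c0.symm
  have x0' : e' 0 = v 0 := (q2 0 le_rfl (by omega)).trans c0.symm
  obtain ⟨f, hf, r1, r2⟩ := ha.cons he 0 l (x0 ▸ hl) (by rw [zero_add, p2 1 (by omega) (by omega)]; exact c2)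
  obtain ⟨f', hf', s1, s2⟩ := ha.cons he' 0 l (x0' ▸ hl) (by rw [zero_add, q2 1 (by omega) (by omega)]; exact c2)
  have y0 : f (0 - 1 + 1) = v 0 := (r2 _ (by omega) (by omega)).trans x0
  obtain ⟨u, u1, u2⟩ := hb.trans hf hf' (0 - 1) (r1.trans s1.symm) (y0.trans ((s2 _ (by omega) (by omega)).trans x0').symm)
  rw [r1, y0, ← S.Psymm hl] at u1
  have u3 : ∀ i : ℤ, 0 ≤ i → i ≤ S.n → u • e i = e' i := fun i h1 h2 => by
    rw [← r2 i h1 (by omega), u2, s2 i h1 (by omega)]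
  have u4 : ∀ j : ℤ, 0 ≤ j → j ≤ k + 1 → u • v j = (u * τ * u⁻¹ * τ⁻¹) • v j := fun j h1 h2 => by
    have := u3 j h1 (by omega)
    rw [p2 j h1 h2, q2 j h1 h2] at this
    rw [mul_smul, mul_smul, inv_smul_eq_iff.2 this.symm, mul_smul, smul_inv_smul]
  have u5 := ha.ext (hb.smul he u) he' (-1) fun i h1 h2 => by
    rcases h1.eq_or_lt with rfl | h1
    · rw [p1 1 (by omega) (by omega), q1 1 (by omega) (by omega), u4 1 (by omega) (by omega), ← e1]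
      exact hb.fb1.1 (mem_Q.1 (t3 u u1)).1 _ a1
    · exact u3 i (by omega) (by omega)
  exact ⟨_, t3 u u1, fun i h1 h2 => by rw [← u4 i h1 h2, ← p1 i h1 h2, ← q1 i h1 h2]; exact u5 _⟩

theorem tent {v w : ℤ → V} (hv : S.Apt v) (hw : S.Apt w) (a : ℤ) (k : ℕ) (hk : 2 * k < S.n) (e0 : v a = w a)
    (e1 : v (a + 1) = w (a + 1)) : ∃ q ∈ S.Q (v a), ∀ i, a ≤ i → i ≤ a + k + 1 → q • v i = w i := by
  obtain ⟨q, h1, h2⟩ := tent0 hp ha hb (ha.shift hv a) (ha.shift hw a) k hk (by simpa) (by simpa [add_comm] using e1)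
  exact ⟨q, by simpa using h1, fun i h3 h4 => by simpa using h2 (i - a) (by omega) (by omega)⟩

theorem tent1 {x y z z' : V} (h1 : S.A x y) (h2 : S.A y z) (h3 : S.A y z') (h4 : z ≠ x) (h5 : z' ≠ x) :
    ∃ q ∈ S.Q x, q • z = z' := by
  obtain ⟨v, hv, rfl, v1, rfl⟩ := ha.path2 h1 h2 h4.symm
  obtain ⟨w, hw, w0, w1, rfl⟩ := ha.path2 h1 h3 h5.symm
  obtain ⟨q, h6, h7⟩ := tent0 hp ha hb hv hw 1 (by have := S.three; omega) w0.symm (v1.trans w1.symm)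
  exact ⟨q, h6, h7 2 (by omega) (by omega)⟩

end AC

variable {G V : Type u} [Group G] [Finite G] [MulAction G V] [Finite V] {S : GS G V} {p : ℕ}

open AC in
theorem apiC (hp : S.PG p) (ha : ApiA S.toGon) (hb : ApiB S) : ApiC S p where
  seg := fun hv _ => seg hp ha hv
  memQ := memQ hp hb
  QP := QP
  QP' := fun h hu => S.Psymm h ▸ QP h hu
  QFb := fun hu => (mem_Q.1 hu).1
  Qconj := Qconj hb
  Qpg := fun x => let ⟨_, h, _⟩ := S.thick x x x; (hp.pg h).to_le fun _ => QP h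
  tent := tent hp ha hb
  tent' := fun hv hw a k hk e0 e1 => by
    obtain ⟨q, h1, h2⟩ := tent0 hp ha hb (ha.rev hv a) (ha.rev hw a) k hk (by simpa) e1
    exact ⟨q, by simpa using h1, fun i h3 h4 => by simpa using h2 (a - i) (by omega) (by omega)⟩
  tent1 := tent1 hp ha hb
  spread := fun {x y z k g} h1 h2 h3 h4 h5 h6 => hb.fbS.2 fun y' h7 => by
    by_cases e : y' = x
    · exact e ▸ h5
    · obtain ⟨q, h8, rfl⟩ := tent1 hp ha hb h1 h2 h7 h3 e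
      exact hb.fbComm (h4 q h8) h6
  Zsymm := Zsymm
  Zconj := Zconj
  Zne := fun h => by
    obtain ⟨z, -, h1⟩ := exZ hp hb h le_rfl (fun u hu k hk => mul_mem (mul_mem hu hk) (inv_mem hu))
      fun e => notQ hb h (e.trans bot_le)
    exact ⟨z, h1⟩
  ZQ := fun h hz => by
    have h3 : 2 * 1 < S.n := S.three
    have hz' := Zsymm (p := p) h ▸ hz
    exact ⟨memQ hp hb h hz.1 (hb.ball 1 h hz.1 hz.2.1 h3),
      memQ hp hb (S.symm h) hz'.1 (hb.ball 1 (S.symm h) hz'.1 hz'.2.1 h3)⟩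
  Zcard := fun h h' => by
    obtain ⟨g, h1, h2⟩ := hb.nbr' (S.symm h) (S.symm h')
    obtain ⟨g', h3, h4⟩ := hb.nbr' (S.symm h') (S.symm h)
    exact le_antisymm (card_le g fun a ha => by simpa only [h1, h2] using Zconj g h ha)
      (card_le g' fun a ha => by simpa only [h3, h4] using Zconj g' h' ha)
  E0conj := E0conj hb
  E0ne := fun {m x y} h hx => by
    obtain ⟨z, h1, h2, h3⟩ := exZ hp hb h (K := S.Q x ⊓ S.Fb m x) (fun _ hu => QP h hu.1)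
      (fun u hu k hk => ⟨S.Pfix h hu ▸ Qconj hb u hk.1, S.Pfix h hu ▸ hb.fbConj u hk.2⟩) fun e => hx (le_bot_iff.1 e)
    exact ⟨z, ⟨h2, h1.2⟩, h3⟩
  E0card := fun h h' => by
    obtain ⟨g, h1, h2⟩ := hb.nbr' (S.symm h) (S.symm h')
    obtain ⟨g', h3, h4⟩ := hb.nbr' (S.symm h') (S.symm h)
    exact le_antisymm (card_le g fun a ha => by simpa only [h1, h2] using E0conj hb g h ha)
      (card_le g' fun a ha => by simpa only [h3, h4] using E0conj hb g' h' ha)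
  E0card' := fun h h' => by
    obtain ⟨g, h1, h2⟩ := hb.nbr' h h'
    obtain ⟨g', h3, h4⟩ := hb.nbr' h' h
    exact le_antisymm (card_le g fun a ha => by simpa only [h1, h2] using E0conj hb g h ha)
      (card_le g' fun a ha => by simpa only [h3, h4] using E0conj hb g' h' ha)
  PtOf := fun h1 h2 h3 e => h3 (e.le ⟨h1, h2⟩)
  PtTwo := PtTwo hb
  PtOr := fun {m x a b} hx h => by
    obtain ⟨v, k, hv, k0, -, rfl, rfl⟩ := ha.conn x a
    have h1 : ∀ j : ℕ, S.Pt m (v (2 * j)) := fun j => by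
      induction j with
      | zero => exact hx
      | succ j ih => exact PtTwo hb (hv.adj (2 * j)) (ha.adj hv _ _ (by omega)) ih
    obtain ⟨j, e | e⟩ : ∃ j : ℕ, k = 2 * j ∨ k = 2 * j + 1 := ⟨k.toNat / 2, by omega⟩
    · exact Or.inl (e ▸ h1 j)
    · exact Or.inr (PtTwo hb (ha.adj hv _ _ (by omega)) h (h1 j))

end CL.Spl
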