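/-
Project SPL: central elations.
-/
import Cfsg.Agent.Spl.Defs

set_option autoImplicit false
set_option linter.unusedSectionVars false
set_option linter.unusedVariables false
open Cfsg MulAction

namespace CL.Spl

universe u

variable {G V : Type u} [Group G] [Finite G] [MulAction G V] [Finite V] {S : GS G V} {p : ℕ}

namespace ApiDx

theorem leT {m : ℕ} {x l : V} {e : G} (h : S.A l x) (he : e ∈ S.E0 p m x l) : e ∈ S.T p m l :=
  (le_iSup₂_of_le x h le_rfl : S.E0 p m x l ≤ S.T p m l) he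

theorem ind {m : ℕ} {C : G → Prop} {l : V} {x : G} (hx : x ∈ S.T p m l) (h1 : ∀ y, S.A l y → ∀ z ∈ S.E0 p m y l, C z)
    (h0 : C 1) (hm : ∀ a ∈ S.T p m l, ∀ b ∈ S.T p m l, C a → C b → C (a * b)) : C x := by
  refine (Subgroup.iSup_induction (C := fun x => x ∈ S.T p m l ∧ C x) _ hx (fun y z hz => ?_) ⟨one_mem _, h0⟩
    fun a b ha hb => ⟨mul_mem ha.1 hb.1, hm a ha.1 b hb.1 ha.2 hb.2⟩).2
  by_cases h : S.A l y
  · rw [iSup_pos h] at hz
    exact ⟨leT h hz, h1 y h z hz⟩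
  · rw [iSup_neg h, Subgroup.mem_bot] at hz
    exact hz ▸ ⟨one_mem _, h0⟩

variable (ha : ApiA S.toGon) (hb : ApiB S) (hc : ApiC S p) {m : ℕ} (hn : S.n = 2 * m)

section
include hb hn

theorem semi {v : ℤ → V} (hv : S.Apt v) (a : ℤ) {e : G} (he : e ∈ S.Fb m (v a))
    (h : e • v (a + m + 1) = v (a + m + 1)) : e = 1 := by
  have := S.three
  refine hb.rigid hv e (a - m) a (fun i h1 h2 => ?_) (hb.fbMono (by omega) he) (hb.fbApt hv he 1 _ (by omega) (by omega))
  by_cases e : i = a + m + 1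
  exacts [e ▸ h, hb.fbAptFix hv he i (by omega) (by omega)]

theorem semi' {v : ℤ → V} (hv : S.Apt v) (a : ℤ) {e : G} (he : e ∈ S.Fb m (v a))
    (h : e • v (a - m - 1) = v (a - m - 1)) : e = 1 := by
  have := S.three
  refine hb.rigid hv e (a - m - 1) a (fun i h1 h2 => ?_) (hb.fbMono (by omega) he)
    (hb.fbApt hv he 1 _ (by omega) (by omega))
  by_cases e : i = a - m - 1
  exacts [e ▸ h, hb.fbAptFix hv he i (by omega) (by omega)]

include ha

theorem disj {x x' : V} {e : G} (h : x ≠ x') (he : e ∈ S.Fb m x) (he' : e ∈ S.Fb m x') : e = 1 := by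
  obtain ⟨v, k, hv, k0, k1, rfl, rfl⟩ := ha.conn x x'
  have : k ≠ 0 := fun e => h (by rw [e])
  exact semi hb hn hv 0 he (hb.fbAptFix hv he' _ (by omega) (by omega))

include hc

theorem test {v : ℤ → V} (hv : S.Apt v) (a : ℤ) {x : G} (hx : x ∈ S.T p m (v a)) :
    ∃ e ∈ S.E0 p m (v (a + 1)) (v a), x * e⁻¹ ∈ S.Q (v (a + 1 - m)) := by
  have := S.three
  refine ind (C := fun x => ∃ e ∈ S.E0 p m (v (a + 1)) (v a), x * e⁻¹ ∈ S.Q (v (a + 1 - m))) hx (fun y hy z hz => ?_)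
    ⟨1, one_mem _, by rw [mul_inv_cancel]; exact one_mem _⟩ ?_
  · by_cases e : y = v (a - 1)
    · subst e
      refine ⟨1, one_mem _, ?_⟩
      rw [inv_one, mul_one]
      refine hc.memQ (hv.adj _) (hc.seg hv (a + 1 - m) a (a - 1) _ (by omega) (by omega) le_rfl (by omega)
        (fun l h1 h2 => hb.fbAptFix hv hz.2 l (by omega) (by omega)) ?_) (hb.fbApt hv hz.2 1 _ (by omega) (by omega))
      rw [sub_add_cancel]
      exact hz.1.1
    obtain ⟨w, hw, rfl, e2⟩ := ha.snoc hv a y hy e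
    obtain ⟨q, hq, e3⟩ := hc.tent hw hv (a + 1 - m) (m - 1) (by omega) (e2 _ (by omega) (by omega))
      (e2 _ (by omega) (by omega))
    have h1 := hc.E0conj q (S.symm hy) hz
    rw [e3 _ (by omega) (by omega), ← e2 a (by omega) le_rfl, e3 _ (by omega) (by omega)] at h1
    have h2 := hc.Qconj z hq
    rw [hb.fbAptFix hw hz.2 _ (by omega) (by omega)] at h2
    refine ⟨_, h1, ?_⟩
    rw [← e2 _ (by omega) (by omega), show z * (q * z * q⁻¹)⁻¹ = z * q * z⁻¹ * q⁻¹ by group]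
    exact mul_mem h2 (inv_mem hq)
  · rintro x1 - x2 - ⟨e1, a1, b1⟩ ⟨e2, a2, b2⟩
    have h2 := hc.Qconj e1 b2
    rw [hb.fbAptFix hv a1.2 _ (by omega) (by omega)] at h2
    exact ⟨_, mul_mem a1 a2, by
      rw [show x1 * x2 * (e1 * e2)⁻¹ = x1 * e1⁻¹ * (e1 * (x2 * e2⁻¹) * e1⁻¹) by group]; exact mul_mem b1 h2⟩

end

include hc

theorem TQ {l : V} {x : G} (hx : x ∈ S.T p m l) : x ∈ S.Q l :=
  (iSup₂_le fun _ h _ hz => (hc.ZQ (S.symm h) hz.1).2 : S.T p m l ≤ S.Q l) hx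

theorem Tcomm {l : V} {x q : G} (hx : x ∈ S.T p m l) (hq : q ∈ S.Q l) : q * x = x * q :=
  ind (C := fun x => Commute q x) hx (fun _ h _ hz => hz.1.2.1 q (hc.QP' h hq)) (.one_right q)
    fun _ _ _ _ => Commute.mul_right

end ApiDx

open ApiDx in
theorem apiD (hp : S.PG p) (ha : ApiA S.toGon) (hb : ApiB S) (hc : ApiC S p) (m : ℕ) (hn : S.n = 2 * m) :
    ApiD S p m where
  semi := semi hb hn
  semi' := semi' hb hn
  disj := disj ha hb hn
  comm {x x' e e'} h he he' h1 h2 := by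
    have a1 := hb.fbConj e he'
    have a2 := hb.fbConj e' (inv_mem he)
    rw [h1] at a1
    rw [h2] at a2
    have := disj ha hb hn h (mul_mem he a2) (by simpa only [mul_assoc] using mul_mem a1 (inv_mem he'))
    rw [← mul_inv_eq_one, ← this]
    group
  leT := leT
  TQ := TQ hc
  Tcomm := Tcomm hc
  Tpow hx := ind (C := fun x => x ^ p = 1) hx (fun _ _ _ hz => hz.1.2.2) (one_pow p) fun a h1 b h2 h3 h4 => by
    rw [(show Commute a b from Tcomm hc h2 (TQ hc h1)).mul_pow, h3, h4, one_mul]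
  TFb {l x} hx := by
    have := S.three
    refine (iSup₂_le fun y h z hz => ?_ : S.T p m l ≤ S.Fb (m - 1) l) hx
    exact hb.fbS.1 (hb.fbMono (by omega) hz.2) l (S.symm h)
  Tconj g l x hx := ind (C := fun x => g * x * g⁻¹ ∈ S.T p m (g • l)) hx
    (fun _ h _ hz => leT (S.inv g h) (hc.E0conj g (S.symm h) hz)) (by simp)
    fun a _ b _ h1 h2 => by simpa only [conj_mul] using mul_mem h1 h2
  test := test ha hb hc hn
  test' {v} hv a x hx := by
    have := test ha hb hc hn (ha.rev hv (2 * a)) a (x := x) (by rwa [show 2 * a - a = a by ring])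
    rwa [show 2 * a - a = a by ring, show 2 * a - (a + 1) = a - 1 by ring,
      show 2 * a - (a + 1 - m) = a - 1 + m by ring] at this
  TE {x l e} h he he' := by
    obtain ⟨v, hv, rfl, rfl⟩ := ha.path1 h
    obtain ⟨e0, h0, h1⟩ := test ha hb hc hn hv 0 he
    rw [zero_add] at h0 h1
    have := semi' hb hn hv 1 (mul_mem he' (inv_mem h0.2)) (hb.fb1.1 (hc.QFb h1) _ (ha.adj hv _ _ (by omega)))
    rwa [mul_inv_eq_one.1 this]

theorem ctx_of (hp : S.PG p) (ha : ApiA S.toGon) (hb : ApiB S) (hc : ApiC S p) : Ctx S p :=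
  ⟨hp, ha, hb, hc, apiD hp ha hb hc⟩

end CL.Spl
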