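/-
Project SPL: the incidence graph of a (B,N)-pair of rank two (definitions only).
-/
import Cfsg.Agent.Spl.Defs

set_option autoImplicit false
open Cfsg MulAction CL.Chev

namespace CL.Spl

universe u

/-- Vertices: cosets of the minimal parabolic subgroups. -/
abbrev Vx {G : Type*} [Group G] (P : BNPair G) := Σ i : P.S, G ⧸ BN.cellSubgroup P {i}

/-- The vertex of type `i` of the chamber `g B`. -/
def vx {G : Type*} [Group G] (P : BNPair G) (i : P.S) (g : G) : Vx P := ⟨i, (g : G ⧸ BN.cellSubgroup P {i})⟩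

theorem smul_vx {G : Type*} [Group G] (P : BNPair G) (i : P.S) (h g : G) : h • vx P i g = vx P i (h * g) := rfl

theorem vx_eq_iff {G : Type*} [Group G] {P : BNPair G} {i : P.S} {g g' : G} :
    vx P i g = vx P i g' ↔ g⁻¹ * g' ∈ BN.cellSubgroup P {i} := by
  simp [vx, QuotientGroup.eq]

/-- Adjacency: the two vertices of a chamber. -/
def Adj {G : Type*} [Group G] (P : BNPair G) (a b : Vx P) : Prop :=
  a.1 ≠ b.1 ∧ ∃ g : G, a = vx P a.1 g ∧ b = vx P b.1 g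

/-- The polygon of an irreducible finite (B,N)-pair of rank two. -/
def GonThm : Prop :=
  ∀ (G : Type u) [Group G] [Finite G] (P : BNPair G), P.rank = 2 → P.Irreducible →
    ∃ (Γ : Gon (Vx P)) (n₀ : P.N), Γ.A = Adj P ∧ (Γ.n = 3 ∨ Γ.n = 4 ∨ Γ.n = 6 ∨ Γ.n = 8) ∧
      (∀ γ : ℕ → Vx P, NB (Adj P) γ (Γ.n + 1) → ∀ g g' : G, γ 0 = vx P (γ 0).1 g → γ 1 = vx P (γ 1).1 g →
        γ Γ.n = vx P (γ Γ.n).1 g' → γ (Γ.n + 1) = vx P (γ (Γ.n + 1)).1 g' → g⁻¹ * g' ∈ BN.cell P (BN.mk P n₀)) ∧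
      ∃ γ : ℕ → Vx P, NB (Adj P) γ (Γ.n + 1) ∧ γ 0 = vx P (γ 0).1 1 ∧ γ 1 = vx P (γ 1).1 1 ∧
        ∀ i, i ≤ Γ.n + 1 → ∃ m ∈ P.N, γ i = vx P (γ i).1 m

end CL.Spl
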