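/-
Project SPL: the generalized polygon of a finite irreducible (B,N)-pair of rank two.
-/
import Cfsg.Agent.Spl.Defs2

set_option autoImplicit false
set_option linter.unusedSectionVars false
open Cfsg MulAction CL.Chev CL.Chev.BN

namespace CL.Spl

universe u

namespace Gon1

section Paths

variable {V : Type*} {A : V → V → Prop} {γ : ℕ → V} {k : ℕ} (h : NB A γ k)
include h

theorem mono {l : ℕ} (hl : l ≤ k) : NB A γ l := ⟨fun i hi => h.adj i (by omega), fun i hi => h.nb i (by omega)⟩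

theorem shift {l : ℕ} (hl : l + 1 ≤ k) : NB A (fun i => γ (i + 1)) l :=
  ⟨fun i hi => h.adj _ (by omega), fun i hi => h.nb (i + 1) (by omega)⟩

theorem rev (hs : ∀ {x y}, A x y → A y x) : NB A (fun i => γ (k - i)) k :=
  ⟨fun i hi => by
    have := hs (h.adj (k - (i + 1)) (by omega))
    rwa [show k - (i + 1) + 1 = k - i by omega] at this, fun i hi => by
    have := (h.nb (k - (i + 2)) (by omega)).symm
    rwa [show k - (i + 2) + 2 = k - i by omega] at this⟩

end Paths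

variable {G : Type u} [Group G] {P : BNPair G} {a b : P.S} {g g' : G} {n : ℕ}

/-- the product of the alternating word -/
abbrev W (a b : P.S) (k : ℕ) : Weyl P := wprod (gen P) (altWord a b k)

theorem W_succ (a b : P.S) (k : ℕ) : W a b (k + 1) = gen P a * W b a k := rfl

/-- `v` is a vertex of the chamber `g B` -/
abbrev Ch (g : G) (v : Vx P) : Prop := v = vx P v.1 g

theorem exists_ch (v : Vx P) : ∃ g, Ch g v := by
  obtain ⟨i, q⟩ := v
  obtain ⟨g, rfl⟩ := QuotientGroup.mk_surjective q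
  exact ⟨g, rfl⟩

theorem Ch.mem {v : Vx P} (h : Ch g v) (h' : Ch g' v) : g⁻¹ * g' ∈ cellSubgroup P {v.1} :=
  vx_eq_iff.1 (h.symm.trans h')

theorem Ch.eq {v w : Vx P} (h : Ch g v) (h' : Ch g w) (e : v.1 = w.1) : v = w := by rw [h, h', e]

theorem ch_of_B (h : g⁻¹ * g' ∈ P.B) (a : P.S) : Ch g' (vx P a g) := vx_eq_iff.2 (B_le_cellSubgroup _ h)

theorem symm {v w : Vx P} (h : Adj P v w) : Adj P w v := ⟨h.1.symm, h.2.imp fun _ => And.symm⟩

theorem adj (ab : a ≠ b) (g : G) : Adj P (vx P a g) (vx P b g) := ⟨ab, g, rfl, rfl⟩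

theorem notMem (ab : a ≠ b) (h : g ∈ cell P (gen P a)) : g ∉ cellSubgroup P {b} := fun e =>
  (mem_cellSubgroup_singleton.1 e).elim (fun e => gen_ne_one a (eq_of_mem_cell h (mem_cell_one.2 e)))
    fun e => ab (gen_injective P (eq_of_mem_cell h e))

theorem mem_B (ab : a ≠ b) (h : g ∈ cellSubgroup P {a}) (h' : g ∈ cellSubgroup P {b}) : g ∈ P.B :=
  (mem_cellSubgroup_singleton.1 h).resolve_right fun e => notMem ab e h'

theorem step (h : g⁻¹ * g' ∈ cell P (gen P a)) : vx P a g = vx P a g' :=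
  vx_eq_iff.2 (mem_cellSubgroup_singleton.2 (.inr h))

theorem nb_one (ab : a ≠ b) (g : G) : NB (Adj P) (fun i => Nat.casesOn i (vx P b g) fun _ => vx P a g) 1 :=
  ⟨fun i hi => by obtain rfl : i = 0 := by omega
                  exact adj ab.symm g, fun i hi => by omega⟩

theorem nb_cons {δ : ℕ → Vx P} {k : ℕ} (hδ : NB (Adj P) δ (k + 1)) (h0 : δ 0 = vx P a g') (h1 : δ 1 = vx P b g')
    (ab : a ≠ b) (h : g⁻¹ * g' ∈ cell P (gen P a)) : NB (Adj P) (fun i => Nat.casesOn i (vx P b g) δ) (k + 2) := by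
  refine ⟨fun i hi => ?_, fun i hi => ?_⟩ <;> rcases i with _ | i
  · exact show Adj P (vx P b g) (δ 0) from (h0.trans (step h).symm).symm ▸ adj ab.symm g
  · exact hδ.adj i (by omega)
  · exact fun e => notMem ab h (vx_eq_iff.1 (e.trans h1))
  · exact hδ.nb i (by omega)

theorem path (j : ℕ) (ab : a ≠ b) (h : g⁻¹ * g' ∈ cell P (W a b j)) : ∃ δ : ℕ → Vx P, NB (Adj P) δ (j + 1) ∧
    δ 0 = vx P b g ∧ δ 1 = vx P a g ∧ Ch g' (δ j) ∧ Ch g' (δ (j + 1)) := by
  induction j generalizing a b g with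
  | zero => exact ⟨_, nb_one ab g, rfl, rfl, ch_of_B (mem_cell_one.1 h) b, ch_of_B (mem_cell_one.1 h) a⟩
  | succ j ih =>
    obtain ⟨u, hu, v, hv, e⟩ := exists_mul_of_mem_cell (W_succ a b j ▸ h)
    obtain ⟨δ, h1, h2, h3, h4⟩ := ih (g := g * u) ab.symm (by rwa [mul_inv_rev, mul_assoc, e, inv_mul_cancel_left])
    have h5 : g⁻¹ * (g * u) ∈ cell P (gen P a) := by rwa [inv_mul_cancel_left]
    exact ⟨_, nb_cons h1 h2 h3 ab h5, rfl, h2.trans (step h5).symm, h4⟩

theorem pathN (j : ℕ) (ab : a ≠ b) (h : g ∈ P.N) : ∃ δ : ℕ → Vx P, NB (Adj P) δ (j + 1) ∧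
    δ 0 = vx P b g ∧ δ 1 = vx P a g ∧ ∀ i, ∃ m ∈ P.N, Ch m (δ i) := by
  induction j generalizing a b g with
  | zero => exact ⟨_, nb_one ab g, rfl, rfl, fun i => ⟨g, h, by cases i <;> rfl⟩⟩
  | succ j ih =>
    obtain ⟨δ, h1, h2, h3, h4⟩ := ih (g := g * a) ab.symm (mul_mem h (P.subset a.2))
    have h5 : g⁻¹ * (g * a) ∈ cell P (gen P a) := by rw [inv_mul_cancel_left]; exact gen_mem_cell a
    exact ⟨_, nb_cons h1 h2 h3 ab h5, rfl, h2.trans (step h5).symm, fun i => by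
      cases i
      exacts [⟨g, h, rfl⟩, h4 _]⟩

theorem alt_sub (m j : ℕ) (ab : a ≠ b) : ∃ c d : P.S, c ≠ d ∧ W a b (m + j) = W a b m * W c d j := by
  induction m generalizing a b with
  | zero => exact ⟨a, b, ab, by rw [zero_add]; exact (one_mul _).symm⟩
  | succ m ih =>
    obtain ⟨c, d, h, e⟩ := ih ab.symm
    exact ⟨c, d, h, by rw [Nat.add_right_comm, W_succ, W_succ, e, mul_assoc]⟩

theorem alt_add (m k : ℕ) (ab : a ≠ b) : ∃ c d : P.S, c ≠ d ∧ W a b k = W b a m * W c d (m + k) := by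
  induction m generalizing a b k with
  | zero => exact ⟨a, b, ab, by rw [zero_add]; exact (one_mul _).symm⟩
  | succ m ih =>
    obtain ⟨c, d, h, e⟩ := ih (k + 1) ab.symm
    exact ⟨c, d, h, by rw [W_succ, mul_assoc, Nat.add_right_comm, add_assoc, ← e, W_succ, (invGen P).cancel_left]⟩

/-- there are two generators, and their product has order `n` -/
structure Two (P : BNPair G) (n : ℕ) : Prop where
  two : ∀ {a b c : P.S}, a ≠ b → c ≠ b → a = c
  ex : ∀ a : P.S, ∃ b, a ≠ b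
  ord : ∀ {a b : P.S}, a ≠ b → orderOf (gen P a * gen P b) = n
  three : 3 ≤ n

namespace Two

variable (T : Two P n)
include T

theorem all (ab : a ≠ b) (i : P.S) : i = a ∨ i = b := or_iff_not_imp_right.2 fun e => T.two e ab

theorem ne_one (ab : a ≠ b) {l : ℕ} (h0 : 0 < l) (hl : l < 2 * n) : W a b l ≠ 1 := fun e => by
  obtain ⟨j, rfl | rfl⟩ := l.even_or_odd'
  · have := Nat.le_of_dvd (by omega) (T.ord ab ▸ orderOf_dvd_of_pow_eq_one ((FH.alt_even _ a b j).symm.trans e))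
    omega
  · exact FH.zpow_ne (invGen P) (exchange P) a b 0 j (by rw [zpow_zero, zpow_natCast, ← FH.alt_odd]; exact e.symm)

theorem red (ab : a ≠ b) {k : ℕ} (hk : k ≤ n) : IsRed (gen P) (altWord a b k) := by
  obtain ⟨c, d, m, h1, h2, e⟩ := FH.exists_alt (invGen P) ab (T.all ab) (wprod (gen P) (altWord a b k))
  refine isRed_of_le (not_lt.1 fun hl => ?_)
  rw [← e, h2, length_altWord, length_altWord] at hl
  rcases h1 with ⟨rfl, rfl⟩ | ⟨rfl, rfl⟩
  · obtain ⟨j, rfl⟩ := Nat.exists_eq_add_of_le hl.le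
    obtain ⟨c, d, h, e'⟩ := alt_sub m j ab
    exact T.ne_one h (by omega) (by omega) (left_eq_mul.1 (e.trans e'))
  · obtain ⟨c, d, h, e'⟩ := alt_add m k ab
    exact T.ne_one h (by omega) (by omega) (left_eq_mul.1 (e.trans e'))

theorem len_eq {c d : P.S} (ab : a ≠ b) (cd : c ≠ d) {k l : ℕ} (hk : k ≤ n) (hl : l ≤ n) (h : g ∈ cell P (W a b k))
    (h' : g ∈ cell P (W c d l)) : k = l := by
  rw [← length_altWord a b k, ← T.red ab hk, ← length_altWord c d l, ← T.red cd hl]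
  exact congrArg _ (eq_of_mem_cell h h')

theorem swap (a b : P.S) (ab : a ≠ b) : W a b n = W b a n :=
  (wprod_altWord_eq_iff _ (gen_mul_self P) a b n).2 (T.ord ab ▸ pow_orderOf_eq_one _)

theorem mul_mem (ab : a ≠ b) {k : ℕ} (hk : k + 1 ≤ n) {h : G} (h1 : g⁻¹ * h ∈ cell P (gen P a))
    (h2 : h⁻¹ * g' ∈ cell P (W b a k)) : g⁻¹ * g' ∈ cell P (W a b (k + 1)) := by
  simpa [mul_assoc, W_succ] using mul_mem_cell_of_lt (T.red ab hk).lt_cons h1 h2

variable {γ δ : ℕ → Vx P} {k : ℕ}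

theorem ty_eq (h : NB (Adj P) γ k) (h' : NB (Adj P) δ k) (e : (γ 0).1 = (δ 0).1) {i : ℕ} (hi : i ≤ k) :
    (γ i).1 = (δ i).1 := by
  induction i with
  | zero => exact e
  | succ i ih => exact T.two (h.adj i hi).1.symm (ih (by omega) ▸ (h'.adj i hi).1.symm)

theorem gal (hk : k ≤ n) (h : NB (Adj P) γ (k + 1)) (h0 : Ch g (γ 0)) (h1 : Ch g (γ 1)) (h2 : Ch g' (γ k))
    (h3 : Ch g' (γ (k + 1))) : g⁻¹ * g' ∈ cell P (W (γ 1).1 (γ 0).1 k) := by
  have ne := (h.adj 0 (by omega)).1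
  induction k generalizing γ g with
  | zero => exact mem_cell_one.2 (mem_B ne (h0.mem h2) (h1.mem h3))
  | succ k ih =>
    obtain ⟨ne', c, c1, c2⟩ := h.adj 1 (by omega)
    have e : (γ 2).1 = (γ 0).1 := T.two ne'.symm ne
    exact T.mul_mem ne.symm hk ((mem_cellSubgroup_singleton.1 (h1.mem c1)).resolve_left fun e' =>
      h.nb 0 (by omega) (Ch.eq (h0.symm ▸ ch_of_B e' _) c2 e.symm))
      (e ▸ ih (by omega) (shift h le_rfl) c1 c2 h2 h3 ne')

theorem thick (x y z : Vx P) : ∃ w, Adj P x w ∧ w ≠ y ∧ w ≠ z := by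
  obtain ⟨g, hg⟩ := exists_ch x
  obtain ⟨j, ij⟩ := T.ex x.1
  obtain ⟨b, hb, e⟩ := exists_conj_mem_cell x.1
  have k1 : ∀ q ∈ cell P (gen P x.1), Adj P x (vx P j (g * q)) := fun q hq =>
    ⟨ij, g * q, hg.trans (step (by rwa [inv_mul_cancel_left])), rfl⟩
  have k2 : ∀ q q' : G, q⁻¹ * q' ∈ cell P (gen P x.1) → vx P j (g * q) ≠ vx P j (g * q') := fun q q' h e =>
    notMem ij h (by simpa [mul_assoc] using vx_eq_iff.1 e)
  have m1 := gen_mem_cell x.1
  have m2 := mul_mem_cell_left hb m1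
  have n1 := k2 1 _ (by simpa using m1)
  have n2 := k2 1 _ (by simpa using m2)
  have n3 := k2 x.1 (b * x.1) (by simpa [mul_assoc] using mul_mem_cell_left (inv_mem (P.sq_mem _ x.1.2)) e)
  by_contra! hn
  have a0 := hn (vx P j (g * 1)) ⟨ij, g * 1, by rwa [mul_one], rfl⟩
  have a1 := hn _ (k1 _ m1)
  have a2 := hn _ (k1 _ m2)
  by_cases e0 : vx P j (g * 1) = y
  · exact n3 ((a1 fun e => n1 (e0.trans e.symm)).trans (a2 fun e => n2 (e0.trans e.symm)).symm)
  by_cases e1 : vx P j (g * x.1) = y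
  · exact n2 ((a0 e0).trans (a2 fun e => n3 (e1.trans e.symm)).symm)
  · exact n1 ((a0 e0).trans (a1 e1).symm)

theorem girth (h : NB (Adj P) γ k) (h0 : 0 < k) (hk : k < 2 * n) : γ 0 ≠ γ k := fun e => by
  have r := rev h symm
  have ty := @ty_eq _ _ _ _ T _ _ _ h r (congrArg (·.1) e)
  obtain ⟨j, rfl | rfl⟩ := k.even_or_odd'
  swap
  · exact (h.adj j (by omega)).1 ((ty (by omega)).trans (by rw [show 2 * j + 1 - j = j + 1 by omega]))
  obtain ⟨j, rfl⟩ : ∃ i, j = i + 1 := ⟨j - 1, by omega⟩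
  obtain ⟨ne, g, g0, g1⟩ := h.adj 0 h0
  obtain ⟨-, g', g2, g3⟩ := r.adj 0 h0
  obtain ⟨-, c, c1, c2⟩ := h.adj (j + 1) (by omega)
  have h1 := T.gal (k := j + 1) (by omega) (mono h (by omega)) g0 g1 c1 c2
  have h2 := T.gal (k := j) (g' := c) (by omega) (mono r (by omega)) g2 g3
    (by rw [show 2 * (j + 1) - j = j + 1 + 1 by omega]; exact c2)
    (by rw [show 2 * (j + 1) - (j + 1) = j + 1 by omega]; exact c1)
  rw [← ty (i := 1) (by omega), ← ty (i := 0) (by omega)] at h2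
  rcases mem_cellSubgroup_singleton.1 (Ch.mem (v := γ 0) (e ▸ g2) g0) with e' | e'
  · have := T.len_eq (l := j + 1) ne.symm ne.symm (by omega) (by omega) h2 (by simpa [mul_assoc] using mul_mem_cell_left e' h1)
    omega
  · have := T.len_eq ne.symm ne (by omega) (by omega) h2 (T.mul_mem ne (by omega) e' h1)
    omega

theorem close (h : NB (Adj P) γ (n + 1)) : ∃ δ : ℕ → Vx P, NB (Adj P) δ (n - 1) ∧ δ 0 = γ 0 ∧ δ (n - 1) = γ (n + 1) := by
  have := T.three
  obtain ⟨ne, g, g0, g1⟩ := h.adj 0 (by omega)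
  obtain ⟨-, c, c1, c2⟩ := h.adj n (by omega)
  obtain ⟨δ, h1, h2, h3, h4, -⟩ := path n ne (T.swap _ _ ne ▸ T.gal le_rfl h g0 g1 c1 c2)
  refine ⟨fun i => δ (i + 1), shift h1 (by omega), h3.trans g0.symm, ?_⟩
  rw [show (fun i => δ (i + 1)) (n - 1) = δ n from congrArg δ (by omega)]
  exact h4.eq c2 (T.ty_eq (mono h1 n.le_succ) (shift h le_rfl) (congrArg (·.1) h2) le_rfl)

theorem conn (x y : Vx P) : ∃ (γ : ℕ → Vx P) (k : ℕ), k ≤ n ∧ NB (Adj P) γ k ∧ γ 0 = x ∧ γ k = y := by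
  have := T.three
  obtain ⟨g, hg⟩ := exists_ch x
  obtain ⟨g', hg'⟩ := exists_ch y
  obtain ⟨j, ij⟩ := T.ex x.1
  obtain ⟨w, hw⟩ := exists_mem_cell P (g⁻¹ * g')
  obtain ⟨a, b, m, h1, h2, rfl⟩ := FH.exists_alt (invGen P) ij (T.all ij) w
  have ab : a ≠ b := by
    rcases h1 with ⟨rfl, rfl⟩ | ⟨rfl, rfl⟩
    exacts [ij, ij.symm]
  have hm : m ≤ n := not_lt.1 fun e => (invGen P).not_isRed_altWord (m := n) (by omega)
    (T.ord ab ▸ pow_orderOf_eq_one _) e h2
  obtain ⟨δ, d1, d2, d3, d4, d5⟩ := path m ab hw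
  have hx : δ 1 = x ∨ δ 0 = x := h1.imp (fun e => by rw [d3, e.1, ← hg]) fun e => by rw [d2, e.2, ← hg]
  have hy : δ m = y ∨ δ (m + 1) = y := (T.all (d1.adj m (by omega)).1 y.1).imp (fun e => d4.eq hg' e.symm)
    fun e => d5.eq hg' e.symm
  rcases hx with rfl | rfl <;> rcases hy with rfl | rfl
  · rcases m with _ | m
    exacts [⟨_, 1, by omega, rev d1 symm, rfl, rfl⟩, ⟨_, m, by omega, shift d1 (by omega), rfl, rfl⟩]
  · exact ⟨_, m, hm, shift d1 le_rfl, rfl, rfl⟩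
  · exact ⟨_, m, hm, mono d1 m.le_succ, rfl, rfl⟩
  · rcases hm.eq_or_lt with rfl | hm
    · obtain ⟨γ, e⟩ := T.close d1
      exact ⟨γ, _, by omega, e⟩
    · exact ⟨_, _, hm, d1, rfl, rfl⟩

end Two

end Gon1

open Gon1 in
theorem gonThm : GonThm.{u} := by
  intro G _ _ P h2 hi
  obtain ⟨x, y, xy, e⟩ := Nat.card_eq_two_iff.1 h2
  have all : ∀ i, i = x ∨ i = y := fun i => by simpa using Set.eq_univ_iff_forall.1 e i
  have hw := FH.card_weyl P h2
  have : Finite (Weyl P) := Finite.of_surjective _ (mk_surjective P)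
  rw [FH.card_eq (invGen P) (exchange P) xy all] at hw
  have h3 : orderOf (gen P x * gen P y) ≠ 2 := fun e => by
    obtain ⟨_, rfl, s, hs, h⟩ := hi {(x : G)} (by simp) (by simp) ⟨y, y.2, fun e => xy (Subtype.ext e.symm)⟩
    obtain rfl : s = y := congrArg Subtype.val ((all ⟨s, hs.1⟩).resolve_left fun e => hs.2 (congrArg Subtype.val e))
    refine h (mk_eq_one_iff.1 (?_ : mk P (genN x * genN y * (genN x)⁻¹ * (genN y)⁻¹) = 1))
    rw [map_mul, map_mul, map_mul, map_inv, map_inv, ← gen_def, ← gen_def, (invGen P).inv, (invGen P).inv, mul_assoc,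
      ← pow_two, ← e, pow_orderOf_eq_one]
  simp only [Set.mem_insert_iff, Set.mem_singleton_iff] at hw
  have T : Two P (orderOf (gen P x * gen P y)) := ⟨fun {a b c} h h' => by
    rcases all a with rfl | rfl <;> rcases all b with rfl | rfl <;> rcases all c with rfl | rfl <;>
      first | rfl | exact (h rfl).elim | exact (h' rfl).elim, fun a => by
    rcases all a with rfl | rfl
    exacts [⟨_, xy⟩, ⟨_, xy.symm⟩], fun {a b} h => by
    rcases all a with rfl | rfl <;> rcases all b with rfl | rfl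
    exacts [(h rfl).elim, rfl, by rw [← orderOf_inv, mul_inv_rev, (invGen P).inv, (invGen P).inv], (h rfl).elim],
    by omega⟩
  refine ⟨⟨_, Adj P, T.three, symm, T.thick, fun _ _ => T.girth, fun _ => T.close, T.conn⟩,
    wprod genN (altWord x y (orderOf (gen P x * gen P y))), rfl, by dsimp only; omega, fun γ h g g' h0 h1 h2 h3 => ?_, ?_⟩
  · have := T.gal le_rfl h h0 h1 h2 h3
    have ne := (h.adj 0 (by omega)).1
    rw [mk_wprod_genN]
    rcases all (γ 0).1 with e | e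
    · rw [T.two ne.symm (e ▸ xy.symm), e, T.swap _ _ xy.symm] at this
      exact this
    · rw [T.two ne.symm (e ▸ xy), e] at this
      exact this
  · obtain ⟨δ, h1, h2, h3, h4⟩ := pathN _ xy (one_mem P.N)
    exact ⟨δ, h1, by rw [h2]; rfl, by rw [h3]; rfl, fun i _ => h4 i⟩

end CL.Spl
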