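/-
Project SPL: from the polygon theorem to (B,N)-pairs of rank two.
-/
import Cfsg.Agent.Spl.Defs2

set_option autoImplicit false
open Cfsg MulAction CL.Chev CL.Grp

namespace CL.Spl

universe u

namespace Gon2

section
variable {G : Type u} [Group G] {P : BNPair G}

theorem B_le (i : P.S) : P.B ≤ BN.cellSubgroup P {i} := (BN.cellSubgroup_le_iff.1 le_rfl).1

theorem mem_B {i j : P.S} (h : i ≠ j) {g : G} (hi : g ∈ BN.cellSubgroup P {i}) (hj : g ∈ BN.cellSubgroup P {j}) :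
    g ∈ P.B := by
  have e := BN.eq_cellSubgroup_of_le (le_inf (B_le i) (B_le j))
  have e2 : {s : P.S | (s : G) ∈ BN.cellSubgroup P {i} ⊓ BN.cellSubgroup P {j}} = ∅ :=
    Set.eq_empty_of_forall_notMem fun s hs =>
      h (((BN.gen_mem_cellSubgroup_iff (J := {i})).1 hs.1).symm.trans ((BN.gen_mem_cellSubgroup_iff (J := {j})).1 hs.2))
  rw [e2, BN.cellSubgroup_empty] at e
  exact e ▸ Subgroup.mem_inf.2 ⟨hi, hj⟩

theorem fix_iff {i : P.S} {y g : G} : y • vx P i g = vx P i g ↔ g⁻¹ * y * g ∈ BN.cellSubgroup P {i} := by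
  rw [smul_vx, eq_comm, vx_eq_iff, mul_assoc]

theorem fst_smul (g : G) (a : Vx P) : (g • a).1 = a.1 := rfl

theorem adj_smul (g : G) {a b : Vx P} (h : Adj P a b) : Adj P (g • a) (g • b) := by
  obtain ⟨h1, k, h2, h3⟩ := h
  exact ⟨h1, g * k, by rw [fst_smul, ← smul_vx, ← h2], by rw [fst_smul, ← smul_vx, ← h3]⟩

theorem two (h : P.rank = 2) {i j k : P.S} (h1 : i ≠ j) (h2 : i ≠ k) : j = k := by
  obtain ⟨y, -, hy⟩ := (Nat.card_eq_two_iff' i).1 h
  exact (hy j h1.symm).trans (hy k h2.symm).symm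

theorem types (h : P.rank = 2) {γ γ' : ℕ → Vx P} {k : ℕ} (h1 : NB (Adj P) γ k) (h2 : NB (Adj P) γ' k)
    (e : γ 0 = γ' 0) (i : ℕ) (hi : i ≤ k) : (γ i).1 = (γ' i).1 := by
  induction i with
  | zero => rw [e]
  | succ i ih => exact two h (h1.adj i hi).1 (ih (by omega) ▸ (h2.adj i hi).1)

variable {F : Subgroup G} (hF : F ≤ P.B) (hn : ∀ b ∈ P.B, ∀ f ∈ F, b * f * b⁻¹ ∈ F)
include hn

theorem dec (hs : F ⊔ (P.B ⊓ P.N) = P.B) {n : P.N} {g : G} (hg : g ∈ BN.cell P (BN.mk P n)) :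
    ∃ f ∈ F, ∃ b ∈ P.B, g = f * n * b := by
  obtain ⟨b, hb, b', hb', rfl⟩ := BN.mem_cell_mk.1 hg
  have e := Subgroup.coe_mul_of_right_le_normalizer_left F (P.B ⊓ P.N)
    (Subgroup.le_normalizer_iff.2 fun x hx y hy => hn x hx.1 y hy)
  rw [hs] at e
  obtain ⟨f, hf, t, ht, rfl⟩ := e.subset hb
  exact ⟨f, hf, _, mul_mem (P.conj_mem _ (inv_mem n.2) t ht) hb', by group⟩

include hF

theorem mem_fit {X : Type u} [Group X] [MulAction X (Vx P)] {φ : G →* X} (surj : Function.Surjective φ)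
    (sm : ∀ (g : G) (a : Vx P), φ g • a = g • a) (nil : Group.IsNilpotent F) {a b : Vx P} (hab : a.1 ≠ b.1) {g f : G}
    (ha : a = vx P a.1 g) (hb : b = vx P b.1 g) (hf : f ∈ F) :
    φ (g * f * g⁻¹) ∈ fittingOf (stabilizer X a ⊓ stabilizer X b) := by
  have k : ∀ c : Vx P, c = vx P c.1 g → ∀ y ∈ F, φ (g * y * g⁻¹) • c = c := fun c hc y hy => by
    rw [sm, hc, fix_iff]
    simpa [mul_assoc] using B_le _ (hF hy)
  refine le_fittingOf (N := F.map (φ.comp (MulAut.conj g).toMonoidHom)) ?_ (Subgroup.le_normalizer_iff.2 ?_)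
    (isNilpotent_map nil _) ⟨f, hf, rfl⟩
  · rintro _ ⟨y, hy, rfl⟩
    exact ⟨k a ha y hy, k b hb y hy⟩
  · rintro x ⟨x1, x2⟩ _ ⟨y, hy, rfl⟩
    obtain ⟨x, rfl⟩ := surj x
    replace x1 : φ x • a = a := x1
    replace x2 : φ x • b = b := x2
    rw [sm, ha, fix_iff] at x1
    rw [sm, hb, fix_iff] at x2
    exact ⟨_, hn _ (mem_B hab x1 x2) y hy, by simp [mul_assoc]⟩

end

end Gon2

open Gon2 in
theorem r2_of (hG : GonThm.{u}) (hA : ∀ (V : Type u) (Γ : Gon V), ApiA Γ) (h : PT.{u}) : R2.{u} := by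
  intro G _ _ P rk irr F hF hn nil hs g0 hg0 hN x
  obtain ⟨Γ, n₀, hΓ, hnn, hc, γ₀, c1, c2, c3, c4⟩ := hG G P rk irr
  let X := (toPermHom G (Vx P)).range
  let φ : G →* X := (toPermHom G (Vx P)).rangeRestrict
  have surj : Function.Surjective φ := MonoidHom.rangeRestrict_surjective _
  have sm : ∀ (g : G) (a : Vx P), φ g • a = g • a := fun _ _ => rfl
  have : Finite X := Finite.of_surjective φ surj
  have three := Γ.three
  let S : GS X (Vx P) :=
    { toGon := Γ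
      inv := fun g a b hab => by
        obtain ⟨g, rfl⟩ := surj g
        rw [hΓ] at hab ⊢
        exact adj_smul g hab
      faith := fun g hg => Subtype.ext (Equiv.ext hg)
      P := fun a b => fittingOf (stabilizer X a ⊓ stabilizer X b)
      Psymm := fun _ => by rw [inf_comm]
      Pfix := fun _ hu => (fittingOf_le _ hu).1
      Pconj := fun g a b y _ hy => by
        rw [stabilizer_smul_eq_stabilizer_map_conj, stabilizer_smul_eq_stabilizer_map_conj,
          ← Subgroup.map_inf _ _ _ (MulAut.conj g).injective, ← map_fittingOf_of_injective (MulAut.conj g).injective]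
        exact ⟨y, hy, rfl⟩
      trans := fun γ γ' h1 h2 e0 e1 => by
        have h1' := hΓ ▸ h1
        have h2' := hΓ ▸ h2
        obtain ⟨a1, g, a2, a3⟩ := h1'.adj 0 (by omega)
        obtain ⟨-, k, b2, b3⟩ := h1'.adj Γ.n (by omega)
        obtain ⟨-, k', b2', b3'⟩ := h2'.adj Γ.n (by omega)
        obtain ⟨f, hf, b, hb, e⟩ := dec hn hs (hc γ h1' g k a2 a3 b2 b3)
        obtain ⟨f', hf', b', hb', e'⟩ := dec hn hs (hc γ' h2' g k' (e0 ▸ a2) (e1 ▸ a3) b2' b3')
        have m := mem_fit hF hn surj sm nil a1 a2 a3 (mul_mem hf' (inv_mem hf))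
        refine ⟨_, m, ?_⟩
        have m' := fittingOf_le _ m
        generalize hu : g * (f' * f⁻¹) * g⁻¹ = y at m m'
        have t : ∀ i : P.S, y • vx P i k = vx P i k' := fun i => by
          rw [smul_vx, vx_eq_iff, ← hu, inv_mul_eq_iff_eq_mul.1 e, inv_mul_eq_iff_eq_mul.1 e']
          simpa [mul_assoc] using B_le i (mul_mem (inv_mem hb) hb')
        have h3 : NB Γ.A (fun i => y • γ i) (Γ.n + 1) :=
          ⟨fun i hi => hΓ ▸ adj_smul y (h1'.adj i hi), fun i hi e => h1.nb i hi (smul_left_cancel y e)⟩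
        obtain ⟨v, hv, v1⟩ := (hA _ Γ).ofNB _ _ h3 le_rfl
        obtain ⟨w, hw, w1⟩ := (hA _ Γ).ofNB _ _ h2 le_rfl
        have f0 : y • γ 0 = γ' 0 := e0 ▸ m'.1
        have f1 : y • γ 1 = γ' 1 := e1 ▸ m'.2
        have f2 : y • γ Γ.n = γ' Γ.n := by rw [b2, b2', t, types rk h1' h2' e0 _ (by omega)]
        have f3 : y • γ (Γ.n + 1) = γ' (Γ.n + 1) := by rw [b3, b3', t, types rk h1' h2' e0 _ le_rfl]
        have f4 := (hA _ Γ).uniq hv hw 1 Γ.n (by omega)
          (((v1 1 (by omega)).trans f1).trans (w1 1 (by omega)).symm)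
          (((v1 _ (by omega)).trans f2).trans (w1 _ (by omega)).symm)
        intro i hi
        rw [sm]
        rcases Nat.eq_zero_or_pos i with rfl | i0
        · exact f0
        rcases hi.eq_or_lt with rfl | i1
        · exact f3
        exact ((v1 i hi).symm.trans (f4 i (by omega) (by omega))).trans (w1 i hi) }
  have N : S.Nil := ⟨fun _ => fittingOf_isNilpotent _, fun K _ h1 h2 h3 =>
    le_fittingOf h1 (Subgroup.le_normalizer_iff.2 fun g hg k hk => h2 g hg.1 hg.2 k hk) h3⟩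
  obtain ⟨a1, -⟩ := c1.adj 0 (by omega)
  have m := mem_fit hF hn surj sm nil a1 c2 c3 hg0
  rw [one_mul, inv_one, mul_one] at m
  have e := h X (Vx P) S N hnn γ₀ (by show NB Γ.A _ _; rw [hΓ]; exact c1) _ m fun i hi => by
    obtain ⟨k, hk, e⟩ := c4 i hi
    rw [sm, e, fix_iff]
    exact B_le _ (hN k hk)
  have k : ∀ i : P.S, x⁻¹ * g0 * x ∈ BN.cellSubgroup P {i} := fun i => fix_iff.1 (by rw [← sm, e, one_smul])
  exact mem_B a1 (k _) (k _)

end CL.Spl
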