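/-
Project SPL: existence of central elations in hexagons and octagons, and their properties in hexagons.
-/
import Cfsg.Agent.Spl.Defs

set_option autoImplicit false
set_option linter.unusedSectionVars false
open Cfsg MulAction

namespace CL.Spl

universe u

variable {G V : Type u} [Group G] [Finite G] [MulAction G V] [Finite V] {S : GS G V} {p : ℕ}

namespace Hexx

theorem onto {A B : Subgroup G} (f : G → G) (hf : ∀ a ∈ A, f a ∈ B) (inj : ∀ a ∈ A, ∀ a' ∈ A, f a = f a' → a = a')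
    (hc : Nat.card A = Nat.card B) : ∀ b ∈ B, ∃ a ∈ A, f a = b := fun b hb => by
  have : Function.Bijective fun a : A => (⟨f a, hf a a.2⟩ : B) := (Nat.bijective_iff_injective_and_card _).2
    ⟨fun a a' e => Subtype.ext (inj a a.2 a' a'.2 (congrArg Subtype.val e)), hc⟩
  obtain ⟨a, e⟩ := this.2 ⟨b, hb⟩
  exact ⟨a, a.2, congrArg Subtype.val e⟩

variable (h : Ctx S p)
include h

theorem zb {x y : V} {z : G} (hA : S.A x y) (hz : z ∈ S.Z p x y) {k : ℕ} (hk : 2 * k < S.n) :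
    z ∈ S.Fb k x ∧ z ∈ S.Fb k y :=
  have hz' : z ∈ S.Z p y x := h.c.Zsymm hA ▸ hz
  ⟨h.b.ball k hA hz.1 hz.2.1 hk, h.b.ball k (S.symm hA) hz'.1 hz'.2.1 hk⟩

theorem zq {x y : V} {z q : G} (hA : S.A x y) (hz : z ∈ S.Z p x y) (hq : q ∈ S.Q y) : Commute q z :=
  hz.2.1 q (h.c.QP' (S.symm hA) hq)

theorem exPt [Nonempty V] (k : ℕ) (k1 : 1 ≤ k) (hk : 2 * k < S.n)
    (key : ∀ v, S.Apt v → ∀ g : G, g ∈ S.Fb k (v 1) → g ∈ S.Fb k (v (k + 1)) →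
      (∀ q ∈ S.Q (v (k + 1)), q * g = g * q) → g ∈ S.Fb (k + 1) (v 2)) : ∃ x, S.Pt (k + 1) x := by
  by_contra no
  have a : ∀ v, S.Apt v → ∀ z ∈ S.Z p (v 0) (v 1), z • v (k + 2) = v (k + 2) → z = 1 := fun v hv z hz e => by
    have hA := h.a.adj hv 0 1 (by omega)
    by_contra z1
    exact no ⟨_, h.c.PtOf (h.c.ZQ hA hz).2 (h.b.up hv k (by omega) hz.2.1 (zb h hA hz hk).1
      (h.b.Pfix' hA hz.1) e) z1⟩
  obtain ⟨x⟩ := ‹Nonempty V›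
  obtain ⟨y, hy, -⟩ := S.thick x x x
  obtain ⟨v, hv, -⟩ := h.a.path1 hy
  have A1 := h.a.adj hv 0 1 (by omega)
  have A2 := h.a.adj hv (k + 2) (k + 1) (by omega)
  obtain ⟨z, hz, z1⟩ := h.c.Zne A1
  obtain ⟨w, hw, w1⟩ := h.c.Zne A2
  have w2 : w • v 1 = v 1 := h.b.fbAptFix hv (zb h A2 hw hk).2 1 (by omega) (by omega)
  have z2 : z⁻¹ • v (k + 1) = v (k + 1) :=
    h.b.fbAptFix hv (inv_mem (zb h A1 hz hk).2) _ (by omega) (by omega)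
  have w3 : w • v 0 ≠ v 0 := fun e => w1 (a _ (h.a.rev hv (k + 2)) w
    (by rw [sub_zero, show (k : ℤ) + 2 - 1 = k + 1 by ring]; exact hw) (by rw [sub_self]; exact e))
  have hz' := h.c.Zconj w A1 hz
  have A1' := S.inv w A1
  have hw' := h.c.Zconj z⁻¹ A2 hw
  have A2' := S.inv z⁻¹ A2
  rw [w2] at hz' A1'
  rw [z2] at hw' A2'
  have e : z⁻¹ * (w * z * w⁻¹) = z⁻¹ * w * z⁻¹⁻¹ * w⁻¹ := by group
  have g1 := key v hv (z⁻¹ * (w * z * w⁻¹)) (mul_mem (inv_mem (zb h A1 hz hk).2) (zb h A1' hz' hk).2)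
    (e ▸ mul_mem (zb h A2' hw' hk).2 (inv_mem (zb h A2 hw hk).2))
    fun q hq => e ▸ ((zq h A2' hw' hq).mul_right (zq h A2 hw hq).inv_right).eq
  have A3 := h.a.adj hv 1 2 (by omega)
  have g2 : z⁻¹ * (w * z * w⁻¹) = 1 := by
    by_contra g3
    exact no ⟨_, h.c.PtOf (h.c.memQ (S.symm A3) (h.c.QP' A3 (mul_mem (inv_mem (h.c.ZQ A1 hz).2) (h.c.ZQ A1' hz').2))
      (h.b.fbMono (by omega) g1)) g1 g3⟩
  obtain ⟨u, hu, u0, u1, u2⟩ := h.a.path2 A1 (S.symm A1') w3.symm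
  have g3 := (zb h A1' hz' hk).1
  rw [← inv_mul_eq_one.1 g2, ← u2] at g3
  exact z1 (a u hu z (by rw [u0, u1]; exact hz) (h.b.fbAptFix hu g3 _ (by omega) (by omega)))

variable (hn : S.n = 6)
include hn

theorem br {v : ℤ → V} (hv : S.Apt v) {z w : G} (hz : z ∈ S.E0 p 3 (v 0) (v 1)) (hw : w ∈ S.E0 p 3 (v 4) (v 3)) :
    z⁻¹ * w * z * w⁻¹ ∈ S.E0 p 3 (v 2) (v 1) ∧ z⁻¹ * w * z * w⁻¹ ∈ S.E0 p 3 (v 2) (v 3) := by
  have d := h.d 3 hn
  have z1 := d.leT (h.a.adj hv 1 0 (by omega)) hz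
  have w1 := d.leT (h.a.adj hv 3 4 (by omega)) hw
  have z2 := d.Tconj w z1
  have w2 := d.Tconj z⁻¹ w1
  rw [h.b.fbAptFix hv hw.2 1 (by omega) (by omega)] at z2
  rw [h.b.fbAptFix hv (inv_mem (Subgroup.mem_inf.1 hz).2) 3 (by omega) (by omega), inv_inv] at w2
  have g1 : z⁻¹ * w * z * w⁻¹ ∈ S.T p 3 (v 1) := by simpa only [mul_assoc] using mul_mem (inv_mem z1) z2
  have g2 : z⁻¹ * w * z * w⁻¹ ∈ S.T p 3 (v 3) := mul_mem w2 (inv_mem w1)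
  have g3 := h.c.spread (k := 2) (h.a.adj hv 3 2 (by omega)) (h.a.adj hv 2 1 (by omega))
    (h.a.ne hv 1 3 (by omega) (by omega) (by omega)) (fun q hq => d.Tcomm g2 hq) (d.TFb g2) (d.TFb g1)
  exact ⟨d.TE (h.a.adj hv 1 2 (by omega)) g1 g3, d.TE (h.a.adj hv 3 2 (by omega)) g2 g3⟩

theorem surj {v : ℤ → V} (hv : S.Apt v) {z : G} (hz : z ∈ S.E0 p 3 (v 0) (v 1)) (z1 : z ≠ 1) :
    ∀ e ∈ S.E0 p 3 (v 2) (v 1), ∃ w ∈ S.E0 p 3 (v 4) (v 3), z⁻¹ * w * z * w⁻¹ = e := by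
  have d := h.d 3 hn
  refine onto (fun w => z⁻¹ * w * z * w⁻¹) (fun w hw => (br h hn hv hz hw).1) (fun w hw w' hw' e => ?_)
    ((h.c.E0card (h.a.adj hv 4 3 (by omega)) (h.a.adj hv 2 3 (by omega))).trans
      (h.c.E0card' (h.a.adj hv 2 3 (by omega)) (h.a.adj hv 2 1 (by omega))))
  have e1 : w * z * w⁻¹ = w' * z * w'⁻¹ := mul_left_cancel (a := z⁻¹) (by simpa only [mul_assoc] using e)
  have e2 : w • v 0 = w' • v 0 := by
    by_contra e3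
    exact z1 (by simpa using d.disj e3 (h.b.fbConj w hz.2) (e1 ▸ h.b.fbConj w' hz.2))
  have e3 := d.semi' hv 4 (mul_mem (inv_mem (Subgroup.mem_inf.1 hw').2) hw.2)
    (by rw [show (4 : ℤ) - (3 : ℕ) - 1 = 0 by norm_num, mul_smul, e2, inv_smul_smul])
  exact (inv_mul_eq_one.1 e3).symm

theorem ind {w l l' : V} (h1 : S.A w l) (h2 : S.A w l') : S.E0 p 3 w l ≤ S.E0 p 3 w l' := fun e he => by
  rcases eq_or_ne l l' with rfl | ll
  · exact he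
  rcases eq_or_ne e 1 with rfl | e1
  · exact one_mem _
  obtain ⟨x, hx, x1, -⟩ := S.thick l w w
  obtain ⟨v, hv, rfl, rfl, rfl, rfl⟩ := h.a.path3 (S.symm hx) (S.symm h1) h2 x1 ll
  obtain ⟨z, hz, z1⟩ := h.c.E0ne (S.symm hx) (h.c.PtTwo h1 hx (h.c.PtOf (h.c.ZQ h1 he.1).1 he.2 e1))
  obtain ⟨y, hy, rfl⟩ := surj h hn hv hz z1 e he
  exact (br h hn hv hz hy).2

theorem uc {l x x' : V} {z e : G} (h1 : S.A l x) (h2 : S.A l x') (hz : z ∈ S.E0 p 3 x l) (he : e ∈ S.E0 p 3 x' l) :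
    ∃ y, S.A l y ∧ z * e ∈ S.E0 p 3 y l := by
  rcases eq_or_ne x x' with rfl | xx
  · exact ⟨x, h1, mul_mem hz he⟩
  rcases eq_or_ne z 1 with rfl | z1
  · exact ⟨x', h2, by rwa [one_mul]⟩
  obtain ⟨v, hv, rfl, rfl, rfl⟩ := h.a.path2 (S.symm h1) h2 xx
  obtain ⟨w, hw, rfl⟩ := surj h hn hv hz z1 e he
  have e1 := h.c.E0conj w (S.symm h1) hz
  have e2 := S.inv w h1
  rw [h.b.fbAptFix hv hw.2 1 (by omega) (by omega)] at e1 e2
  exact ⟨_, e2, by simpa [mul_assoc] using e1⟩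

theorem nat {l w w' w'' : V} {z : G} (h1 : S.A l w) (h2 : S.A l w') (h3 : S.A l w'') (ww : w ≠ w')
    (hz : z ∈ S.E0 p 3 w'' l) : ∃ e ∈ S.E0 p 3 w l, ∃ e' ∈ S.E0 p 3 w' l, z = e * e' := by
  have d := h.d 3 hn
  obtain ⟨v, hv, rfl, rfl, rfl⟩ := h.a.path2 (S.symm h2) h1 ww.symm
  obtain ⟨e, he, e1⟩ := d.test hv 1 (d.leT h3 hz)
  rw [show (1 : ℤ) + 1 = 2 by norm_num] at he
  rw [show (1 : ℤ) + 1 - (3 : ℕ) = -1 by norm_num] at e1
  obtain ⟨y, hy, e2⟩ := uc h hn h3 h1 hz (inv_mem he)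
  refine ⟨e, he, z * e⁻¹, ?_, by rw [← d.Tcomm (d.leT h1 he) (d.TQ (d.leT hy e2)), inv_mul_cancel_right]⟩
  rcases eq_or_ne y (v 0) with rfl | y1
  · exact e2
  obtain ⟨u, hu, u1, u2⟩ := h.a.snoc hv 1 y hy (by rw [sub_self]; exact y1)
  rw [d.semi' hu (1 + 1) (e := z * e⁻¹) (u1 ▸ e2.2) (by
    rw [u2 _ (by omega) (by omega)]
    exact h.b.fbAptFix hv (h.c.QFb e1) _ (by omega) (by omega))]
  exact one_mem _

end Hexx

open Hexx

theorem exPt6 (h : Ctx S p) (hn : S.n = 6) [Nonempty V] : ∃ x, S.Pt 3 x :=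
  exPt h 2 (by omega) (by omega) fun v hv g g1 g2 c =>
    h.c.spread (h.a.adj hv _ 2 (by omega)) (h.a.adj hv 2 1 (by omega))
      (h.a.ne hv 1 _ (by omega) (by omega) (by omega)) c g2 g1

theorem exPt8 (h : Ctx S p) (hn : S.n = 8) [Nonempty V] : ∃ x, S.Pt 4 x :=
  exPt h 3 (by omega) (by omega) fun v hv g g1 g2 c => h.b.fbS.2 fun y hy => by
    rw [show ((3 : ℕ) : ℤ) + 1 = 4 by norm_num] at g2 c
    rcases eq_or_ne y (v 3) with rfl | y1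
    · exact h.c.spread (h.a.adj hv 4 3 (by omega)) (h.a.adj hv 3 2 (by omega))
        (h.a.ne hv 2 4 (by omega) (by omega) (by omega)) c (h.b.fbMono (by omega) g2)
        (h.b.fbS.1 g1 _ (h.a.adj hv 1 2 (by omega)))
    obtain ⟨u, hu, u1, u2⟩ := h.a.cons hv 2 y hy y1
    obtain ⟨q, hq, e⟩ := h.c.tent' hv hu 4 2 (by omega) (u2 _ (by omega) (by omega)).symm
      (u2 _ (by omega) (by omega)).symm
    have := h.b.fbComm (c q hq) g1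
    rwa [e 1 (by omega) (by omega), show u 1 = y from u1] at this

theorem hex (h : Ctx S p) (hn : S.n = 6) : Hex S p where
  ind h1 h2 := le_antisymm (ind h hn h1 h2) (ind h hn h2 h1)
  br hv _ hz _ hw := (br h hn hv hz hw).1
  nat _ h1 h2 h3 ww hz := nat h hn h1 h2 h3 ww hz
  tr := fun {v} hv hp y hy y1 => by
    have d := h.d 3 hn
    obtain ⟨g, hg, g1⟩ := h.c.E0ne (S.symm hy) (h.c.PtTwo (h.a.adj hv 2 3 (by omega)) hy
      (h.c.PtTwo (h.a.adj hv 0 1 (by omega)) (h.a.adj hv 1 2 (by omega)) hp))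
    obtain ⟨z, hz, f, hf, rfl⟩ := nat h hn (h.a.adj hv 3 4 (by omega)) (h.a.adj hv 3 2 (by omega)) hy
      (h.a.ne hv 4 2 (by omega) (by omega) (by omega)) hg
    have z1 : z ≠ 1 := fun e => g1 (d.disj y1 hg.2 (by rw [e, one_mul]; exact hf.2))
    obtain ⟨e, he, rfl⟩ := surj h hn (h.a.rev hv 4) hz z1 f hf
    refine ⟨e, he, ?_⟩
    by_contra e1
    exact g1 (d.disj e1 (by simpa [mul_assoc] using h.b.fbConj e hz.2) hg.2)
  reg := fun {w l} hp hl x x' u h1 h2 xx hu e => h.b.fb1.2 fun y hy => by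
    obtain ⟨g, hg, g1⟩ := h.c.E0ne (S.symm hy) (h.c.PtTwo hl hy hp)
    obtain ⟨z, hz, f, hf, rfl⟩ := nat h hn h1 h2 hy xx hg
    rw [S.Psymm h1] at hu
    have hu' := h.pg.next (S.symm h1) h2 hu e
    rw [S.Psymm h2] at hu'
    have c : Commute u (z * f) := Commute.mul_right (hz.1.2.1 u hu) (hf.1.2.1 u hu')
    by_contra e1
    exact g1 ((h.d 3 hn).disj e1 (h.b.fbComm c hg.2) hg.2)

end CL.Spl
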