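/-
Project SPL: hexagons in characteristic two, regularity at the centres of central elations.
-/
import Cfsg.Agent.Spl.Defs
import Cfsg.Agent.Even.Amb2

set_option autoImplicit false
set_option linter.unusedSectionVars false
open Cfsg MulAction Subgroup CL.Even
open scoped commutatorElement

namespace CL.Spl

universe u

variable {G V : Type u} [Group G] [Finite G] [MulAction G V] [Finite V] {S : GS G V}

/-- the group generated by the `T l`, `l` adjacent to `x` -/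
def heQ (S : GS G V) (x : V) : Subgroup G := ⨆ (l : V) (_ : S.A x l), S.T 2 3 l

theorem he_T {x l : V} (a : S.A x l) : S.T 2 3 l ≤ heQ S x :=
  le_iSup₂_of_le (f := fun (l : V) (_ : S.A x l) => S.T 2 3 l) l a le_rfl

theorem he_ind {x : V} {M : Subgroup G} (k : ∀ l y, S.A x l → S.A l y → S.E0 2 3 y l ≤ M) : heQ S x ≤ M :=
  iSup₂_le fun l a => iSup₂_le fun y a' => k l y a a'

section

variable (h : Ctx S 2) (hn : S.n = 6)
include h hn

theorem he_conj (g : G) {x : V} {u : G} (hu : u ∈ heQ S x) : g * u * g⁻¹ ∈ heQ S (g • x) :=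
  (iSup₂_le fun _ a _ ht => he_T (S.inv g a) ((h.d 3 hn).Tconj g ht) :
    heQ S x ≤ (heQ S (g • x)).comap (MulAut.conj g).toMonoidHom) hu

theorem he_cent (x : V) : heQ S x ≤ 𝒞(S.Q x ⊓ S.Fb 3 x) :=
  iSup₂_le fun l a _ ht e he => (h.d 3 hn).Tcomm ht (h.c.memQ (S.symm a) (h.c.QP' a he.1)
    (h.b.fbMono (by norm_num) (h.b.fbS.1 he.2 l a)))

theorem he_E {x l : V} (a : S.A x l) : S.E0 2 3 x l ≤ S.Q x ⊓ S.Fb 3 x := fun _ he => ⟨(h.c.ZQ a he.1).1, he.2⟩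

variable (hx : Hex S 2)
include hx

theorem he_gen {x l y l' y' : V} (a : S.A x l) (b : S.A l y) (a' : S.A x l') (b' : S.A l' y') {s s' : G}
    (hs : s ∈ S.E0 2 3 y l) (hs' : s' ∈ S.E0 2 3 y' l') : ⁅s, s'⁆ ∈ S.Q x ⊓ S.Fb 3 x := by
  have d := h.d 3 hn
  have one : s * s' = s' * s → ⁅s, s'⁆ ∈ S.Q x ⊓ S.Fb 3 x := fun e => by
    rw [commutatorElement_eq_one_iff_mul_comm.2 e]; exact one_mem _
  by_cases e1 : l = l'
  · subst e1
    exact one (d.Tcomm (d.leT b' hs') (d.TQ (d.leT b hs)))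
  by_cases e2 : y = x
  · subst e2
    exact one (he_cent h hn y (he_T a' (d.leT b' hs')) s (he_E h hn a hs))
  by_cases e3 : y' = x
  · subst e3
    exact one (he_cent h hn y' (he_T a (d.leT b hs)) s' (he_E h hn a' hs')).symm
  obtain ⟨v, hv, rfl, rfl, rfl, rfl⟩ := h.a.path3 (S.symm b) (S.symm a) a' e2 e1
  obtain ⟨w, hw, w4, wi⟩ := h.a.snoc hv 3 y' b' e3
  rw [hn] at wi
  have := hx.br hw s⁻¹ (by rw [wi 0 (by omega) (by omega), wi 1 (by omega) (by omega)]; exact inv_mem hs) s'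
    (by rw [wi 3 (by omega) (by omega), show w 4 = y' from w4]; exact hs')
  rw [wi 2 (by omega) (by omega), wi 1 (by omega) (by omega), inv_inv] at this
  exact he_E h hn a this

theorem he_cmt {x : V} {s s' : G} (hs : s ∈ heQ S x) (hs' : s' ∈ heQ S x) : ⁅s, s'⁆ ∈ S.Q x ⊓ S.Fb 3 x := by
  have n : ∀ l y, S.A x l → S.A l y → ∀ t ∈ S.E0 2 3 y l, t ∈ 𝒩(S.Q x ⊓ S.Fb 3 x) := fun l y a b t ht =>
    cent_le_norm _ (he_cent h hn x (he_T a ((h.d 3 hn).leT b ht)))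
  have k : heQ S x ≤ cmod (heQ S x) (S.Q x ⊓ S.Fb 3 x) := he_ind fun l y a b t ht => mem_cmod.2 ⟨n l y a b t ht,
    fun v hv => by
      have k1 : heQ S x ≤ cmod (S.E0 2 3 y l) (S.Q x ⊓ S.Fb 3 x) := he_ind fun l' y' a' b' t' ht' =>
        mem_cmod.2 ⟨n l' y' a' b' t' ht', fun r hr => he_gen h hn hx a b a' b' hr ht'⟩
      rw [← commutatorElement_inv]
      exact inv_mem ((mem_cmod.1 (k1 hv)).2 t ht)⟩
  exact (mem_cmod.1 (k hs')).2 s hs

theorem he_sq {x : V} {s : G} (hs : s ∈ heQ S x) : s * s ∈ S.Q x ⊓ S.Fb 3 x := by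
  let M : Subgroup G :=
    { carrier := {a | a ∈ heQ S x ∧ a * a ∈ S.Q x ⊓ S.Fb 3 x}
      one_mem' := ⟨one_mem _, by rw [mul_one]; exact one_mem _⟩
      mul_mem' := fun {a b} ha hb => ⟨mul_mem ha.1 hb.1, by
        rw [show a * b * (a * b) = a * a * ⁅a⁻¹, b⁆ * (b * b) by simp only [commutatorElement_def]; group]
        exact mul_mem (mul_mem ha.2 (he_cmt h hn hx (inv_mem ha.1) hb.1)) hb.2⟩
      inv_mem' := fun {a} ha => ⟨inv_mem ha.1, by rw [← mul_inv_rev]; exact inv_mem ha.2⟩ }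
  have k : heQ S x ≤ M := iSup₂_le fun l a t ht => ⟨he_T a ht, by
    rw [← pow_two, (h.d 3 hn).Tpow ht]; exact one_mem _⟩
  exact (k hs).2

theorem he_trans {v : ℤ → V} (hv : S.Apt v) (hw : S.Pt 3 (v 0)) {y : V} (ay : S.A (v 0) y) (ny : y ≠ v 1) :
    ∃ g ∈ heQ S (v 2) ⊓ S.Q (v 1), g • v (-1) = y := by
  have d := h.d 3 hn
  have adj := h.a.adj hv
  have p4 : S.Pt 3 (v 4) := h.c.PtTwo (adj 2 3 (.inl rfl)) (adj 3 4 (.inl rfl))
    (h.c.PtTwo (adj 0 1 (.inl rfl)) (adj 1 2 (.inl rfl)) hw)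
  obtain ⟨z, hz, z1⟩ := h.c.E0ne (adj 4 3 (.inr rfl)) p4
  have f1 : z • v 1 = v 1 := h.b.fbAptFix hv hz.2 1 (by norm_num) (by norm_num)
  have f1' : z⁻¹ • v 1 = v 1 := inv_smul_eq_iff.2 f1.symm
  have n0 : z⁻¹ • v 0 ≠ v 0 := fun e => z1 (d.semi' hv 4 hz.2 (inv_smul_eq_iff.1 e).symm)
  have a1 : S.A (v 1) (z⁻¹ • v 0) := f1' ▸ S.inv z⁻¹ (adj 1 0 (.inr rfl))
  obtain ⟨w, hw', w2, wi⟩ := h.a.snoc hv 1 _ a1 n0
  replace w2 : w 2 = z⁻¹ • v 0 := w2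
  rw [hn] at wi
  have ext : ∀ y, S.A (v 0) y → y ≠ v 1 → ∃ e, S.Apt e ∧ e 3 = z⁻¹ • y ∧ e 2 = z⁻¹ • v 0 ∧
      ∀ i, -1 ≤ i → i ≤ 1 → e i = v i := fun y ay ny => by
    obtain ⟨e, he, e3, ei⟩ := h.a.snoc hw' 2 (z⁻¹ • y) (w2 ▸ S.inv z⁻¹ ay) (by
      rw [show w (2 - 1) = v 1 from wi 1 (by omega) (by omega), ← f1']
      exact fun k => ny (smul_left_cancel _ k))
    rw [hn] at ei
    exact ⟨e, he, e3, (ei 2 (by omega) (by omega)).trans w2,
      fun i i1 i2 => (ei i (by omega) (by omega)).trans (wi i (by omega) (by omega))⟩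
  obtain ⟨e, he, e3, e2, ei⟩ := ext (v (-1)) (adj 0 (-1) (.inr rfl)) (hv.nb (-1))
  obtain ⟨e', he', e3', e2', ei'⟩ := ext y ay ny
  obtain ⟨u, hu, ue⟩ := h.b.trans he he' 0 (by rw [ei 0 (by omega) (by omega), ei' 0 (by omega) (by omega)])
    (by rw [zero_add, ei 1 (by omega) (by omega), ei' 1 (by omega) (by omega)])
  rw [zero_add, ei 0 (by omega) (by omega), ei 1 (by omega) (by omega), S.Psymm (adj 0 1 (.inl rfl))] at hu
  have u2 := ue 2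
  have u3 := ue 3
  have um := ue (-1)
  rw [e2, e2'] at u2
  rw [e3, e3'] at u3
  rw [ei (-1) (by omega) (by omega), ei' (-1) (by omega) (by omega)] at um
  have uF := hx.reg hw (adj 0 1 (.inl rfl)) _ _ u (adj 1 0 (.inr rfl)) a1 n0.symm hu u2
  have uQ := h.c.memQ (adj 1 0 (.inr rfl)) hu uF
  have zQ : z ∈ heQ S (v 2) := he_T (adj 2 3 (.inl rfl)) (d.leT (adj 3 4 (.inl rfl)) hz)
  have m1 := he_conj h hn u (inv_mem zQ)
  have m2 := h.c.Qconj z uQ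
  rw [h.b.fb1.1 uF _ (adj 1 2 (.inl rfl))] at m1
  rw [f1] at m2
  refine ⟨z * u * z⁻¹ * u⁻¹, ⟨?_, (S.Q _).mul_mem m2 ((S.Q _).inv_mem uQ)⟩, ?_⟩
  · simpa [mul_assoc] using mul_mem zQ m1
  · rw [mul_smul, mul_smul, mul_smul, inv_smul_eq_iff.2 um.symm, u3, smul_inv_smul]

end

theorem hexEven (hT : LemTR.{u}) (h : Ctx S 2) (hn : S.n = 6) (hx : Hex S 2) {w : V} (hw : S.Pt 3 w) : S.Reg w := by
  intro a b r ha hb ab hr rb
  choose χ c1 c2 _ using fun l => S.thick l w w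
  have inv : ∀ g ∈ stabilizer G w, ∀ l, S.A w l → S.A w (g • l) := fun g hg l hl => by
    have := S.inv g hl
    rwa [show g • w = w from hg] at this
  have le : ∀ l, S.A w l → S.Q l ≤ stabilizer G w := fun l hl u hu => h.b.fb1.1 (h.c.QFb hu) w (S.symm hl)
  have fix : ∀ l, S.A w l → ∀ e ∈ S.Q (χ l) ⊓ S.Fb 3 (χ l), ∀ x, S.A w x → e • x = x := fun l hl e he x =>
    h.b.fb1.1 (h.b.fbS.1 (h.b.fbS.1 he.2 l (S.symm (c1 l))) w (S.symm hl)) x
  refine h.b.fb1.2 (hT G V (stabilizer G w) {l | S.A w l} (fun l => heQ S (χ l) ⊓ S.Q l) inv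
    (fun l hl => inf_le_right.trans (le l hl)) (fun l _ u hu => h.b.fbFix (h.c.QFb hu.2))
    (fun l hl x hx' y hy nx ny => ?_) (fun l hl u hu u' hu' x hx' => ?_) (fun l hl u hu x hx' => ?_)
    (fun g hg l hl u hu => ?_) a ha b hb ab (S.P w a ⊓ stabilizer G b) ((h.pg.pg ha).to_le inf_le_left)
    (fun s hs => S.Pfix ha hs.1) (fun s hs => ⟨h.b.Pfix' ha hs.1, hs.2⟩) (fun g hg ga gb s hs => ⟨?_, ?_⟩) r ⟨hr, rb⟩)
  · obtain ⟨v, hv, v0, v1, v2⟩ := h.a.path2 hl (c1 l) (c2 l).symm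
    obtain ⟨g, hg, e⟩ := he_trans h hn hx hv (v0 ▸ hw) (y := x) (v0 ▸ hx') (v1 ▸ nx)
    obtain ⟨g', hg', e'⟩ := he_trans h hn hx hv (v0 ▸ hw) (y := y) (v0 ▸ hy) (v1 ▸ ny)
    rw [v1, v2] at hg hg'
    exact ⟨g' * g⁻¹, mul_mem hg' (inv_mem hg), by rw [← e, mul_smul, inv_smul_smul, e']⟩
  · conv_rhs => rw [← fix l hl _ (he_cmt h hn hx (inv_mem hu.1) (inv_mem hu'.1)) x hx']
    simp only [← mul_smul, commutatorElement_def]
    congr 1; group
  · rw [← mul_smul]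
    exact fix l hl _ (he_sq h hn hx hu.1) x hx'
  · have gw : g • w = w := hg
    obtain ⟨q, hq, e⟩ := h.c.tent1 (inv g hg l hl) (S.inv g (c1 l)) (c1 (g • l))
      (fun k => c2 l (smul_left_cancel g (k.trans gw.symm))) (c2 _)
    have qf := h.b.fb1.1 (h.c.QFb hq)
    have m1 := he_conj h hn (q * g) hu.1
    have m2 := h.c.Qconj (q * g) hu.2
    rw [mul_smul, e] at m1
    rw [mul_smul, qf _ (inv g hg l hl)] at m2
    refine ⟨_, ⟨m1, m2⟩, fun x hx' => ?_⟩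
    rw [show q * g * u * (q * g)⁻¹ = q * (g * u * g⁻¹ * q⁻¹) by group, mul_smul q, mul_smul _ q⁻¹,
      inv_smul_eq_iff.2 (qf x hx').symm,
      qf _ (inv _ (mul_mem (mul_mem hg (le l hl hu.2)) (inv_mem hg)) x hx')]
  · have := S.Pconj g ha hs.1
    rwa [show g • w = w from hg, ga] at this
  · change (g * s * g⁻¹) • b = b
    rw [mul_smul, mul_smul, inv_smul_eq_iff.2 gb.symm, show s • b = b from hs.2, gb]

end CL.Spl
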