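/-
Project SPL: Higman's inequality for octagons.
-/
import Cfsg.Agent.Spl.Defs

set_option autoImplicit false
open Cfsg MulAction Finset

namespace CL.Spl

universe u

namespace HG

theorem cube {ι κ : Type*} [Fintype κ] (X : Finset ι) (M : ι → κ → ℝ) :
    0 ≤ ∑ a ∈ X, ∑ b ∈ X, (∑ c, M a c * M b c) ^ 3 := by
  have h : ∀ a b, (∑ c, M a c * M b c) ^ 3 = ∑ p : κ × κ × κ,
      (M a p.1 * M a p.2.1 * M a p.2.2) * (M b p.1 * M b p.2.1 * M b p.2.2) := fun a b => by
    simp only [pow_three, Fintype.sum_prod_type, sum_mul_sum, mul_sum, sum_mul]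
    exact sum_congr rfl fun _ _ => sum_congr rfl fun _ _ => sum_congr rfl fun _ _ => by ring
  simp only [h]
  rw [sum_congr rfl fun a _ => sum_comm, sum_comm]
  exact sum_nonneg fun p _ => by rw [← sum_mul_sum]; exact mul_self_nonneg _

variable {G V : Type u} [Group G] [MulAction G V] {S : GS G V} (ha : ApiA S.toGon)

/-- the distance -/
noncomputable def δ (a b : V) : ℕ := (ha.conn a b).choose_spec.choose.toNat

theorem δ_spec (a b : V) : δ ha a b ≤ S.n ∧ ∃ v, S.Apt v ∧ v 0 = a ∧ v (δ ha a b) = b := by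
  obtain ⟨h1, h2, h3, h4, h5⟩ := (ha.conn a b).choose_spec.choose_spec
  refine ⟨by unfold δ; omega, _, h1, h4, ?_⟩
  rw [δ, Int.toNat_of_nonneg h2, h5]

theorem δ_eq {v : ℤ → V} (hv : S.Apt v) {j : ℕ} (hj : j ≤ S.n) {a b : V} (h0 : v 0 = a) (h1 : v j = b) :
    δ ha a b = j := by
  obtain ⟨h2, w, hw, h3, h4⟩ := δ_spec ha a b
  by_cases e : δ ha a b + j < 2 * S.n
  · exact_mod_cast ha.len hw hv _ j (by omega) (by omega) (by omega) (h3.trans h0.symm) (h4.trans h1.symm)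
  · omega

theorem δ_symm (a b : V) : δ ha b a = δ ha a b := by
  obtain ⟨h2, w, hw, h3, h4⟩ := δ_spec ha a b
  exact δ_eq ha (ha.rev hw (δ ha a b)) h2 (by simpa) (by simpa)

theorem δ_one {a b : V} (h : S.A a b) : δ ha a b = 1 :=
  let ⟨_, hv, h1, h2⟩ := ha.path1 h; δ_eq ha hv (by have := S.three; omega) h1 h2

theorem δ_self (a : V) : δ ha a a = 0 := by
  obtain ⟨b, h, -⟩ := S.thick a a a
  obtain ⟨v, hv, h1, -⟩ := ha.path1 h
  exact δ_eq ha hv (by omega) h1 h1

theorem δ_zero {a b : V} (h : δ ha a b = 0) : a = b := by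
  obtain ⟨-, w, -, h3, h4⟩ := δ_spec ha a b
  rw [← h3, ← h4, h, Nat.cast_zero]

theorem δ_pred {a b : V} {j : ℕ} (h : δ ha a b = j + 1) : ∃ m, S.A m b ∧ δ ha a m = j := by
  obtain ⟨h2, w, hw, h3, h4⟩ := δ_spec ha a b
  exact ⟨w j, h4 ▸ ha.adj hw _ _ (by omega), δ_eq ha hw (by omega) h3 rfl⟩

include ha in
theorem ind {P : V → Prop} {a : V} (h0 : P a) (h : ∀ b c, S.A b c → P b → P c) (c : V) : P c := by
  obtain ⟨-, w, hw, rfl, h4⟩ := δ_spec ha a c
  rw [← h4]
  induction δ ha (w 0) c with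
  | zero => exact h0
  | succ j ih => exact h _ _ (hw.adj j) ih

variable (hb : ApiB S)
include hb

theorem δ_smul (g : G) (a b : V) : δ ha (g • a) (g • b) = δ ha a b := by
  obtain ⟨h2, w, hw, h3, h4⟩ := δ_spec ha a b
  exact δ_eq ha (hb.smul hw g) h2 (by rw [h3]) (by rw [h4])

theorem nbr {a m : V} {j : ℕ} (h : δ ha a m = j + 1) (hj : j + 1 < S.n) : ∃ p, S.A m p ∧ δ ha a p = j ∧
    (∀ c, S.A m c → c ≠ p → δ ha a c = j + 2) ∧
      ∀ c c', S.A m c → S.A m c' → c ≠ p → c' ≠ p → ∃ g : G, g • a = a ∧ g • c = c' := by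
  obtain ⟨-, w, hw, rfl, h4⟩ := δ_spec ha a m
  rw [h] at h4
  subst h4
  have e : ((j + 1 : ℕ) : ℤ) - 1 = j := by omega
  refine ⟨w j, ha.adj hw _ _ (by omega), δ_eq ha hw (by omega) rfl rfl, fun c h1 h2 => ?_, fun c c' h1 h2 h3 h4 => ?_⟩
  · obtain ⟨v, hv, h5, h6⟩ := ha.snoc hw _ c h1 (e ▸ h2)
    exact δ_eq ha hv (by omega) (h6 0 (by omega) (by omega)) h5
  · obtain ⟨u, -, u1, rfl⟩ := hb.move hw 0 _ c (by omega) (by omega) h1 (e ▸ h3)
    obtain ⟨u', -, u2, rfl⟩ := hb.move hw 0 _ c' (by omega) (by omega) h2 (e ▸ h4)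
    exact ⟨u' * u⁻¹, by rw [mul_smul, inv_smul_eq_iff.2 (u1 0 (by omega) (by omega)).symm, u2 0 (by omega) (by omega)],
      by rw [mul_smul, inv_smul_smul]⟩

theorem δ_adj (a : V) {b c : V} (h : S.A b c) : δ ha a c = δ ha a b + 1 ∨ δ ha a b = δ ha a c + 1 := by
  rcases e : δ ha a b with _ | j
  · rw [δ_zero ha e, δ_one ha h]
    exact Or.inl rfl
  by_cases hj : j + 1 < S.n
  · obtain ⟨p, -, h1, h2, -⟩ := nbr ha hb e hj
    by_cases e' : c = p
    · rw [e', h1]; exact Or.inr rfl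
    · exact Or.inl (h2 c h e')
  obtain ⟨h2, w, hw, rfl, h4⟩ := δ_spec ha a b
  rw [e] at h2 h4
  subst h4
  refine Or.inr (congrArg (· + 1) (Eq.symm ?_))
  by_cases e' : c = w (((j + 1 : ℕ) : ℤ) - 1)
  · exact δ_eq ha hw (by omega) rfl (by rw [e']; congr 1; omega)
  · obtain ⟨v, hv, h5, h6⟩ := ha.snoc hw _ c h e'
    exact δ_eq ha (ha.rev hv 0) (by omega) (h6 0 (by omega) (by omega)) (by rw [← h5, ← hv.per]; congr 1; omega)

theorem par (a x c : V) : (δ ha a c + δ ha x c) % 2 = δ ha x a % 2 :=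
  ind ha (P := fun c => (δ ha a c + δ ha x c) % 2 = δ ha x a % 2) (a := a) (by rw [δ_self, zero_add])
    (fun b c h e => by have := δ_adj ha hb a h; have := δ_adj ha hb x h; omega) c

theorem deg {x l : V} (h : S.A x l) (c : V) : {w | S.A c w}.ncard =
    if δ ha x c % 2 = 0 then {w | S.A x w}.ncard else {w | S.A l w}.ncard := by
  refine (ind ha (P := fun c => {w | S.A c w}.ncard = (if δ ha x c % 2 = 0 then {w | S.A x w}.ncard else
    {w | S.A l w}.ncard) ∧ ∀ d, S.A c d → {w | S.A d w}.ncard = if δ ha x c % 2 = 0 then {w | S.A l w}.ncard else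
      {w | S.A x w}.ncard) (a := x) ?_ (fun b c e ⟨h1, h2⟩ => ?_) c).1
  · rw [δ_self]
    exact ⟨rfl, fun d e => hb.cardNbr (S.symm e) h⟩
  · have := δ_adj ha hb x e
    refine ⟨(h2 c e).trans ?_, fun d e' => (hb.cardNbr (S.symm e') (S.symm e)).trans (h1.trans ?_)⟩ <;>
      split_ifs <;> first | rfl | omega

variable [Fintype V]

open Classical in
/-- the neighbours -/
noncomputable def nb (S : GS G V) (m : V) : Finset V := univ.filter (S.A m)

omit hb in
theorem mem_nb {m c : V} : c ∈ nb S m ↔ S.A m c := by simp [nb]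

omit hb in
theorem card_nb (m : V) : (nb S m).card = {w | S.A m w}.ncard := by
  rw [← Set.ncard_coe_finset]; congr 1; ext; simp [mem_nb]

omit hb in
theorem swap (F : V → V → ℝ) : ∑ m, ∑ b ∈ nb S m, F m b = ∑ b, ∑ m ∈ nb S b, F m b :=
  sum_comm' fun _ _ => by simpa only [mem_univ, true_and, and_true, mem_nb] using ⟨S.symm, S.symm⟩

omit hb in
theorem split {m p : V} (h : S.A m p) {F : V → ℝ} {r : ℝ} (e : ∀ c, S.A m c → c ≠ p → F c = r) :
    ∑ c ∈ nb S m, F c = F p + (({w | S.A m w}.ncard : ℝ) - 1) * r := by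
  classical
  rw [← add_sum_erase _ _ (mem_nb.2 h), sum_congr rfl fun c hc => e c (mem_nb.1 (mem_of_mem_erase hc)) (ne_of_mem_erase hc),
    sum_const, nsmul_eq_mul, ← card_nb, ← card_erase_add_one (mem_nb.2 h)]
  push_cast
  ring

theorem loc {a m : V} {j : ℕ} (h : δ ha a m = j + 1) (hj : j + 1 < S.n) (φ : ℕ → ℝ) :
    ∑ b ∈ nb S m, φ (δ ha a b) = φ j + (({w | S.A m w}.ncard : ℝ) - 1) * φ (j + 2) := by
  obtain ⟨p, h1, h2, h3, -⟩ := nbr ha hb h hj
  rw [split h1 fun c e1 e2 => by rw [h3 c e1 e2], h2]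

/-- the number of vertices at distance `j` -/
noncomputable def N (a : V) (j : ℕ) : ℝ := ∑ b, if δ ha a b = j then 1 else 0

theorem N_one (a : V) : N ha a 1 = {w | S.A a w}.ncard := by
  classical
  rw [N, ← card_nb, sum_boole]
  congr 2
  ext b
  simp only [mem_filter, mem_univ, true_and, mem_nb]
  exact ⟨fun e => let ⟨_, h1, h2⟩ := δ_pred ha e; δ_zero ha h2 ▸ h1, δ_one ha⟩

theorem N_succ (a : V) {j : ℕ} (hj : j + 2 < S.n) {d : ℝ} (hd : ∀ b, δ ha a b = j + 1 → {w | S.A b w}.ncard - 1 = d) :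
    N ha a (j + 2) = N ha a (j + 1) * d := by
  have := swap (S := S) fun m b => (if δ ha a m = j + 2 then (1 : ℝ) else 0) * if δ ha a b = j + 1 then 1 else 0
  simp only [← mul_sum, ← sum_mul] at this
  rw [N, N, sum_mul]
  refine (sum_congr rfl fun m _ => ?_).trans (this.trans (sum_congr rfl fun b _ => ?_))
  · split_ifs with e
    · rw [loc ha hb e hj fun i => if i = j + 1 then 1 else 0]; simp
    · simp
  · split_ifs with e
    · rw [loc ha hb e (by omega) fun i => if i = j + 2 then 1 else 0, hd b e]; simp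
    · simp

/-- the weights -/
noncomputable def μ (s : ℝ) (j : ℕ) : ℝ := if j % 2 = 0 then (-s⁻¹) ^ (j / 2) else 0

omit hb in
theorem μ_even (s : ℝ) (i : ℕ) : μ s (2 * i) = (-s⁻¹) ^ i := by simp [μ]

variable (hn : S.n = 8) {x : V} {s t : ℝ} (s0 : s ≠ 0)
  (hd : ∀ c, ({w | S.A c w}.ncard : ℝ) - 1 = if δ ha x c % 2 = 0 then t else s)
include hn s0 hd

theorem cnt {a : V} (h : δ ha x a % 2 = 0) :
    (t + 1) * ∑ b, μ s (δ ha a b) ^ 3 = (t + 1) * ((1 - s⁻¹ ^ 2) * (1 - t * s⁻¹ ^ 2) * (1 + (t * s⁻¹ ^ 2) ^ 2)) := by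
  have hd' : ∀ c, ({w | S.A c w}.ncard : ℝ) - 1 = if δ ha a c % 2 = 0 then t else s := fun c => by
    have := par ha hb a x c
    rw [hd]
    split_ifs <;> first | rfl | omega
  have h1 : N ha a 1 = t + 1 := by rw [N_one ha hb, ← sub_eq_iff_eq_add, hd, if_pos h]
  have h2 := N_succ ha hb a (j := 0) (d := s) (by omega) fun b e => by rw [hd', e]; simp
  have h3 := N_succ ha hb a (j := 1) (d := t) (by omega) fun b e => by rw [hd', e]; simp
  have h4 := N_succ ha hb a (j := 2) (d := s) (by omega) fun b e => by rw [hd', e]; simp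
  have h5 := N_succ ha hb a (j := 3) (d := t) (by omega) fun b e => by rw [hd', e]; simp
  have h6 := N_succ ha hb a (j := 4) (d := s) (by omega) fun b e => by rw [hd', e]; simp
  have h7 := N_succ ha hb a (j := 5) (d := t) (by omega) fun b e => by rw [hd', e]; simp
  calc (t + 1) * ∑ b, μ s (δ ha a b) ^ 3 = ∑ b, ∑ m ∈ nb S b, μ s (δ ha a b) ^ 3 := by
        rw [mul_sum]
        refine sum_congr rfl fun b _ => ?_
        rw [sum_const, nsmul_eq_mul, card_nb, sub_eq_iff_eq_add.1 (hd' b), μ]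
        split_ifs <;> simp
    _ = ∑ m, ∑ i ∈ range 4, (if δ ha a m = 2 * i + 1 then 1 else 0) * (μ s (2 * i) ^ 3 + s * μ s (2 * (i + 1)) ^ 3) := by
        rw [← swap]
        refine sum_congr rfl fun m _ => ?_
        by_cases e : δ ha a m % 2 = 0
        · rw [sum_eq_zero fun b hb' => ?_, sum_eq_zero fun i _ => by rw [if_neg (by omega), zero_mul]]
          have := δ_adj ha hb a (mem_nb.1 hb')
          rw [μ, if_neg (by omega)]
          simp
        · have := (δ_spec ha a m).1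
          rw [loc ha hb (j := 2 * (δ ha a m / 2)) (by omega) (by omega) fun i => μ s i ^ 3, hd', if_neg e,
            sum_eq_single (δ ha a m / 2) (fun i _ hi => by rw [if_neg (by omega), zero_mul]) (by simp; omega),
            if_pos (by omega), one_mul]
          rfl
    _ = ∑ i ∈ range 4, N ha a (2 * i + 1) * (μ s (2 * i) ^ 3 + s * μ s (2 * (i + 1)) ^ 3) := by
        rw [sum_comm]
        simp only [N, sum_mul]
    _ = _ := by
        simp only [μ_even, sum_range_succ, sum_range_zero, Nat.reduceMul, Nat.reduceAdd, zero_add] at *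
        rw [h7, h6, h5, h4, h3, h2, h1]
        field_simp
        ring

theorem gram {a : V} (h : δ ha x a % 2 = 0) (i : ℕ) : ∀ b, δ ha a b = 2 * i →
    ∑ c, μ s (δ ha a c) * μ s (δ ha b c) = (∑ c, μ s (δ ha a c) * μ s (δ ha a c)) * (-s⁻¹) ^ i := by
  induction i with
  | zero => intro b e; rw [δ_zero ha e, pow_zero, mul_one]
  | succ i ih =>
    intro b e
    have h0 := (δ_spec ha a b).1
    obtain ⟨m, h1, h2⟩ := δ_pred ha (j := 2 * i + 1) e
    obtain ⟨p, h3, h4, -, h5⟩ := nbr ha hb h2 (by omega)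
    have h6 := par ha hb a x m
    have h7 := split h3 (F := fun b => ∑ c, μ s (δ ha a c) * μ s (δ ha b c))
      (r := ∑ c, μ s (δ ha a c) * μ s (δ ha b c)) fun c e1 e2 => by
        obtain ⟨g, g1, rfl⟩ := h5 b c h1 e1 (fun e' => by rw [e'] at e; omega) e2
        rw [← Equiv.sum_comp (MulAction.toPerm g)]
        refine sum_congr rfl fun c _ => ?_
        rw [toPerm_apply, δ_smul ha hb, ← δ_smul ha hb g a c, g1]
    rw [sum_comm, sum_eq_zero fun c _ => ?_, ih p h4, hd, if_neg (by omega)] at h7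
    · rw [pow_succ, ← mul_assoc, eq_neg_of_add_eq_zero_left h7.symm]
      field_simp
    rw [← mul_sum]
    by_cases e' : δ ha a c % 2 = 0
    · have h8 := par ha hb a x c
      have h9 := par ha hb c x m
      have := (δ_spec ha c m).1
      simp only [δ_symm ha c]
      rw [loc ha hb (j := 2 * (δ ha c m / 2)) (by omega) (by omega), hd, if_neg (by omega), μ_even,
        show 2 * (δ ha c m / 2) + 2 = 2 * (δ ha c m / 2 + 1) from rfl, μ_even, pow_succ]
      field_simp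
      ring
    · rw [μ, if_neg e', zero_mul]

theorem main (t0 : 0 < t + 1) (s1 : 1 < s) : t ≤ s ^ 2 := by
  classical
  set X := univ.filter fun a => δ ha x a % 2 = 0
  have hx : δ ha x x % 2 = 0 := by rw [δ_self]
  have h1 : ∀ a ∈ X, ∀ b ∈ X, ∑ c, μ s (δ ha a c) * μ s (δ ha b c) =
      (∑ c, μ s (δ ha a c) * μ s (δ ha a c)) * μ s (δ ha a b) := fun a h b h' => by
    have := par ha hb a x b
    have := (mem_filter.1 h).2
    have := (mem_filter.1 h').2
    rw [gram ha hb hn s0 hd (mem_filter.1 h).2 (δ ha a b / 2) b (by omega), μ, if_pos (by omega)]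
  set c := ∑ c, μ s (δ ha x c) * μ s (δ ha x c) with hc
  have c0 : 0 < c := sum_pos' (fun _ _ => mul_self_nonneg _) ⟨x, mem_univ x, by simp [δ_self, μ]⟩
  have h2 : ∀ a ∈ X, ∑ c, μ s (δ ha a c) * μ s (δ ha a c) = c := fun a h => by
    have e1 := h1 a h x (mem_filter.2 ⟨mem_univ x, hx⟩)
    have e2 := h1 x (mem_filter.2 ⟨mem_univ x, hx⟩) a h
    rw [sum_congr rfl fun _ _ => mul_comm _ _, e1, δ_symm] at e2
    exact mul_right_cancel₀ (by rw [μ, if_pos (mem_filter.1 h).2]; exact pow_ne_zero _ (by simpa)) e2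
  have h3 := cube X fun a c => μ s (δ ha a c)
  rw [sum_congr rfl (g := fun _ => c ^ 3 * ((1 - s⁻¹ ^ 2) * (1 - t * s⁻¹ ^ 2) * (1 + (t * s⁻¹ ^ 2) ^ 2))) fun a h => by
      rw [← mul_left_cancel₀ t0.ne' (cnt ha hb hn s0 hd (mem_filter.1 h).2), mul_sum,
        sum_congr rfl fun b h' => by rw [h1 a h b h', h2 a h, mul_pow]]
      refine sum_subset (subset_univ _) fun b _ h' => ?_
      have := par ha hb a x b
      have := (mem_filter.1 h).2
      rw [μ, if_neg fun e => h' (mem_filter.2 ⟨mem_univ b, by omega⟩)]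
      simp,
    sum_const, nsmul_eq_mul] at h3
  have h4 : (0 : ℝ) < X.card := Nat.cast_pos.2 (card_pos.2 ⟨x, mem_filter.2 ⟨mem_univ x, hx⟩⟩)
  have h5 : 0 < 1 - s⁻¹ ^ 2 := sub_pos.2 (pow_lt_one₀ (by positivity) (inv_lt_one_of_one_lt₀ s1) two_ne_zero)
  have h6 := (mul_nonneg_iff_of_pos_left h5).1 ((mul_nonneg_iff_of_pos_right (by positivity)).1
    ((mul_nonneg_iff_of_pos_left (pow_pos c0 3)).1 ((mul_nonneg_iff_of_pos_left h4).1 h3)))
  rwa [sub_nonneg, inv_pow, mul_inv_le_iff₀ (by positivity), one_mul] at h6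

end HG

variable {G V : Type u} [Group G] [Finite G] [MulAction G V] [Finite V] {S : GS G V} {p : ℕ}

theorem higman (ha : ApiA S.toGon) (hb : ApiB S) (hn : S.n = 8) {x l : V} (hxl : S.A x l) :
    {w | S.A x w}.ncard - 1 ≤ ({w | S.A l w}.ncard - 1) ^ 2 := by
  have := Fintype.ofFinite V
  obtain ⟨a, a1, a2, -⟩ := S.thick l x x
  obtain ⟨b, b1, b2, b3⟩ := S.thick l x a
  have h1 : 2 < {w | S.A l w}.ncard := (Set.two_lt_ncard).2 ⟨x, S.symm hxl, a, a1, b, b1, a2.symm, b2.symm, b3.symm⟩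
  have h2 : 0 < {w | S.A x w}.ncard := (Set.ncard_pos).2 ⟨l, hxl⟩
  have h3 : (2 : ℝ) < {w | S.A l w}.ncard := by exact_mod_cast h1
  have := HG.main ha hb hn (x := x) (s := {w | S.A l w}.ncard - 1) (t := {w | S.A x w}.ncard - 1) (by linarith)
    (fun c => by rw [HG.deg ha hb hxl]; split_ifs <;> rfl) (by simpa using h2) (by linarith)
  rw [← Nat.cast_pred h2, ← Nat.cast_pred (by omega)] at this
  exact_mod_cast this

end CL.Spl
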