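/-
Project SPL: the fixed points of a two-point stabiliser in rank one are everything or few.
-/
import Cfsg.Agent.Spl.Defs
import Cfsg.Agent.Perm.V4Count
import Cfsg.Agent.Even.Amb

set_option autoImplicit false
open Cfsg MulAction Subgroup CL.Even CL.Perm CL.Perm.V4

namespace CL.Spl

universe u

theorem ls_num {p e A : ℕ} (hp : 2 ≤ p) (h : p ^ e + 1 ∣ p ^ A + 1) : A = e ∨ 3 * e ≤ A := by
  by_contra k
  push Not at k
  obtain ⟨k1, k2⟩ := k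
  have lt : ∀ {d : ℕ}, d < e → p ^ d < p ^ e := fun hd => Nat.pow_lt_pow_right hp hd
  rcases lt_or_ge A e with h1 | h1
  · have := Nat.le_of_dvd (by omega) h
    have := lt h1
    omega
  rcases lt_or_ge A (2 * e) with h2 | h2
  · obtain ⟨d, rfl⟩ : ∃ d, A = e + d := ⟨A - e, by omega⟩
    have h3 := lt (show d < e by omega)
    have h4 : 1 < p ^ d := Nat.one_lt_pow (by omega) hp
    obtain ⟨r, hr⟩ : ∃ r, p ^ d = r + 1 := ⟨p ^ d - 1, by omega⟩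
    rw [pow_add, hr] at h
    have h5 : p ^ e + 1 ∣ p ^ e * (r + 1) + 1 + r := ⟨r + 1, by ring⟩
    have := Nat.le_of_dvd (by omega) ((Nat.dvd_add_right h).1 h5)
    omega
  · obtain ⟨d, rfl⟩ : ∃ d, A = e + e + d := ⟨A - 2 * e, by omega⟩
    have h3 := lt (show d < e by omega)
    obtain ⟨q, hq⟩ : ∃ q, p ^ e = q + 1 := ⟨p ^ e - 1, by omega⟩
    rw [pow_add, pow_add, hq, show (q + 1) * (q + 1) * p ^ d + 1 = (q + 1 + 1) * (q * p ^ d) + (p ^ d + 1) by ring] at h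
    have := Nat.le_of_dvd (by omega) ((Nat.dvd_add_right (dvd_mul_right _ _)).1 h)
    omega

variable {G X : Type u} [Group G] [MulAction G X]

theorem ls_t2 {M : Subgroup G} {P : Set X} {a b c : X} (ha : a ∈ P) (hb : b ∈ P) (hc : c ∈ P) (ab : a ≠ b)
    (ca : c ≠ a) (cb : c ≠ b) (inv : ∀ g ∈ M, ∀ x ∈ P, g • x ∈ P)
    (tr : ∀ x ∈ P, ∀ y ∈ P, ∀ y' ∈ P, y ≠ x → y' ≠ x → ∃ u ∈ M, u • x = x ∧ u • y = y') : T2On M P a b where
  inv := inv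
  ha := ha
  hb := hb
  ne := ab
  t2 := fun x hx y hy hxy => by
    obtain ⟨g, hg, e⟩ : ∃ g ∈ M, g • a = x := by
      by_cases xb : x = b
      · obtain ⟨g, hg, -, e⟩ := tr c hc a ha x hx ca.symm (xb ▸ cb.symm)
        exact ⟨g, hg, e⟩
      · obtain ⟨g, hg, -, e⟩ := tr b hb a ha x hx ab xb
        exact ⟨g, hg, e⟩
    obtain ⟨k, hk, e1, e2⟩ := tr x hx (g • b) (inv g hg b hb) y hy
      (fun e' => ab (smul_left_cancel g (e.trans e'.symm))) hxy.symm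
    exact ⟨k * g, mul_mem hk hg, by rw [mul_smul, e, e1], by rw [mul_smul, e2]⟩

theorem ls_pow [Finite G] [Finite X] {p : ℕ} (hp : p.Prime) {V : Subgroup G} (hV : IsPGroup p V) {P : Set X} {a b : X}
    (ha : a ∈ P) (h1 : ∀ u ∈ V, u • b ∈ P ∧ u • b ≠ a) (h2 : ∀ x ∈ P, x ≠ a → ∃ u ∈ V, u • b = x) :
    ∃ e, P.ncard = p ^ e + 1 := by
  have : Fact p.Prime := ⟨hp⟩
  have o : orbit V b = P \ {a} := by
    ext x
    constructor
    · rintro ⟨u, rfl⟩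
      exact h1 u u.2
    · rintro ⟨hx, xa⟩
      obtain ⟨u, hu, e⟩ := h2 x hx xa
      exact ⟨⟨u, hu⟩, e⟩
  obtain ⟨n, hn⟩ := hV.exists_card_eq
  have c := card_eq_ncard_orbit_mul V b
  rw [o, hn] at c
  obtain ⟨e, -, he⟩ := (Nat.dvd_prime_pow hp).1 (Dvd.intro _ c.symm)
  exact ⟨e, by rw [← he, Set.ncard_sdiff_singleton_add_one ha]⟩

theorem lemLS : LemLS.{u} := by
  intro G X _ _ _ _ L Ω p W h a ha b hb ab
  obtain ⟨Δ, hΔ⟩ : ∃ Δ : Set X, Δ = {x ∈ Ω | ∀ u ∈ W a, u • b = b → u • x = x} := ⟨_, rfl⟩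
  have mem : ∀ x, x ∈ Δ ↔ x ∈ Ω ∧ ∀ u ∈ W a ⊓ stabilizer G b, u • x = x := fun x => by
    rw [hΔ]; exact and_congr_right fun _ => ⟨fun k u hu => k u hu.1 hu.2, fun k u h1 h2 => k u ⟨h1, h2⟩⟩
  rw [← hΔ]
  have aΔ : a ∈ Δ := (mem a).2 ⟨ha, fun u hu => h.fix ha hu.1⟩
  have bΔ : b ∈ Δ := (mem b).2 ⟨hb, fun u hu => hu.2⟩
  have sub : Δ ⊆ Ω := fun x hx => ((mem x).1 hx).1
  obtain ⟨A, hA⟩ := ls_pow h.prime (h.pg ha) ha (b := b)
    (fun u hu => ⟨h.inv (h.le ha hu) hb, fun e => ab (smul_left_cancel u ((h.fix ha hu).trans e.symm))⟩)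
    fun x hx xa => h.trans ha hb hx ab.symm xa
  by_cases third : ∃ c ∈ Δ, c ≠ a ∧ c ≠ b
  swap
  · right
    have : Δ.ncard ≤ 2 := by
      refine (Set.ncard_le_ncard (t := {a, b}) fun x hx => ?_).trans (Set.ncard_pair ab).le
      by_contra k
      exact third ⟨x, hx, fun e => k (.inl e), fun e => k (.inr e)⟩
    have h1 : 0 < p ^ A := pow_pos h.prime.pos A
    calc (Δ.ncard - 1) ^ 3 ≤ 1 ^ 3 := Nat.pow_le_pow_left (by omega) 3
      _ ≤ _ := by omega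
  obtain ⟨c, hc, ca, cb⟩ := third
  have tL : T2On L Ω a b := ls_t2 ha hb (sub hc) ab ca cb (fun g hg x hx => h.inv hg hx)
    fun x hx y hy y' hy' n1 n2 => by
      obtain ⟨u, hu, e⟩ := h.trans hx hy hy' n1 n2
      exact ⟨u, h.le hx hu, h.fix hx hu, e⟩
  have cjR : ∀ g ∈ L, ∀ x ∈ Ω, ∀ y : X, cj g (W x ⊓ stabilizer G y) ≤ W (g • x) ⊓ stabilizer G (g • y) := by
    intro g hg x hx y r hr
    have hr' := mem_cj.1 hr
    refine ⟨by simpa [mul_assoc] using h.conj hg hx hr'.1, ?_⟩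
    have e : (g⁻¹ * r * g) • y = y := hr'.2
    rwa [mul_smul, mul_smul, inv_smul_eq_iff] at e
  have EQ : ∀ x ∈ Δ, ∀ y ∈ Δ, y ≠ x → W x ⊓ stabilizer G y = W a ⊓ stabilizer G b := by
    intro x hx y hy n
    have l : W a ⊓ stabilizer G b ≤ W x ⊓ stabilizer G y :=
      fun r hr => ⟨h.sym ha (sub hx) hr.1 (((mem x).1 hx).2 r hr), ((mem y).1 hy).2 r hr⟩
    refine (eq_of_le_of_card_ge l ?_).symm
    obtain ⟨g, hg, rfl, rfl⟩ := tL.t2 x (sub hx) y (sub hy) n.symm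
    have := card_le_of_le (cjR g⁻¹ (inv_mem hg) _ (sub hx) (g • b))
    rwa [card_cj, inv_smul_smul, inv_smul_smul] at this
  have inv : ∀ g ∈ 𝒩(W a ⊓ stabilizer G b) ⊓ L, ∀ x ∈ Δ, g • x ∈ Δ := fun g hg x hx =>
    (mem _).2 ⟨h.inv hg.2 (sub hx), fun r hr => by
      have e := ((mem x).1 hx).2 _ (conj_mem' hg.1 hr)
      rwa [mul_smul, mul_smul, inv_smul_eq_iff] at e⟩
  have tr : ∀ x ∈ Δ, ∀ y ∈ Δ, ∀ y' ∈ Δ, y ≠ x → y' ≠ x →
      ∃ u ∈ W x, u ∈ 𝒩(W a ⊓ stabilizer G b) ∧ u • y = y' := by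
    intro x hx y hy y' hy' n1 n2
    obtain ⟨u, hu, e⟩ := h.trans (sub hx) (sub hy) (sub hy') n1 n2
    refine ⟨u, hu, mem_norm_of_cj_le ?_, e⟩
    have := cjR u (h.le (sub hx) hu) x (sub hx) y
    rwa [h.fix (sub hx) hu, e, EQ x hx y hy n1, EQ x hx y' hy' n2] at this
  have tM : T2On (𝒩(W a ⊓ stabilizer G b) ⊓ L) Δ a b := ls_t2 aΔ bΔ hc ab ca cb inv
    fun x hx y hy y' hy' n1 n2 => by
      obtain ⟨u, hu, n, e⟩ := tr x hx y hy y' hy' n1 n2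
      exact ⟨u, ⟨n, h.le (sub hx) hu⟩, h.fix (sub hx) hu, e⟩
  obtain ⟨e, he⟩ := ls_pow h.prime ((h.pg ha).to_le (inf_le_left : W a ⊓ 𝒩(W a ⊓ stabilizer G b) ≤ _)) aΔ (b := b)
    (fun u hu => ⟨inv u ⟨hu.2, h.le ha hu.1⟩ b bΔ, fun e => ab (smul_left_cancel u ((h.fix ha hu.1).trans e.symm))⟩)
    fun x hx xa => by
      obtain ⟨u, hu, n, e⟩ := tr a aΔ b bΔ x hx ab.symm xa
      exact ⟨u, ⟨hu, n⟩, e⟩
  have e0 : e ≠ 0 := by
    rintro rfl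
    have := Set.ncard_le_ncard (s := {c, a, b}) (t := Δ) (by rintro x (rfl | rfl | rfl) <;> assumption)
    rw [Set.ncard_eq_three.2 ⟨c, a, b, ca, cb, ab, rfl⟩, he, pow_zero] at this
    omega
  have st : 𝒩(W a ⊓ stabilizer G b) ⊓ L ⊓ stab2 G a b = L ⊓ stab2 G a b := by
    refine le_antisymm (inf_le_inf_right _ inf_le_right) fun g hg => ⟨⟨mem_norm_of_cj_le ?_, hg.1⟩, hg.2⟩
    have := cjR g hg.1 a ha b
    rwa [show g • a = a from hg.2.1, show g • b = b from hg.2.2] at this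
  have d := card_dvd_of_le (inf_le_right : 𝒩(W a ⊓ stabilizer G b) ⊓ L ≤ L)
  rw [tM.card, tL.card, st, Nat.mul_dvd_mul_iff_right Nat.card_pos, hA, he, Nat.add_sub_cancel,
    Nat.add_sub_cancel] at d
  have cop : (p ^ e + 1).Coprime (p ^ A) := Nat.Coprime.pow_right A (by
    rw [← Nat.sub_one_add_one e0, pow_succ]; simp)
  rcases ls_num h.prime.two_le (cop.dvd_of_dvd_mul_right ((dvd_mul_right _ _).trans d)) with k | k
  · left
    have : Δ = Ω := Set.eq_of_subset_of_ncard_le sub (by rw [hA, he, k])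
    exact fun u hu e x hx => ((mem x).1 (this ▸ hx)).2 u ⟨hu, e⟩
  · right
    rw [hA, he, Nat.add_sub_cancel, Nat.add_sub_cancel, ← pow_mul]
    exact Nat.pow_le_pow_right h.prime.pos (by omega)

end CL.Spl
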