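/-
Project SPL: an involution with exactly two fixed points forces regularity in rank one.
-/
import Cfsg.Agent.Spl.Defs
import Cfsg.Agent.Grp.SylowIn

set_option autoImplicit false
open Cfsg MulAction Subgroup

namespace CL.Spl

universe u

namespace LTx

variable {G X : Type u} [Group G] [Finite G] [MulAction G X] {L : Subgroup G} {Ω : Set X} {p : ℕ}
  {W : X → Subgroup G} {a b x y x' y' : X} {g t : G}

/-- the two-point stabiliser -/
abbrev R (W : X → Subgroup G) (x y : X) : Subgroup G := W x ⊓ stabilizer G y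

theorem R_conj (h : R1 L Ω p W) (hg : g ∈ L) (hx : x ∈ Ω) {u : G} (hu : u ∈ R W x y) :
    g * u * g⁻¹ ∈ R W (g • x) (g • y) :=
  ⟨h.conj hg hx hu.1, by
    change (g * u * g⁻¹) • g • y = g • y
    rw [mul_smul, mul_smul, inv_smul_smul, mem_stabilizer_iff.1 hu.2]⟩

theorem R_conj' (h : R1 L Ω p W) (hg : g ∈ L) (hx : x ∈ Ω) {u : G} (hu : u ∈ R W (g • x) (g • y)) :
    g⁻¹ * u * g ∈ R W x y := by
  simpa using R_conj h (inv_mem hg) (h.inv hg hx) hu

theorem R_symm (h : R1 L Ω p W) (hx : x ∈ Ω) (hy : y ∈ Ω) : R W x y = R W y x :=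
  le_antisymm (fun _ hu => ⟨h.sym hx hy hu.1 hu.2, h.fix hx hu.1⟩) fun _ hu => ⟨h.sym hy hx hu.1 hu.2, h.fix hy hu.1⟩

theorem card_step (h : R1 L Ω p W) (hx : x ∈ Ω) (hy : y ∈ Ω) (hy' : y' ∈ Ω) (e : y ≠ x) (e' : y' ≠ x) :
    Nat.card (R W x y) ≤ Nat.card (R W x y') := by
  obtain ⟨u, hu, rfl⟩ := h.trans hx hy hy' e e'
  refine Nat.card_le_card_of_injective (fun r => ⟨u * r * u⁻¹, ?_⟩) fun r s k => Subtype.ext (by simpa using k)
  simpa only [h.fix hx hu] using R_conj h (h.le hx hu) hx r.2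

theorem R_eq (h : R1 L Ω p W) (hx : x ∈ Ω) (hy : y ∈ Ω) (hx' : x' ∈ Ω) (hy' : y' ∈ Ω) (e : x ≠ y) (e' : x' ≠ y')
    (k : R W x' y' ≤ R W x y) : R W x' y' = R W x y := by
  refine eq_of_le_of_card_ge k ?_
  by_cases c : y' = x
  · subst c
    rw [R_symm h hx' hx]
    exact card_step h hx hy hx' e.symm e'
  · refine (card_step h hx hy hy' e.symm c).trans ?_
    rw [R_symm h hx hy', R_symm h hx' hy']
    exact card_step h hy' hx hx' (Ne.symm c) e'

/-- the images of `x` under `R a b` are fixed by `R a x` -/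
def PP (W : X → Subgroup G) (a b x : X) : Prop := ∀ r ∈ R W a b, ∀ u ∈ R W a x, u • r • x = r • x

theorem PP.conj (h : R1 L Ω p W) (hg : g ∈ L) (ha : a ∈ Ω) (k : PP W a b x) : PP W (g • a) (g • b) (g • x) :=
  fun r hr u hu => by
    have := congrArg (g • ·) (k _ (R_conj' h hg ha hr) _ (R_conj' h hg ha hu))
    simpa only [mul_smul, smul_inv_smul] using this

theorem inv_ex (h : R1 L Ω p W) (hp : p ≠ 2) (ha : a ∈ Ω) (hb : b ∈ Ω) (hab : a ≠ b) (ht : t ∈ L) (ta : t • a = a)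
    (tb : t • b = b) (tt : ∀ x ∈ Ω, t • t • x = x) (tf : ∀ x ∈ Ω, t • x = x → x = a ∨ x = b) (hy : y ∈ Ω)
    (ya : y ≠ a) : ∃ α ∈ W a, α • b = y ∧ ∀ z ∈ Ω, α • t • α • z = t • z := by
  have := Fact.mk h.prime
  obtain ⟨g, hg, rfl⟩ := h.trans ha hb hy hab.symm ya
  have gL := h.le ha hg
  have hc : g * (t * g⁻¹ * t⁻¹) ∈ W a := mul_mem hg (by simpa only [ta] using h.conj ht ha (inv_mem hg))
  have e0 : ∀ z : X, (g * (t * g⁻¹ * t⁻¹)) • t • z = g • t • g⁻¹ • z := fun z => by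
    simp only [mul_smul, inv_smul_smul]
  have e1 : ∀ z ∈ Ω, (g * (t * g⁻¹ * t⁻¹)) • t • (g * (t * g⁻¹ * t⁻¹)) • z = t • z := fun z hz => by
    rw [e0]
    simp only [mul_smul, inv_smul_smul]
    rw [tt _ (h.inv (inv_mem gL) (h.inv (inv_mem ht) hz)), smul_inv_smul, inv_smul_eq_iff, tt z hz]
  generalize g * (t * g⁻¹ * t⁻¹) = c at hc e0 e1
  have e2 : ∀ m : ℕ, ∀ z ∈ Ω, c ^ m • t • c ^ m • z = t • z := fun m => by
    induction m with
    | zero => simp
    | succ m ih =>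
      intro z hz
      nth_rw 1 [pow_succ]
      rw [pow_succ', mul_smul, mul_smul, e1 _ (h.inv (h.le ha (pow_mem hc m)) hz), ih z hz]
  obtain ⟨k, hk⟩ := h.pg ha ⟨c, hc⟩
  obtain ⟨m, hm⟩ := (h.prime.odd_of_ne_two hp).pow (n := k)
  have e3 : c ^ (m + 1) * c ^ (m + 1) = c := by
    rw [← pow_add, show m + 1 + (m + 1) = p ^ k + 1 by omega, pow_succ,
      show c ^ p ^ k = 1 from congrArg Subtype.val hk, one_mul]
  have hα := pow_mem hc (m + 1)
  refine ⟨_, hα, ?_, e2 _⟩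
  have e4 := e0 (c ^ (m + 1) • b)
  nth_rw 1 [← e3] at e4
  rw [mul_smul, e2 _ b hb, tb, ← inv_smul_eq_iff] at e4
  rcases tf _ (h.inv (inv_mem gL) (h.inv (h.le ha hα) hb)) e4.symm with e | e
  · rw [inv_smul_eq_iff, h.fix ha hg] at e
    exact absurd (smul_left_cancel _ ((h.fix ha hα).trans e.symm)) hab
  · exact inv_smul_eq_iff.1 e

theorem ex_pp (h : R1 L Ω p W) (ha : a ∈ Ω) (hb : b ∈ Ω) (hab : a ≠ b) {u : G} (hu : u ∈ R W a b) (hy : y ∈ Ω)
    (uy : u • y ≠ y) : ∃ x ∈ Ω, (∃ r ∈ R W a b, r • x ≠ x) ∧ PP W a b x := by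
  have := Fact.mk h.prime
  have h1 : W a ⊓ normalizer (R W a b : Set G) < W a := inf_lt_left.2 fun k => uy (by
    obtain ⟨g, hg, rfl⟩ := h.trans ha hb hy hab.symm (by rintro rfl; exact uy (h.fix ha hu.1))
    have := ((mem_normalizer_iff''.1 (k hg) u).1 hu).2
    change (g⁻¹ * u * g) • b = b at this
    rwa [mul_smul, mul_smul, inv_smul_eq_iff] at this)
  obtain ⟨α, hα, hα'⟩ := SetLike.exists_of_lt (CL.Grp.lt_inf_normalizer_of_isPGroup (h.pg ha) h1)
  have αL := h.le ha hα.1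
  have αa := h.fix ha hα.1
  refine ⟨α • b, h.inv αL hb, ?_, fun r hr v hv => ?_⟩
  · by_contra! k
    have e := R_eq h ha (h.inv αL hb) ha hb (fun e => hab (smul_left_cancel _ (αa.trans e))) hab
      fun r hr => ⟨hr.1, k r hr⟩
    refine hα' ⟨hα.1, mem_normalizer_iff.2 fun r => ⟨fun hr => ?_, fun hr => ?_⟩⟩
    · rw [e]
      simpa only [αa] using R_conj h αL ha hr
    · rw [e] at hr
      have := R_conj' h αL ha (y := b) (u := α * r * α⁻¹) (by rwa [αa])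
      rwa [show α⁻¹ * (α * r * α⁻¹) * α = r by group] at this
  · have k1 := ((mem_normalizer_iff''.1 hα.2 r).1 ⟨hr.1, le_normalizer hr⟩).2
    have k2 := ((mem_normalizer_iff''.1 k1 _).1 (R_conj' h αL ha (y := b) (by rwa [αa]))).2
    change ((α⁻¹ * r * α)⁻¹ * (α⁻¹ * v * α) * (α⁻¹ * r * α)) • b = b at k2
    rw [mul_smul, mul_smul, inv_smul_eq_iff] at k2
    simpa only [mul_smul, smul_inv_smul, smul_left_cancel_iff] using k2

end LTx

open LTx

theorem lemT : LemT.{u} := by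
  intro G X _ _ _ _ L Ω p W h hp a ha b hb hab t ht ta tb tt tf u hu ub y hy
  by_contra uy
  obtain ⟨x, hx, ⟨r, hr, rx⟩, pp⟩ := ex_pp h ha hb hab ⟨hu, ub⟩ hy uy
  obtain ⟨α, hα, a1, a2⟩ := inv_ex h hp ha hb hab ht ta tb tt tf hx (by rintro rfl; exact rx (h.fix ha hr.1))
  obtain ⟨β, hβ, b1, b2⟩ := inv_ex h hp hb ha hab.symm ht tb ta tt (fun x hx e => (tf x hx e).symm) hx
    (by rintro rfl; exact rx hr.2)
  have βL := inv_mem (h.le hb hβ)
  have e1 : β⁻¹ • a = t • x := by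
    have := b2 _ (h.inv βL ha)
    rw [smul_inv_smul, ta, b1] at this
    rw [this, tt _ (h.inv βL ha)]
  have βb := h.fix hb (inv_mem hβ)
  have p1 := pp.conj h ht ha
  have p2 := pp.conj h (mul_mem (mul_mem βL (h.le ha hα)) βL) ha
  have e2 : α • t • x = b := by rw [← a1, a2 b hb, tb]
  have e3 : β⁻¹ • x = a := inv_smul_eq_iff.2 b1.symm
  simp only [mul_smul, e1, e2, βb, a1, e3, h.fix ha hα] at p2
  have hs := R_conj h ht ha hr
  rw [ta, tb] at p1 hs
  have sc : (t * r * t⁻¹) • t • x ≠ t • x := by simpa only [mul_smul, inv_smul_smul, Ne, smul_left_cancel_iff] using rx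
  have hc := h.inv ht hx
  generalize t * r * t⁻¹ = s at hs sc
  generalize t • x = c at p1 p2 sc hc
  have ca : a ≠ c := by rintro rfl; exact sc (h.fix ha hs.1)
  have cb : b ≠ c := by rintro rfl; exact sc hs.2
  have hsc := h.inv (h.le ha hs.1) hc
  have k1 := R_eq h hc hsc ha hc sc.symm ca fun v hv => ⟨((R_symm h ha hc).le hv).1, p1 s hs v hv⟩
  have k2 := R_eq h hc hsc hb hc sc.symm cb fun v hv =>
    ⟨((R_symm h hb hc).le hv).1, p2 s ((R_symm h ha hb).le hs) v hv⟩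
  have k3 := R_eq h ha hb ha hc hab ca fun v hv => ⟨hv.1, h.fix hb ((k1.trans k2.symm).le hv).1⟩
  exact sc (k3.ge hs).2

end CL.Spl
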