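/-
Project SPL: Moufang sets with elementary abelian root groups of even order.
-/
import Cfsg.Agent.Spl.Defs
import Cfsg.Agent.Inv.Isolated

set_option autoImplicit false
set_option linter.unusedSectionVars false
open Cfsg MulAction

namespace CL.Spl

universe u

namespace TRx

/-- The faithful situation. -/
structure Mf (H : Type*) {Ω : Type*} [Group H] [MulAction H Ω] (U : Ω → Subgroup H) : Prop where
  faith : ∀ g : H, (∀ x : Ω, g • x = x) → g = 1
  fix : ∀ a, ∀ s ∈ U a, s • a = a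
  tr : ∀ a x y : Ω, x ≠ a → y ≠ a → ∃ s ∈ U a, s • x = y
  comm : ∀ a, ∀ s ∈ U a, ∀ t ∈ U a, s * t = t * s
  sq : ∀ a, ∀ s ∈ U a, s * s = 1
  conj : ∀ (g : H) (a : Ω), ∀ s ∈ U a, g * s * g⁻¹ ∈ U (g • a)

variable {H Ω : Type*} [Group H] [Finite H] [MulAction H Ω] {U : Ω → Subgroup H} (h : Mf H U)
include h

theorem Mf.one {a y : Ω} {s : H} (hs : s ∈ U a) (h1 : s ≠ 1) (hy : s • y = y) : y = a := by
  by_contra e
  refine h1 (h.faith s fun c => ?_)
  by_cases hc : c = a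
  · rw [hc, h.fix a s hs]
  · obtain ⟨t, ht, rfl⟩ := h.tr a y c e hc
    rw [← mul_smul, h.comm a s hs t ht, mul_smul, hy]

theorem Mf.cen {a : Ω} {s j : H} (hs : s ∈ U a) (h1 : s ≠ 1) (hj : j * s = s * j) : j • a = a :=
  h.one hs h1 (by rw [← mul_smul, ← hj, mul_smul, h.fix a s hs])

theorem Mf.mem {a c : Ω} {s t : H} (hs : s ∈ U c) (h1 : s ≠ 1) (e : IsConj s t) (ha : t • a = a) : t ∈ U a := by
  obtain ⟨g, rfl⟩ := isConj_iff.1 e
  have m := h.conj g c s hs
  rwa [← h.one m (by simpa using h1) ha] at m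

theorem Mf.cj {a b : Ω} (ab : a ≠ b) {s t : H} (hs : s ∈ U a) (s1 : s ≠ 1) (ht : t ∈ U b) (t1 : t ≠ 1) :
    IsConj s t := by
  have ss := h.sq a s hs
  have tt := h.sq b t ht
  refine CL.Inv.isConj_of_odd_mul ss tt ?_
  by_contra ho
  rw [Nat.not_odd_iff_even] at ho
  obtain ⟨o, c1, c2⟩ := CL.Inv.half_pow_central ss tt (orderOf_pos _).ne' ho
  generalize orderOf (s * t) / 2 = k at o c1 c2
  have ja := h.cen hs s1 c1.eq
  have jb := h.cen ht t1 c2.eq
  have fa : (s * (s * t) ^ k) • a = a := by rw [mul_smul, ja, h.fix a s hs]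
  have m : s * (s * t) ^ k ∈ U a := by
    obtain ⟨i, rfl | rfl⟩ := Nat.even_or_odd' k
    · refine h.mem hs s1 ?_ fa
      simpa [← zpow_natCast] using CL.Inv.isConj_mul_zpow_even (CL.Inv.left_inverts_mul ss tt) i
    · refine h.mem ht t1 ?_ fa
      simpa [← zpow_natCast] using CL.Inv.isConj_mul_zpow_odd ss tt i
  exact ab (h.one ((Subgroup.mul_mem_cancel_left _ hs).1 m) (CL.Inv.ne_one_of_orderOf_two o) jb).symm

theorem Mf.main {a b : Ω} (ab : a ≠ b) {R : Subgroup H} (hR : IsPGroup 2 R) (hf : ∀ r ∈ R, r • a = a ∧ r • b = b)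
    (hn : ∀ g : H, g • a = a → g • b = b → ∀ r ∈ R, g * r * g⁻¹ ∈ R) {r : H} (hr : r ∈ R) (x : Ω) : r • x = x := by
  by_cases xa : x = a
  · rw [xa, (hf r hr).1]
  by_cases xb : x = b
  · rw [xb, (hf r hr).2]
  obtain ⟨s, hs, sx⟩ := h.tr a b x ab.symm xa
  obtain ⟨t, ht, tx⟩ := h.tr b a x ab xb
  have s1 : s ≠ 1 := by rintro rfl; exact xb (by simpa using sx.symm)
  have t1 : t ≠ 1 := by rintro rfl; exact xa (by simpa using tx.symm)
  let _ : MulAction R (U a) :=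
    { smul := fun r y => ⟨r * y * (r : H)⁻¹, by
        have := h.conj r a y y.2
        rwa [(hf r r.2).1] at this⟩
      one_smul := fun y => Subtype.ext (by change (1 : H) * y * 1⁻¹ = y; simp)
      mul_smul := fun p q y => Subtype.ext (by
        change (p * q : H) * y * (p * q : H)⁻¹ = p * (q * y * (q : H)⁻¹) * (p : H)⁻¹; group) }
  have h2 : 2 ∣ Nat.card (U a) :=
    CL.Inv.orderOf_two_of_mul_self (h.sq a s hs) s1 ▸ Subgroup.orderOf_dvd_natCard _ hs
  obtain ⟨⟨z, hz⟩, zf, z1⟩ := hR.exists_fixed_point_of_prime_dvd_card_of_fixed_point (U a) h2 (a := 1)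
    fun q => Subtype.ext (by change (q : H) * 1 * (q : H)⁻¹ = 1; simp)
  have z1' : z ≠ 1 := fun e => z1 (Subtype.ext e.symm)
  have zc : ∀ q ∈ R, q * z * q⁻¹ = z := fun q hq => congrArg Subtype.val (zf ⟨q, hq⟩)
  obtain ⟨g, hg⟩ := isConj_iff.1 ((h.cj ab hz z1' ht t1).trans (h.cj ab hs s1 ht t1).symm)
  have ga : g • a = a := (h.one (h.conj g a z hz) (by simpa using z1') (by rw [hg, h.fix a s hs])).symm
  obtain ⟨w, hw, wb⟩ := h.tr a (g • b) b (fun e => ab (smul_left_cancel g (ga.trans e.symm))) ab.symm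
  have e : w * g * z * (w * g)⁻¹ = s := by
    calc w * g * z * (w * g)⁻¹ = w * (g * z * g⁻¹) * w⁻¹ := by group
      _ = s := by rw [hg, h.comm a w hw s hs, mul_inv_cancel_right]
  have m := zc _ (hn (w * g)⁻¹ (by rw [inv_smul_eq_iff, mul_smul, ga, h.fix a w hw])
    (by rw [inv_smul_eq_iff, mul_smul, wb]) r hr)
  have rs : r * s = s * r := by
    calc r * s = w * g * ((w * g)⁻¹ * r * (w * g)⁻¹⁻¹ * z * ((w * g)⁻¹ * r * (w * g)⁻¹⁻¹)⁻¹) * (w * g)⁻¹ * r := by
          rw [← e]; group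
      _ = s * r := by rw [m, e]
  rw [← sx, ← mul_smul, rs, mul_smul, (hf r hr).2]

omit h in
theorem quot {G X : Type u} [Group G] [Finite G] [MulAction G X] (L : Subgroup G) (Ω : Set X)
    (hP : ∀ g ∈ L, ∀ x ∈ Ω, g • x ∈ Ω) :
    ∃ (Y : Type u) (_ : Group Y) (_ : Finite Y) (_ : MulAction Y Ω) (π : L →* Y), Function.Surjective π ∧
      (∀ (g : L) (p : Ω), ((π g • p : Ω) : X) = (g : G) • (p : X)) ∧ ∀ x : Y, (∀ p : Ω, x • p = p) → x = 1 := by
  let _ : MulAction L Ω :=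
    { smul := fun g p => ⟨(g : G) • (p : X), hP g g.2 p p.2⟩
      one_smul := fun p => Subtype.ext (one_smul G (p : X))
      mul_smul := fun g h p => Subtype.ext (mul_smul (g : G) (h : G) (p : X)) }
  let φ := MulAction.toPermHom L Ω
  let _ : MulAction (L ⧸ φ.ker) Ω := MulAction.compHom Ω (QuotientGroup.kerLift φ)
  refine ⟨L ⧸ φ.ker, inferInstance, inferInstance, inferInstance, QuotientGroup.mk' _,
    QuotientGroup.mk'_surjective _, fun g p => rfl, fun x hx => ?_⟩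
  apply QuotientGroup.kerLift_injective φ
  rw [map_one]
  ext p
  exact congrArg Subtype.val (hx p)

end TRx

theorem lemTR : LemTR.{u} := by
  intro G X _ _ _ _ L Ω U inv le fix tr comm sq conj a ha b hb ab R hR RL Rf Rn r hr x hx
  obtain ⟨Y, _, _, _, π, sj, ac, fa⟩ := TRx.quot L Ω inv
  have ext : ∀ y y' : Y, (∀ p : Ω, ((y • p : Ω) : X) = (y' • p : Ω)) → y = y' := fun y y' e => by
    have := fa (y'⁻¹ * y) fun p => by rw [mul_smul, Subtype.ext (e p), inv_smul_smul]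
    exact (inv_mul_eq_one.1 this).symm
  have h : TRx.Mf Y fun c : Ω => ((U c).subgroupOf L).map π :=
    { faith := fa
      fix := by
        rintro c _ ⟨s, hs, rfl⟩
        exact Subtype.ext ((ac s c).trans (fix c c.2 s hs))
      tr := fun c p q h1 h2 => by
        obtain ⟨s, hs, e⟩ := tr c c.2 p p.2 q q.2 (fun e => h1 (Subtype.ext e)) fun e => h2 (Subtype.ext e)
        exact ⟨π ⟨s, le c c.2 hs⟩, ⟨_, hs, rfl⟩, Subtype.ext ((ac _ p).trans e)⟩
      comm := by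
        rintro c _ ⟨s, hs, rfl⟩ _ ⟨t, ht, rfl⟩
        refine ext _ _ fun p => ?_
        rw [mul_smul, mul_smul, ac, ac, ac, ac]
        exact comm c c.2 s hs t ht p p.2
      sq := by
        rintro c _ ⟨s, hs, rfl⟩
        refine fa _ fun p => Subtype.ext ?_
        rw [mul_smul, ac, ac]
        exact sq c c.2 s hs p p.2
      conj := by
        rintro g c _ ⟨s, hs, rfl⟩
        obtain ⟨g, rfl⟩ := sj g
        obtain ⟨t, ht, e⟩ := conj g g.2 c c.2 s hs
        rw [← ac g c] at ht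
        refine ⟨⟨t, le _ (π g • c).2 ht⟩, ht, ext _ _ fun p => ?_⟩
        rw [← map_inv, ← map_mul, ← map_mul]
        exact (ac _ p).trans ((e p p.2).symm.trans (ac (g * s * g⁻¹) p).symm) }
  have := h.main (a := ⟨a, ha⟩) (b := ⟨b, hb⟩) (fun e => ab (congrArg Subtype.val e))
    (R := (R.subgroupOf L).map π) (hR.comap_subtype.map π)
    (by
      rintro _ ⟨q, hq, rfl⟩
      exact ⟨Subtype.ext ((ac q _).trans (Rf q hq).1), Subtype.ext ((ac q _).trans (Rf q hq).2)⟩)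
    (by
      rintro g g1 g2 _ ⟨q, hq, rfl⟩
      obtain ⟨g, rfl⟩ := sj g
      refine ⟨g * q * g⁻¹, Rn g g.2 ((ac g ⟨a, ha⟩).symm.trans (congrArg Subtype.val g1))
        ((ac g ⟨b, hb⟩).symm.trans (congrArg Subtype.val g2)) q hq, by simp⟩)
    (r := π ⟨r, RL hr⟩) ⟨_, hr, rfl⟩ ⟨x, hx⟩
  exact (ac ⟨r, RL hr⟩ ⟨x, hx⟩).symm.trans (congrArg Subtype.val this)

end CL.Spl
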