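/-
Project SPL: projective planes, and quadrangles without central elations.
-/
import Cfsg.Agent.Spl.Defs

set_option autoImplicit false
set_option linter.unusedSectionVars false
open Cfsg MulAction

namespace CL.Spl

universe u

variable {G V : Type u} [Group G] [Finite G] [MulAction G V] [Finite V] {S : GS G V} {p : ℕ}

theorem n34_fix (h : Ctx S p) {x y : V} {u : G} (hu : u ∈ S.Q x) (a : S.A x y) : u • y = y :=
  h.b.fb1.1 (h.c.QFb hu) y a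

theorem n34_inv {u : G} {x : V} (e : u • x = x) : u⁻¹ • x = x := inv_smul_eq_iff.2 e.symm

theorem n34_conj (h : Ctx S p) {x y : V} {g z : G} (a : S.A y x) (gy : g • y = y) (hz : z ∈ S.Z p x y) :
    S.A y (g • x) ∧ g * z * g⁻¹ ∈ S.Z p (g • x) y := by
  have h1 := S.inv g a
  have h2 := h.c.Zconj g (S.symm a) hz
  rw [gy] at h1 h2
  exact ⟨h1, h2⟩

theorem n34_tr (h : Ctx S p) {y c x x' : V} (ac : S.A y c) (ax : S.A y x) (ax' : S.A y x') (n : x ≠ c) (n' : x' ≠ c)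
    {z : G} (hz : z ∈ S.Z p x y) : ∃ e ∈ S.Z p x' y, z * e⁻¹ ∈ S.Q c ∧ e⁻¹ * z ∈ S.Q c := by
  obtain ⟨q, hq, e⟩ := h.c.tent1 (S.symm ac) ax ax' n n'
  have zc := n34_fix h (h.c.ZQ (S.symm ax) hz).2 ac
  have h1 := h.c.Qconj z hq
  have h2 := h.c.Qconj z⁻¹ (inv_mem hq)
  rw [zc] at h1
  rw [n34_inv zc] at h2
  refine ⟨q * z * q⁻¹, e ▸ (n34_conj h ax (n34_fix h hq (S.symm ac)) hz).2, ?_, ?_⟩
  · simpa [mul_assoc] using mul_mem h1 (inv_mem hq)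
  · simpa [mul_assoc] using mul_mem hq h2

theorem n34_red (h : Ctx S p) (y : V)
    (disj : ∀ x x', S.A y x → S.A y x' → x ≠ x' → ∀ z ∈ S.Z p x y, z ∈ S.Z p x' y → z = 1)
    (key : ∀ x0 x2 x, S.A y x0 → S.A y x2 → S.A y x → x0 ≠ x2 → x ≠ x0 → ∀ a ∈ S.Z p x y, ∀ z ∈ S.Z p x0 y,
      z⁻¹ * a ∈ S.Q x2 → z⁻¹ * a ∈ S.Z p x2 y) : S.Reg y := by
  intro x0 x2 r a0 a2 ne hr r2
  refine h.b.fb1.2 fun x ax => ?_
  by_cases e0 : x = x0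
  · rw [e0]; exact h.b.Pfix' a0 hr
  by_cases e2 : x = x2
  · rw [e2]; exact r2
  obtain ⟨a, ha, a1⟩ := h.c.Zne (S.symm ax)
  obtain ⟨z, hz, -, m⟩ := n34_tr h a2 ax a0 e2 ne ha
  have ry := S.Pfix a0 hr
  rw [S.Psymm a0] at hr
  have hr2 := h.pg.next (S.symm a0) a2 hr r2
  rw [S.Psymm a2] at hr2
  have c1 : Commute r z := hz.2.1 r hr
  have c2 : Commute r (z⁻¹ * a) := (key x0 x2 x a0 a2 ax ne e0 a ha z hz m).2.1 r hr2
  have c3 := c1.mul_right c2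
  rw [mul_inv_cancel_left] at c3
  obtain ⟨k1, k2⟩ := n34_conj h ax ry ha
  rw [c3.eq, mul_inv_cancel_right] at k2
  by_contra k
  exact a1 (disj _ _ k1 ax k a k2 ha)

theorem n3_rigid (h : Ctx S p) (hn : S.n = 3) {x y x' : V} (a : S.A y x) (a' : S.A y x') (ne : x ≠ x') {u : G}
    (h0 : u ∈ S.Q x) (h1 : u ∈ S.Q y) (h2 : u ∈ S.Q x') : u = 1 := by
  obtain ⟨v, hv, rfl, rfl, rfl⟩ := h.a.path2 (S.symm a) a' ne
  refine h.b.rigid hv u (-1) 0 (fun i i1 i2 => ?_) (h.c.QFb h0) (h.c.QFb h1)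
  rw [hn] at i2
  by_cases k : i ≤ 1
  · exact h.b.fbAptFix hv (h.c.QFb h0) i (by omega) (by omega)
  · exact h.b.fbAptFix hv (h.c.QFb h2) i (by omega) (by omega)

theorem n3 (h : Ctx S p) (hn : S.n = 3) (y : V) : S.Reg y := by
  refine n34_red h y (fun x x' a a' ne z h1 h2 => n3_rigid h hn a a' ne (h.c.ZQ (S.symm a) h1).1
    (h.c.ZQ (S.symm a) h1).2 (h.c.ZQ (S.symm a') h2).1) fun x0 x2 x a0 a2 ax ne n0 a ha z hz m => ?_
  obtain ⟨e, he, m1, -⟩ := n34_tr h a0 ax a2 n0 ne.symm ha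
  have z1 := h.c.ZQ (S.symm a0) hz
  have e1 := h.c.ZQ (S.symm a2) he
  have := n3_rigid h hn a0 a2 ne (u := z⁻¹ * a * e⁻¹) (by rw [mul_assoc]; exact mul_mem (inv_mem z1.1) m1)
    (mul_mem (mul_mem (inv_mem z1.2) (h.c.ZQ (S.symm ax) ha).2) (inv_mem e1.2)) (mul_mem m (inv_mem e1.1))
  rw [mul_inv_eq_one.1 this]
  exact he

section Four

variable (h : Ctx S p) (hn : S.n = 4) (hE : ∀ x, ¬ S.Pt 2 x)
include h hn hE

theorem n4_a {w : ℤ → V} (hw : S.Apt w) {z : G} (hz : z ∈ S.Z p (w 0) (w 1)) (e : z • w 3 = w 3) : z = 1 := by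
  have a := h.a.adj hw 0 1 (.inl rfl)
  have q := h.c.ZQ a hz
  by_contra z1
  exact hE _ (h.c.PtOf q.2 (h.b.up hw 1 (by omega) hz.2.1 (h.c.QFb q.1) (n34_fix h q.1 a) e) z1)

theorem n4_a' {w : ℤ → V} (hw : S.Apt w) {z : G} (hz : z ∈ S.Z p (w 3) (w 2)) (e : z • w 0 = w 0) : z = 1 :=
  n4_a h hn hE (h.a.rev hw 3) hz e

theorem n4_disj {x y x' : V} (a : S.A y x) (a' : S.A y x') (ne : x ≠ x') {z : G} (hz : z ∈ S.Z p x y)
    (hq : z ∈ S.Q x') : z = 1 := by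
  obtain ⟨v, hv, rfl, rfl, rfl⟩ := h.a.path2 (S.symm a) a' ne
  exact n4_a h hn hE hv hz (n34_fix h hq (h.a.adj hv 2 3 (.inl rfl)))

theorem n4_b {v : ℤ → V} (hv : S.Apt v) {z w : G} (hz : z ∈ S.Z p (v 0) (v 1)) (hw : w ∈ S.Z p (v 3) (v 2)) :
    z⁻¹ * (w * z * w⁻¹) ∈ S.Z p (v 2) (v 1) := by
  have a10 := h.a.adj hv 1 0 (.inr rfl)
  have a12 := h.a.adj hv 1 2 (.inl rfl)
  have a23 := h.a.adj hv 2 3 (.inl rfl)
  have n02 : v 0 ≠ v 2 := hv.nb 0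
  have z1 := h.c.ZQ (S.symm a10) hz
  have w1 := h.c.ZQ (S.symm a23) hw
  by_cases k : w • v 0 = v 0
  · rw [n4_a' h hn hE hv hw k]
    simpa using one_mem _
  obtain ⟨k1, k2⟩ := n34_conj h a10 (n34_fix h w1.2 (S.symm a12)) hz
  obtain ⟨k3, k4⟩ := n34_conj h a23 (n34_inv (n34_fix h z1.2 a12)) hw
  obtain ⟨e, he, m, -⟩ := n34_tr h a10 k1 a12 k n02.symm k2
  have e1 := h.c.ZQ (S.symm a12) he
  have ej : z⁻¹ * (w * z * w⁻¹) * e⁻¹ = z⁻¹ * w * z⁻¹⁻¹ * w⁻¹ * e⁻¹ := by group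
  have j1 : z⁻¹ * (w * z * w⁻¹) * e⁻¹ ∈ S.Q (v 1) :=
    mul_mem (mul_mem (inv_mem z1.2) (h.c.ZQ (S.symm k1) k2).2) (inv_mem e1.2)
  have j2 : z⁻¹ * (w * z * w⁻¹) * e⁻¹ ∈ S.Fb 2 (v 1) := by
    refine h.c.spread (k := 1) (S.symm a12) a10 n02 (fun q hq => ?_) (h.c.QFb ?_) (h.c.QFb ?_)
    · rw [ej]
      have c1 : Commute q (z⁻¹ * w * z⁻¹⁻¹) := k4.2.1 q (h.c.QP' k3 hq)
      have c2 : Commute q w := hw.2.1 q (h.c.QP' a23 hq)
      have c3 : Commute q e := he.2.1 q (h.c.QP (S.symm a12) hq)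
      exact ((c1.mul_right c2.inv_right).mul_right c3.inv_right).eq
    · rw [ej]
      exact mul_mem (mul_mem (h.c.ZQ (S.symm k3) k4).2 (inv_mem w1.2)) (inv_mem e1.1)
    · rw [mul_assoc]
      exact mul_mem (inv_mem z1.1) m
  have j3 : z⁻¹ * (w * z * w⁻¹) * e⁻¹ = 1 := by
    by_contra j
    exact hE _ (h.c.PtOf j1 j2 j)
  rw [mul_inv_eq_one.1 j3]
  exact he

theorem n4_uc {x y x' : V} (a : S.A y x) (a' : S.A y x') {z e : G} (hz : z ∈ S.Z p x y) (he : e ∈ S.Z p x' y) :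
    ∃ x'', S.A y x'' ∧ z * e ∈ S.Z p x'' y := by
  by_cases ne : x = x'
  · exact ⟨x', a', mul_mem (ne ▸ hz) he⟩
  by_cases z1 : z = 1
  · exact ⟨x', a', by rwa [z1, one_mul]⟩
  obtain ⟨v, hv, rfl, rfl, rfl⟩ := h.a.path2 (S.symm a) a' ne
  have a23 := h.a.adj hv 2 3 (.inl rfl)
  have fx : ∀ w ∈ S.Z p (v 3) (v 2), w • v 1 = v 1 := fun w hw =>
    n34_fix h (h.c.ZQ (S.symm a23) hw).2 (S.symm a')
  let φ : S.Z p (v 3) (v 2) → S.Z p (v 2) (v 1) := fun w => ⟨_, n4_b h hn hE hv hz w.2⟩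
  have i : Function.Injective φ := fun w w' e => by
    have e1 : (w : G) * z * (w : G)⁻¹ = w' * z * (w' : G)⁻¹ := mul_left_cancel (congrArg Subtype.val e)
    have hd := mul_mem (inv_mem w'.2) w.2
    obtain ⟨k1, k2⟩ := n34_conj h a (fx _ hd) hz
    have e2 : (w' : G)⁻¹ * w * z * ((w' : G)⁻¹ * w)⁻¹ = z := by
      calc _ = (w' : G)⁻¹ * (w * z * (w : G)⁻¹) * w' := by group
        _ = z := by rw [e1]; group
    rw [e2] at k2
    have k : ((w' : G)⁻¹ * w) • v 0 = v 0 := by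
      by_contra k
      exact z1 (n4_disj h hn hE k1 a k k2 (h.c.ZQ (S.symm a) hz).1)
    exact Subtype.ext (inv_mul_eq_one.1 (n4_a' h hn hE hv hd k)).symm
  obtain ⟨w, hw⟩ := (i.bijective_of_nat_card_le (by
    rw [h.c.Zcard (S.symm a23) a', h.c.Zsymm a'])).2 ⟨e, he⟩
  have e1 : z⁻¹ * (w * z * (w : G)⁻¹) = e := congrArg Subtype.val hw
  obtain ⟨k1, k2⟩ := n34_conj h a (fx _ w.2) hz
  exact ⟨_, k1, by rwa [← e1, mul_inv_cancel_left]⟩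

theorem n4A (y : V) : S.Reg y := by
  refine n34_red h y (fun x x' a a' ne z h1 h2 => n4_disj h hn hE a a' ne h1 (h.c.ZQ (S.symm a') h2).1)
    fun x0 x2 x a0 a2 ax _ _ a ha z hz m => ?_
  obtain ⟨x'', k1, k2⟩ := n4_uc h hn hE a0 ax (inv_mem hz) ha
  by_cases e : x'' = x2
  · exact e ▸ k2
  · rw [n4_disj h hn hE k1 a2 e k2 m]
    exact one_mem _

end Four

end CL.Spl
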