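/-
Project SPL: octagons, the degenerate case of the commutator relation.
-/
import Cfsg.Agent.Spl.Defs

set_option autoImplicit false
set_option linter.unusedSectionVars false
open Cfsg MulAction

namespace CL.Spl

universe u

variable {G V : Type u} [Group G] [Finite G] [MulAction G V] [Finite V] {S : GS G V} {p : ℕ}

theorem octI (h : Ctx S p) (hn : S.n = 8) {v : ℤ → V} (hv : S.Apt v) (h1 : OctI S p v) : Oct3 S p v := by
  have d := h.d 4 hn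
  obtain ⟨z, hz, z1, y, hy, y1, e, he, e', he', k⟩ := h1
  have ad : ∀ i j : ℤ, j = i + 1 ∨ i = j + 1 → S.A (v i) (v j) := h.a.adj hv
  have a01 := ad 0 1 (by omega)
  have a10 := ad 1 0 (by omega)
  have a12 := ad 1 2 (by omega)
  have a21 := ad 2 1 (by omega)
  have a32 := ad 3 2 (by omega)
  have y2 : y • v 2 = v 2 := h.b.fbAptFix hv hy.2 2 (by norm_num) (by norm_num)
  have l1 : v 1 ≠ y • v 1 := fun k => y1 (d.semi' hv 6 hy.2 (by simpa using k.symm))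
  have al : S.A (v 2) (y • v 1) := by simpa only [y2] using S.inv y a21
  have zT := d.leT a10 hz
  have zT' := d.leT (S.inv y a10) (h.c.E0conj y a01 hz)
  have gT := k ▸ mul_mem (d.leT a32 he) (d.leT (ad 3 4 (by omega)) he')
  refine ⟨z, hz, z1, fun u0 hu0 => ?_⟩
  obtain ⟨w, hw, w0, wv⟩ := h.a.cons hv 1 (u0 • v 0) (by simpa only [S.Pfix a12 hu0] using S.inv u0 a10) fun k =>
    hv.nb 0 (MulAction.injective u0 (k.trans (h.b.Pfix' a12 hu0).symm))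
  have wv' : ∀ i, 1 ≤ i → i ≤ 3 → w i = v i := fun i a b => wv i a (by omega)
  obtain ⟨u, hu, uv⟩ := h.c.tent' hv hw 3 2 (by omega) (wv' 3 (by omega) le_rfl).symm (wv' 2 (by omega) (by omega)).symm
  have u0' : u • v 0 = u0 • v 0 := (uv 0 (by norm_num) (by norm_num)).trans w0
  have uf : ∀ i, 1 ≤ i → i ≤ 3 → u • v i = v i := fun i a b => (uv i (by push_cast; omega) b).trans (wv' i a b)
  have u1 := uf 1 le_rfl (by omega)
  have u2 := uf 2 (by omega) (by omega)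
  obtain ⟨q, hq, qv⟩ := h.c.tent (h.b.smul hv u) hv 2 3 (by omega) u2 (uf 3 (by omega) le_rfl)
  rw [u2] at hq
  have qf := h.b.fb1.1 (h.c.QFb hq)
  have c1 : q * u * y = y * (q * u) := hy.1.2.1 _ (S.Psymm (ad 5 6 (by omega)) ▸ h.c.seg hv 2 6 2 5 le_rfl (by omega)
    (by omega) (by omega) (fun l a b => (mul_smul q u _).trans (qv l a (by push_cast; omega)))
    (mul_mem (h.c.QP (hv.adj 2) hq) (h.c.QP' a32 hu)))
  have ul : u • y • v 1 = y • v 1 := MulAction.injective q (by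
    show q • u • y • v 1 = q • y • v 1
    rw [← mul_smul, ← mul_smul, c1, mul_smul, mul_smul, u1, qf _ a21, qf _ al])
  have aT := d.Tconj u zT
  have bT := d.Tconj u zT'
  rw [u1] at aT
  rw [ul] at bT
  have c2 := d.Tcomm gT hu
  have f1 : u * z * u⁻¹ * z⁻¹ = u * (y * z * y⁻¹) * u⁻¹ * (y * z * y⁻¹)⁻¹ := by
    calc _ = u * z * (u⁻¹ * (z⁻¹ * (y * z * y⁻¹) * u)) * u⁻¹ * (y * z * y⁻¹)⁻¹ := by group
      _ = _ := by rw [← c2]; group
  have fT := mul_mem bT (inv_mem zT')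
  have fF := h.c.spread (S.symm al) a21 l1 (fun q hq => d.Tcomm fT hq) (d.TFb fT) (f1 ▸ d.TFb (mul_mem aT (inv_mem zT)))
  have uP : u ∈ S.P (v 2) (v 1) := h.pg.next a32 a21 (h.c.QP a32 hu) u1
  have c3 := hz.1.2.1 _ (S.Psymm a10 ▸ h.pg.next a21 a10 (mul_mem (inv_mem uP) (S.Psymm a12 ▸ hu0))
    (by rw [mul_smul, ← u0', inv_smul_smul]))
  rwa [show u0 * z * u0⁻¹ = u * (u⁻¹ * u0 * z) * u0⁻¹ by group, c3, show u * (z * (u⁻¹ * u0)) * u0⁻¹ = u * z * u⁻¹ by group,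
    ← d.Tcomm (inv_mem zT) (d.TQ aT), f1]

theorem oct3_conj (h : Ctx S p) {v w : ℤ → V} (hv : S.Apt v) (g : G) (h0 : g • v 0 = w 0) (h1 : g • v 1 = w 1)
    (h2 : g • v 2 = w 2) (h3 : Oct3 S p v) : Oct3 S p w := by
  obtain ⟨z, hz, z1, k⟩ := h3
  refine ⟨g * z * g⁻¹, h0 ▸ h1 ▸ h.c.E0conj g (hv.adj 0) hz, mt conj_eq_one_iff.1 z1, fun u hu => ?_⟩
  rw [← h1, ← h2] at hu
  have := h.b.fbConj g (k _ (by simpa only [inv_smul_smul] using S.Pconj g⁻¹ (S.inv g (h.a.adj hv 1 2 (by omega))) hu))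
  rw [h2] at this
  convert this using 1
  group

theorem oct3_reg (h : Ctx S p) (hn : S.n = 8) {v : ℤ → V} (hv : S.Apt v) (h3 : Oct3 S p v) :
    (∀ u ∈ S.P (v 0) (v 1), u • v 2 = v 2 → u ∈ S.Fb 1 (v 1)) ∧
      {w | S.A (v 1) w}.ncard - 1 ≤ Nat.card (S.E0 p 4 (v 2) (v 1)) := by
  have d := h.d 4 hn
  obtain ⟨z, hz, z1, k⟩ := h3
  have a10 := h.a.adj hv 1 0 (by omega)
  have a12 := h.a.adj hv 1 2 (by omega)
  have zT := d.leT a10 hz
  have key : ∀ w, S.A (v 1) w → w ≠ v 2 → ∃ f ∈ S.E0 p 4 (v 2) (v 1), z * f ≠ 1 ∧ z * f ∈ S.Fb 4 w := fun w a n => by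
    obtain ⟨u, hu, rfl⟩ := h.b.nbr a12 a10 a (hv.nb 0) n
    have aT := d.Tconj u zT
    rw [S.Pfix a12 hu] at aT
    refine ⟨_, d.TE a12 (mul_mem (inv_mem zT) aT) (k u hu), ?_⟩
    rw [mul_inv_cancel_left]
    exact ⟨mt conj_eq_one_iff.1 z1, h.b.fbConj u hz.2⟩
  refine ⟨fun u hu u2 => h.b.fb1.2 fun w a => by_contra fun n => ?_, ?_⟩
  · obtain ⟨f, hf, f1, f2⟩ := key w a fun e => n (e ▸ u2)
    have c := hf.1.2.1 u (S.Psymm a12 ▸ h.pg.next (S.symm a10) a12 hu u2)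
    exact f1 (d.disj n (h.b.fbComm (by rw [← mul_assoc, hz.1.2.1 u hu, mul_assoc, c, mul_assoc]) f2) f2)
  · choose! f f0 f1 f2 using key
    rw [← Set.ncard_sdiff_singleton_of_mem (show v 2 ∈ {w | S.A (v 1) w} from a12), ← SetLike.coe_sort_coe,
      Nat.card_coe_set_eq]
    exact Set.ncard_le_ncard_of_injOn f (fun w hw => f0 w hw.1 hw.2) fun w hw w' hw' e => by_contra fun n =>
      f1 w hw.1 hw.2 (d.disj n (f2 w hw.1 hw.2) (e ▸ f2 w' hw'.1 hw'.2))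

end CL.Spl
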