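/-
Project SPL: octagons, the non-degenerate case of the commutator relation.
-/
import Cfsg.Agent.Spl.Defs

set_option autoImplicit false
set_option linter.unusedSectionVars false
open Cfsg MulAction

namespace CL.Spl

universe u

variable {G V : Type u} [Group G] [Finite G] [MulAction G V] [Finite V] {S : GS G V} {p : ℕ}

namespace Oct2

/-- The group generated by the `T l`, `l` adjacent to `x`. -/
def V8 (S : GS G V) (p : ℕ) (x : V) : Subgroup G :=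
  ⨆ t : {t : V × V // S.A x t.1 ∧ S.A t.1 t.2}, S.E0 p 4 t.1.2 t.1.1

theorem mem {x l w : V} {s : G} (h1 : S.A x l) (h2 : S.A l w) (hs : s ∈ S.E0 p 4 w l) : s ∈ V8 S p x :=
  Subgroup.mem_iSup_of_mem (⟨(l, w), h1, h2⟩ : {t : V × V // S.A x t.1 ∧ S.A t.1 t.2}) hs

theorem ind {x : V} {C : G → Prop} {g : G} (hg : g ∈ V8 S p x)
    (h1 : ∀ l w s, S.A x l → S.A l w → s ∈ S.E0 p 4 w l → C s) (h2 : C 1) (h3 : ∀ a b, C a → C b → C (a * b)) : C g :=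
  Subgroup.iSup_induction _ (C := C) hg (fun t s hs => h1 _ _ s t.2.1 t.2.2 hs) h2 h3

variable (h : Ctx S p)
include h

theorem conj {x : V} {g k : G} (hk : k • x = x) (hg : g ∈ V8 S p x) : k * g * k⁻¹ ∈ V8 S p x :=
  ind (C := fun g => k * g * k⁻¹ ∈ V8 S p x) hg
    (fun _ _ _ h1 h2 hs => mem (hk ▸ S.inv k h1 :) (S.inv k h2) (h.c.E0conj k (S.symm h2) hs))
    (by simp) fun a b ha hb => by simpa only [conj_mul] using mul_mem ha hb

theorem gen_fb {x l w : V} {s : G} (h1 : S.A x l) (h2 : S.A l w) (hs : s ∈ S.E0 p 4 w l) : s ∈ S.Fb 2 x :=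
  h.b.fbS.1 (h.b.fbS.1 hs.2 l (S.symm h2)) x (S.symm h1)

theorem fb {x : V} {g : G} (hg : g ∈ V8 S p x) : g ∈ S.Fb 2 x :=
  ind (C := fun g => g ∈ S.Fb 2 x) hg (fun _ _ _ => gen_fb h) (one_mem _) fun _ _ => mul_mem

variable (hn : S.n = 8)
include hn

theorem comm {x : V} {a b : G} (ha : a ∈ V8 S p x) (hb : b ∈ V8 S p x) : Commute a b :=
  ind (C := fun a => Commute a b) ha (fun l w s h1 h2 hs =>
    ind (C := fun b => Commute s b) hb (fun l' w' s' h1' h2' hs' => by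
      by_cases e : w = w'
      · subst e
        exact (hs.1.2.1 s' (h.c.QP (S.symm h2) (h.c.ZQ (S.symm h2') hs'.1).1)).symm
      · exact (h.d 4 hn).comm e hs.2 hs'.2 (h.b.fb1.1 (h.b.fbS.1 (gen_fb h h1 h2 hs) l' h1') w' h2')
          (h.b.fb1.1 (h.b.fbS.1 (gen_fb h h1' h2' hs') l h1) w h2))
      (Commute.one_right s) fun _ _ => Commute.mul_right) (Commute.one_left b) fun _ _ => Commute.mul_left

theorem test {u : ℤ → V} (hu : S.Apt u) {x : G} (hx : x ∈ V8 S p (u 2)) :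
    ∃ e ∈ S.E0 p 4 (u 4) (u 3), x * e⁻¹ ∈ S.Fb 1 (u 0) := by
  refine ind (C := fun x => ∃ e ∈ S.E0 p 4 (u 4) (u 3), x * e⁻¹ ∈ S.Fb 1 (u 0)) hx (fun l w s h1 h2 hs => ?_)
    ⟨1, one_mem _, by simp⟩ ?_
  · by_cases e1 : l = u 1
    · subst e1
      exact ⟨1, one_mem _, by
        simpa using h.b.fbMono (by omega) (gen_fb h (h.a.adj hu 0 1 (by omega)) h2 hs)⟩
    by_cases e2 : w = u 2
    · subst e2
      exact ⟨1, one_mem _, by simpa using h.b.fbApt hu hs.2 1 0 (by norm_num) (by norm_num)⟩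
    obtain ⟨u1, hu1, a1, b1⟩ := h.a.snoc hu 2 l h1 e1
    rw [hn] at b1
    obtain ⟨u2, hu2, a2, b2⟩ := h.a.snoc hu1 3 w (a1 ▸ h2 :) fun e => e2 (e.trans (b1 2 (by omega) le_rfl))
    rw [hn] at b2
    have c : ∀ i, 0 ≤ i → i ≤ 2 → u2 i = u i := fun i i0 i2 =>
      (b2 i (by omega) (by omega)).trans (b1 i (by omega) i2)
    obtain ⟨q, hq, qv⟩ := h.c.tent hu2 hu 0 3 (by omega) (c 0 le_rfl (by omega)) (c 1 (by omega) (by omega))
    rw [c 0 le_rfl (by omega)] at hq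
    have q3 : q • l = u 3 := by rw [← qv 3 (by omega) (by norm_num), b2 3 (by omega) le_rfl, ← a1]; rfl
    have q4 : q • w = u 4 := by rw [← qv 4 (by omega) (by norm_num), ← a2]; rfl
    have s0 : s • u 0 = u 0 := h.b.fbAptFix hu (gen_fb h h1 h2 hs) 0 (by norm_num) (by norm_num)
    refine ⟨q * s * q⁻¹, q3 ▸ q4 ▸ h.c.E0conj q (S.symm h2) hs, ?_⟩
    have := mul_mem (s0 ▸ h.b.fbConj s (h.c.QFb hq) :) (inv_mem (h.c.QFb hq))
    convert this using 1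
    group
  · rintro a b ⟨e, he, ha⟩ ⟨e', he', hb⟩
    have e0 : e • u 0 = u 0 := h.b.fbAptFix hu he.2 0 (by norm_num) (by norm_num)
    refine ⟨e * e', mul_mem he he', ?_⟩
    have := mul_mem ha (e0 ▸ h.b.fbConj e hb :)
    convert this using 1
    group

end Oct2

open Oct2

theorem octII (h : Ctx S p) (hn : S.n = 8) {v : ℤ → V} (hv : S.Apt v) (hw : S.Pt 4 (v 0)) (h1 : ¬ OctI S p v) :
    ∀ y ∈ S.E0 p 4 (v 8) (v 7), ∀ f ∈ S.E0 p 4 (v 6) (v 7), ∃ w, S.A (v 7) w ∧ y * f ∈ S.E0 p 4 w (v 7) := by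
  intro y hy f hf
  have d := h.d 4 hn
  have ad : ∀ i j : ℤ, j = i + 1 ∨ i = j + 1 → S.A (v i) (v j) := h.a.adj hv
  by_cases y1 : y = 1
  · exact ⟨v 6, ad 7 6 (by omega), by rwa [y1, one_mul]⟩
  obtain ⟨z, hz, z1⟩ := h.c.E0ne (ad 0 1 (by omega)) hw
  have zV : z ∈ V8 S p (v 2) := mem (ad 2 1 (by omega)) (ad 1 0 (by omega)) hz
  have cV : ∀ c ∈ S.E0 p 4 (v 6) (v 5), c ∈ V8 S p (v 4) := fun c hc => mem (ad 4 5 (by omega)) (ad 5 6 (by omega)) hc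
  have g2 : ∀ c ∈ S.E0 p 4 (v 6) (v 5), z⁻¹ * (c * z * c⁻¹) ∈ V8 S p (v 2) := fun c hc =>
    mul_mem (inv_mem zV) (conj h (h.b.fbAptFix hv hc.2 2 (by norm_num) (by norm_num)) zV)
  have g4 : ∀ c ∈ S.E0 p 4 (v 6) (v 5), z⁻¹ * (c * z * c⁻¹) ∈ V8 S p (v 4) := fun c hc => by
    have := mul_mem (conj h (h.b.fbAptFix hv (inv_mem hz.2) 4 (by norm_num) (by norm_num)) (cV c hc))
      (inv_mem (cV c hc))
    convert this using 1
    group
  have e2V : ∀ e ∈ S.E0 p 4 (v 2) (v 3), e ∈ V8 S p (v 2) ∧ e ∈ V8 S p (v 4) := fun e he =>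
    ⟨mem (ad 2 3 (by omega)) (ad 3 2 (by omega)) he, mem (ad 4 3 (by omega)) (ad 3 2 (by omega)) he⟩
  have e4V : ∀ e ∈ S.E0 p 4 (v 4) (v 3), e ∈ V8 S p (v 2) ∧ e ∈ V8 S p (v 4) := fun e he =>
    ⟨mem (ad 2 3 (by omega)) (ad 3 4 (by omega)) he, mem (ad 4 3 (by omega)) (ad 3 4 (by omega)) he⟩
  have hD : ∀ c ∈ S.E0 p 4 (v 6) (v 5), ∃ D, (D ∈ V8 S p (v 2) ∧ D ∈ V8 S p (v 4) ∧ D ∈ S.Fb 1 (v 0) ∧
      D ∈ S.Fb 1 (v 6)) ∧ ∃ e ∈ S.E0 p 4 (v 2) (v 3), ∃ e' ∈ S.E0 p 4 (v 4) (v 3),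
      z⁻¹ * (c * z * c⁻¹) = D * e' * e := fun c hc => by
    obtain ⟨e', he', k'⟩ := test h hn hv (g2 c hc)
    obtain ⟨e, he, k⟩ := test h hn (h.a.rev hv 6) (g4 c hc)
    change e ∈ S.E0 p 4 (v 2) (v 3) at he
    change _ ∈ S.Fb 1 (v 6) at k
    refine ⟨z⁻¹ * (c * z * c⁻¹) * e⁻¹ * e'⁻¹,
      ⟨mul_mem (mul_mem (g2 c hc) (inv_mem (e2V e he).1)) (inv_mem (e4V e' he').1),
      mul_mem (mul_mem (g4 c hc) (inv_mem (e2V e he).2)) (inv_mem (e4V e' he').2), ?_,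
      mul_mem k (inv_mem (h.b.fbApt hv he'.2 1 6 (by norm_num) (by norm_num)))⟩, e, he, e', he', by group⟩
    rw [mul_assoc _ e⁻¹, (comm h hn (inv_mem (e2V e he).1) (inv_mem (e4V e' he').1)).eq, ← mul_assoc]
    exact mul_mem k' (inv_mem (h.b.fbApt hv he.2 1 0 (by norm_num) (by norm_num)))
  choose! D hD e he e' he' hg using hD
  have D7 : ∀ c ∈ S.E0 p 4 (v 6) (v 5), D c • v 7 = v 7 := fun c hc =>
    h.b.fbAptFix hv (hD c hc).2.2.2 7 (by norm_num) (by norm_num)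
  have inj : ∀ c ∈ S.E0 p 4 (v 6) (v 5), ∀ c' ∈ S.E0 p 4 (v 6) (v 5), D c • v 8 = D c' • v 8 → c = c' := by
    intro c hc c' hc' k
    have f2 := fb h (mul_mem (inv_mem (hD c' hc').1) (hD c hc).1)
    have k1 : D c' = D c := inv_mul_eq_one.1 (h.b.rigid hv _ (-1) 2 (fun i i1 i2 => by
      rw [hn] at i2
      by_cases a : i ≤ 1
      · exact h.b.fbAptFix hv (mul_mem (inv_mem (hD c' hc').2.2.1) (hD c hc).2.2.1) i (by omega) (by omega)
      by_cases b : i ≤ 4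
      · exact h.b.fbAptFix hv f2 i (by omega) (by omega)
      by_cases b : i ≤ 7
      · exact h.b.fbAptFix hv (mul_mem (inv_mem (hD c' hc').2.2.2) (hD c hc).2.2.2) i (by omega) (by omega)
      · rw [show i = 8 by omega, mul_smul, k, inv_smul_smul]) (h.b.fbMono (by omega) f2)
      (h.b.fbApt hv f2 1 _ (by norm_num) (by norm_num)))
    by_contra ne
    have m0 := mul_mem hc (inv_mem hc')
    refine h1 ⟨z, hz, z1, c * c'⁻¹, m0, fun k => ne (mul_inv_eq_one.1 k),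
      e c * (e c')⁻¹, mul_mem (he c hc) (inv_mem (he c' hc')), e' c * (e' c')⁻¹,
      mul_mem (he' c hc) (inv_mem (he' c' hc')), ?_⟩
    have a1 := comm h hn (g4 c' hc') (inv_mem (cV _ m0))
    have m1 := mul_mem (e2V _ (he c hc)).2 (inv_mem (e2V _ (he c' hc')).2)
    have a3 := comm h hn (e4V _ (he' c hc)).2 m1
    have a4 := comm h hn (hD c hc).2.1 (mul_mem (mul_mem (e4V _ (he' c hc)).2 m1) (inv_mem (e4V _ (he' c' hc')).2))
    calc z⁻¹ * (c * c'⁻¹ * z * (c * c'⁻¹)⁻¹)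
        = z⁻¹ * (c * c'⁻¹) * z * ((c * c'⁻¹)⁻¹ * (z⁻¹ * (c' * z * c'⁻¹))) * (z⁻¹ * (c' * z * c'⁻¹))⁻¹ := by group
      _ = z⁻¹ * (c * z * c⁻¹) * (z⁻¹ * (c' * z * c'⁻¹))⁻¹ := by rw [← a1.eq]; group
      _ = D c * (e' c * (e c * (e c')⁻¹) * (e' c')⁻¹) * (D c)⁻¹ := by rw [hg c hc, hg c' hc', k1]; group
      _ = _ := by rw [a4.eq, a3.eq]; group
  have hy' : ∀ c ∈ S.E0 p 4 (v 6) (v 5), S.A (v 7) (D c • v 8) ∧ D c * y * (D c)⁻¹ ∈ S.E0 p 4 (D c • v 8) (v 7) :=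
    fun c hc => ⟨by simpa only [D7 c hc] using S.inv (D c) (ad 7 8 (by omega)),
      by simpa only [D7 c hc] using h.c.E0conj (D c) (ad 8 7 (by omega)) hy⟩
  obtain ⟨ε, hε, ε1⟩ := h.c.E0ne (ad 2 3 (by omega)) (h.c.PtTwo (ad 0 1 (by omega)) (ad 1 2 (by omega)) hw)
  have hF : ∀ c ∈ S.E0 p 4 (v 6) (v 5), y⁻¹ * (D c * y * (D c)⁻¹) ∈ S.E0 p 4 (v 6) (v 7) := fun c hc => by
    have FT := mul_mem (inv_mem (d.leT (ad 7 8 (by omega)) hy)) (d.leT (hy' c hc).1 (hy' c hc).2)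
    have FV : y⁻¹ * (D c * y * (D c)⁻¹) ∈ V8 S p (v 4) := by
      have := mul_mem (conj h (h.b.fbAptFix hv (inv_mem hy.2) 4 (by norm_num) (by norm_num)) (hD c hc).2.1)
        (inv_mem (hD c hc).2.1)
      convert this using 1
      group
    refine d.TE (ad 7 6 (by omega)) FT (h.c.spread (z := ε • v 7) (ad 7 6 (by omega)) ?_
      (fun k => ε1 (d.semi hv 2 hε.2 k)) (fun q hq => d.Tcomm FT hq) (d.TFb FT)
      (h.b.fbComm (comm h hn (e2V ε hε).2 FV).eq (d.TFb FT)))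
    simpa only [h.b.fbAptFix hv hε.2 6 (by norm_num) (by norm_num)] using S.inv ε (ad 6 7 (by omega))
  obtain ⟨c, k⟩ := (Function.Injective.bijective_of_nat_card_le
    (f := fun c : S.E0 p 4 (v 6) (v 5) => (⟨_, hF c c.2⟩ : S.E0 p 4 (v 6) (v 7)))
    (fun c c' k => Subtype.ext (inj _ c.2 _ c'.2 (by_contra fun ne => y1 (conj_eq_one_iff.1
      (d.disj ne (hy' _ c.2).2.2 ((mul_left_cancel (congrArg Subtype.val k) :) ▸ (hy' _ c'.2).2.2))))))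
    (h.c.E0card' (ad 6 7 (by omega)) (ad 6 5 (by omega))).le).2 ⟨f, hf⟩
  refine ⟨_, (hy' _ c.2).1, ?_⟩
  rw [← show y⁻¹ * (D c * y * (D c)⁻¹) = f from congrArg Subtype.val k, mul_inv_cancel_left]
  exact (hy' _ c.2).2

end CL.Spl
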