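/-
Project SPL: octagons, assembly.
-/
import Cfsg.Agent.Spl.Defs

set_option autoImplicit false
set_option linter.unusedSectionVars false
open Cfsg MulAction

namespace CL.Spl

universe u

variable {G V : Type u} [Group G] [Finite G] [MulAction G V] [Finite V] {S : GS G V} {p : ℕ}

theorem pt_even (h : Ctx S p) {m : ℕ} {v : ℤ → V} (hv : S.Apt v) {a : ℤ} (hw : S.Pt m (v a)) (k : ℤ) :
    S.Pt m (v (a + 2 * k)) := by
  induction k using Int.induction_on with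
  | zero => simpa using hw
  | succ k ih =>
    exact h.c.PtTwo (h.a.adj hv (a + 2 * k) (a + 2 * k + 1) (by omega))
      (h.a.adj hv (a + 2 * k + 1) _ (by omega)) ih
  | pred k ih =>
    exact h.c.PtTwo (h.a.adj hv (a + 2 * (-(k : ℤ))) (a + 2 * (-(k : ℤ)) - 1) (by omega))
      (h.a.adj hv (a + 2 * (-(k : ℤ)) - 1) _ (by omega)) ih

theorem oct3_all (h : Ctx S p) (hn : S.n = 8)
    (hI : ∀ {v : ℤ → V}, S.Apt v → OctI S p v → Oct3 S p v)
    (hC : ∀ {v w : ℤ → V}, S.Apt v → ∀ g : G, g • v 0 = w 0 → g • v 1 = w 1 → g • v 2 = w 2 → Oct3 S p v → Oct3 S p w)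
    (hII : ∀ {v : ℤ → V}, S.Apt v → S.Pt 4 (v 0) → ¬ OctI S p v → ∀ y ∈ S.E0 p 4 (v 8) (v 7),
      ∀ f ∈ S.E0 p 4 (v 6) (v 7), ∃ w, S.A (v 7) w ∧ y * f ∈ S.E0 p 4 w (v 7))
    {v : ℤ → V} (hv : S.Apt v) (hw : S.Pt 4 (v 0)) : Oct3 S p v := by
  have d := h.d 4 hn
  have a10 : S.A (v 1) (v 0) := h.a.adj hv 1 0 (by omega)
  have a12 : S.A (v 1) (v 2) := h.a.adj hv 1 2 (by omega)
  have n02 : v 0 ≠ v 2 := h.a.ne hv 0 2 (by omega) (by omega) (by omega)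
  by_cases hx : ∃ e, S.Apt e ∧ e 7 = v 1 ∧ OctI S p e
  · obtain ⟨e, he, h7, hO⟩ := hx
    obtain ⟨g1, -, h1⟩ := h.b.nbr' (h.a.adj he 2 1 (by omega)) (h.a.adj he 2 3 (by omega))
    obtain ⟨g2, -, h2⟩ := h.b.nbr' (h.a.adj he 4 3 (by omega)) (h.a.adj he 4 5 (by omega))
    obtain ⟨g3, -, h3⟩ := h.b.nbr' (h.a.adj he 6 5 (by omega)) (h.a.adj he 6 7 (by omega))
    have h0 : (g3 * g2 * g1) • e 1 = v 1 := by rw [mul_smul, mul_smul, h1, h2, h3, h7]
    have b0 : S.A (v 1) ((g3 * g2 * g1) • e 0) := h0 ▸ S.inv _ (h.a.adj he 1 0 (by omega))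
    have b2 : S.A (v 1) ((g3 * g2 * g1) • e 2) := h0 ▸ S.inv _ (h.a.adj he 1 2 (by omega))
    obtain ⟨g, hg1, hg0, hg2⟩ := h.b.nbr2 b0 b2 a10 a12
      (fun e' => h.a.ne he 0 2 (by omega) (by omega) (by omega) (smul_left_cancel _ e')) n02
    exact hC he (g * (g3 * g2 * g1)) (by rw [mul_smul, hg0]) (by rw [mul_smul, h0, hg1]) (by rw [mul_smul, hg2])
      (hI he hO)
  · push Not at hx
    have UC : ∀ x x', S.A (v 1) x → S.A (v 1) x' → x ≠ x' → ∀ y ∈ S.E0 p 4 x (v 1), ∀ f ∈ S.E0 p 4 x' (v 1),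
        ∃ w, S.A (v 1) w ∧ y * f ∈ S.E0 p 4 w (v 1) := by
      intro x x' hx1 hx2 hne y hy f hf
      obtain ⟨e, he, e0, e1, e2⟩ := h.a.path2 (S.symm hx2) hx1 hne.symm
      have he' := h.a.shift he (-6)
      have hp : S.Pt 4 (e 0) := e0 ▸ h.c.PtTwo (S.symm a10) hx2 hw
      have := hII he' (by simpa using pt_even h he hp (-3)) (hx _ he' (by simpa using e1))
      simp only [show (8 : ℤ) + -6 = 2 by norm_num, show (7 : ℤ) + -6 = 1 by norm_num,
        show (6 : ℤ) + -6 = 0 by norm_num, e0, e1, e2] at this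
      exact this y hy f hf
    obtain ⟨z, hz, hz1⟩ := h.c.E0ne (S.symm a10) hw
    refine ⟨z, hz, hz1, fun u hu => ?_⟩
    have u1 : u • v 1 = v 1 := S.Pfix a12 hu
    have u2 : u • v 2 = v 2 := h.b.Pfix' a12 hu
    have key : ∀ g ∈ S.P (v 1) (v 2), g • v 0 = v 0 → g * z = z * g := fun g hg g0 => by
      have : g ∈ S.P (v 1) (v 0) := h.pg.next (S.symm a12) a10 (S.Psymm a12 ▸ hg) g0
      exact hz.1.2.1 g (S.Psymm a10 ▸ this)
    by_cases hu0 : u • v 0 = v 0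
    · rw [key u hu hu0]; simp
    have aw : S.A (v 1) (u • v 0) := u1 ▸ S.inv u a10
    have nw : u • v 0 ≠ v 2 := fun e => n02 (smul_left_cancel u (e.trans u2.symm))
    have hzu : u * z * u⁻¹ ∈ S.E0 p 4 (u • v 0) (v 1) := by
      have := h.c.E0conj u (S.symm a10) hz; rwa [u1] at this
    obtain ⟨w, hw1, hw2⟩ := UC _ _ a10 aw (Ne.symm hu0) z⁻¹ (inv_mem hz) _ hzu
    by_cases hw3 : w = v 2
    · exact hw3 ▸ hw2.2
    obtain ⟨e, he, e0, ee⟩ := h.a.cons hv 1 _ aw nw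
    rw [hn] at ee
    obtain ⟨q, hq, qq⟩ := h.c.tent' hv he 4 3 (by omega) (ee 4 (by omega) (by omega)).symm
      (ee _ (by omega) (by omega)).symm
    have q0 : q • v 0 = u • v 0 := by rw [qq 0 (by omega) (by omega), ← e0]; rfl
    have qf : ∀ i, 1 ≤ i → i ≤ 4 → q • v i = v i := fun i h1 h2 => by
      rw [qq i (by omega) h2, ee i h1 (by omega)]
    have qP : q ∈ S.P (v 1) (v 2) := h.c.seg hv 1 4 3 1 (by omega) (by omega) (by omega) (by omega) qf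
      (h.c.QP' (h.a.adj hv 4 3 (by omega)) hq)
    have e1 : u * z * u⁻¹ = q * z * q⁻¹ := by
      have := key (q⁻¹ * u) (mul_mem (inv_mem qP) hu) (by rw [mul_smul, ← q0, inv_smul_smul])
      calc u * z * u⁻¹ = q * (q⁻¹ * u * z) * u⁻¹ := by group
        _ = q * z * q⁻¹ := by rw [this]; group
    have z4 : z⁻¹ • v 4 = v 4 := h.b.fbAptFix hv (inv_mem hz.2) 4 (by omega) (by omega)
    have hQ : z⁻¹ * (u * z * u⁻¹) ∈ S.Q (v 4) := by
      have := h.c.Qconj z⁻¹ hq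
      rw [z4] at this
      have e2 : z⁻¹ * (u * z * u⁻¹) = z⁻¹ * q * z⁻¹⁻¹ * q⁻¹ := by rw [e1]; group
      exact e2 ▸ mul_mem this (inv_mem hq)
    obtain ⟨e', he', e0', ee'⟩ := h.a.cons hv 1 _ hw1 hw3
    rw [hn] at ee'
    have : z⁻¹ * (u * z * u⁻¹) = 1 := d.semi he' 0 (by rw [show e' 0 = w from e0']; exact hw2.2) (by
      rw [show e' (0 + (4 : ℕ) + 1) = v 5 from ee' 5 (by omega) (by omega)]
      exact h.b.fb1.1 (h.c.QFb hQ) _ (h.a.adj hv 4 5 (by omega)))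
    rw [this]; exact one_mem _

theorem octP (hL : LemLS.{u}) (h : Ctx S p) (hn : S.n = 8)
    (hH : ∀ {x l : V}, S.A x l → {w | S.A x w}.ncard - 1 ≤ ({w | S.A l w}.ncard - 1) ^ 2)
    (hs : ∀ {v : ℤ → V}, S.Apt v → S.Pt 4 (v 0) → {w | S.A (v 1) w}.ncard - 1 ≤ Nat.card (S.E0 p 4 (v 2) (v 1)))
    {x : V} (hw : S.Pt 4 x) : S.RegA x := by
  intro v hv h0 r hr rf
  subst h0
  have d := h.d 4 hn
  have a01 : S.A (v 0) (v 1) := h.a.adj hv 0 1 (by omega)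
  have a0m : S.A (v 0) (v (-1)) := h.a.adj hv 0 (-1) (by omega)
  have n1m : v 1 ≠ v (-1) := h.a.ne hv 1 (-1) (by omega) (by omega) (by omega)
  have hR : R1 (stabilizer G (v 0) ⊓ stabilizer G (v 8)) {w | S.A (v 0) w} p
      fun a => S.P (v 0) a ⊓ stabilizer G (v 8) :=
    { prime := h.pg.prime
      inv := fun {g a} hg ha => by have := S.inv g ha; rwa [show g • v 0 = v 0 from hg.1] at this
      le := fun ha u hu => ⟨S.Pfix ha hu.1, hu.2⟩
      fix := fun ha hu => h.b.Pfix' ha hu.1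
      conj := fun {g a u} hg ha hu => ⟨by
        have := S.Pconj g ha hu.1; rwa [show g • v 0 = v 0 from hg.1] at this,
        (stabilizer G (v 8)).mul_mem ((stabilizer G (v 8)).mul_mem hg.2 hu.2) ((stabilizer G (v 8)).inv_mem hg.2)⟩
      pg := fun ha => (h.pg.pg ha).to_inf_left
      trans := fun {a y y'} ha hy hy' n1 n2 => by
        obtain ⟨e, he, e0, e8, e1, em⟩ := h.a.opp hv a y ha hy n1.symm
        rw [hn] at e8
        obtain ⟨u, hu, uf, um⟩ := h.b.move' he 0 0 y' le_rfl (by omega) (e0 ▸ hy') (by simpa [e1] using n2)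
        refine ⟨u, ⟨by simpa [e0, e1] using hu, ?_⟩, by simpa [em] using um⟩
        have := uf 8 (by omega) (by omega)
        rwa [show e 8 = v 8 from e8] at this
      sym := fun ha hb hu ub => ⟨h.pg.next (S.symm ha) hb (S.Psymm ha ▸ hu.1) ub, hu.2⟩ }
  rcases hL G V _ _ p _ hR (v 1) a01 (v (-1)) a0m n1m with h1 | h1
  · exact h.b.fb1.2 (h1 r ⟨hr, rf 8⟩ (rf _))
  exfalso
  set Δ := {x ∈ {w | S.A (v 0) w} | ∀ u ∈ S.P (v 0) (v 1) ⊓ stabilizer G (v 8), u • v (-1) = v (-1) → u • x = x}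
  have ef : ∀ e ∈ S.E0 p 4 (v 4) (v 3), ∀ i, 0 ≤ i → i ≤ 8 → e • v i = v i := fun e he i h1 h2 =>
    h.b.fbAptFix hv he.2 i (by omega) (by omega)
  have hin : ∀ e : S.E0 p 4 (v 4) (v 3), (e : G) • v (-1) ∈ Δ \ {v 1} := by
    rintro ⟨e, he⟩
    refine ⟨⟨?_, fun u hu um => ?_⟩, fun e1 => ?_⟩
    · have := S.inv e a0m; rwa [ef e he 0 (by omega) (by omega)] at this
    · have u1 : u • v 1 = v 1 := h.b.Pfix' a01 hu.1
      have uf : ∀ i, 0 ≤ i → i ≤ 4 → u • v i = v i := fun i h1 h2 => by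
        rcases h1.eq_or_lt with rfl | h1
        · exact S.Pfix a01 hu.1
        · exact h.b.between hv u 1 8 (by omega) u1 hu.2 i (by omega) (by omega)
      have uP : u ∈ S.P (v 3) (v 4) := h.c.seg hv 0 4 0 3 (by omega) (by omega) (by omega) (by omega) uf hu.1
      have := he.1.2.1 u (S.Psymm (h.a.adj hv 3 4 (by omega)) ▸ uP)
      show u • e • v (-1) = e • v (-1)
      rw [← mul_smul, this, mul_smul, um]
    · exact n1m (smul_left_cancel e ((ef e he 1 (by omega) (by omega)).trans (Set.mem_singleton_iff.1 e1).symm))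
  have hinj : Function.Injective fun e : S.E0 p 4 (v 4) (v 3) => (⟨_, hin e⟩ : ↥(Δ \ {v 1})) := by
    intro e e' hee
    have h2 : (e : G) • v (-1) = (e' : G) • v (-1) := congrArg Subtype.val hee
    have := d.semi' hv 4 (e := (e' : G)⁻¹ * e) (mul_mem (inv_mem e'.2.2) e.2.2) (by
      show ((e' : G)⁻¹ * e) • v (-1) = v (-1)
      rw [mul_smul, h2, inv_smul_smul])
    exact Subtype.ext (inv_mul_eq_one.1 this).symm
  have c1 := Nat.card_le_card_of_injective _ hinj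
  have m1 : v 1 ∈ Δ := ⟨a01, fun u hu _ => h.b.Pfix' a01 hu.1⟩
  rw [Nat.card_coe_set_eq (Δ \ {v 1}), Set.ncard_diff_singleton_of_mem m1] at c1
  have c2 := hs (h.a.shift hv 2) (by simpa using pt_even h hv hw 1)
  simp only [show (1 : ℤ) + 2 = 3 by norm_num, show (2 : ℤ) + 2 = 4 by norm_num] at c2
  have c3 := hH a01
  rw [h.b.cardNbr (h.a.adj hv 1 2 (by omega)) (h.a.adj hv 2 3 (by omega))] at c3
  have c4 : 3 ≤ {w | S.A (v 3) w}.ncard := by
    obtain ⟨y, hy, y2, y4⟩ := S.thick (v 3) (v 2) (v 4)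
    have : ({y, v 2, v 4} : Set V) ⊆ {w | S.A (v 3) w} := by
      rintro w (rfl | rfl | rfl)
      exacts [hy, h.a.adj hv 3 2 (by omega), h.a.adj hv 3 4 (by omega)]
    have h3 : ({y, v 2, v 4} : Set V).ncard = 3 :=
      Set.ncard_eq_three.2 ⟨_, _, _, y2, y4, h.a.ne hv 2 4 (by omega) (by omega) (by omega), rfl⟩
    exact h3 ▸ Set.ncard_le_ncard this
  obtain ⟨s, hs'⟩ : ∃ s, s = {w | S.A (v 3) w}.ncard - 1 := ⟨_, rfl⟩
  rw [← hs'] at c2 c3
  have c5 : s ^ 3 ≤ s ^ 2 := ((Nat.pow_le_pow_left (c2.trans c1) 3).trans h1).trans c3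
  exact absurd (Nat.pow_lt_pow_right (by omega : 1 < s) (by omega : 2 < 3)) (not_lt.2 c5)

end CL.Spl
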