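/-
Project SPL (S3415): central elations in generalized quadrangles.
-/
import Cfsg.Agent.Spl.Defs

set_option autoImplicit false
set_option linter.unusedSectionVars false
open Cfsg MulAction

namespace CL.Spl

universe u

variable {G V : Type u} [Group G] [Finite G] [MulAction G V] [Finite V] {S : GS G V} {p : ℕ}

namespace QuadL

variable {l w w' m a x0 x1 x2 x3 x4 x5 : V} {x z : G} (h : Ctx S p)
include h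

theorem fix2 (hz : z ∈ S.Fb 2 w) (h1 : S.A w l) (h2 : S.A l a) : z • a = a := h.b.fb1.1 (h.b.fbS.1 hz l h1) a h2

theorem fixm (h1 : S.A a m) (h2 : S.A w m) (h3 : a ≠ w) (ha : z • a = a) (hw : z • w = w) : z • m = m :=
  (h.a.no4 h1 h2 (ha ▸ S.inv z h1) (hw ▸ S.inv z h2) h3).symm

variable (hn : S.n = 4)
include hn

theorem semi3 (hz : z ∈ S.Fb 2 x0) (h1 : S.A x0 x1) (h2 : S.A x1 x2) (h3 : S.A x2 x3) (n1 : x0 ≠ x2) (n2 : x1 ≠ x3)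
    (e : z • x3 = x3) : z = 1 := by
  obtain ⟨v, hv, rfl, rfl, rfl, rfl⟩ := h.a.path3 h1 h2 h3 n1 n2
  exact (h.d 2 hn).semi hv 0 hz e

theorem path4 (h1 : S.A x0 x1) (h2 : S.A x1 x2) (h3 : S.A x2 x3) (h4 : S.A x3 x4) (n1 : x0 ≠ x2) (n2 : x1 ≠ x3)
    (n3 : x2 ≠ x4) : ∃ v, S.Apt v ∧ v 0 = x0 ∧ v 1 = x1 ∧ v 2 = x2 ∧ v 3 = x3 ∧ v 4 = x4 := by
  obtain ⟨v, hv, rfl, rfl, rfl, rfl⟩ := h.a.path3 h1 h2 h3 n1 n2
  obtain ⟨w, hw, e, k⟩ := h.a.snoc hv 3 x4 h4 n3.symm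
  rw [hn] at k
  exact ⟨w, hw, k 0 (by norm_num) (by norm_num), k 1 (by norm_num) (by norm_num), k 2 (by norm_num) (by norm_num),
    k 3 (by norm_num) (by norm_num), e⟩

theorem close5 (h1 : S.A x0 x1) (h2 : S.A x1 x2) (h3 : S.A x2 x3) (h4 : S.A x3 x4) (h5 : S.A x4 x5) (n1 : x0 ≠ x2)
    (n2 : x1 ≠ x3) (n3 : x2 ≠ x4) (n4 : x3 ≠ x5) : ∃ b c, S.A x5 b ∧ S.A x0 c ∧ S.A c b ∧ x4 ≠ b ∧ x0 ≠ b ∧ x1 ≠ c ∧
      c ≠ x5 := by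
  obtain ⟨v, hv, rfl, rfl, rfl, rfl, rfl⟩ := path4 h hn h1 h2 h3 h4 n1 n2 n3
  obtain ⟨w, hw, e, k⟩ := h.a.snoc hv 4 x5 h5 n4.symm
  rw [hn] at k
  have ne := h.a.ne hw
  have per := hw.per 0
  rw [hn] at ne per
  rw [← e, ← k 0 (by norm_num) (by norm_num), ← k 1 (by norm_num) (by norm_num), ← k 4 (by norm_num) (by norm_num)]
  exact ⟨w 6, w 7, hw.adj 5, per ▸ S.symm (hw.adj 7), S.symm (hw.adj 6), hw.nb 4, per ▸ (hw.nb 6).symm,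
    ne 1 7 (by norm_num) (by norm_num) (by norm_num), (hw.nb 5).symm⟩

theorem ti3 {w₁ w₂ w₃ : V} {z₁ z₂ : G} (a1 : S.A l w₁) (a2 : S.A l w₂) (a3 : S.A l w₃) (n12 : w₁ ≠ w₂) (n13 : w₁ ≠ w₃)
    (n23 : w₂ ≠ w₃) (a4 : S.A w₃ m) (ml : m ≠ l) (a5 : S.A m a) (aw : a ≠ w₃) (h1 : z₁ ∈ S.Fb 2 w₁)
    (h2 : z₂ ∈ S.Fb 2 w₂) (e : (z₂ * z₁) • a = a) : z₁ = 1 ∧ z₂ = 1 := by
  obtain rfl : z₁ = 1 := by
    by_contra k
    obtain ⟨r, b1, b2, -⟩ := S.thick a m m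
    obtain ⟨b, c, c1, c2, c3, c4, c5, c6, c7⟩ := close5 h hn (S.symm a1) a3 a4 a5 b1 n13 ml.symm aw.symm b2.symm
    have d1 : z₁ • r ≠ r := fun e => k (semi3 h hn h1 c2 c3 (S.symm c1) c5 c7 e)
    have d2 : S.A b (z₁ • r) := fix2 h h1 c2 c3 ▸ S.inv z₁ (S.symm c1)
    obtain ⟨b', c', f1, f2, f3, f4, -⟩ := close5 h hn (S.symm a2) a1 c2 c3 d2 n12.symm c6 c5 fun e =>
      c7 (MulAction.injective z₁ ((h.b.fbFix (h.b.fbS.1 h1 c c2)).trans e))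
    have d3 : ¬ S.A a (z₁ • r) := fun e => d1 (h.a.no4 b1 (S.symm c1) e d2 c4).symm
    have d4 : S.A a (z₂ • z₁ • r) := by rw [← mul_smul, ← e]; exact S.inv _ b1
    exact h.a.no6 hn.ge b1 (S.symm c1) d2 (S.symm f1) (fix2 h h2 f2 f3 ▸ S.inv z₂ (S.symm f1)) d4 c4 f4
      (fun e => d3 (e ▸ S.symm f1)) d1.symm fun e => d3 (e ▸ d4)
  exact ⟨rfl, semi3 h hn h2 (S.symm a2) a3 a4 n23 ml.symm
    (fixm h (S.symm a5) a4 aw (mul_one z₂ ▸ e) (fix2 h h2 (S.symm a2) a3))⟩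

theorem tst (a1 : S.A l w) (a2 : S.A l w') (n : w ≠ w') (hx : x ∈ S.T p 2 l) :
    ∃ e ∈ S.E0 p 2 w l, x * e⁻¹ ∈ S.Q w' := by
  obtain ⟨v, hv, rfl, rfl, rfl⟩ := h.a.path2 (S.symm a2) a1 n.symm
  exact (h.d 2 hn).test hv 1 hx

theorem t3 (a1 : S.A l w) (a2 : S.A w m) (ml : m ≠ l) (a3 : S.A m a) (aw : a ≠ w) (hx : x ∈ S.T p 2 l)
    (e : x • a = a) : x ∈ S.E0 p 2 w l := by
  obtain ⟨w', b1, b2, -⟩ := S.thick l w w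
  obtain ⟨c, hc, k⟩ := tst h hn a1 b1 b2.symm hx
  obtain ⟨v, hv, rfl, rfl, rfl, rfl, rfl⟩ := path4 h hn (S.symm a3) (S.symm a2) (S.symm a1) b1 aw ml b2.symm
  have k1 := mul_mem (h.c.QFb ((h.d 2 hn).TQ hx)) (h.b.fbS.1 (inv_mem hc.2) _ (S.symm a1))
  rwa [mul_inv_eq_one.1 (h.b.rigid hv _ 0 3 (fun i h1 h2 => ?_) k1 (h.c.QFb k))]
  rw [hn] at h2
  by_cases h3 : i ≤ 3
  · exact h.b.between hv _ 0 3 (by rw [hn]; norm_num) (by rw [mul_smul, fix2 h (inv_mem hc.2) a2 a3, e])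
      (h.b.fbFix k1) i h1 h3
  · exact h.b.fbAptFix hv (h.c.QFb k) i (by omega) (by omega)

theorem dec (a1 : S.A l w) (a2 : S.A l w') (n : w ≠ w') (hx : x ∈ S.T p 2 l ⊓ S.Q w) :
    ∃ e ∈ S.E0 p 2 w l, x * e⁻¹ ∈ S.T p 2 l ⊓ S.Q w ⊓ S.Q w' :=
  let ⟨e, he, k⟩ := tst h hn a1 a2 n hx.1
  ⟨e, he, Subgroup.mul_mem _ hx (inv_mem ⟨(h.d 2 hn).leT a1 he, (h.c.ZQ (S.symm a1) he.1).1⟩), k⟩

theorem t4 {a' : V} (hp : S.Pt 2 w) (a1 : S.A l w) (a2 : S.A l w') (n : w ≠ w') (a3 : S.A w m) (ml : m ≠ l)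
    (a4 : S.A m a) (a5 : S.A m a') (aw : a ≠ w) (aw' : a' ≠ w) : ∃ d ∈ S.T p 2 l ⊓ S.Q w ⊓ S.Q w', d • a = a' := by
  obtain ⟨z, hz, z1⟩ := h.c.E0ne (S.symm a2) (h.c.PtTwo (S.symm a1) a2 hp)
  have zT := (h.d 2 hn).leT a2 hz
  choose f h1 h2 using fun (y : V) (hy : y ∈ {y | S.A l y} \ {w}) => tst h hn hy.1 a1 hy.2 zT
  obtain ⟨y, hy, rfl⟩ := Set.surj_on_of_inj_on_of_ncard_le (t := {y | S.A m y} \ {w}) (fun y hy => (z * (f y hy)⁻¹) • a)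
    (fun y hy => ⟨h.b.fb1.1 (h.c.QFb (h2 y hy)) m a3 ▸ S.inv _ a4, fun e =>
      aw (MulAction.injective _ (e.trans (h.b.fbFix (h.c.QFb (h2 y hy))).symm))⟩)
    (fun y y' hy hy' e => by_contra fun k => z1 (semi3 h hn hz.2 (S.symm a2) a1 a3 n.symm ml.symm (by
      have := h.b.fb1.1 (h.c.QFb (h2 y' hy')) m a3
      rwa [(ti3 h hn hy.1 hy'.1 a1 k hy.2 hy'.2 a3 ml a4 aw (inv_mem (h1 y hy).2) (h1 y' hy').2 (by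
        rw [mul_smul, mul_smul, smul_left_cancel_iff] at e
        rw [mul_smul, e, smul_inv_smul])).2, inv_one, mul_one] at this)))
    (by rw [Set.ncard_sdiff_singleton_of_mem (by exact S.symm a3), Set.ncard_sdiff_singleton_of_mem (by exact a1),
      h.b.cardNbr a1 a3]) (Set.toFinite _) a' ⟨a5, aw'⟩
  obtain ⟨e, he, k⟩ := dec h hn a1 a2 n ⟨Subgroup.mul_mem _ zT (inv_mem ((h.d 2 hn).leT hy.1 (h1 y hy))), h2 y hy⟩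
  exact ⟨_, k, by rw [mul_smul, fix2 h (inv_mem he.2) a3 a4]⟩

end QuadL

open QuadL in
theorem quad (h : Ctx S p) (hn : S.n = 4) : Quad S p := by
  refine ⟨ti3 h hn, fun {l w₁ w₂ w₃ z₁ z₂} a1 a2 a3 n1 n2 n3 h1 h2 h3 => ?_, t3 h hn, t4 h hn,
    fun {l m w x y} a1 a2 n hx hy => ?_, dec h hn⟩
  · obtain ⟨m, b1, b2, -⟩ := S.thick w₃ l l
    obtain ⟨a, c1, c2, -⟩ := S.thick m w₃ w₃
    exact ti3 h hn a1 a2 a3 n1 n2 n3 b1 b2 c1 c2 h1 h2 (fix2 h h3 b1 c1)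
  · obtain ⟨a, c1, c2, -⟩ := S.thick m w w
    have d := h.d 2 hn
    have k1 := d.Tconj y (inv_mem hx.1)
    have k2 := d.Tconj x hy.1
    rw [h.b.fb1.1 (h.c.QFb hy.2) l a1] at k1
    rw [h.b.fb1.1 (h.c.QFb hx.2) m a2] at k2
    exact t3 h hn (S.symm a1) a2 n.symm c1 c2 (by simpa only [mul_assoc] using Subgroup.mul_mem _ hx.1 k1)
      (h.b.fb1.1 (h.c.QFb (d.TQ (mul_mem k2 (inv_mem hy.1)))) a c1)

end CL.Spl
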