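/-
Project SPL: in a quadrangle with central elations the lines are regular.
-/
import Cfsg.Agent.Spl.ApiC

set_option autoImplicit false
set_option linter.unusedSectionVars false
open Cfsg MulAction

namespace CL.Spl

universe u

variable {G V : Type u} [Group G] [Finite G] [MulAction G V] [Finite V] {S : GS G V} {p : ℕ}

namespace QL

theorem fix2 (h : Ctx S p) {x y z : V} {e : G} (he : e ∈ S.Fb 2 x) (h1 : S.A x y) (h2 : S.A y z) : e • z = z :=
  h.b.fb1.1 (h.b.fbS.1 he y h1) z h2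

theorem comm2 (h : Ctx S p) (hn : S.n = 4) {l x x' : V} {e e' : G} (h1 : S.A l x) (h2 : S.A l x') (hx : x ≠ x')
    (he : e ∈ S.Fb 2 x) (he' : e' ∈ S.Fb 2 x') : e * e' = e' * e :=
  (h.d 2 hn).comm hx he he' (fix2 h he (S.symm h1) h2) (fix2 h he' (S.symm h2) h1)

theorem Ql (h : Ctx S p) {l x : V} {u : G} (hx : S.A l x) (hu : u ∈ S.Q x) : u • l = l :=
  h.b.fb1.1 (h.c.QFb hu) l (S.symm hx)

theorem Qx (h : Ctx S p) {x : V} {u : G} (hu : u ∈ S.Q x) : u • x = x := h.b.fbFix (h.c.QFb hu)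

theorem nb {l x : V} {g : G} (hg : g • l = l) (hx : S.A l x) : S.A l (g • x) := hg ▸ S.inv g hx

/-- `T m ⊓ Q y` is transitive on the other neighbours of `l`. -/
theorem tr (hq : Quad S p) {l y m a a' : V} (hy : S.Pt 2 y) (h1 : S.A l y) (h2 : S.A y m) (hm : m ≠ l)
    (ha : S.A l a) (ha' : S.A l a') (n1 : a ≠ y) (n2 : a' ≠ y) : ∃ d ∈ S.T p 2 m ⊓ S.Q y, d • a = a' := by
  obtain ⟨w', hw', n3, -⟩ := S.thick m y y
  obtain ⟨d, hd, e⟩ := hq.t4 hy (S.symm h2) hw' n3.symm (S.symm h1) hm.symm ha ha' n1 n2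
  exact ⟨d, hd.1, e⟩

/-- For odd `p` two adjacent vertices are not both centres of central elations. -/
theorem notBoth (h : Ctx S p) (hn : S.n = 4) (hq : Quad S p) (hp : p ≠ 2) {a b : V} (hab : S.A a b) (ha : S.Pt 2 a)
    (hb : S.Pt 2 b) : False := by
  have d := h.d 2 hn
  obtain ⟨v, hv, rfl, rfl⟩ := h.a.path1 hab
  have A : ∀ i j : ℤ, j = i + 1 ∨ i = j + 1 → S.A (v i) (v j) := h.a.adj hv
  have p2 : S.Pt 2 (v 2) := h.c.PtTwo (A 0 1 (by norm_num)) (A 1 2 (by norm_num)) ha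
  have p5 : S.Pt 2 (v 5) := h.c.PtTwo (A 3 4 (by norm_num)) (A 4 5 (by norm_num))
    (h.c.PtTwo (A 1 2 (by norm_num)) (A 2 3 (by norm_num)) hb)
  obtain ⟨z, ⟨-, hz⟩, z1⟩ := h.c.E0ne (A 5 4 (by norm_num)) p5
  obtain ⟨x, ⟨⟨-, -, xp⟩, hx⟩, x1⟩ := h.c.E0ne (A 2 3 (by norm_num)) p2
  have x4 : x • v 4 = v 4 := fix2 h hx (A 2 3 (by norm_num)) (A 3 4 (by norm_num))
  have z3 : z • v 3 = v 3 := fix2 h hz (A 5 4 (by norm_num)) (A 4 3 (by norm_num))
  have n1 : x • v 5 ≠ v 5 := fun e => x1 (d.semi hv 2 hx (by simpa using e))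
  have n2 : (x * x) • v 5 ≠ v 5 := fun e => x1 (by
    have e2 : x ^ 2 = 1 := by rw [pow_two]; exact d.semi hv 2 (mul_mem hx hx) (by simpa using e)
    have := pow_gcd_eq_one.2 ⟨xp, e2⟩
    rwa [(Nat.coprime_primes h.pg.prime Nat.prime_two).2 hp, pow_one] at this)
  have n3 : z • v 2 ≠ v 2 := fun e => z1 (d.semi' hv 5 hz (by simpa using e))
  have a5 := A 4 5 (by norm_num)
  have c1 := comm2 h hn (A 3 2 (by norm_num)) (nb z3 (A 3 2 (by norm_num))) n3.symm hx (h.b.fbConj z (inv_mem hx))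
  have h1 := h.b.fbConj x hz
  have c2 := comm2 h hn a5 (nb x4 a5) n1.symm hz h1
  refine z1 (hq.dep a5 (nb (g := x * x) (by rw [mul_smul, x4, x4]) a5) (nb x4 a5) n2.symm n1.symm
    (fun e => n1 (by rwa [mul_smul, smul_left_cancel_iff] at e)) hz (h.b.fbConj (x * x) hz) ?_).1
  have e : x * x * z * (x * x)⁻¹ * z = x * z * x⁻¹ * (x * z * x⁻¹) := by
    calc x * x * z * (x * x)⁻¹ * z = x * (x * (z * x⁻¹ * z⁻¹)) * (z * x⁻¹ * z) := by group
      _ = x * z * x⁻¹ * z⁻¹ * (x * z * x⁻¹ * z) := by rw [c1]; group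
      _ = _ := by rw [← c2]; group
  exact e ▸ mul_mem h1 h1

/-- The two-point stabiliser in `P`. -/
def R (S : GS G V) (l a b : V) : Subgroup G := S.P l a ⊓ stabilizer G b

theorem Rsymm (h : Ctx S p) {l a b : V} (ha : S.A l a) (hb : S.A l b) : R S l a b = R S l b a := by
  have k : ∀ {a b : V}, S.A l a → S.A l b → R S l a b ≤ R S l b a := fun ha hb r hr =>
    ⟨h.pg.next (S.symm ha) hb (S.Psymm ha ▸ hr.1) hr.2, h.b.Pfix' ha hr.1⟩
  exact le_antisymm (k ha hb) (k hb ha)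

theorem Rconj {l a b : V} (ha : S.A l a) {g r : G} (hg : g • l = l) (hr : r ∈ R S l a b) :
    g * r * g⁻¹ ∈ R S l (g • a) (g • b) :=
  ⟨hg ▸ S.Pconj g ha hr.1, by
    change _ • _ = _
    rw [mul_smul, mul_smul, inv_smul_smul, show r • b = b from hr.2]⟩

/-- An element normalising `R` preserves the set of fixed points of `R`. -/
theorem pres {R : Subgroup G} {g : G} {y : V} (hg : ∀ r ∈ R, g⁻¹ * r * g⁻¹⁻¹ ∈ R) :
    (∀ r ∈ R, r • g • y = g • y) ↔ ∀ r ∈ R, r • y = y := by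
  have n := Subgroup.mem_normalizer_iff.1 (inv_mem_iff.1 (Subgroup.mem_normalizer_fintype hg))
  refine ⟨fun e r hr => ?_, fun e r hr => ?_⟩
  · simpa only [mul_smul, inv_smul_smul, smul_left_cancel_iff] using e _ ((n r).1 hr)
  · simpa only [mul_smul, inv_inv, inv_smul_eq_iff] using e _ (hg r hr)

theorem norm {l a b : V} (ha : S.A l a) {g : G} (gl : g • l = l) (ga : g • a = a)
    (hb : ∀ r ∈ R S l a b, r • g • b = g • b) {y : V} :
    (∀ r ∈ R S l a b, r • g • y = g • y) ↔ ∀ r ∈ R S l a b, r • y = y := by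
  refine pres fun r hr => ?_
  have := Rconj ha (inv_smul_eq_iff.2 gl.symm) (b := g • b) ⟨hr.1, hb r hr⟩
  rwa [inv_smul_eq_iff.2 ga.symm, inv_smul_smul] at this

end QL

open QL

theorem quadLeven (hT : LemTR.{u}) (h : Ctx S 2) (hn : S.n = 4) (hq : Quad S 2) {w l : V} (hw : S.Pt 2 w)
    (hl : S.A w l) : S.Reg l := fun a b u ha hb hab hu ub => by
  have d := h.d 2 hn
  choose m hm hml _ using fun y => S.thick y l l
  refine h.b.fb1.2 (hT G V (stabilizer G l) {y | S.A l y} (fun y => S.T 2 2 (m y) ⊓ S.Q y) (fun g hg a ha => nb hg ha)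
    (fun a ha u hu => Ql h ha hu.2) (fun a _ u hu => Qx h hu.2)
    (fun a ha x hx y hy => tr hq (h.c.PtTwo hl ha hw) ha (hm a) (hml a) hx hy)
    (fun a _ u hu u' hu' x _ => by rw [← mul_smul, ← mul_smul, d.Tcomm hu.1 (d.TQ hu'.1)])
    (fun a _ u hu x _ => by rw [← mul_smul, ← pow_two, d.Tpow hu.1, one_smul])
    (fun g hg a ha u hu => ?_) a ha b hb hab (R S l a b) ((h.pg.pg ha).to_le inf_le_left)
    (fun r hr => S.Pfix ha hr.1) (fun r hr => ⟨h.b.Pfix' ha hr.1, hr.2⟩)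
    (fun g hg ga gb r hr => by simpa only [ga, gb] using Rconj ha hg hr) u ⟨hu, ub⟩)
  have hg' : g • l = l := hg
  obtain ⟨q, hq, e⟩ := h.c.tent1 (nb hg ha) (S.inv g (hm a)) (hm _)
    (fun e => hml a ((smul_left_cancel_iff g).1 (e.trans hg'.symm))) (hml _)
  have f := h.b.fb1.1 (h.c.QFb hq)
  have k := h.c.Qconj g hu.2
  refine ⟨q * (g * u * g⁻¹) * q⁻¹, ⟨e ▸ d.Tconj q (d.Tconj g hu.1), f _ (nb hg ha) ▸ h.c.Qconj q k⟩, fun x hx => ?_⟩
  rw [mul_smul _ q⁻¹, inv_smul_eq_iff.2 (f x hx).symm, mul_smul q, f _ (nb (Ql h (nb hg ha) k) hx)]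

theorem quadLodd (h : Ctx S p) (hn : S.n = 4) (hq : Quad S p) (hp : p ≠ 2) {w l : V} (hw : S.Pt 2 w)
    (hl : S.A w l) : S.Reg l := fun a b u ha hb hab hu ub => by
  have d := h.d 2 hn
  refine h.b.fb1.2 fun y hy => by_contra fun hy' => ?_
  have pa := h.c.PtTwo hl ha hw
  have pb := h.c.PtTwo hl hb hw
  obtain ⟨m, hm, ml, -⟩ := S.thick a l l
  obtain ⟨m', hm', ml', -⟩ := S.thick b l l
  have Ra : ∀ r ∈ R S l a b, r • a = a := fun r hr => h.b.Pfix' ha hr.1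
  have Rb : ∀ r ∈ R S l a b, r • b = b := fun r hr => hr.2
  obtain ⟨x, hx, x1, -, xc⟩ := AC.cen h.pg.prime ((h.pg.pg ha).to_le (inf_le_left : R S l a b ≤ _))
    (K := S.T p 2 l ⊓ S.Q a ⊓ S.Q b) (Q := ⊥) (fun k hk => ⟨h.c.QP' (S.symm ha) hk.1.2, Qx h hk.2⟩)
    (fun r hr k hk => ⟨⟨S.Pfix ha hr.1 ▸ d.Tconj r hk.1.1, Ra r hr ▸ h.c.Qconj r hk.1.2⟩, Rb r hr ▸ h.c.Qconj r hk.2⟩)
    (fun r _ k hk => by simpa using hk) (fun e => by
      obtain ⟨c, hc, n1, -⟩ := S.thick m a a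
      obtain ⟨c', hc', n2, n3⟩ := S.thick m a c
      obtain ⟨k, hk, e'⟩ := hq.t4 pa ha hb hab hm ml hc hc' n1 n2
      rw [e hk, one_smul] at e'
      exact n3 e'.symm)
  replace xc : ∀ r ∈ R S l a b, Commute r x := fun r hr => mul_inv_eq_iff_eq_mul.1 (mul_inv_eq_one.1 (xc r hr))
  have claim : ∀ g ∈ S.T p 2 m' ⊓ S.Q b, (¬ ∀ r ∈ R S l a b, r • g • a = g • a) → Commute g x := by
    intro g hg hΔ
    have gl := Ql h hb hg.2
    have n1 : g • a ≠ a := fun e => hΔ (by rwa [e])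
    have n2 : g • a ≠ b := fun e => hΔ (by rwa [e])
    obtain ⟨s, hs, e1⟩ := tr hq pa ha hm ml (nb gl ha) hb n1 hab.symm
    have sl := Ql h ha hs.2
    obtain ⟨t, ht, e2⟩ := tr hq pb hb hm' ml' (nb sl hb) ha
      (fun e => n2 ((smul_left_cancel_iff s).1 (e1.trans e.symm))) hab
    have nl : (t * s * g) • l = l := by rw [mul_smul, mul_smul, gl, sl, Ql h hb ht.2]
    have na : (t * s * g) • a = b := by rw [mul_smul, mul_smul, e1, Qx h ht.2]
    have nb' : (t * s * g) • b = a := by rw [mul_smul, mul_smul, Qx h hg.2, e2]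
    have hx' : t * s * g * x * (t * s * g)⁻¹ ∈ S.T p 2 l ⊓ S.Q b := ⟨nl ▸ d.Tconj _ hx.1.1, na ▸ h.c.Qconj _ hx.1.2⟩
    have xc' : ∀ r ∈ R S l a b, Commute r (t * s * g * x * (t * s * g)⁻¹) := fun r hr => by
      have k := Rconj ha (inv_smul_eq_iff.2 nl.symm) hr
      rw [inv_smul_eq_iff.2 nb'.symm, inv_smul_eq_iff.2 na.symm, Rsymm h hb ha] at k
      simpa only [MulAut.conj_apply, mul_assoc, inv_inv, mul_inv_cancel_left, mul_inv_cancel, mul_one] using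
        (xc _ k).map (MulAut.conj (t * s * g))
    have z := inv_mem (hq.tt (S.symm hb) hm' ml'.symm ⟨hx.1.1, hx.2⟩ hg)
    have e' := hq.tt (S.symm ha) hm ml.symm hx.1 hs
    have z'' := hq.tt (S.symm hb) hm' ml'.symm hx' (inv_mem ht)
    by_contra hc
    refine hΔ ((norm ha sl (Qx h hs.2) fun r hr => by_contra fun hr' => hc ?_).1 (by rwa [e1]))
    have c1 : Commute r _ := e'.1.2.1 r (S.Psymm ha ▸ hr.1)
    have c2 : Commute r _ := z''.1.2.1 r (S.Psymm hb ▸ (Rsymm h ha hb ▸ hr).1)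
    have c3 := ((c2.inv_right.mul_right (xc' r hr)).mul_right (xc r hr).inv_right).mul_right c1
    have k := h.b.fbConj s z.2
    have e3 := d.disj hr' (h.b.fbComm (by convert c3.eq using 2 <;> group) k) k
    have e4 : g * x * g⁻¹ * x⁻¹ = 1 := by simpa [mul_assoc] using conj_eq_one_iff.1 e3
    exact mul_inv_eq_iff_eq_mul.1 (mul_inv_eq_one.1 e4)
  have yΔ : ¬ ∀ r ∈ R S l a b, r • y = y := fun e => hy' (e u ⟨hu, ub⟩)
  obtain ⟨c, hc, ec⟩ := tr hq pb hb hm' ml' ha hy hab (fun e => yΔ (by rwa [e]))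
  have all : ∀ g ∈ S.T p 2 m' ⊓ S.Q b, Commute g x := fun g hg => by
    by_cases hΔ : ∀ r ∈ R S l a b, r • g • a = g • a
    · have k := claim _ (mul_mem hg hc) fun e => yΔ (by
        rw [mul_smul, ec, Rsymm h ha hb] at e
        rw [Rsymm h ha hb] at hΔ ⊢
        exact (norm hb (Ql h hb hg.2) (Qx h hg.2) hΔ).1 e)
      simpa using k.mul_left (claim c hc (ec ▸ yΔ)).inv_left
    · exact claim g hg hΔ
  refine notBoth h hn hq hp hl hw (h.c.PtOf (d.TQ hx.1.1) (h.b.fbS.2 fun y hy => ?_) x1)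
  by_cases e : y = b
  · exact e ▸ h.c.QFb hx.2
  · obtain ⟨g, hg, rfl⟩ := tr hq pb hb hm' ml' ha hy hab e
    exact h.b.fbComm (all g hg).eq (h.c.QFb hx.1.2)

end CL.Spl
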