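/-
Project SPL: the reflection argument for quadrangles.
-/
import Cfsg.Agent.Spl.ApiC

set_option autoImplicit false
set_option linter.unusedSectionVars false
open Cfsg MulAction

namespace CL.Spl

universe u

variable {G V : Type u} [Group G] [Finite G] [MulAction G V] [Finite V] {S : GS G V} {p : ℕ}

namespace QM

/-- The elations with centre `w`. -/
abbrev E (S : GS G V) (w : V) : Subgroup G := S.Q w ⊓ S.Fb 2 w

/-- The elements of `P` fixing the apartment. -/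
def Rg (S : GS G V) (v : ℤ → V) : Subgroup G := S.P (v 0) (v 1) ⊓ ⨅ i, stabilizer G (v i)

theorem mem_Rg {v : ℤ → V} {r : G} : r ∈ Rg S v ↔ r ∈ S.P (v 0) (v 1) ∧ ∀ i, r • v i = v i := by
  simp [Rg, Subgroup.mem_iInf]

/-- The root group with `v 2` in the middle. -/
abbrev Ag (S : GS G V) (p : ℕ) (v : ℤ → V) : Subgroup G := S.Q4 p (v 2) ⊓ S.Q (v 1) ⊓ S.Q (v 3)

theorem Econj (h : Ctx S p) {w : V} {g e : G} (hg : g • w = w) (he : e ∈ E S w) : g * e * g⁻¹ ∈ E S w :=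
  Subgroup.mem_inf.2 ⟨by simpa only [hg] using h.c.Qconj g he.1, by simpa only [hg] using h.b.fbConj g he.2⟩

theorem Econj' (h : Ctx S p) {w : V} {g e : G} (hg : g • w = w) (he : g * e * g⁻¹ ∈ E S w) : e ∈ E S w := by
  have := Econj h (g := g⁻¹) (by rw [inv_smul_eq_iff, hg]) he
  rwa [show g⁻¹ * (g * e * g⁻¹) * g⁻¹⁻¹ = e by group] at this

/-- The elements fixing `w` and commuting with `r` modulo elations. -/
def Cg (h : Ctx S p) (w : V) (r : G) : Subgroup G where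
  carrier := {g | g • w = w ∧ r * g * r⁻¹ * g⁻¹ ∈ E S w}
  one_mem' := ⟨one_smul _ _, by simp⟩
  mul_mem' := by
    rintro a b ⟨ha, ha'⟩ ⟨hb, hb'⟩
    refine ⟨by rw [mul_smul, hb, ha], ?_⟩
    have := mul_mem ha' (Econj h ha hb')
    rwa [show r * a * r⁻¹ * a⁻¹ * (a * (r * b * r⁻¹ * b⁻¹) * a⁻¹) = r * (a * b) * r⁻¹ * (a * b)⁻¹ by group] at this
  inv_mem' := by
    rintro a ⟨ha, ha'⟩
    have ha2 : a⁻¹ • w = w := by rw [inv_smul_eq_iff, ha]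
    refine ⟨ha2, ?_⟩
    have := Econj h ha2 (inv_mem ha')
    rwa [show a⁻¹ * (r * a * r⁻¹ * a⁻¹)⁻¹ * a⁻¹⁻¹ = r * a⁻¹ * r⁻¹ * a⁻¹⁻¹ by group] at this

theorem Cg_of_comm (h : Ctx S p) {w : V} {r g : G} (hg : g • w = w) (e : r * g = g * r) : g ∈ Cg h w r :=
  ⟨hg, by rw [e]; simp⟩

theorem Qfix (h : Ctx S p) {w : V} {g : G} (hg : g ∈ S.Q w) : g • w = w := h.b.fbFix (h.c.QFb hg)

theorem Qfix' (h : Ctx S p) {w l : V} {g : G} (hg : g ∈ S.Q w) (hl : S.A w l) : g • l = l :=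
  h.b.fb1.1 (h.c.QFb hg) l hl

theorem lemK (h : Ctx S p) (hn : S.n = 4) (hq : Quad S p) {w l : V} (hl : S.A w l) {t r : G}
    (ht : t ∈ S.T p 2 l ⊓ S.Q w) (ht' : t ∉ E S w) (hr : r • w = w) (e : t ∈ Cg h w r) : r • l = l := by
  by_contra ne
  have hd := h.d 2 (by omega)
  have hs : r * t * r⁻¹ ∈ S.T p 2 (r • l) := hd.Tconj r ht.1
  obtain ⟨a, ha, aw, -⟩ := S.thick l w w
  have h1 : (r * t * r⁻¹ * t⁻¹) • a = a := h.b.fb1.1 (h.b.fbS.1 e.2.2 l hl) a ha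
  have h2 : t • a = a := Qfix' h (hd.TQ ht.1) ha
  have h3 : (r * t * r⁻¹) • a = a := by
    rw [show r * t * r⁻¹ = r * t * r⁻¹ * t⁻¹ * t by group, mul_smul, h2, h1]
  have h4 : S.A (r • l) w := by simpa only [hr] using S.inv r (S.symm hl)
  have h5 := hq.t3 h4 hl (Ne.symm ne) ha aw hs h3
  refine ht' (Subgroup.mem_inf.2 ⟨ht.2, ?_⟩)
  have := mul_mem (inv_mem (Subgroup.mem_inf.1 e.2).2) (Subgroup.mem_inf.1 h5).2
  rwa [show (r * t * r⁻¹ * t⁻¹)⁻¹ * (r * t * r⁻¹) = t by group] at this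

theorem exT (h : Ctx S p) (hq : Quad S p) {w l : V} (hw : S.Pt 2 w) (hl : S.A w l) :
    ∃ t ∈ S.T p 2 l ⊓ S.Q w, t ∉ E S w := by
  obtain ⟨w', hw', ww, -⟩ := S.thick l w w
  obtain ⟨m, hm, ml, -⟩ := S.thick w l l
  obtain ⟨a, ha, aw, -⟩ := S.thick m w w
  obtain ⟨a', ha', aw', aa⟩ := S.thick m w a
  obtain ⟨d, hd, e⟩ := hq.t4 hw (S.symm hl) hw' ww.symm hm ml ha ha' aw aw'
  refine ⟨d, hd.1, fun hE => aa ?_⟩
  rw [← e]
  exact h.b.fb1.1 (h.b.fbS.1 hE.2 m hm) a ha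

theorem leQ4 {w l : V} (hl : S.A w l) {t : G} (ht : t ∈ S.T p 2 l ⊓ S.Q w) : t ∈ S.Q4 p w :=
  (le_iSup₂ (f := fun (l : V) (_ : S.A w l) => S.T p 2 l ⊓ S.Q w) l hl) ht

variable {v : ℤ → V}

theorem fixA (h : Ctx S p) (hv : S.Apt v) {a : G} (ha : a ∈ Ag S p v) (i : ℤ) (h0 : 0 ≤ i) (h4 : i ≤ 4) :
    a • v i = v i := by
  by_cases h2 : i ≤ 2
  · exact h.b.fbAptFix hv (h.c.QFb ha.1.2) i (by omega) (by omega)
  · exact h.b.fbAptFix hv (h.c.QFb ha.2) i (by omega) (by omega)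

theorem lemN (h : Ctx S p) (hn : S.n = 4) (hv : S.Apt v) {a : G} (ha : a ∈ Ag S p v)
    (hD : ∀ r ∈ Rg S v, r • a • v (-1) = a • v (-1)) : ∀ r ∈ Rg S v, a * r * a⁻¹ ∈ Rg S v := by
  have a0 := fixA h hv ha 0 (by omega) (by omega)
  have a1 := fixA h hv ha 1 (by omega) (by omega)
  have key : ∀ r ∈ (Rg S v : Set G), a⁻¹ * r * a⁻¹⁻¹ ∈ (Rg S v : Set G) := fun r hr => by
    have hr' := mem_Rg.1 hr
    refine mem_Rg.2 ⟨?_, fun i => ?_⟩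
    · exact AC.Pnorm (h.a.adj hv 0 1 (by omega)) (by rw [inv_smul_eq_iff, a0]) (by rw [inv_smul_eq_iff, a1]) hr'.1
    · have := h.b.fixApt (h.b.smul hv a) r (-1) (fun j h1 h2 => by
        rcases eq_or_lt_of_le h1 with e | e
        · subst e
          exact hD r hr
        · rw [fixA h hv ha j (by omega) (by rw [hn] at h2; omega), hr'.2]) i
      rw [inv_inv, mul_smul, mul_smul, this, inv_smul_smul]
  have := Subgroup.mem_normalizer_fintype key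
  intro r hr
  refine (this (a * r * a⁻¹)).2 ?_
  rwa [show a⁻¹ * (a * r * a⁻¹) * a⁻¹⁻¹ = r by group]

theorem lemZ (h : Ctx S p) (hn : S.n = 4) (hv : S.Apt v) {z : G} (hz : z ∈ S.Q (v 2)) (hz' : z ∈ E S (v 0)) :
    z = 1 :=
  (h.d 2 (by omega)).semi hv 0 hz'.2 (Qfix' h hz (h.a.adj hv 2 3 (by omega)))

theorem Rg_le (h : Ctx S p) (hv : S.Apt v) {v' : ℤ → V} (e : ∀ i, v' i = v (-i)) : Rg S v ≤ Rg S v' := fun r hr => by
  have hr' := mem_Rg.1 hr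
  refine mem_Rg.2 ⟨?_, fun i => by rw [e, hr'.2]⟩
  rw [e, e, neg_zero]
  have h1 := h.a.adj hv 1 0 (by omega)
  exact h.pg.next h1 (h.a.adj hv 0 (-1) (by omega)) (by rw [S.Psymm h1]; exact hr'.1) (hr'.2 _)

end QM

open QM in
theorem quadM (h : Ctx S p) (hn : S.n = 4) (hq : Quad S p) (h2 : Quad2 S p) {w : V} (hw : S.Pt 2 w) : S.RegA w := by
  intro v hv e r0 hr0 hr0'
  subst e
  have hR0 : r0 ∈ Rg S v := mem_Rg.2 ⟨hr0, hr0'⟩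
  obtain ⟨v', hv', ev⟩ : ∃ v' : ℤ → V, S.Apt v' ∧ ∀ i, v' i = v (-i) :=
    ⟨_, h.a.rev hv 0, fun i => by rw [zero_sub]⟩
  have e0 : v' 0 = v 0 := by rw [ev, neg_zero]
  have e1 : v' 1 = v (-1) := ev 1
  have e2 : v' (-1) = v 1 := by rw [ev, neg_neg]
  have eR : Rg S v' = Rg S v := le_antisymm (Rg_le h hv' fun i => by rw [ev, neg_neg]) (Rg_le h hv ev)
  have hw' : S.Pt 2 (v' 0) := e0 ▸ hw
  have A1 := h.a.adj hv 0 1 (by omega)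
  have A2 := h.a.adj hv 0 (-1) (by omega)
  have hd := h.d 2 (by omega)
  have c1 : ∀ r ∈ Rg S v, ∀ x ∈ S.T p 2 (v 1) ⊓ S.Q (v 0), x ∈ Cg h (v 0) r := fun r hr x hx =>
    Cg_of_comm h (Qfix h hx.2) (h2.cr hv hw r (mem_Rg.1 hr).1 (mem_Rg.1 hr).2 x hx)
  have c2 : ∀ r ∈ Rg S v, ∀ x ∈ S.T p 2 (v (-1)) ⊓ S.Q (v 0), x ∈ Cg h (v 0) r := fun r hr x hx => by
    rw [← eR] at hr
    exact Cg_of_comm h (Qfix h hx.2) (h2.cr hv' hw' r (mem_Rg.1 hr).1 (mem_Rg.1 hr).2 x (by rwa [e0, e1]))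
  by_cases hY : S.Q4 p (v 0) ⊓ S.Q (v (-1)) ⊓ S.Q (v 1) ≤ E S (v 0)
  · refine h.b.fb1.2 fun l hl => ?_
    obtain ⟨t, ht, ht'⟩ := exT h hq hw hl
    refine lemK h hn hq hl ht ht' (hr0' 0) ?_
    obtain ⟨d, hd, d', hd', hy⟩ := h2.dec hv hw t (leQ4 hl ht)
    have hy' := hY hy
    have : t * d⁻¹ * d'⁻¹ ∈ Cg h (v 0) r0 := ⟨Qfix h hy'.1, mul_mem (Econj h (hr0' 0) hy') (inv_mem hy')⟩
    have := mul_mem (mul_mem this (c1 r0 hR0 d' hd')) (c2 r0 hR0 d hd)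
    rwa [show t * d⁻¹ * d'⁻¹ * d' * d = t by group] at this
  by_contra hne
  obtain ⟨l0, hl0, l0D⟩ : ∃ l, S.A (v 0) l ∧ ¬ ∀ r ∈ Rg S v, r • l = l := by
    by_contra hc
    exact hne (h.b.fb1.2 fun l hl => by_contra fun e => hc ⟨l, hl, fun k => e (k r0 hR0)⟩)
  have Yn : ∀ g : G, g • v 0 = v 0 → (g • v 1 = v 1 ∧ g • v (-1) = v (-1) ∨ g • v 1 = v (-1) ∧ g • v (-1) = v 1) →
      ∀ k ∈ S.Q4 p (v 0) ⊓ S.Q (v (-1)) ⊓ S.Q (v 1), g * k * g⁻¹ ∈ S.Q4 p (v 0) ⊓ S.Q (v (-1)) ⊓ S.Q (v 1) := by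
    intro g g0 g1 k hk
    have k1 := h2.conj g hk.1.1
    have k2 := h.c.Qconj g hk.1.2
    have k3 := h.c.Qconj g hk.2
    rw [g0] at k1
    rcases g1 with ⟨g1, g2⟩ | ⟨g1, g2⟩
    · rw [g2] at k2; rw [g1] at k3; exact ⟨⟨k1, k2⟩, k3⟩
    · rw [g2] at k2; rw [g1] at k3; exact ⟨⟨k1, k3⟩, k2⟩
  obtain ⟨x, hx, hxE, -, hxc⟩ := AC.cen h.pg.prime (P := S.P (v 0) (v 1) ⊓ stabilizer G (v (-1)))
    ((h.pg.pg A1).to_le inf_le_left) (K := S.Q4 p (v 0) ⊓ S.Q (v (-1)) ⊓ S.Q (v 1)) (Q := E S (v 0))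
    (fun k hk => ⟨h.c.QP A1 (h2.le hk.1.1), Qfix h hk.1.2⟩)
    (fun u hu => Yn u (S.Pfix A1 hu.1) (Or.inl ⟨h.b.Pfix' A1 hu.1, hu.2⟩))
    (fun u hu k hk => Econj h (S.Pfix A1 hu.1) hk) hY
  have x0 : x • v 0 = v 0 := Qfix h (h2.le hx.1.1)
  have tr' : ∀ y, S.A (v 0) y → y ≠ v (-1) → ∃ u ∈ Ag S p v', u • v 1 = y := fun y hy hy' => by
    have := h2.tr hv' hw' y (by rwa [e0]) (by rwa [e1])
    rwa [e2] at this
  have br' : ∀ y ∈ S.Q4 p (v 0) ⊓ S.Q (v (-1)) ⊓ S.Q (v 1), ∀ a ∈ Ag S p v',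
      a * y * a⁻¹ * y⁻¹ ∈ S.T p 2 (v (-1)) ⊓ S.Q (v 0) ⊓ S.Q (v' 2) := fun y hy a ha => by
    have := h2.br hv' hw' y (by rw [e0, e1, e2]; exact ⟨⟨hy.1.1, hy.2⟩, hy.1.2⟩) a ha
    rwa [e0, e1] at this
  have f0 : ∀ a ∈ Ag S p v', a • v 0 = v 0 := fun a ha => e0 ▸ fixA h hv' ha 0 (by omega) (by omega)
  have f1 : ∀ a ∈ Ag S p v', a • v (-1) = v (-1) := fun a ha => e1 ▸ fixA h hv' ha 1 (by omega) (by omega)
  have claim : ∀ a' ∈ Ag S p v', ¬ (∀ r ∈ Rg S v, r • a' • v 1 = a' • v 1) → a' * x = x * a' := by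
    intro a' ha' hD
    have B1 : S.A (v 0) (a' • v 1) := by simpa only [f0 a' ha'] using S.inv a' A1
    obtain ⟨u, hu, eu⟩ := h2.tr hv hw (a' • v 1) B1 fun e => hD fun r hr => by rw [e, (mem_Rg.1 hr).2]
    have u0 : u⁻¹ • v 0 = v 0 := fixA h hv (inv_mem hu) 0 (by omega) (by omega)
    have B2 : S.A (v 0) (u⁻¹ • v (-1)) := by simpa only [u0] using S.inv u⁻¹ A2
    obtain ⟨u', hu', eu'⟩ := tr' (u⁻¹ • v (-1)) B2 fun e => hD fun r hr => by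
      rw [inv_smul_eq_iff, eu] at e
      rw [← e, (mem_Rg.1 hr).2]
    have n0 : (u'⁻¹ * u⁻¹ * a') • v 0 = v 0 := by rw [mul_smul, mul_smul, f0 a' ha', u0, f0 _ (inv_mem hu')]
    have n1 : (u'⁻¹ * u⁻¹ * a') • v 1 = v (-1) := by
      rw [mul_smul, mul_smul, ← eu, inv_smul_smul, f1 _ (inv_mem hu')]
    have n2 : (u'⁻¹ * u⁻¹ * a') • v (-1) = v 1 := by rw [mul_smul, mul_smul, f1 a' ha', ← eu', inv_smul_smul]
    obtain ⟨n, en⟩ : ∃ n, n = u'⁻¹ * u⁻¹ * a' := ⟨_, rfl⟩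
    rw [← en] at n0 n1 n2
    have hx' := Yn n n0 (Or.inr ⟨n1, n2⟩) x hx
    have cx : ∀ r ∈ Rg S v, x ∈ Cg h (v 0) r := fun r hr => ⟨x0, hxc r ⟨(mem_Rg.1 hr).1, (mem_Rg.1 hr).2 _⟩⟩
    have cx' : ∀ r ∈ Rg S v, n * x * n⁻¹ ∈ Cg h (v 0) r := fun r hr => by
      refine ⟨Qfix h (h2.le hx'.1.1), ?_⟩
      have k0 : n⁻¹ • v 0 = v 0 := by rw [inv_smul_eq_iff, n0]
      have k1 : n⁻¹ • v (-1) = v 1 := by rw [inv_smul_eq_iff, n1]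
      have k2 : r ∈ S.P (v 0) (v (-1)) := by
        rw [← eR] at hr
        simpa only [e0, e1] using (mem_Rg.1 hr).1
      have k3 : n⁻¹ * r * n⁻¹⁻¹ ∈ S.P (v 0) (v 1) := by simpa only [k0, k1] using S.Pconj n⁻¹ A2 k2
      have k4 : (n⁻¹ * r * n⁻¹⁻¹) • v (-1) = v (-1) := by
        rw [inv_inv, mul_smul, mul_smul, n2, (mem_Rg.1 hr).2, inv_smul_eq_iff, n2]
      have := Econj h n0 (hxc _ ⟨k3, k4⟩)
      rwa [show n * (n⁻¹ * r * n⁻¹⁻¹ * x * (n⁻¹ * r * n⁻¹⁻¹)⁻¹ * x⁻¹) * n⁻¹ =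
        r * (n * x * n⁻¹) * r⁻¹ * (n * x * n⁻¹)⁻¹ by group] at this
    have hz := br' x hx a' ha'
    have hz'' := br' _ hx' u' hu'
    have he' := h2.br hv hw x hx u⁻¹ (inv_mem hu)
    by_contra ne
    have zE : a' * x * a'⁻¹ * x⁻¹ ∉ E S (v 0) := fun k => ne (by
      have := lemZ h hn hv' hz.2 (by rwa [e0])
      rwa [mul_inv_eq_one, mul_inv_eq_iff_eq_mul] at this)
    have z1 : u⁻¹ * (a' * x * a'⁻¹ * x⁻¹) * u⁻¹⁻¹ ∈ S.T p 2 (u⁻¹ • v (-1)) ⊓ S.Q (v 0) :=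
      Subgroup.mem_inf.2 ⟨hd.Tconj _ hz.1.1, by simpa only [u0] using h.c.Qconj u⁻¹ hz.1.2⟩
    have D1 : ∀ r ∈ Rg S v, r • u⁻¹ • v (-1) = u⁻¹ • v (-1) := fun r hr => by
      refine lemK h hn hq B2 z1 (fun k => zE (Econj' h u0 k)) ((mem_Rg.1 hr).2 0) ?_
      have := mul_mem (mul_mem (mul_mem (c2 r hr _ hz''.1) (cx' r hr)) (inv_mem (cx r hr))) (inv_mem (c1 r hr _ he'.1))
      rwa [show u' * (n * x * n⁻¹) * u'⁻¹ * (n * x * n⁻¹)⁻¹ * (n * x * n⁻¹) * x⁻¹ * (u⁻¹ * x * u⁻¹⁻¹ * x⁻¹)⁻¹ =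
        u⁻¹ * (a' * x * a'⁻¹ * x⁻¹) * u⁻¹⁻¹ by rw [en]; group] at this
    refine hD fun r hr => ?_
    have := (mem_Rg.1 (lemN h hn hv (inv_mem hu) D1 r hr)).2 (-1)
    rwa [inv_inv, mul_smul, mul_smul, inv_smul_eq_iff, eu] at this
  obtain ⟨b, hb, eb⟩ := tr' l0 hl0 fun e => l0D fun r hr => by rw [e, (mem_Rg.1 hr).2]
  have cen : ∀ a' ∈ Ag S p v', a' * x = x * a' := fun a' ha' => by
    by_cases hD : ∀ r ∈ Rg S v, r • a' • v 1 = a' • v 1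
    · have N := lemN h hn hv' ha' (by rwa [eR, e2])
      rw [eR] at N
      have k1 := claim b hb (by rwa [eb])
      have k2 := claim (a' * b) (mul_mem ha' hb) fun k => l0D fun r hr => by
        have := k _ (N r hr)
        rwa [mul_smul, mul_smul, mul_smul, eb, inv_smul_smul, smul_left_cancel_iff] at this
      calc a' * x = a' * (b * x) * x⁻¹ * b⁻¹ * x := by group
        _ = x * (a' * b) * x⁻¹ * b⁻¹ * x := by rw [← k2, mul_assoc a' b x]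
        _ = x * a' * (b * x⁻¹ * b⁻¹ * x) := by group
        _ = x * a' := by
          rw [show b * x⁻¹ * b⁻¹ * x = b * (b * x)⁻¹ * x by group, k1]; group
    · exact claim a' ha' hD
  refine hxE ⟨h2.le hx.1.1, h.b.fbS.2 fun l hl => ?_⟩
  by_cases e : l = v (-1)
  · exact e ▸ h.c.QFb hx.1.2
  · obtain ⟨a', ha', ea⟩ := tr' l hl e
    exact ea ▸ h.b.fbComm (cen a' ha') (h.c.QFb hx.2)

end CL.Spl
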