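/-
Project SPL: root groups with a point in the middle, in quadrangles whose lines are regular.
-/
import Cfsg.Agent.Spl.Defs

set_option autoImplicit false
set_option linter.unusedSectionVars false
open Cfsg MulAction

namespace CL.Spl

universe u

variable {G V : Type u} [Group G] [Finite G] [MulAction G V] [Finite V] {S : GS G V} {p : ℕ}

namespace QuadU

/-- the elements of `H` commuting with `y` modulo `E` -/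
def cmS (H E : Subgroup G) (hn : ∀ x ∈ H, ∀ e ∈ E, x * e * x⁻¹ ∈ E) (y : G) : Subgroup G where
  carrier := {x | x ∈ H ∧ x * y * x⁻¹ * y⁻¹ ∈ E}
  one_mem' := ⟨one_mem _, by simp⟩
  mul_mem' {a b} ha hb := ⟨mul_mem ha.1 hb.1, by
    convert mul_mem (hn a ha.1 _ hb.2) ha.2 using 1
    group⟩
  inv_mem' {a} ha := ⟨inv_mem ha.1, by
    convert hn a⁻¹ (inv_mem ha.1) _ (inv_mem ha.2) using 1
    group⟩

variable {l m w w' x y z : V} {u g e : G} {v : ℤ → V}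

theorem le4 (hu : u ∈ S.Q4 p w) : u ∈ S.Q w :=
  (iSup₂_le fun _ _ => inf_le_right : S.Q4 p w ≤ S.Q w) hu

theorem mem4 (hl : S.A w l) (h1 : u ∈ S.T p 2 l) (h2 : u ∈ S.Q w) : u ∈ S.Q4 p w :=
  (le_iSup₂ (f := fun l (_ : S.A w l) => S.T p 2 l ⊓ S.Q w) l hl) ⟨h1, h2⟩

variable (h : Ctx S p)
include h

theorem Qf (hA : S.A x y) (hu : u ∈ S.Q x) : u • y = y := h.b.fb1.1 (h.c.QFb hu) y hA
theorem Qs (hu : u ∈ S.Q x) : u • x = x := h.b.fbFix (h.c.QFb hu)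
theorem Qc (hg : g • x = x) (hu : u ∈ S.Q x) : g * u * g⁻¹ ∈ S.Q x := by
  have := h.c.Qconj g hu
  rwa [hg] at this
theorem regQ (hl : S.Reg l) (h1 : S.A l x) (h2 : S.A l z) (n : x ≠ z) (hu : u ∈ S.P l x) (k : u • z = z) :
    u ∈ S.Q l := h.c.memQ h1 hu (hl x z u h1 h2 n hu k)

variable (hn : S.n = 4)
include hn

theorem conj4 (g : G) (hu : u ∈ S.Q4 p w) : g * u * g⁻¹ ∈ S.Q4 p (g • w) :=
  (iSup₂_le fun _ hl _ k => mem4 (S.inv g hl) ((h.d 2 hn).Tconj g k.1) (h.c.Qconj g k.2) :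
    S.Q4 p w ≤ (S.Q4 p (g • w)).comap (MulAut.conj g).toMonoidHom) hu

theorem cen4 (hu : u ∈ S.Q4 p w) (he : e ∈ S.Q w ⊓ S.Fb 2 w) : u * e = e * u :=
  Subgroup.mem_centralizer_singleton_iff.1 ((iSup₂_le fun l hl _ k => Subgroup.mem_centralizer_singleton_iff.2
    ((h.d 2 hn).Tcomm k.1 (h.c.memQ (S.symm hl) (h.c.QP' hl he.1) (h.b.fbS.1 he.2 l hl))).symm :
      S.Q4 p w ≤ Subgroup.centralizer {e}) hu)

theorem rig (hv : S.Apt v) (h0 : u ∈ S.Q (v 0)) (h1 : u ∈ S.Q (v 1)) (h2 : u ∈ S.Q (v 2)) (h4 : u • v 4 = v 4) :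
    u = 1 := by
  refine h.b.rigid hv u (-1) 1 (fun i a b => ?_) (h.c.QFb h1) (h.c.QFb h2)
  rw [hn] at b
  push_cast at b
  interval_cases i
  exacts [Qf h (h.a.adj hv 0 _ (by norm_num)) h0, Qs h h0, Qs h h1, Qs h h2, Qf h (h.a.adj hv 2 _ (by norm_num)) h2, h4]

variable (hq : Quad S p)
include hq

theorem ab4 (hu : u ∈ S.Q4 p w) (hg : g ∈ S.Q4 p w) : u * g * u⁻¹ * g⁻¹ ∈ S.Q w ⊓ S.Fb 2 w := by
  have c : ∀ x ∈ S.Q4 p w, ∀ e ∈ S.Q w ⊓ S.Fb 2 w, x * e * x⁻¹ ∈ S.Q w ⊓ S.Fb 2 w := fun x hx e he => by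
    rwa [cen4 h hn hx he, mul_inv_cancel_right]
  refine ((iSup₂_le fun l hl a ha => ⟨mem4 hl ha.1 ha.2, ?_⟩ : S.Q4 p w ≤ cmS _ _ c g) hu).2
  have := ((iSup₂_le fun m hm b hb => ⟨mem4 hm hb.1 hb.2, ?_⟩ : S.Q4 p w ≤ cmS _ _ c a) hg).2
  · convert inv_mem this using 1
    group
  · by_cases e : m = l
    · subst e
      rw [(h.d 2 hn).Tcomm ha.1 ((h.d 2 hn).TQ hb.1)]
      simp
    · have := hq.tt hm hl e hb ha
      exact ⟨(h.c.ZQ hm this.1).1, this.2⟩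

variable (hR : ∀ w l, S.Pt 2 w → S.A w l → S.Reg l)
include hR

omit hn in
theorem step (hw : S.Pt 2 w) (h1 : S.A l w) (h2 : S.A l w') (n1 : w ≠ w') (h3 : S.A w m) (n2 : m ≠ l)
    (hu : u ∈ S.Q w) : ∃ d ∈ S.T p 2 l ⊓ S.Q w ⊓ S.Q w', u * d⁻¹ ∈ S.Q m := by
  obtain ⟨a, ha, n3, -⟩ := S.thick m w w
  obtain ⟨d, hd, e⟩ := hq.t4 (a := u⁻¹ • a) hw h1 h2 n1 h3 n2 (Qf h h3 (inv_mem hu) ▸ S.inv u⁻¹ ha) ha
    (fun e => n3 (by rw [inv_smul_eq_iff.1 e, Qs h hu])) n3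
  refine ⟨d, hd, regQ h (hR w m hw h3) (S.symm h3) ha n3.symm (h.c.QP' h3 (mul_mem hu (inv_mem hd.1.2))) ?_⟩
  rw [mul_smul, ← eq_inv_smul_iff.2 e, smul_inv_smul]

variable (hv : S.Apt v) (h0 : S.Pt 2 (v 0))
include hv h0

theorem tr4 (hy : S.A (v 0) y) (n : y ≠ v 1) : ∃ u ∈ S.Q4 p (v 2) ⊓ S.Q (v 1) ⊓ S.Q (v 3), u • v (-1) = y := by
  have A := h.a.adj hv
  have p2 : S.Pt 2 (v 2) := h.c.PtTwo (A 0 1 (by norm_num)) (A 1 2 (by norm_num)) h0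
  obtain ⟨x, hx, x0, x2⟩ := S.thick (v 1) (v 0) (v 2)
  obtain ⟨d, hd, e⟩ := hq.t4 p2 (A 3 2 (by norm_num)) (A 3 4 (by norm_num)) (hv.nb 2) (A 2 1 (by norm_num)) (hv.nb 1) hx
    (A 1 0 (by norm_num)) x2 (hv.nb 0)
  have d1 : d • v 1 = v 1 := Qf h (A 2 1 (by norm_num)) hd.1.2
  obtain ⟨w, hw, w2, wi⟩ := h.a.snoc hv 1 x hx x0
  rw [hn] at wi
  have ex : ∀ y, S.A (v 0) y → y ≠ v 1 → ∃ e, S.Apt e ∧ e 3 = d⁻¹ • y ∧ ∀ i, -2 ≤ i → i ≤ 2 → e i = w i := by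
    intro y hy n
    have := h.a.snoc hw 2 (d⁻¹ • y) (by
      rw [show w 2 = d⁻¹ • v 0 from w2.trans (eq_inv_smul_iff.2 e)]; exact S.inv _ hy) fun k => n (by
        rw [inv_smul_eq_iff.1 k, show w (2 - 1) = v 1 from wi 1 (by norm_num) le_rfl, d1])
    rwa [hn] at this
  obtain ⟨a, ha, a3, ai⟩ := ex (v (-1)) (A 0 _ (by norm_num)) (hv.nb (-1))
  obtain ⟨b, hb, b3, bi⟩ := ex y hy n
  have ab : ∀ i, -2 ≤ i → i ≤ 2 → a i = b i := fun i k l => (ai i k l).trans (bi i k l).symm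
  obtain ⟨u, hu, ui⟩ := h.b.trans ha hb 0 (ab 0 (by norm_num) (by norm_num)) (ab _ (by norm_num) (by norm_num))
  have uf : ∀ i, -2 ≤ i → i ≤ 2 → u • w i = w i := fun i k l => by rw [← ai i k l, ui, ab i k l]
  rw [ai 0 (by norm_num) (by norm_num), ai _ (by norm_num) (by norm_num), wi 0 (by norm_num) (by norm_num),
    wi _ (by norm_num) (by norm_num), zero_add, S.Psymm (A 0 1 (by norm_num))] at hu
  have u1 : u ∈ S.Q (v 1) := regQ h (hR _ _ h0 (A 0 1 (by norm_num))) (A 1 0 (by norm_num)) hx x0.symm hu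
    (w2 ▸ uf 2 (by norm_num) le_rfl)
  have um : u • v (-1) = v (-1) := wi (-1) (by norm_num) (by norm_num) ▸ uf (-1) (by norm_num) (by norm_num)
  have d4 := mem4 (A 2 3 (by norm_num)) hd.1.1 hd.1.2
  have g4 : d * (u * d⁻¹ * u⁻¹) ∈ S.Q4 p (v 2) :=
    mul_mem d4 (Qf h (A 1 2 (by norm_num)) u1 ▸ conj4 h hn u (inv_mem d4))
  have g1 : d * (u * d⁻¹ * u⁻¹) ∈ S.Q (v 1) := by
    simpa only [mul_assoc] using mul_mem (Qc h d1 u1) (inv_mem u1)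
  obtain ⟨c, hc, k⟩ := step h hq hR p2 (A 1 2 (by norm_num)) (A 1 0 (by norm_num)) (hv.nb 0).symm (A 2 3 (by norm_num))
    (hv.nb 1).symm (inv_mem (le4 g4))
  refine ⟨c * (d * (u * d⁻¹ * u⁻¹)), ⟨⟨mul_mem (mem4 (A 2 1 (by norm_num)) hc.1.1 hc.1.2) g4,
    mul_mem ((h.d 2 hn).TQ hc.1.1) g1⟩, show _ ∈ S.Q (v 3) by simpa only [mul_inv_rev, inv_inv] using inv_mem k⟩, ?_⟩
  rw [mul_smul, mul_smul, mul_smul, mul_smul, inv_smul_eq_iff.2 um.symm, ← a3, ui, b3, smul_inv_smul, Qf h hy hc.2]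

theorem dec4 (hu : u ∈ S.Q4 p (v 0)) : ∃ d ∈ S.T p 2 (v (-1)) ⊓ S.Q (v 0),
    ∃ d' ∈ S.T p 2 (v 1) ⊓ S.Q (v 0), u * d⁻¹ * d'⁻¹ ∈ S.Q4 p (v 0) ⊓ S.Q (v (-1)) ⊓ S.Q (v 1) := by
  have A := h.a.adj hv
  obtain ⟨d, hd, k⟩ := step h hq hR h0 (A (-1) 0 (by norm_num)) (A (-1) (-2) (by norm_num)) (fun e => hv.nb (-2) e.symm)
    (A 0 1 (by norm_num)) (fun e => hv.nb (-1) e.symm) (le4 hu)
  have k4 := mul_mem hu (inv_mem (mem4 (A 0 (-1) (by norm_num)) hd.1.1 hd.1.2))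
  obtain ⟨d', hd', k'⟩ := step h hq hR h0 (A 1 0 (by norm_num)) (A 1 2 (by norm_num)) (hv.nb 0)
    (A 0 (-1) (by norm_num)) (hv.nb (-1)) (le4 k4)
  exact ⟨d, hd.1, d', hd'.1, ⟨(S.Q4 p _).mul_mem k4 (inv_mem (mem4 (A 0 1 (by norm_num)) hd'.1.1 hd'.1.2)), k'⟩,
    (S.Q _).mul_mem k (inv_mem ((h.d 2 hn).TQ hd'.1.1))⟩

theorem br4 (hu : u ∈ S.Q4 p (v 0) ⊓ S.Q (v (-1)) ⊓ S.Q (v 1)) (hg : g ∈ S.Q4 p (v 2) ⊓ S.Q (v 1) ⊓ S.Q (v 3)) :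
    g * u * g⁻¹ * u⁻¹ ∈ S.T p 2 (v 1) ⊓ S.Q (v 0) ⊓ S.Q (v 2) := by
  have A := h.a.adj hv
  have c0 := mul_mem (Qc h (Qf h (A 1 0 (by norm_num)) hg.1.2) (le4 hu.1.1)) (inv_mem (le4 hu.1.1))
  have c1 := (S.Q _).mul_mem (mul_mem (mul_mem hg.1.2 hu.2) (inv_mem hg.1.2)) (inv_mem hu.2)
  have c2 : g * u * g⁻¹ * u⁻¹ ∈ S.Q (v 2) := by
    simpa only [mul_assoc] using mul_mem (le4 hg.1.1) (Qc h (Qf h (A 1 2 (by norm_num)) hu.2) (inv_mem (le4 hg.1.1)))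
  obtain ⟨d, hd, k⟩ := step h hq hR (h.c.PtTwo (A 0 1 (by norm_num)) (A 1 2 (by norm_num)) h0) (A 1 2 (by norm_num))
    (A 1 0 (by norm_num)) (hv.nb 0).symm (A 2 3 (by norm_num)) (hv.nb 1).symm c2
  rw [mul_inv_eq_one.1 (rig h hn hv (mul_mem c0 (inv_mem hd.2)) (mul_mem c1 (inv_mem ((h.d 2 hn).TQ hd.1.1)))
    (mul_mem c2 (inv_mem hd.1.2)) (Qf h (A 3 4 (by norm_num)) k))]
  exact ⟨⟨hd.1.1, hd.2⟩, hd.1.2⟩

theorem cr4 (hg : g ∈ S.P (v 0) (v 1)) (gi : ∀ i, g • v i = v i) (hu : u ∈ S.T p 2 (v 1) ⊓ S.Q (v 0)) :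
    g * u = u * g := by
  have A := h.a.adj hv
  obtain ⟨e, he, k⟩ := hq.dec (A 1 0 (by norm_num)) (A 1 2 (by norm_num)) (hv.nb 0) hu
  have g3 : g ∈ S.Q (v 3) := regQ h
    (hR _ _ (h.c.PtTwo (A 0 1 (by norm_num)) (A 1 2 (by norm_num)) h0) (A 2 3 (by norm_num))) (A 3 4 (by norm_num))
    (A 3 2 (by norm_num)) (hv.nb 2).symm
    (h.c.seg hv 0 4 0 3 le_rfl (by norm_num) (by norm_num) (by norm_num) (fun l _ _ => gi l) hg) (gi 2)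
  have c : ∀ i, u * e⁻¹ ∈ S.Q (v i) → g * (u * e⁻¹) * g⁻¹ * (u * e⁻¹)⁻¹ ∈ S.Q (v i) := fun i l =>
    mul_mem (Qc h (gi i) l) (inv_mem l)
  have := rig h hn hv (c 0 k.1.2) (c 1 ((h.d 2 hn).TQ k.1.1)) (c 2 k.2) (by
    rw [mul_smul, mul_smul, mul_smul, Qf h (Qf h (A 2 3 (by norm_num)) (inv_mem k.2) ▸ S.inv _ (A 3 4 (by norm_num)))
      (inv_mem g3), smul_inv_smul, gi])
  rw [mul_inv_eq_one, mul_inv_eq_iff_eq_mul] at this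
  rw [← inv_mul_cancel_right u e, ← mul_assoc, this, mul_assoc, he.1.2.1 g hg, ← mul_assoc]

end QuadU

open QuadU in
theorem quad2 (h : Ctx S p) (hn : S.n = 4) (hq : Quad S p) (hR : ∀ w l, S.Pt 2 w → S.A w l → S.Reg l) : Quad2 S p :=
  ⟨le4, fun g _ _ => conj4 h hn g, cen4 h hn, ab4 h hn hq, fun hv h0 _ => tr4 h hn hq hR hv h0,
    fun hv h0 _ => dec4 h hn hq hR hv h0, fun hv h0 _ hu _ => br4 h hn hq hR hv h0 hu,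
    fun hv h0 _ hg gi _ => cr4 h hn hq hR hv h0 hg gi⟩

end CL.Spl
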