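/-
Project SPL (helper58), job RED (helper92): reduction of S3415 to the rank two theorem.
-/
import Cfsg.Agent.Spl.Defs
import Cfsg.Agent.Chev.BNCount
import Cfsg.Agent.Chev.WordsFix
import Cfsg.Statements.S3415

set_option autoImplicit false
open Cfsg Subgroup CL.Grp CL.Chev CL.Chev.BN

namespace CL.Spl

universe u

namespace Redx

variable {G : Type u} [Group G] {P : BNPair G}

/-- the largest subgroup of `B` normalised by `X` -/
def core (B X : Subgroup G) : Subgroup G where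
  carrier := {g | ∀ x ∈ X, x⁻¹ * g * x ∈ B}
  one_mem' x _ := by simp
  mul_mem' {a b} ha hb x hx := by
    rw [show x⁻¹ * (a * b) * x = x⁻¹ * a * x * (x⁻¹ * b * x) by group]; exact mul_mem (ha x hx) (hb x hx)
  inv_mem' {a} ha x hx := by
    rw [show x⁻¹ * a⁻¹ * x = (x⁻¹ * a * x)⁻¹ by group]; exact inv_mem (ha x hx)

theorem core_le {B X : Subgroup G} : core B X ≤ B := fun g hg => by simpa using hg 1 (one_mem _)

theorem le_norm_core {B X : Subgroup G} : X ≤ normalizer (core B X : Set G) :=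
  le_normalizer_iff.2 fun y hy g hg x hx => by
    rw [show x⁻¹ * (y * g * y⁻¹) * x = (y⁻¹ * x)⁻¹ * g * (y⁻¹ * x) by group]
    exact hg _ (mul_mem (inv_mem hy) hx)

theorem H_le : P.B ⊓ P.N ≤ core P.B P.N := fun g hg n hn => by
  simpa using P.conj_mem n⁻¹ (inv_mem hn) g hg

theorem dec {U : Subgroup G} (hn : P.B ≤ normalizer (U : Set G)) (hU : U ⊔ (P.B ⊓ P.N) = P.B) {b : G} (hb : b ∈ P.B) :
    ∃ u ∈ U, ∃ h ∈ P.B ⊓ P.N, u * h = b := by
  rw [← hU, ← SetLike.mem_coe, coe_mul_of_right_le_normalizer_left _ _ (inf_le_left.trans hn)] at hb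
  exact hb

section Long

variable {n0 : P.N} (h0 : IsLongest (gen P) Set.univ (mk P n0))
include h0

theorem len (w : Weyl P) : wlen (gen P) (w * (w⁻¹ * mk P n0)) = wlen (gen P) w + wlen (gen P) (w⁻¹ * mk P n0) := by
  rw [mul_inv_cancel_left]
  exact h0.wlen_eq (invGen P) (exchange P) ((invGen P).WJ_univ ▸ mem_top _)

theorem mem_core {g : G} (hg : g ∈ P.B) (hg' : (n0 : G)⁻¹ * g * n0 ∈ P.B) : g ∈ core P.B P.N := fun n hn =>
  conj_mem_B_of_add (n := ⟨n, hn⟩) (n' := (⟨n, hn⟩ : P.N)⁻¹ * n0) (by rw [map_mul, map_inv]; exact len h0 _) hg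
    (by simpa using hg')

/-- transitivity on the chambers of a panel -/
theorem panel {F : Subgroup G} (hF : F ≤ P.B) (hn : P.B ≤ normalizer (F : Set G)) (hU : F ⊔ (P.B ⊓ P.N) = P.B)
    (s : P.S) {x : G} (hx : x ∈ cell P (gen P s)) :
    ∃ f ∈ F, (n0 : G)⁻¹ * (s * f * (s : G)⁻¹) * n0 ∈ P.B ∧ (f * s)⁻¹ * x ∈ P.B := by
  have hs := gen_mem_cell s
  have hv : (s : G)⁻¹ * n0 ∈ cell P ((gen P s)⁻¹ * mk P n0) := by
    have := self_mem_cell ((genN s)⁻¹ * n0)
    rwa [map_mul, map_inv] at this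
  have hw : ((s : G)⁻¹ * n0)⁻¹ * n0 ∈ cell P (((gen P s)⁻¹ * mk P n0)⁻¹ * mk P n0) := by
    have := self_mem_cell (((genN s)⁻¹ * n0)⁻¹ * n0)
    rwa [map_mul, map_inv, map_mul, map_inv] at this
  have hx' : x⁻¹ ∈ cell P (gen P s) := by simpa only [(invGen P).inv] using inv_mem_cell hx
  have h1 := mul_mem_cell_of_add (len h0 _) hx' hv
  rw [mul_inv_cancel_left, ← mul_inv_cancel_left ((gen P s)⁻¹ * mk P n0) (mk P n0)] at h1
  obtain ⟨a, ha, y, hy, e⟩ := exists_mul_of_mem_cell h1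
  have hy' : y⁻¹ ∈ cell P (((gen P s)⁻¹ * mk P n0)⁻¹ * mk P n0) := by
    have := inv_mem_cell hy
    rwa [show (((gen P s)⁻¹ * mk P n0)⁻¹ * mk P n0)⁻¹ = ((gen P s)⁻¹ * mk P n0)⁻¹ * mk P n0 by
      simp only [mul_inv_rev, (invGen P).inv, h0.inv (invGen P) (exchange P), mul_assoc]] at this
  have h2 := mul_mem_cell_of_add (len h0 _) hv hy'
  rw [mul_inv_cancel_left, mem_cell_mk] at h2
  obtain ⟨b, hb, b', hb', e'⟩ := h2
  obtain ⟨f, hf, h, hh, rfl⟩ := dec hn hU hb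
  have hc : (n0 : G)⁻¹ * h * n0 * b' ∈ P.B := mul_mem (H_le hh _ n0.2) hb'
  refine ⟨f, hf, ?_, ?_⟩
  · have := inv_mul_mem_B_of_add (len h0 _) (mul_mem_cell_left (hF hf) hv) hv (mul_mem_cell_right hw hc) hy'
      (by rw [e']; group)
    rwa [show ((s : G)⁻¹ * n0)⁻¹ * (f * ((s : G)⁻¹ * n0)) = (n0 : G)⁻¹ * (s * f * (s : G)⁻¹) * n0 by group] at this
  · refine inv_mul_mem_B_of_add (len h0 _) hx (mul_mem_cell_left (hF hf) hs) ha (mul_mem_cell_right hv hc) ?_
    rw [show a = x⁻¹ * ((s : G)⁻¹ * n0) * y⁻¹ by rw [e]; group, mul_assoc x⁻¹, e']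
    group

end Long

theorem key [Finite G] (h : R2J.{u}) (h2 : 2 ≤ P.rank) (hirr : P.Irreducible) (hcore : P.B.normalCore = ⊥)
    (hU : fittingOf P.B ⊔ (P.B ⊓ P.N) = P.B) : fittingOf P.B ⊓ core P.B P.N = ⊥ := by
  have hF := fittingOf_le P.B
  have hn := le_normalizer_fittingOf P.B
  set R := fittingOf P.B ⊓ core P.B P.N with hR
  have k1 : ∀ s ∈ P.S, R ≤ core P.B (P.parabolic {s}) := fun s hs g hg x hx => by
    have : Nontrivial P.S := Finite.one_lt_card_iff_nontrivial.1 h2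
    obtain ⟨t, ht⟩ := exists_ne (⟨s, hs⟩ : P.S)
    obtain ⟨_, rfl, t, ht, hst⟩ := hirr {s} (Set.singleton_subset_iff.2 hs) (Set.singleton_nonempty _)
      ⟨t, t.2, fun e => ht (Subtype.ext e)⟩
    exact h G P _ t hs ht.1 hst _ hF (le_normalizer_iff.1 hn) (fittingOf_isNilpotent _) hU g hg.1 hg.2 x
      (sup_le_sup_left (Subgroup.closure_mono (Set.singleton_subset_iff.2 (Set.mem_insert _ _))) _ hx)
  have ks : ∀ s : G, s ∈ P.parabolic {s} := fun s => mem_sup_right (subset_closure rfl)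
  have kN : P.N ≤ normalizer (R : Set G) := by
    rw [← P.closure_sup]
    refine sup_le ((closure_le _).2 fun s hs => mem_normalizer_fintype fun r hr => ⟨?_, ?_⟩)
      (le_normalizer_iff.2 fun y hy r hr => ⟨le_normalizer_iff.1 hn _ hy.1 _ hr.1,
        le_normalizer_iff.1 le_norm_core _ hy.2 _ hr.2⟩)
    · refine fittingOf_le_of_le_normalizer core_le ((B_le_parabolic {s}).trans le_norm_core) ?_
      exact le_normalizer_iff.1 (le_norm_core.trans (normalizer_le_normalizer_fittingOf _)) _ (ks s) _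
        (fittingOf_inf_le core_le ⟨hr.1, k1 s hs hr⟩)
    · exact le_normalizer_iff.1 le_norm_core _ (P.subset hs) _ hr.2
  obtain ⟨w0, h0⟩ := (exchange P).exists_isLongest (invGen P) Set.univ
  obtain ⟨n0, rfl⟩ := mk_surjective P w0
  have kV : ∀ s : P.S, ∀ f ∈ fittingOf P.B, (n0 : G)⁻¹ * (s * f * (s : G)⁻¹) * n0 ∈ P.B →
      f ∈ normalizer (R : Set G) := fun s f hf hf' => mem_normalizer_fintype fun r hr => by
    refine mem_inf.2 ⟨mul_mem (mul_mem hf hr.1) (inv_mem hf), ?_⟩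
    have hs : (s : G) ∈ P.N := P.subset s.2
    have e1 : s * (f * r * f⁻¹) * (s : G)⁻¹ ∈ core P.B P.N := by
      refine mem_core h0 ?_ ?_
      · have := k1 s s.2 hr _ (inv_mem (mul_mem (ks s) (B_le_parabolic _ (hF hf))))
        rwa [show ((s : G) * f)⁻¹⁻¹ * r * (s * f)⁻¹ = s * (f * r * f⁻¹) * (s : G)⁻¹ by group] at this
      · have := mul_mem (mul_mem hf' (hr.2 _ (mul_mem (inv_mem hs) n0.2))) (inv_mem hf')
        convert this using 1
        group
    have := le_normalizer_iff.1 le_norm_core _ (inv_mem hs) _ e1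
    rwa [show (s : G)⁻¹ * (s * (f * r * f⁻¹) * (s : G)⁻¹) * (s : G)⁻¹⁻¹ = f * r * f⁻¹ by group] at this
  have kM : ∀ w, ∀ g ∈ cell P w, ∃ m ∈ normalizer (R : Set G), m⁻¹ * g ∈ P.B := fun w => by
    refine (invGen P).induction_left (p := fun w => ∀ g ∈ cell P w, ∃ m ∈ normalizer (R : Set G), m⁻¹ * g ∈ P.B)
      (fun g hg => ⟨1, one_mem _, by simpa using mem_cell_one.1 hg⟩) (fun s w _ ih g hg => ?_) w
    obtain ⟨x, hx, y, hy, rfl⟩ := exists_mul_of_mem_cell hg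
    obtain ⟨f, hf, hf1, hf2⟩ := panel h0 hF hn hU s hx
    obtain ⟨m, hm, hm'⟩ := ih _ (mul_mem_cell_left hf2 hy)
    refine ⟨f * s * m, mul_mem (mul_mem (kV s f hf hf1) (kN (P.subset s.2))) hm, ?_⟩
    convert hm' using 1
    group
  rw [eq_bot_iff, ← hcore]
  intro r hr g
  obtain ⟨w, hw⟩ := exists_mem_cell P g⁻¹
  obtain ⟨m, hm, hm'⟩ := kM w _ hw
  have := mul_mem (mul_mem (inv_mem hm') (hF (le_normalizer_iff.1 le_rfl _ (inv_mem hm) _ hr).1)) hm'
  convert this using 1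
  group

end Redx

open Redx in
theorem s3415_of (h : R2J.{u}) : type_of% @Cfsg.CfsgFrozen.S3415.{u} := by
  intro G _ _ P h2 hirr hcore U U' hU hU' hUn hU'n hUnil hU'nil hUH hU'H
  have main : ∀ U : Subgroup G, U ≤ P.B → (∀ b ∈ P.B, ∀ u ∈ U, b * u * b⁻¹ ∈ U) → Group.IsNilpotent U →
      U ⊔ (P.B ⊓ P.N) = P.B → U = fittingOf P.B := fun U hU hUn hnil hUH => by
    have hn := le_normalizer_iff.2 hUn
    have hle := le_fittingOf hU hn hnil
    have hk := key h h2 hirr hcore (le_antisymm (sup_le (fittingOf_le _) inf_le_left)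
      (hUH.ge.trans (sup_le_sup_right hle _)))
    refine le_antisymm hle fun f hf => ?_
    obtain ⟨u, hu, y, hy, rfl⟩ := dec hn hUH (fittingOf_le _ hf)
    have : y ∈ fittingOf P.B ⊓ core P.B P.N := ⟨(mul_mem_cancel_left (hle hu)).1 hf, H_le hy⟩
    rw [hk, mem_bot] at this
    rwa [this, mul_one]
  rw [main U hU hUn hUnil hUH, main U' hU' hU'n hU'nil hU'H]

end CL.Spl
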