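/-
Project SPL: the (B,N)-pair of a parabolic subgroup.
-/
import Cfsg.Agent.Spl.Defs

set_option autoImplicit false
open Cfsg Subgroup CL.Chev

namespace CL.Spl

universe u

section Res
variable {G : Type*} [Group G] (P : BNPair G) {J : Set G}

theorem res_map (H : Subgroup G) (hJ : J ⊆ H) :
    (closure (Subtype.val ⁻¹' J : Set H)).map H.subtype = closure J := by
  rw [MonoidHom.map_closure]
  exact congrArg _ (Set.image_preimage_eq_of_subset (by rwa [coe_subtype, Subtype.range_coe]))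

theorem res_sub (J : Set G) : J ⊆ P.parabolic J := fun _ h => mem_sup_right (subset_closure h)

theorem res_N (hJ : J ⊆ P.S) {n : G} (hn : n ∈ P.N) (h : n ∈ P.parabolic J) : n ∈ closure J ⊔ P.B ⊓ P.N := by
  rw [BN.parabolic_eq hJ] at h
  have h1 := (BN.mem_cellSubgroup_iff_of_mem_cell (BN.self_mem_cell ⟨n, hn⟩)).1 h
  have h2 : closure (BN.gen P '' (Subtype.val ⁻¹' J)) ≤ ((closure J).subgroupOf P.N).map (BN.mk P) := by
    rw [closure_le]
    rintro _ ⟨s, hs, rfl⟩
    exact ⟨BN.genN s, subset_closure hs, rfl⟩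
  obtain ⟨m, hm, e⟩ := h2 h1
  rw [← mul_inv_cancel_left (m : G) n]
  exact mul_mem (mem_sup_left hm) (mem_sup_right ⟨BN.mk_eq_iff.1 e, P.N.mul_mem (P.N.inv_mem m.2) hn⟩)

/-- The (B,N)-pair of a standard parabolic subgroup. -/
def resBN (hJ : J ⊆ P.S) : BNPair (P.parabolic J) where
  B := P.B.subgroupOf _
  N := P.N.subgroupOf _
  S := Subtype.val ⁻¹' J
  sup_eq_top := by
    refine eq_top_iff.2 (le_trans (le_of_eq (map_injective (subtype_injective _) ?_))
      (sup_le_sup_left ((closure_le _).2 fun s (hs : s ∈ Subtype.val ⁻¹' J) => P.subset (hJ hs)) _))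
    rw [Subgroup.map_sup, res_map _ (res_sub P J), map_subgroupOf_eq_of_le (BN.B_le_parabolic J),
      ← MonoidHom.range_eq_map, range_subtype]
    rfl
  conj_mem n hn t ht := P.conj_mem n hn t ht
  subset s hs := P.subset (hJ hs)
  sq_mem s hs := P.sq_mem s (hJ hs)
  inj s hs s' hs' h := Subtype.ext (P.inj s (hJ hs) s' (hJ hs') h)
  closure_sup := by
    refine le_antisymm (sup_le ((closure_le _).2 fun s hs => P.subset (hJ hs)) inf_le_right) fun n hn => ?_
    rw [← mem_map_iff_mem (subtype_injective _), Subgroup.map_sup, res_map _ (res_sub P J)]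
    refine SetLike.le_def.1 (sup_le_sup_left (fun t ht => ?_) _) (res_N P hJ hn n.2)
    exact ⟨⟨t, BN.B_le_parabolic J ht.1⟩, ht, rfl⟩
  mul_mem_union s hs n hn b hb := by
    have key : ∀ x y : P.parabolic J, (x : G) ∈ DoubleCoset.doubleCoset (y : G) (P.B : Set G) P.B →
        x ∈ DoubleCoset.doubleCoset y (P.B.subgroupOf (P.parabolic J) : Set (P.parabolic J))
          (P.B.subgroupOf (P.parabolic J)) := fun x y h => by
      obtain ⟨a, ha, c, hc, e⟩ := DoubleCoset.mem_doubleCoset.1 h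
      exact DoubleCoset.mem_doubleCoset.2 ⟨⟨a, BN.B_le_parabolic J ha⟩, ha, ⟨c, BN.B_le_parabolic J hc⟩, hc,
        Subtype.ext e⟩
    exact (P.mul_mem_union s (hJ hs) n hn b hb).imp (key (s * b * n) (s * n)) (key (s * b * n) n)
  conj_ne s hs e := by
    obtain ⟨b, hb, h⟩ := BN.exists_conj_notMem (P := P) ⟨s, hJ hs⟩
    exact h (e.le ⟨⟨b, BN.B_le_parabolic J hb⟩, hb, rfl⟩)

end Res

theorem r2J_of (h : R2.{u}) : R2J.{u} := by
  intro G _ _ P s t hs ht hst F hF hn hnil hsup g hg hgN x hx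
  have hJ : ({s, t} : Set G) ⊆ P.S := Set.insert_subset hs (Set.singleton_subset_iff.2 ht)
  have ne : s ≠ t := fun e => hst (by rw [e, mul_inv_cancel_right, mul_inv_cancel]; exact one_mem _)
  have hB := BN.B_le_parabolic (P := P) {s, t}
  refine h _ (resBN P hJ) ?_ ?_ (F.subgroupOf _) (fun f hf => hF hf) (fun b hb f hf => hn b hb f hf)
    (Group.nilpotent_of_mulEquiv (subgroupOfEquivOfLe (hF.trans hB)).symm) ?_ ⟨g, hB (hF hg)⟩ hg
    (fun n hn => hgN n hn) ⟨x, hx⟩
  · change Nat.card (Subtype.val ⁻¹' {s, t} : Set (P.parabolic {s, t})) = 2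
    rw [Nat.card_coe_set_eq, Set.ncard_preimage_of_injective_subset_range Subtype.val_injective
      (by rw [Subtype.range_coe]; exact res_sub P _), Set.ncard_pair ne]
  · rintro J hJ' ⟨a, ha⟩ ⟨b, hb⟩
    refine ⟨a, ha, b, hb, fun e => ?_⟩
    have e' : (a : G) * b * (a : G)⁻¹ * (b : G)⁻¹ ∈ P.B := e
    have hab : (a : G) ≠ b := fun e => hb.2 (Subtype.ext e ▸ ha)
    rcases (hJ' ha : (a : G) = s ∨ (a : G) = t) with h1 | h1 <;>
      rcases (hb.1 : (b : G) = s ∨ (b : G) = t) with h2 | h2 <;> rw [h1, h2] at e' hab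
    · exact hab rfl
    · exact hst e'
    · exact hst (by simpa [mul_assoc] using inv_mem e')
    · exact hab rfl
  · refine map_injective (subtype_injective _) ?_
    change map _ (_ ⊔ P.B.subgroupOf _ ⊓ P.N.subgroupOf _) = map _ (P.B.subgroupOf _)
    rw [Subgroup.map_sup, map_subgroupOf_eq_of_le (hF.trans hB), map_subgroupOf_eq_of_le hB,
      show P.B.subgroupOf (P.parabolic {s, t}) ⊓ P.N.subgroupOf _ = (P.B ⊓ P.N).subgroupOf _ from rfl,
      map_subgroupOf_eq_of_le (inf_le_left.trans hB), hsup]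

end CL.Spl
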