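/-
Project SPL: the groups `P x y` are `p`-groups.
-/
import Cfsg.Agent.Spl.Defs
import Cfsg.Agent.Grp.PGroupBasic
import Cfsg.Agent.Grp.PNilp

set_option autoImplicit false
open Cfsg MulAction CL.Grp

namespace CL.Spl

universe u

namespace S1

section
variable {G : Type u} [Group G] [Finite G]

/-- `q`-element -/
def Pe (q : ℕ) (u : G) : Prop := ∃ k, u ^ q ^ k = 1

theorem Pe.conj {q : ℕ} {u : G} (h : Pe q u) (g : G) : Pe q (g * u * g⁻¹) :=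
  let ⟨k, hk⟩ := h; ⟨k, by rw [conj_pow, hk, mul_one, mul_inv_cancel]⟩

theorem comm {H : Subgroup G} (hH : Group.IsNilpotent H) {q r : ℕ} (hq : q.Prime) (hr : r.Prime) (h : q ≠ r) {u w : G}
    (hu : u ∈ H) (hw : w ∈ H) (h1 : Pe q u) (h2 : Pe r w) : u * w = w * u := by
  obtain ⟨k, hk⟩ := h1
  obtain ⟨l, hl⟩ := h2
  refine congrArg Subtype.val (commute_of_coprime_orderOf_of_isNilpotent (x := (⟨u, hu⟩ : H)) (y := ⟨w, hw⟩) ?_).eq
  rw [Subgroup.orderOf_mk, Subgroup.orderOf_mk]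
  exact (((Nat.coprime_pow_primes k l hq hr h).coprime_dvd_left (orderOf_dvd_of_pow_eq_one hk)).coprime_dvd_right
    (orderOf_dvd_of_pow_eq_one hl))

theorem cen {H : Subgroup G} (hH : Group.IsNilpotent H) {q : ℕ} (hq : q.Prime) (h : q ∣ Nat.card H) :
    ∃ z ∈ H, z ≠ 1 ∧ Pe q z ∧ ∀ u ∈ H, u * z = z * u := by
  have := Fact.mk hq
  obtain ⟨P⟩ : Nonempty (Sylow q H) := inferInstance
  have := P.normal_of_normalizerCondition normalizerCondition_of_isNilpotent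
  obtain ⟨⟨z, h1, h2⟩, h3⟩ := Subgroup.ne_bot_iff_exists_ne_one.1 (inf_center_ne_bot (P.ne_bot_of_dvd_card h))
  obtain ⟨k, hk⟩ := P.isPGroup' ⟨z, h1⟩
  exact ⟨z, z.2, fun e => h3 (Subtype.ext (Subtype.ext e)), ⟨k, congrArg (fun x => (x.1 : G)) hk⟩,
    fun u hu => congrArg Subtype.val (Subgroup.mem_center_iff.1 h2 ⟨u, hu⟩)⟩

theorem orb {V : Type u} [MulAction G V] (H : Subgroup G) (f : V) {r : ℕ} (hr : r.Prime)
    (h : r ∣ (orbit H f).ncard) : ∃ u ∈ H, Pe r u ∧ u • f ≠ f := by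
  have := Fact.mk hr
  obtain ⟨P⟩ : Nonempty (Sylow r H) := inferInstance
  by_contra hc
  refine P.not_dvd_index (h.trans (index_stabilizer H f ▸ Subgroup.index_dvd_of_le fun u hu => ?_))
  obtain ⟨k, hk⟩ := P.isPGroup' ⟨u, hu⟩
  exact by_contra fun e => hc ⟨u, u.2, ⟨k, congrArg (fun x => (x.1 : G)) hk⟩, e⟩

end

variable {G V : Type u} [Group G] [Finite G] [MulAction G V] [Finite V] {S : GS G V}

/-- some `q`-element of `P x y` moves a neighbour of `x` -/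
def Mv (S : GS G V) (x y : V) (q : ℕ) : Prop := q.Prime ∧ ∃ u ∈ S.P x y, Pe q u ∧ u ∉ S.Fb 1 x

theorem Pn {x y : V} (h : S.A x y) {g u : G} (gx : g • x = x) (gy : g • y = y) (hu : u ∈ S.P x y) :
    g * u * g⁻¹ ∈ S.P x y := by simpa only [gx, gy] using S.Pconj g h hu

theorem orbit_eq {H : Subgroup G} {a b f : V} (hH : ∀ u ∈ H, u • a = a ∧ u • b = b) (h1 : S.A a f) (h2 : f ≠ b)
    (tr : ∀ y, S.A a y → y ≠ b → ∃ u ∈ H, u • f = y) : orbit H f = {y | S.A a y ∧ y ≠ b} := by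
  ext y
  constructor
  · rintro ⟨u, rfl⟩
    exact ⟨(hH u u.2).1 ▸ S.inv u h1, fun e => h2 (smul_left_cancel (u : G) (e.trans (hH u u.2).2.symm))⟩
  · rintro ⟨h3, h4⟩
    obtain ⟨u, h5, h6⟩ := tr y h3 h4
    exact ⟨⟨u, h5⟩, h6⟩

variable (hN : S.Nil) (ha : ApiA S.toGon) (hb : ApiB S)
include hb

theorem Mv.smul {x y : V} {q : ℕ} (h : S.A x y) (m : Mv S x y q) (g : G) : Mv S (g • x) (g • y) q := by
  obtain ⟨hq, u, h1, h2, h3⟩ := m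
  exact ⟨hq, _, S.Pconj g h h1, h2.conj g, fun e => h3 (by simpa [mul_assoc] using hb.fbConj g⁻¹ e)⟩

theorem exMv {a b f : V} (h : S.A a b) (h1 : S.A a f) (h2 : f ≠ b) :
    ∃ r, r ∣ {y | S.A a y ∧ y ≠ b}.ncard ∧ Mv S a b r := by
  obtain ⟨f', h3, h4, h5⟩ := S.thick a b f
  obtain ⟨r, hr, h6⟩ := Nat.exists_prime_and_dvd (n := {y | S.A a y ∧ y ≠ b}.ncard) fun e =>
    h5 ((Set.ncard_le_one_iff (s := {y | S.A a y ∧ y ≠ b})).1 e.le ⟨h3, h4⟩ ⟨h1, h2⟩)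
  obtain ⟨u, h7, h8, h9⟩ := orb (S.P a b) f hr
    (orbit_eq (fun u hu => ⟨S.Pfix h hu, hb.Pfix' h hu⟩) h1 h2 (fun y e1 e2 => hb.nbr h h1 e1 h2 e2) ▸ h6)
  exact ⟨r, h6, hr, u, h7, h8, fun e => h9 (hb.fb1.1 e f h1)⟩

theorem Mv.mover {x y c d : V} {q : ℕ} (h : S.A x y) (m : Mv S x y q) (hc : S.A x c) (hd : S.A x d) (e : c ≠ d) :
    ∃ y' k, S.A x y' ∧ k ∈ S.P x y' ∧ Pe q k ∧ k • c = d := by
  obtain ⟨hq, u, h1, h2, h3⟩ := m
  simp only [hb.fb1, not_forall] at h3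
  obtain ⟨c0, h4, h5⟩ := h3
  obtain ⟨g, h6, rfl, rfl⟩ := hb.nbr2 h4 (S.Pfix h h1 ▸ S.inv u h4) hc hd (Ne.symm h5) e
  exact ⟨g • y, _, h6 ▸ S.inv g h, h6 ▸ S.Pconj g h h1, h2.conj g, by rw [mul_smul, inv_smul_smul, mul_smul]⟩

theorem pg_move {p : ℕ} {a b b' : V} (h : S.A a b) (h' : S.A a b') (hp : IsPGroup p (S.P a b)) :
    IsPGroup p (S.P a b') := fun u => by
  obtain ⟨g, h1, h2⟩ := hb.nbr' h' h
  obtain ⟨k, hk⟩ := hp ⟨_, by simpa only [h1, h2] using S.Pconj g h' u.2⟩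
  have := congrArg Subtype.val hk
  exact ⟨k, Subtype.ext (by simpa [conj_pow] using this)⟩

include hN

theorem P0 {x y y' : V} {u : G} (h : S.A x y) (h' : S.A x y') (hu : u ∈ S.P x y) (hf : u ∈ S.Fb 1 x) :
    u ∈ S.P x y' := by
  have h1 : S.P x y ⊓ S.Fb 1 x ≤ fittingOf (S.Fb 1 x) := le_fittingOf inf_le_right
    (fun g hg => Subgroup.mem_normalizer_fintype fun k hk => ⟨Pn h (hb.fbFix hg) (hb.fb1.1 hg y h) hk.1,
      (S.Fb 1 x).mul_mem ((S.Fb 1 x).mul_mem hg hk.2) ((S.Fb 1 x).inv_mem hg)⟩)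
    (have := hN.nil h; nilpotent_of_mulEquiv (Subgroup.subgroupOfEquivOfLe inf_le_left))
  refine hN.max _ h' (fun k hk => ⟨hb.fbFix (fittingOf_le _ hk), hb.fb1.1 (fittingOf_le _ hk) y' h'⟩)
    (fun g gx _ k hk => ?_) (fittingOf_isNilpotent _) (h1 ⟨hu, hf⟩)
  exact (Subgroup.mem_normalizer_iff.1 (normalizer_le_normalizer_fittingOf _
    (Subgroup.mem_normalizer_fintype fun k hk => gx ▸ hb.fbConj g hk)) k).1 hk

theorem step {x y : V} {q r j : ℕ} {z : G} (h : S.A x y) (m : Mv S x y q) (hr : r.Prime) (e : q ≠ r) (hz : z ∈ S.P x y)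
    (h1 : Pe r z) (h2 : z ∈ S.Fb 1 x) (h3 : z ∈ S.Fb j y) : z ∈ S.Fb (j + 1) x := hb.fbS.2 fun c hc => by
  by_cases e' : y = c
  · exact e' ▸ h3
  obtain ⟨y', k, h4, h5, h6, rfl⟩ := m.mover hb h h hc e'
  exact hb.fbComm (comm (hN.nil h4) m.1 hr e h5 (P0 hN hb h h4 hz h2) h6 h1) h3

include ha

theorem two {x y : V} {q q' r : ℕ} (h : S.A x y) (m : Mv S x y q) (m' : Mv S y x q') (hr : r.Prime)
    (hd : r ∣ Nat.card (S.P x y)) : q = r ∨ q' = r := by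
  by_contra! hc
  obtain ⟨z, h1, h2, h3, h4⟩ := cen (hN.nil h) hr hd
  have h5 := hb.ball 1 h h1 h4 S.three
  have h6 := hb.ball 1 (S.symm h) (S.Psymm h ▸ h1) (S.Psymm h ▸ h4) S.three
  have h7 : ∀ j, z ∈ S.Fb j x ∧ z ∈ S.Fb j y := fun j => by
    induction j with
    | zero => exact ⟨hb.fbMono zero_le_one h5, hb.fbMono zero_le_one h6⟩
    | succ j ih => exact ⟨step hN hb h m hr hc.1 h1 h3 h5 ih.2,
        step hN hb (S.symm h) m' hr hc.2 (S.Psymm h ▸ h1) h3 h6 ih.1⟩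
  refine h2 (S.faith z fun w => ?_)
  obtain ⟨v, k, hv, k1, k2, rfl, rfl⟩ := ha.conn x w
  exact hb.fbAptFix hv (h7 S.n).1 k (by omega) (by omega)

theorem geo {x y : V} {q1 q2 : ℕ} (h : S.A x y) (e : q1 ≠ q2) (hx : ∀ q, Mv S x y q → q = q2)
    (hy : ¬ Mv S y x q2) (m : Mv S y x q1) : False := by
  obtain ⟨w, hw, rfl, rfl⟩ := ha.path1 (S.symm h)
  have h1 : ∀ (j : ℕ) q, Mv S (w (2 * j + 1)) (w (2 * j)) q → q = q2 := fun j => by
    induction j with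
    | zero => exact hx
    | succ j ih =>
      intro q mq
      obtain ⟨g, g1, g2⟩ := hb.nbr' (hw.adj (2 * (j + 1 : ℕ))) (ha.adj hw _ (2 * j + 1) (by omega))
      obtain ⟨g', g3, g4⟩ := hb.nbr' (ha.adj hw (2 * j + 1) (2 * (j + 1 : ℕ)) (by omega)) (S.symm (hw.adj (2 * j)))
      have m1 := mq.smul hb (S.symm (hw.adj _)) g
      rw [g1, g2] at m1
      have m2 := m1.smul hb (ha.adj hw _ _ (by omega)) g'
      rw [g3, g4] at m2
      exact ih q m2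
  have h3 := S.three
  obtain ⟨j, j1, j2⟩ : ∃ j : ℕ, S.n ≤ 2 * j + 2 ∧ 2 * j + 1 ≤ S.n := ⟨(S.n - 1) / 2, by omega⟩
  obtain ⟨d, d1, d2, -⟩ := S.thick (w 0) (w 1) (w 1)
  obtain ⟨y', l, l1, l2, l3, rfl⟩ := m.mover hb (S.symm h) (S.symm h) d1 d2.symm
  obtain ⟨c, hc, c1, c2⟩ := ha.glue hw (hb.smul hw l) (S.Pfix l1 l2).symm d2.symm (2 * j + 1) (S.n - 2 * j) (by omega)
    (by omega) (by omega)
  have f1 : S.A (w (2 * j + 1)) (c (-(2 * j + 1) - 1)) := c1 _ (by omega) le_rfl ▸ ha.adj hc _ _ (by omega)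
  have f2 : c (-(2 * j + 1) - 1) ≠ w (2 * j) := c1 (2 * j) (by omega) (by omega) ▸ ha.ne hc _ _ (by omega) (by omega) (by omega)
  obtain ⟨r, r1, r2⟩ := exMv hb (S.symm (hw.adj (2 * j))) f1 f2
  obtain rfl := h1 j r r2
  let D : Subgroup G := S.P (w 0) (w 1) ⊓ ⨅ (i : ℤ) (_ : 0 ≤ i) (_ : i ≤ 2 * j + 1), stabilizer G (w i)
  have hD : ∀ u, u ∈ D ↔ u ∈ S.P (w 0) (w 1) ∧ ∀ i : ℤ, 0 ≤ i → i ≤ 2 * j + 1 → u • w i = w i := fun u => by
    simp [D, Subgroup.mem_iInf]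
  have tr : ∀ y, S.A (w (2 * j + 1)) y → y ≠ w (2 * j) → ∃ u ∈ D, u • w (2 * j + 1 + 1) = y := fun y e1 e2 => by
    obtain ⟨u, u1, u2, u3⟩ := hb.move hw 0 (2 * j + 1) y (by omega) (by omega) e1 (by simpa using e2)
    exact ⟨u, (hD u).2 ⟨u1, fun i e3 e4 => u2 i (by omega) e4⟩, u3⟩
  obtain ⟨u, u1, u2, u3⟩ := orb D _ r2.1 (orbit_eq (fun u hu => ⟨((hD u).1 hu).2 _ (by omega) le_rfl,
    ((hD u).1 hu).2 _ (by omega) (by omega)⟩) f1 f2 (fun y e1 e2 => by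
      obtain ⟨a, a1, a2⟩ := tr _ f1 f2
      obtain ⟨b, b1, b2⟩ := tr y e1 e2
      exact ⟨b * a⁻¹, mul_mem b1 (inv_mem a1), by rw [← a2, mul_smul, inv_smul_smul, b2]⟩) ▸ r1)
  obtain ⟨u4, u5⟩ := (hD u).1 u1
  have u6 := comm (hN.nil l1) r2.1 m.1 e.symm
    (P0 hN hb (S.symm h) l1 u4 (by_contra fun e => hy ⟨r2.1, u, u4, u2, e⟩)) l2 u2 l3
  refine u3 (hb.fixApt hc u (-(2 * j + 1)) (fun i i1 i2 => ?_) _)
  rcases le_total i 0 with i3 | i3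
  · rw [← neg_neg i, c1 _ (by omega) (by omega), u5 _ (by omega) (by omega)]
  · rw [c2 i i3 (by omega), smul_smul, u6, mul_smul, u5 i i3 (by omega)]

theorem pg0 {x y : V} (h : S.A x y) : ∃ p, p.Prime ∧ IsPGroup p (S.P x y) := by
  obtain ⟨f, f1, f2, -⟩ := S.thick x y y
  obtain ⟨f', f3, f4, -⟩ := S.thick y x x
  obtain ⟨a, -, ma⟩ := exMv hb h f1 f2
  obtain ⟨b, -, mb⟩ := exMv hb (S.symm h) f3 f4
  have := Fact.mk ma.1
  have k1 : a ∣ Nat.card (S.P x y) := by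
    obtain ⟨-, u, h1, ⟨k, hk⟩, h2⟩ := ma
    obtain ⟨i, -, hi⟩ := (Nat.dvd_prime_pow this.out).1 (orderOf_dvd_of_pow_eq_one hk)
    refine (dvd_pow_self a fun e => h2 ?_).trans (hi ▸ Subgroup.orderOf_dvd_natCard _ h1)
    rw [e, pow_zero, orderOf_eq_one_iff] at hi
    exact hi ▸ one_mem _
  refine ⟨a, ma.1, IsPGroup.of_card (Nat.eq_prime_pow_of_unique_prime_dvd Nat.card_pos.ne' fun {r} hr hd => ?_)⟩
  by_contra e
  obtain rfl := (two hN ha hb h ma mb hr hd).resolve_left (Ne.symm e)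
  exact geo hN ha hb h e (fun q m => (two hN ha hb h m mb ma.1 k1).resolve_right e)
    (fun m => (two hN ha hb h ma m hr hd).elim (Ne.symm e) (Ne.symm e)) mb

end S1

variable {G V : Type u} [Group G] [Finite G] [MulAction G V] [Finite V] {S : GS G V} {p : ℕ}

open S1 in
theorem step1 (hN : S.Nil) (ha : ApiA S.toGon) (hb : ApiB S) : ∃ p, S.PG p := by
  rcases isEmpty_or_nonempty V with h | ⟨⟨x⟩⟩
  · exact ⟨2, Nat.prime_two, fun {x} => isEmptyElim x, fun {x} => isEmptyElim x⟩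
  obtain ⟨y, h, -⟩ := S.thick x x x
  obtain ⟨p, hp, h1⟩ := pg0 hN ha hb h
  have := Fact.mk hp
  have h2 : ∀ {a b : V}, S.A a b → IsPGroup p (S.P a b) := fun {a b} e => by
    obtain ⟨v, k, hv, k1, -, rfl, rfl⟩ := ha.conn x a
    have h3 : ∀ j : ℕ, IsPGroup p (S.P (v j) (v (j + 1))) := fun j => by
      induction j with
      | zero => exact pg_move hb h (hv.adj 0) h1
      | succ j ih => rw [Nat.cast_succ]; exact pg_move hb (S.symm (hv.adj j)) (hv.adj ((j : ℤ) + 1)) (S.Psymm (hv.adj j) ▸ ih)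
    obtain ⟨j, rfl⟩ := Int.eq_ofNat_of_zero_le k1
    exact pg_move hb (hv.adj j) e (h3 j)
  refine ⟨p, hp, h2, fun {x y z u} e1 e2 hu uz => ?_⟩
  by_cases e : x = z
  · exact e ▸ S.Psymm e1 ▸ hu
  have h3 : IsPGroup p ↥((S.P x y ⊓ stabilizer G z) ⊔ S.P y z) :=
    ((h2 e1).to_le inf_le_left).to_sup_of_normal_right' (h2 e2) fun g hg =>
      Subgroup.mem_normalizer_fintype fun k hk => Pn e2 (hb.Pfix' e1 hg.1) hg.2 hk
  refine hN.max ((S.P x y ⊓ stabilizer G z) ⊔ S.P y z) e2 (sup_le (fun k hk => ⟨hb.Pfix' e1 hk.1, hk.2⟩) fun k hk => ⟨S.Pfix e2 hk, hb.Pfix' e2 hk⟩)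
    (fun g gy gz => ?_) h3.isNilpotent (Subgroup.mem_sup_left ⟨hu, uz⟩)
  refine (sup_le (fun k hk => ?_) fun k hk => Subgroup.mem_sup_right ?_ :
    _ ≤ ((S.P x y ⊓ stabilizer G z) ⊔ S.P y z).comap (MulAut.conj g).toMonoidHom)
  · obtain ⟨a, a1, a2⟩ := hb.nbr e2 (S.symm e1) (gy ▸ S.inv g (S.symm e1)) e
      fun e' => e (smul_left_cancel g (e'.trans gz.symm))
    have b1 : (a⁻¹ * g) • x = x := by rw [mul_smul, ← a2, inv_smul_smul]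
    have b2 : (a⁻¹ * g) • y = y := by rw [mul_smul, gy, S.Pfix e2 (inv_mem a1)]
    have b3 : (a⁻¹ * g) • z = z := by rw [mul_smul, gz, hb.Pfix' e2 (inv_mem a1)]
    have b4 : a⁻¹ * g * k * (a⁻¹ * g)⁻¹ ∈ S.P x y ⊓ stabilizer G z :=
      ⟨Pn e1 b1 b2 hk.1,
        (stabilizer G z).mul_mem ((stabilizer G z).mul_mem b3 hk.2) ((stabilizer G z).inv_mem b3)⟩
    have := mul_mem (mul_mem (Subgroup.mem_sup_right a1) (Subgroup.mem_sup_left b4)) (Subgroup.mem_sup_right (inv_mem a1))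
    rwa [show a * (a⁻¹ * g * k * (a⁻¹ * g)⁻¹) * a⁻¹ = g * k * g⁻¹ by group] at this
  · exact Pn e2 gy gz hk

end CL.Spl
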