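/-
Project SPL: assembly of the polygon theorem and of the rank two theorem.
-/
import Cfsg.Agent.Spl.ApiA
import Cfsg.Agent.Spl.ApiB
import Cfsg.Agent.Spl.ApiC
import Cfsg.Agent.Spl.ApiD
import Cfsg.Agent.Spl.LemT
import Cfsg.Agent.Spl.LemLS
import Cfsg.Agent.Spl.LemTR
import Cfsg.Agent.Spl.Step1
import Cfsg.Agent.Spl.N34
import Cfsg.Agent.Spl.Quad
import Cfsg.Agent.Spl.QuadL
import Cfsg.Agent.Spl.QuadU
import Cfsg.Agent.Spl.QuadM
import Cfsg.Agent.Spl.Hex
import Cfsg.Agent.Spl.HexO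
import Cfsg.Agent.Spl.HexE
import Cfsg.Agent.Spl.Oct1
import Cfsg.Agent.Spl.Oct2
import Cfsg.Agent.Spl.Oct3
import Cfsg.Agent.Spl.Higman
import Cfsg.Agent.Spl.Gon1
import Cfsg.Agent.Spl.Gon2
import Cfsg.Agent.Spl.Res
import Cfsg.Agent.Spl.Red

set_option autoImplicit false
set_option linter.unusedSectionVars false
open Cfsg MulAction

namespace CL.Spl

universe u

variable {G V : Type u} [Group G] [Finite G] [MulAction G V] [Finite V] {S : GS G V} {p : ℕ}

theorem regA_of_reg (h : Ctx S p) {x : V} (hx : S.Reg x) : S.RegA x := by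
  intro v hv h0 r hr rf
  subst h0
  have := S.three
  exact hx (v 1) (v (-1)) r (h.a.adj hv 0 1 (by omega)) (h.a.adj hv 0 (-1) (by omega))
    (h.a.ne hv 1 (-1) (by omega) (by omega) (by omega)) hr (rf _)

theorem goal_of_regA (h : Ctx S p) (hx : ∀ x, S.RegA x) : S.Goal := by
  intro v hv r hr rf
  refine h.b.rigid hv r 0 0 (fun i _ _ => rf i) (hx _ v hv rfl r hr rf) ?_
  exact hx _ _ (h.a.shift hv 1) rfl r
    (by simpa using h.c.seg hv 0 2 0 1 (by omega) (by omega) (by omega) (by omega) (fun l _ _ => rf l) hr)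
    fun i => rf _

theorem goal_of_pt (h : Ctx S p) {m : ℕ} {x : V} (hx : S.Pt m x) (h1 : ∀ w, S.Pt m w → S.RegA w)
    (h2 : ∀ w l, S.Pt m w → S.A w l → S.Reg l) : S.Goal := by
  refine goal_of_regA h fun a => ?_
  obtain ⟨b, hb, -⟩ := S.thick a a a
  rcases h.c.PtOr hx hb with h3 | h3
  · exact h1 a h3
  · exact regA_of_reg h (h2 b a h3 (S.symm hb))

theorem goal [Nonempty V] (h : Ctx S p) (hn : S.n = 3 ∨ S.n = 4 ∨ S.n = 6 ∨ S.n = 8) : S.Goal := by
  rcases hn with hn | hn | hn | hn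
  · exact goal_of_regA h fun x => regA_of_reg h (n3 h hn x)
  · by_cases hE : ∃ x, S.Pt 2 x
    · obtain ⟨x, hx⟩ := hE
      have hq := quad h hn
      have hR : ∀ w l, S.Pt 2 w → S.A w l → S.Reg l := fun w l hw hl => by
        by_cases hp : p = 2
        · subst hp; exact quadLeven lemTR h hn hq hw hl
        · exact quadLodd h hn hq hp hw hl
      exact goal_of_pt h hx (fun w hw => quadM h hn hq (quad2 h hn hq hR) hw) hR
    · exact goal_of_regA h fun x => regA_of_reg h (n4A h hn (fun y hy => hE ⟨y, hy⟩) x)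
  · obtain ⟨x, hx⟩ := exPt6 h hn
    have hh := hex h hn
    refine goal_of_pt h hx (fun w hw => regA_of_reg h ?_) fun w l hw hl => hh.reg hw hl
    by_cases hp : p = 2
    · subst hp; exact hexEven lemTR h hn hh hw
    · exact hexOdd lemT h hn hh hp hw
  · obtain ⟨x, hx⟩ := exPt8 h hn
    have h3 : ∀ {v : ℤ → V}, S.Apt v → S.Pt 4 (v 0) → Oct3 S p v := fun hv hw =>
      oct3_all h hn (fun hv => octI h hn hv) (fun hv => oct3_conj h hv) (fun hv => octII h hn hv) hv hw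
    refine goal_of_pt h hx (fun w hw => octP lemLS h hn (higman h.a h.b hn)
      (fun hv hw => (oct3_reg h hn hv (h3 hv hw)).2) hw) fun w l hw hl x z u hx hz hxz hu uz => ?_
    obtain ⟨v, hv, rfl, rfl, rfl⟩ := h.a.path2 (S.symm hx) hz hxz
    exact (oct3_reg h hn hv (h3 hv (h.c.PtTwo hl hx hw))).1 u (S.Psymm hx ▸ hu) uz

theorem pt : PT.{u} := by
  intro G V _ _ _ _ S hN hn γ hγ r hr rf
  have ha := apiA S.toGon
  have hb := apiB S ha
  obtain ⟨p, hp⟩ := step1 hN ha hb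
  have : Nonempty V := ⟨γ 0⟩
  obtain ⟨v, hv, e⟩ := ha.ofNB γ _ hγ le_rfl
  have e0 : v 0 = γ 0 := e 0 (by omega)
  have e1 : v 1 = γ 1 := e 1 (by omega)
  refine goal (ctx_of hp ha hb (apiC hp ha hb)) hn v hv r (by rw [e0, e1]; exact hr)
    (hb.fixApt hv r 0 fun i h0 h1 => ?_)
  obtain ⟨k, rfl⟩ := Int.eq_ofNat_of_zero_le h0
  rw [e k (by omega)]
  exact rf k (by omega)

theorem r2J : R2J.{u} := r2J_of (r2_of gonThm (fun _ Γ => apiA Γ) pt)

end CL.Spl
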