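/-
Project SPL: hexagons in odd characteristic.
-/
import Cfsg.Agent.Spl.Defs

set_option autoImplicit false
set_option linter.unusedSectionVars false
open Cfsg MulAction

namespace CL.Spl

universe u

variable {G V : Type u} [Group G] [Finite G] [MulAction G V] [Finite V] {S : GS G V} {p : ℕ}

namespace HO

theorem inv_of {A B : Subgroup G} {c c' z n : G} (hAB : ∀ a ∈ A, ∀ b ∈ B, a * b = b * a)
    (hd : ∀ a ∈ A, a ∈ B → a = 1) (hc : ∀ a ∈ A, c * a = a * c) (hc' : ∀ a ∈ A, c' * a = a * c')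
    (hz : ∀ b ∈ B, z * b = b * z) (bc : ∀ b ∈ B, c * b * c⁻¹ * b⁻¹ ∈ A) (bc' : ∀ b ∈ B, c' * b * c'⁻¹ * b⁻¹ ∈ A)
    (bz : ∀ a ∈ A, z * a * z⁻¹ * a⁻¹ ∈ B) (hn : n = c' * z * c) (nA : ∀ a ∈ A, n * a * n⁻¹ ∈ B)
    (nB : ∀ b ∈ B, n * b * n⁻¹ ∈ A) {y : G} (hy : y ∈ B) : n * n * y * (n * n)⁻¹ = y⁻¹ := by
  have k1 : ∀ x ∈ A, n * x * n⁻¹ = z * x * z⁻¹ * x⁻¹ := fun x hx => by
    obtain ⟨α, hα⟩ : ∃ α, α = z * x * z⁻¹ * x⁻¹ := ⟨_, rfl⟩
    have h1 : α ∈ B := hα ▸ bz x hx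
    have e : n * x * n⁻¹ = c' * α * c'⁻¹ * α⁻¹ * x * α := by
      rw [mul_assoc _ x α, hAB x hx α h1, ← mul_assoc _ α x, inv_mul_cancel_right, mul_assoc _ c'⁻¹,
        (Commute.inv_left (hc' x hx)).eq, hα, hn,
        show c' * z * c * x * (c' * z * c)⁻¹ = c' * z * (c * x) * c⁻¹ * z⁻¹ * c'⁻¹ by group, hc x hx]
      group
    rw [e, hd _ (mul_mem (bc' α h1) hx) ((B.mul_mem_cancel_right h1).1 (e ▸ nA x hx)), one_mul, hα]
  obtain ⟨β, hβ⟩ : ∃ β, β = c * y * c⁻¹ * y⁻¹ := ⟨_, rfl⟩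
  have h1 : β ∈ A := hβ ▸ bc y hy
  obtain ⟨α, hα⟩ : ∃ α, α = z * β * z⁻¹ * β⁻¹ := ⟨_, rfl⟩
  have h2 : α ∈ B := hα ▸ bz β h1
  have e1 : z * c * y * (z * c)⁻¹ = β * (α * y) := by
    rw [← mul_assoc β, hAB β h1 α h2, hα, inv_mul_cancel_right, mul_assoc _ z⁻¹, (Commute.inv_left (hz y hy)).eq, hβ]
    group
  have e2 : n * y * n⁻¹ = β * (c' * (α * y) * c'⁻¹ * (α * y)⁻¹) * (α * y) := by
    rw [hn, show c' * z * c * y * (c' * z * c)⁻¹ = c' * (z * c * y * (z * c)⁻¹) * c'⁻¹ by group, e1,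
      ← mul_assoc c', hc' β h1]
    group
  have h3 := hd _ ((A.mul_mem_cancel_left (mul_mem h1 (bc' _ (mul_mem h2 hy)))).1 (e2 ▸ nB y hy)) (mul_mem h2 hy)
  rw [show n * n * y * (n * n)⁻¹ = n * (n * y * n⁻¹) * n⁻¹ by group, e2, h3]
  simpa [← hα, eq_inv_of_mul_eq_one_left h3] using k1 β h1

/-- The central elations with centre `x`. -/
def E (S : GS G V) (p : ℕ) (x : V) : Subgroup G := ⨅ (l : V) (_ : S.A x l), S.E0 p 3 x l

variable (h : Ctx S p) (hn : S.n = 6) (hx : Hex S p) {x l : V} {e e' : G} {v : ℤ → V}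

theorem to0 (he : e ∈ E S p x) (hl : S.A x l) : e ∈ S.E0 p 3 x l :=
  Subgroup.mem_iInf.1 (Subgroup.mem_iInf.1 he l) hl

theorem fb (he : e ∈ E S p x) : e ∈ S.Fb 3 x := (S.thick x x x).elim fun _ hl => (to0 he hl.1).2

theorem pw (he : e ∈ E S p x) : e ^ p = 1 := (S.thick x x x).elim fun _ hl => (to0 he hl.1).1.2.2

include hx in
theorem of0 (hl : S.A x l) (he : e ∈ S.E0 p 3 x l) : e ∈ E S p x :=
  Subgroup.mem_iInf.2 fun _ => Subgroup.mem_iInf.2 fun hl' => hx.ind hl hl' ▸ he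

include h

theorem fix (hv : S.Apt v) {a : ℤ} (he : e ∈ E S p (v a)) (i : ℤ) (h1 : i ≤ a + 3) (h2 : a ≤ i + 3) :
    e • v i = v i := h.b.fbAptFix hv (fb he) i h1 h2

include hn in
theorem comm (hv : S.Apt v) (a b : ℤ) (hb : b = a + 2) (he : e ∈ E S p (v a)) (he' : e' ∈ E S p (v b)) :
    e * e' = e' * e :=
  (h.d 3 hn).comm (hb ▸ hv.nb a) (fb he) (fb he') (fix h hv he _ (by omega) (by omega))
    (fix h hv he' _ (by omega) (by omega))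

include hn in
theorem semi (hv : S.Apt v) (a b : ℤ) (hb : b = a + 4 ∨ b = a - 4) (he : e ∈ E S p (v a)) (h1 : e • v b = v b) :
    e = 1 := by
  rcases hb with hb | hb
  · exact (h.d 3 hn).semi hv a (fb he) (by rwa [show a + (3 : ℕ) + 1 = b by omega])
  · exact (h.d 3 hn).semi' hv a (fb he) (by rwa [show a - (3 : ℕ) - 1 = b by omega])

include hx

theorem conj (g : G) {y : V} (hg : g • x = y) (he : e ∈ E S p x) : g * e * g⁻¹ ∈ E S p y :=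
  (S.thick x x x).elim fun _ hl => hg ▸ of0 hx (S.inv g hl.1) (h.c.E0conj g hl.1 (to0 he hl.1))

theorem ex (hw : S.Pt 3 x) : ∃ e ∈ E S p x, e ≠ 1 :=
  (S.thick x x x).elim fun _ hl => (h.c.E0ne hl.1 hw).imp fun _ he => ⟨of0 hx hl.1 he.1, he.2⟩

theorem br0 (hv : S.Apt v) (he : e ∈ E S p (v 0)) (he' : e' ∈ E S p (v 4)) : e * e' * e⁻¹ * e'⁻¹ ∈ E S p (v 2) := by
  have := hx.br hv _ (to0 (inv_mem he) (h.a.adj hv 0 1 (by omega))) _ (to0 he' (h.a.adj hv 4 3 (by omega)))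
  rw [inv_inv] at this
  exact of0 hx (h.a.adj hv 2 1 (by omega)) this

theorem tr (hv : S.Apt v) (hw : S.Pt 3 (v 0)) (hl : S.A (v 3) l) (h1 : l ≠ v 2) : ∃ e ∈ E S p (v 0), e • v 4 = l :=
  (hx.tr hv hw l hl h1).imp fun _ he => ⟨of0 hx (h.a.adj hv 0 1 (by omega)) he.1, he.2⟩

include hn

theorem exT (hv : S.Apt v) (hw : S.Pt 3 (v 0)) : ∃ t : G, (∀ i, t • v i = v i) ∧ t * t = 1 ∧
    (∀ e ∈ E S p (v 0), t * e * t⁻¹ = e⁻¹) ∧ (∀ e ∈ E S p (v 2), t * e * t⁻¹ = e⁻¹) ∧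
    ∀ e ∈ E S p (v (-2)), t * e * t⁻¹ = e := by
  have adj := h.a.adj hv
  have sm := h.a.shift hv (-2)
  have s4 := h.a.shift hv 4
  have r2 := h.a.rev hv 2
  have r4 := h.a.rev hv 4
  have p2 : S.Pt 3 (v 2) := h.c.PtTwo (adj 0 1 (by omega)) (adj 1 2 (by omega)) hw
  have p4 : S.Pt 3 (v 4) := h.c.PtTwo (adj 2 3 (by omega)) (adj 3 4 (by omega)) p2
  have pm : S.Pt 3 (v (-2)) := h.c.PtTwo (adj 0 (-1) (by omega)) (adj (-1) (-2) (by omega)) hw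
  have per : ∀ i j, j = i + 12 → v j = v i := fun i j e => by rw [← hv.per i, hn, e]; rfl
  obtain ⟨z, hz, z1⟩ := ex h hx p4
  have trm : ∀ g ∈ E S p (v 4), g ≠ 1 → ∃ c ∈ E S p (v (-2)), c • v 2 = g • v 0 := fun g hg g1 =>
    (tr h hx sm pm (l := g • v 0)
      (show S.A (v 1) _ by have := S.inv g (adj 1 0 (by omega)); rwa [fix h hv hg 1 (by omega) (by omega)] at this)
      fun e => g1 (semi h hn hv 4 0 (by omega) hg e) :)
  obtain ⟨c, hc, e1⟩ := trm _ (inv_mem hz) (inv_ne_one.2 z1)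
  obtain ⟨c', hc', e2⟩ := trm _ hz z1
  replace hc' := inv_mem hc'
  obtain ⟨n, hn'⟩ : ∃ n, n = c'⁻¹ * z * c := ⟨_, rfl⟩
  have nf : ∀ y : V, (∀ g ∈ E S p (v 4), g • y = y) → (∀ g ∈ E S p (v (-2)), g • y = y) → n • y = y :=
    fun y h1 h2 => by rw [hn', mul_smul, mul_smul, h2 c hc, h1 z hz, h2 _ hc']
  have n0 : n • v 0 = v 2 := by
    rw [hn', mul_smul, mul_smul, fix h hv hc 0 (by omega) (by omega), ← e2, inv_smul_smul]
  have n2 : n • v 2 = v 0 := by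
    rw [hn', mul_smul, mul_smul, e1, smul_inv_smul, fix h hv hc' 0 (by omega) (by omega)]
  have nv : ∀ i, n • v i = v (2 - i) := h.a.ext (h.b.smul hv n) r2 0 fun i h1 h2 => by
    obtain rfl | rfl | h3 : i = 0 ∨ i = 1 ∨ 2 ≤ i := by omega
    · exact n0
    · exact nf _ (fun g hg => fix h hv hg 1 (by omega) (by omega)) fun g hg => fix h hv hg 1 (by omega) (by omega)
    · refine h.a.uniq (h.b.smul hv n) r2 2 7 (by omega) n2 ?_ i h3 (by omega)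
      refine (nf _ (fun g hg => fix h hv hg 7 (by omega) (by omega)) fun g hg => ?_).trans (per (2 - 7) 7 (by omega))
      rw [per (-5) 7 rfl]
      exact fix h hv hg _ (by omega) (by omega)
  have tv : ∀ i, (n * n) • v i = v i := fun i => by rw [mul_smul, nv, nv, sub_sub_cancel]
  have brm : ∀ g ∈ E S p (v (-2)), ∀ y ∈ E S p (v 2), g * y * g⁻¹ * y⁻¹ ∈ E S p (v 0) := fun g hg y hy =>
    (br0 h hx sm hg hy :)
  have c02 := fun a ha b hb => comm h hn hv 0 2 rfl (e := a) (e' := b) ha hb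
  have i2 : ∀ y ∈ E S p (v 2), n * n * y * (n * n)⁻¹ = y⁻¹ := fun y hy => inv_of c02
    (fun a ha ha' => (h.d 3 hn).disj (hv.nb 0) (fb ha) (fb ha')) (fun a ha => comm h hn hv (-2) 0 rfl hc ha)
    (fun a ha => comm h hn hv (-2) 0 rfl hc' ha) (fun b hb => (comm h hn hv 2 4 rfl hb hz).symm) (brm c hc)
    (brm _ hc') (fun a ha => (br0 h hx r4 hz ha :)) hn' (fun a ha => conj h hx n n0 ha)
    (fun a ha => conj h hx n n2 ha) hy
  have i0 : ∀ x ∈ E S p (v 0), n * n * x * (n * n)⁻¹ = x⁻¹ := fun x hx' => by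
    rw [show n * n * x * (n * n)⁻¹ = n * (n * n * (n⁻¹ * x * n⁻¹⁻¹) * (n * n)⁻¹) * n⁻¹ by group,
      i2 _ (conj h hx n⁻¹ (inv_smul_eq_iff.2 n2.symm) hx')]
    group
  have nf2 : ∀ y : V, (∀ g ∈ E S p (v 4), g • y = y) → (∀ g ∈ E S p (v (-2)), g • y = y) → (n * n) • y = y :=
    fun y h1 h2 => by rw [mul_smul, nf y h1 h2, nf y h1 h2]
  generalize n * n = t at tv i2 i0 nf2
  have t4 : t ∈ S.Fb 1 (v 4) := h.b.fb1.2 fun l hl => by
    obtain ⟨l', hl', h1, -⟩ := S.thick (v 4) l l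
    obtain ⟨a, ha, a0, a6, a1, -⟩ := h.a.opp s4 l l' hl hl' h1.symm
    have a0' : a 0 = v 4 := a0
    have a6' : a 6 = v (-2) := by rw [hn] at a6; exact a6.trans (per (-2) 10 rfl)
    rw [← a1]
    exact h.b.between ha t 0 3 (by omega) (by rw [a0', tv]) (nf2 _
      (fun g hg => fix h ha (a0' ▸ hg) 3 (by omega) (by omega))
      fun g hg => fix h ha (a6' ▸ hg) 3 (by omega) (by omega)) 1 (by omega) (by omega)
  refine ⟨t, tv, h.b.rigid hv _ 0 3 (fun i _ _ => by rw [mul_smul, tv, tv]) (h.b.fb1.2 fun l hl => ?_)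
    (mul_mem t4 t4), i0, i2, fun c0 h0 => ?_⟩
  · by_cases h1 : l = v 2
    · rw [h1, mul_smul, tv, tv]
    obtain ⟨g, hg, rfl⟩ := tr h hx hv hw hl h1
    have e : t * t * g = g * (t * t) := by
      rw [← mul_inv_eq_iff_eq_mul, show t * t * g * (t * t)⁻¹ = t * (t * g * t⁻¹) * t⁻¹ by group, i0 g hg,
        i0 _ (inv_mem hg), inv_inv]
    rw [← mul_smul, e, mul_smul, mul_smul, tv, tv]
  · obtain ⟨y, hy, y1⟩ := ex h hx p2
    have h1 := conj h hx t (tv _) h0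
    have h2 := i0 _ (brm c0 h0 y hy)
    have h3 := c02 _ (inv_mem (brm c0 h0 y hy)) y hy
    have h4 := i2 y hy
    have h5 : t * y⁻¹ * t⁻¹ = y := by rw [← conj_inv, h4, inv_inv]
    rw [show t * (c0 * y * c0⁻¹ * y⁻¹) * t⁻¹ =
      t * c0 * t⁻¹ * (t * y * t⁻¹) * (t * c0 * t⁻¹)⁻¹ * (t * y⁻¹ * t⁻¹) by group, h4, h5] at h2
    generalize t * c0 * t⁻¹ = c1 at h1 h2
    have h6 : c0⁻¹ * c1 * y = y * (c0⁻¹ * c1) := by
      have h7 : c1 * y⁻¹ * c1⁻¹ * y = c0 * y⁻¹ * c0⁻¹ * y := by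
        rw [h2, ← mul_left_cancel_iff (a := y), ← h3]; group
      refine (Commute.inv_right_iff.1 (show c0⁻¹ * c1 * y⁻¹ = y⁻¹ * (c0⁻¹ * c1) from ?_)).eq
      rw [show c0⁻¹ * c1 * y⁻¹ = c0⁻¹ * (c1 * y⁻¹ * c1⁻¹ * y) * y⁻¹ * c1 by group, h7]
      group
    refine (inv_mul_eq_one.1 (semi h hn hv (-2) 2 (by omega) (mul_mem (inv_mem h0) h1) ?_)).symm
    by_contra h7
    exact y1 ((h.d 3 hn).disj h7 (h.b.fbComm h6 (fb hy)) (fb hy))

theorem only (hp : p ≠ 2) (hv : S.Apt v) (hw : S.Pt 3 (v 0)) {t : G} (tv : ∀ i, t • v i = v i) (tt : t * t = 1)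
    (i0 : ∀ e ∈ E S p (v 0), t * e * t⁻¹ = e⁻¹) (i2 : ∀ e ∈ E S p (v 2), t * e * t⁻¹ = e⁻¹)
    (im : ∀ e ∈ E S p (v (-2)), t * e * t⁻¹ = e) (hl : S.A (v 0) l) (tl : t • l = l) : l = v 1 ∨ l = v (-1) := by
  by_contra h1
  push Not at h1
  have adj := h.a.adj hv
  have od := h.pg.prime.odd_of_ne_two hp
  obtain ⟨g0, h2, h3⟩ := h.b.nbr hl (adj 0 1 (by omega)) (adj 0 (-1) (by omega)) h1.1.symm h1.2.symm
  have h4 := S.Pconj t hl h2
  rw [tv, tl] at h4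
  obtain ⟨d, hd⟩ : ∃ d, d = g0⁻¹ * (t * g0 * t⁻¹) := ⟨_, rfl⟩
  have dP : d ∈ S.P (v 0) l := hd ▸ mul_mem (inv_mem h2) h4
  have d1 : d ∈ stabilizer G (v 1) := by
    rw [mem_stabilizer_iff, hd, mul_smul, mul_smul, mul_smul, inv_smul_eq_iff.2 (tv 1).symm, h3, tv, ← h3,
      inv_smul_smul]
  have td : t * d * t⁻¹ = d⁻¹ := by
    rw [hd, show t * (g0⁻¹ * (t * g0 * t⁻¹)) * t⁻¹ = t * g0⁻¹ * t⁻¹ * (t * t) * g0 * (t * t)⁻¹ by group, tt]
    group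
  obtain ⟨j, hj⟩ := h.pg.pg hl ⟨d, dP⟩
  obtain ⟨k, hk⟩ : Odd (p ^ j) := od.pow
  have dk : d ^ (k + 1) * d ^ (k + 1) = d := by
    rw [← pow_add, show k + 1 + (k + 1) = p ^ j + 1 by omega, pow_succ,
      show d ^ p ^ j = 1 from congrArg Subtype.val hj, one_mul]
  have ts : t * d ^ (k + 1) * t⁻¹ = (d ^ (k + 1))⁻¹ := by rw [← conj_pow, td, inv_pow]
  have sP := pow_mem dP (k + 1)
  have s1 : d ^ (k + 1) • v 1 = v 1 := pow_mem d1 (k + 1)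
  generalize d ^ (k + 1) = s at dk ts sP s1
  have tg : t * (g0 * s) * t⁻¹ = g0 * s := by
    rw [← conj_mul, ts, mul_inv_eq_iff_eq_mul, mul_assoc g0, dk, hd, mul_inv_cancel_left]
  have g0' : (g0 * s) • v 0 = v 0 := S.Pfix hl (mul_mem h2 sP)
  have g1 : (g0 * s) • v 1 = v (-1) := by rw [mul_smul, s1, h3]
  generalize g0 * s = g at tg g0' g1
  obtain ⟨c, hc, c1⟩ := ex h hx (h.c.PtTwo (adj 0 (-1) (by omega)) (adj (-1) (-2) (by omega)) hw)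
  have a2 : S.A (v (-1)) (g • v 2) := g1 ▸ S.inv g (adj 1 2 (by omega))
  obtain ⟨e, he, e', he', rfl⟩ := hx.nat hw (adj (-1) 0 (by omega)) a2 (adj (-1) (-2) (by omega))
    (fun e => hv.nb 0 (smul_left_cancel g (g0'.trans e))) (to0 hc (adj (-2) (-1) (by omega)))
  replace he := of0 hx (adj 0 (-1) (by omega)) he
  replace he' := of0 hx (S.symm a2) he'
  have h5 := comm h hn (h.b.smul hv g) 0 2 rfl (show e ∈ E S p (g • v 0) by rwa [g0']) he'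
  have h6 : t * e' * t⁻¹ = e'⁻¹ := by
    have h7 := congrArg (fun x => g * x * g⁻¹) (i2 _ (conj h hx g⁻¹ (inv_smul_smul g _) he'))
    have h8 : g * t * g⁻¹ = t := by rw [← mul_inv_eq_iff_eq_mul.1 tg, mul_inv_cancel_right]
    rw [show g * (t * (g⁻¹ * e' * g⁻¹⁻¹) * t⁻¹) * g⁻¹ = g * t * g⁻¹ * e' * (g * t * g⁻¹)⁻¹ by group, h8] at h7
    rw [h7]; group
  have h7 := im _ hc
  rw [← conj_mul, i0 e he, h6, ← mul_inv_rev, ← h5, inv_eq_iff_mul_eq_one] at h7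
  obtain ⟨k, hk⟩ := od
  have h8 := pw hc
  rw [hk, pow_succ, pow_mul, pow_two, h7, one_pow, one_mul] at h8
  exact c1 h8

end HO

theorem hexOdd (hT : LemT.{u}) (h : Ctx S p) (hn : S.n = 6) (hx : Hex S p) (hp : p ≠ 2) {w : V}
    (hw : S.Pt 3 w) : S.Reg w := by
  intro a b u ha hb hab hu hub
  obtain ⟨v, hv, v0, v1, v2⟩ := h.a.path2 (S.symm hb) ha hab.symm
  have hv' := h.a.shift hv 1
  subst v0 v1 v2
  obtain ⟨t, tv, tt, i0, i2, im⟩ := HO.exT h hn hx hv' hw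
  refine h.b.fb1.2 (hT G V (stabilizer G (v 1)) {y | S.A (v 1) y} p (S.P (v 1)) ⟨h.pg.prime,
    fun {g a} hg ha => ?_, fun ha u hu => S.Pfix ha hu, fun ha hu => h.b.Pfix' ha hu, fun {g a u} hg ha hu => ?_,
    fun ha => h.pg.pg ha, fun ha hx hy h1 h2 => h.b.nbr ha hx hy h1 h2,
    fun ha hb hu h1 => h.pg.next (S.symm ha) hb (S.Psymm ha ▸ hu) h1⟩ hp _ ha _ hb hab t (tv 0 :) (tv 1 :) (tv (-1) :)
    (fun x _ => by rw [← mul_smul, tt, one_smul])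
    (fun x hx' h1 => HO.only h hn hx hp hv' hw tv tt i0 i2 im hx' h1) u hu hub)
  · have := S.inv g ha
    rwa [mem_stabilizer_iff.1 hg] at this
  · have := S.Pconj g ha hu
    rwa [mem_stabilizer_iff.1 hg] at this

end CL.Spl
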